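/-
Blackburn's classification of odd p-groups of rank at most two, part 1: the setting of a normal
subgroup `T` of type `(p, p)` and an element `x` of order `p` with `[C(T), x] ≤ T`.
-/
import Cfsg.Agent.FT.BG04
import Cfsg.Agent.H3.Taussky

set_option autoImplicit false

namespace Cfsg.Agent.H2.Blk

open Subgroup Cfsg Cfsg.Agent Cfsg.Agent.FT Cfsg.Agent.FT.BG04
open scoped commutatorElement

universe u

variable {G : Type u} [Group G] [Finite G] {p : ℕ} {T : Subgroup G}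

/-- The standing hypotheses. -/
structure St (p : ℕ) (T : Subgroup G) : Prop where
  pp : p.Prime
  odd : p ≠ 2
  pg : IsPGroup p G
  rk : pRank p (⊤ : Subgroup G) ≤ 2
  nrm : T.Normal
  el : IsElem p 2 T

/-- `a⁻¹ a^x`. -/
def dl (x a : G) : G := a⁻¹ * x⁻¹ * a * x

omit [Finite G] in
theorem conj_eq (x a : G) : x⁻¹ * a * x = a * dl x a := by unfold dl; group

omit [Finite G] in
theorem dl_one (x : G) : dl x 1 = 1 := by unfold dl; group

omit [Finite G] in
theorem dl_eq_one_iff {x a : G} : dl x a = 1 ↔ a * x = x * a := by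
  unfold dl
  constructor
  · intro h
    calc a * x = x * a * (a⁻¹ * x⁻¹ * a * x) := by group
      _ = x * a := by rw [h, mul_one]
  · intro h
    calc a⁻¹ * x⁻¹ * a * x = a⁻¹ * x⁻¹ * (a * x) := by group
      _ = 1 := by rw [h]; group

omit [Finite G] in
theorem dl_mul {x a b : G} (h : dl x a * b = b * dl x a) : dl x (a * b) = dl x a * dl x b := by
  calc dl x (a * b) = b⁻¹ * (dl x a * b) * dl x b := by unfold dl; group
    _ = dl x a * dl x b := by rw [h]; group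

omit [Finite G] in
theorem dl_inv {x a : G} (h : dl x a * a = a * dl x a) : dl x a⁻¹ = (dl x a)⁻¹ := by
  have h2 : dl x a * a⁻¹ = a⁻¹ * dl x a := by
    calc dl x a * a⁻¹ = a⁻¹ * (a * dl x a) * a⁻¹ := by group
      _ = _ := by rw [← h]; group
  have := dl_mul h2
  rw [mul_inv_cancel, dl_one] at this
  exact (eq_inv_of_mul_eq_one_right this.symm)

omit [Finite G] in
theorem dl_pow {x a : G} (h : dl x a * a = a * dl x a) (k : ℕ) : dl x (a ^ k) = dl x a ^ k := by
  induction k with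
  | zero => simp [dl_one]
  | succ k ih =>
    rw [pow_succ, dl_mul, ih, pow_succ]
    rw [ih]
    exact ((show Commute (dl x a) a from h).pow_left k)

omit [Finite G] in
theorem mem_cent_comm {a t : G} (ha : a ∈ 𝐂(T)) (ht : t ∈ T) : t * a = a * t :=
  mem_centralizer_iff.1 ha t ht

namespace St

theorem mem (h : St p T) {a : G} (ha : a ∈ 𝐂(T)) (hp : a ^ p = 1) : a ∈ T :=
  (isMaxElem_iff.1 (isMaxElem_of_pRank_le h.pp le_top h.el h.rk)).2.2 a (mem_top a) ha hp

omit [Finite G] in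
theorem pow (h : St p T) {t : G} (ht : t ∈ T) : t ^ p = 1 := h.el.1.2 t ht

omit [Finite G] in
theorem le (h : St p T) : T ≤ 𝐂(T) := h.el.le_cent

omit [Finite G] in
theorem cnrm (h : St p T) : (𝐂(T)).Normal := by
  haveI := h.nrm
  infer_instance

omit [Finite G] in
theorem top_le (h : St p T) : (⊤ : Subgroup G) ≤ 𝐍(T) := by
  rw [normalizer_eq_top_iff.2 h.nrm]

omit [Finite G] in
theorem pgs (h : St p T) (H : Subgroup G) : IsPGroup p H := h.pg.to_subgroup H

theorem index_le (h : St p T) : (𝐂(T)).index ≤ p := by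
  have := relIndex_cent_le h.pp (h.pgs ⊤) h.el.1 h.el.2.le h.top_le
  rwa [relIndex_top_right] at this

theorem index_eq (h : St p T) {x : G} (hx : x ∉ 𝐂(T)) : (𝐂(T)).index = p := by
  haveI := Fact.mk h.pp
  obtain ⟨k, hk⟩ := h.pg.index 𝐂(T)
  have h1 := h.index_le
  rcases k with _ | k
  · rw [pow_zero, index_eq_one] at hk
    exact absurd (hk ▸ mem_top x) hx
  · rw [hk] at h1 ⊢
    rcases k with _ | k
    · simp
    · exfalso
      have h2 := h.pp.two_le
      have h3 : 0 < p ^ k := by positivity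
      have : p ^ (k + 1 + 1) = p ^ k * p * p := by ring
      nlinarith [Nat.mul_le_mul h3 (le_refl p), Nat.mul_le_mul (Nat.mul_le_mul h3 (le_refl p)) h2]

theorem sup_eq (h : St p T) {x : G} (hx : x ∉ 𝐂(T)) : zpowers x ⊔ 𝐂(T) = ⊤ := by
  have hc := H3.isCoatom_of_index_prime (M := 𝐂(T)) (by rw [h.index_eq hx]; exact h.pp)
  apply hc.2
  refine lt_of_le_of_ne le_sup_right fun he => hx ?_
  rw [he]
  exact mem_sup_left (mem_zpowers x)

theorem eq_top (h : St p T) {x : G} (hx : x ∉ 𝐂(T)) {K : Subgroup G} (h1 : x ∈ K)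
    (h2 : 𝐂(T) ≤ K) : K = ⊤ := by
  rw [eq_top_iff, ← h.sup_eq hx]
  exact sup_le (zpowers_le.2 h1) h2

theorem mem_center (h : St p T) {x : G} (hx : x ∉ 𝐂(T)) {t : G} (ht : t ∈ T)
    (hc : t * x = x * t) : t ∈ center G := by
  have : 𝐂[t] = ⊤ := by
    refine h.eq_top hx (mem_centralizer_singleton_iff.2 hc.symm) fun a ha => ?_
    exact mem_centralizer_singleton_iff.2 (mem_cent_comm ha ht).symm
  refine Subgroup.mem_center_iff.2 fun g => ?_
  have hg : g ∈ 𝐂[t] := this ▸ mem_top g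
  exact mem_centralizer_singleton_iff.1 hg

theorem card_Z (h : St p T) {x : G} (hx : x ∉ 𝐂(T)) : 𝐨(T ⊓ center G) = p := by
  haveI := Fact.mk h.pp
  haveI := h.nrm
  haveI := h.pg.isNilpotent
  refine h.el.card_eq_of_two h.pp inf_le_left
    (H3.normal_inf_center_ne_bot T (h.el.ne_bot h.pp two_ne_zero)) fun he => hx ?_
  refine mem_centralizer_iff.2 fun t ht => ?_
  have : t ∈ T ⊓ center G := he.symm ▸ ht
  exact (Subgroup.mem_center_iff.1 (mem_inf.1 this).2 x).symm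

theorem dl_mem (h : St p T) {x : G} (hx : x ∉ 𝐂(T)) (g : G) {t : G} (ht : t ∈ T) :
    dl g t ∈ T ⊓ center G := by
  haveI := Fact.mk h.pp
  haveI := h.nrm
  have hlt : T ⊓ center G < T := by
    refine lt_of_le_of_ne inf_le_left fun he => ?_
    have := h.card_Z hx
    rw [he, h.el.2] at this
    have h2 := h.pp.two_le
    nlinarith
  obtain ⟨K, -, -, hKT, hK, hc⟩ := H3.exists_normal_card_eq_mul h.pg hlt
  have : K = T := eq_of_le_of_card_ge hKT (by rw [hK, h.card_Z hx, h.el.2, sq])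
  subst this
  have := hc t⁻¹ (inv_mem ht) g⁻¹
  rwa [inv_inv, inv_inv] at this

/-- A nontrivial element of `T ∩ Z(G)` generates it. -/
theorem mem_zpowers (h : St p T) {x : G} (hx : x ∉ 𝐂(T)) {w : G} (hw : w ∈ T ⊓ center G)
    (h1 : w ≠ 1) {c : G} (hc : c ∈ T ⊓ center G) : ∃ i : ℕ, c = w ^ i := by
  haveI := Fact.mk h.pp
  have ho : orderOf w = p := orderOf_eq_prime (h.pow (mem_inf.1 hw).1) h1
  have : zpowers w = T ⊓ center G :=
    eq_of_le_of_card_ge (zpowers_le.2 hw) (by rw [h.card_Z hx, Nat.card_zpowers, ho])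
  rw [← this, ← mem_powers_iff_mem_zpowers] at hc
  obtain ⟨i, hi⟩ := hc
  exact ⟨i, hi.symm⟩

/-- `T = ⟨y⟩ Z` for `y ∈ T` not central. -/
theorem le_of_mem (h : St p T) {x : G} (hx : x ∉ 𝐂(T)) {y : G} (hy : y ∈ T) (h1 : y ∉ center G)
    {K : Subgroup G} (hyK : y ∈ K) (hZ : T ⊓ center G ≤ K) : T ≤ K := by
  by_contra hn
  have hne : T ⊓ K ≠ T := fun he => hn (he ▸ inf_le_right)
  have hle : T ⊓ center G ≤ T ⊓ K := le_inf inf_le_left hZ
  have hb : T ⊓ K ≠ ⊥ := by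
    intro hb
    have := h.card_Z hx
    have h0 : T ⊓ center G = ⊥ := eq_bot_iff.2 (hb ▸ hle)
    rw [h0, card_bot] at this
    exact h.pp.one_lt.ne this
  have hc := h.el.card_eq_of_two h.pp inf_le_left hb hne
  have := eq_of_le_of_card_ge hle (by rw [hc, h.card_Z hx])
  have hy' : y ∈ T ⊓ K := mem_inf.2 ⟨hy, hyK⟩
  rw [← this] at hy'
  exact h1 (mem_inf.1 hy').2

/-- `δ` maps `T` onto `T ∩ Z(G)`. -/
theorem exists_dl (h : St p T) {x : G} (hx : x ∉ 𝐂(T)) {c : G} (hc : c ∈ T ⊓ center G) :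
    ∃ t ∈ T, dl x t = c := by
  have : ∃ t ∈ T, dl x t ≠ 1 := by
    by_contra hn
    push Not at hn
    exact hx (mem_centralizer_iff.2 fun t ht => dl_eq_one_iff.1 (hn t ht))
  obtain ⟨t, ht, h1⟩ := this
  obtain ⟨i, hi⟩ := h.mem_zpowers hx (h.dl_mem hx x ht) h1 hc
  refine ⟨t ^ i, pow_mem ht i, ?_⟩
  rw [hi, dl_pow]
  exact (Subgroup.mem_center_iff.1 (mem_inf.1 (h.dl_mem hx x ht)).2 t).symm

theorem isCyclic (h : St p T) {x : G} (hx : x ∉ 𝐂(T)) {D : Subgroup G} (hD : D ≤ 𝐂(T))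
    (h2 : T ⊓ D ≤ center G) : IsCyclic D := by
  haveI := Fact.mk h.pp
  refine isCyclic_of_omega_le h.pp h.odd (h.pgs D) (S := T ⊓ center G)
    (isCyclic_of_prime_card (h.card_Z hx)) (omegaOne_le_iff.2 fun a ha hp => ?_)
  have := h.mem (hD ha) hp
  exact mem_inf.2 ⟨this, h2 (mem_inf.2 ⟨this, ha⟩)⟩

/-- The cyclic complement `D` to `T` in `C(T)` modulo `Z`. -/
theorem gen (h : St p T) {n : ℕ} (hG : Nat.card G = p ^ n) {x : G} (hx : x ∉ 𝐂(T))
    {D : Subgroup G} (h1 : T ⊓ center G ≤ D) (h2 : T ⊓ D ≤ center G) (h3 : T ⊔ D = 𝐂(T)) :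
    ∃ z : G, zpowers z = D ∧ 3 ≤ n ∧ orderOf z = p ^ (n - 2) ∧
      z ^ p ^ (n - 3) ∈ T ⊓ center G ∧ z ^ p ^ (n - 3) ≠ 1 := by
  haveI := Fact.mk h.pp
  haveI := h.nrm
  have hD : D ≤ 𝐂(T) := h3 ▸ le_sup_right
  obtain ⟨z, hz⟩ := (Subgroup.isCyclic_iff_exists_zpowers_eq_top D).1 (h.isCyclic hx hD h2)
  have hi : T ⊓ D = T ⊓ center G := le_antisymm (le_inf inf_le_left h2) (le_inf inf_le_left h1)
  have hc := H3.card_sup_mul_card_inf D T
  rw [sup_comm, inf_comm, h3, hi, h.card_Z hx, h.el.2] at hc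
  have hA := (𝐂(T)).card_mul_index
  rw [h.index_eq hx, hG] at hA
  rw [hA] at hc
  obtain ⟨k, hk⟩ := (h.pgs D).exists_card_eq
  have hk1 : 1 ≤ k := by
    have := card_le_of_le h1
    rw [h.card_Z hx, hk] at this
    rcases k with _ | k
    · simp at this; have := h.pp.two_le; omega
    · omega
  rw [hk, ← pow_add] at hc
  have hn : n = k + 2 := Nat.pow_right_injective h.pp.two_le hc
  have ho : orderOf z = p ^ (n - 2) := by
    rw [← Nat.card_zpowers, hz, hk, hn]; simp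
  have hzD : z ∈ D := hz ▸ Subgroup.mem_zpowers z
  have hp : (z ^ p ^ (n - 3)) ^ p = 1 := by
    rw [← pow_mul, ← pow_succ, show n - 3 + 1 = n - 2 by omega, ← ho, pow_orderOf_eq_one]
  refine ⟨z, hz, by omega, ho, ?_, fun h1 => ?_⟩
  · rw [← hi]
    exact mem_inf.2 ⟨h.mem (hD (pow_mem hzD _)) hp, pow_mem hzD _⟩
  · have := orderOf_dvd_of_pow_eq_one h1
    rw [ho, Nat.pow_dvd_pow_iff_le_right h.pp.one_lt] at this
    omega

end St

end Cfsg.Agent.H2.Blk
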