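/-
Blackburn's classification of odd p-groups of rank at most two, part 2: the two presentations.
-/
import Cfsg.Agent.H2.Blk1

set_option autoImplicit false

namespace Cfsg.Agent.H2.Blk

open Subgroup Cfsg Cfsg.Agent Cfsg.Agent.FT Cfsg.Agent.FT.BG04
open scoped commutatorElement

universe u

variable {G : Type u} [Group G] [Finite G] {p : ℕ} {T : Subgroup G}

/-- The elements `a` of `C(T)` with `a⁻¹ a^x ∈ K`. -/
def pre (x : G) (hx : ∀ a ∈ 𝐂(T), dl x a ∈ T) (K : Subgroup G) : Subgroup G where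
  carrier := {a | a ∈ 𝐂(T) ∧ dl x a ∈ K}
  mul_mem' := by
    rintro a b ⟨ha, ha'⟩ ⟨hb, hb'⟩
    refine ⟨mul_mem ha hb, ?_⟩
    rw [dl_mul (mem_cent_comm hb (hx a ha))]
    exact mul_mem ha' hb'
  one_mem' := ⟨one_mem _, by rw [dl_one]; exact one_mem _⟩
  inv_mem' := by
    rintro a ⟨ha, ha'⟩
    refine ⟨inv_mem ha, ?_⟩
    rw [dl_inv (mem_cent_comm ha (hx a ha))]
    exact inv_mem ha'

omit [Finite G] in
theorem mem_pre {x : G} {hx : ∀ a ∈ 𝐂(T), dl x a ∈ T} {K : Subgroup G} {a : G} :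
    a ∈ pre x hx K ↔ a ∈ 𝐂(T) ∧ dl x a ∈ K := Iff.rfl

omit [Finite G] in
theorem conj_pow' (x y : G) (i : ℕ) : x⁻¹ * y ^ i * x = (x⁻¹ * y * x) ^ i := by
  have := conj_pow (a := x⁻¹) (b := y) (i := i)
  rw [inv_inv] at this
  exact this.symm

omit [Finite G] in
theorem conj_center {w : G} (hw : w ∈ center G) (x : G) : x⁻¹ * w * x = w := by
  rw [Subgroup.mem_center_iff.1 hw x⁻¹]; group

omit [Finite G] in
theorem iter_y {s : ℕ} {x y w : G} (hw : w ∈ center G) (h1 : x⁻¹ * y * x = y * w ^ s) (i : ℕ) :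
    (x ^ i)⁻¹ * y * x ^ i = y * w ^ (s * i) := by
  induction i with
  | zero => simp
  | succ i ih =>
    calc (x ^ (i + 1))⁻¹ * y * x ^ (i + 1) = x⁻¹ * ((x ^ i)⁻¹ * y * x ^ i) * x := by
          rw [pow_succ]; group
      _ = (x⁻¹ * y * x) * (x⁻¹ * w ^ (s * i) * x) := by rw [ih]; group
      _ = y * w ^ (s * (i + 1)) := by
          rw [h1, conj_center (pow_mem hw _), mul_assoc, ← pow_add]; congr 2; ring

omit [Finite G] in
theorem iter_z {s : ℕ} {x y z w : G} (hw : w ∈ center G) (h1 : x⁻¹ * y * x = y * w ^ s)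
    (h2 : x⁻¹ * z * x = y * z) (i : ℕ) :
    ∃ k : ℕ, (x ^ i)⁻¹ * z * x ^ i = y ^ i * w ^ k * z := by
  have hc : ∀ k : ℕ, Commute y (w ^ k) := fun k => Subgroup.mem_center_iff.1 (pow_mem hw k) y
  induction i with
  | zero => exact ⟨0, by simp⟩
  | succ i ih =>
    obtain ⟨k, hk⟩ := ih
    refine ⟨s * i + k, ?_⟩
    calc (x ^ (i + 1))⁻¹ * z * x ^ (i + 1) = x⁻¹ * ((x ^ i)⁻¹ * z * x ^ i) * x := by
          rw [pow_succ]; group
      _ = (x⁻¹ * y ^ i * x) * (x⁻¹ * w ^ k * x) * (x⁻¹ * z * x) := by rw [hk]; group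
      _ = y ^ i * (w ^ (s * i + k) * y) * z := by
          rw [conj_pow', h1, conj_center (pow_mem hw _), h2, (hc s).mul_pow, ← pow_mul, pow_add]
          group
      _ = y ^ (i + 1) * w ^ (s * i + k) * z := by rw [← (hc _).eq]; group

omit [Finite G] in
theorem mem_of_pow_mem (hp : p.Prime) {x : G} (hx : x ^ p = 1) {i : ℕ} (hi : ¬ p ∣ i)
    {K : Subgroup G} (h : x ^ i ∈ K) : x ∈ K := by
  by_cases h1 : x ^ i = 1
  · haveI := Fact.mk hp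
    by_cases h0 : x = 1
    · exact h0 ▸ one_mem K
    · exact absurd (orderOf_eq_prime hx h0 ▸ orderOf_dvd_of_pow_eq_one h1) hi
  · exact zpowers_le.2 h
      (H3.mem_zpowers_of_pow_prime_eq_one hp hx (pow_mem (mem_zpowers x) i) h1)

omit [Finite G] in
theorem norm_s (hp : p.Prime) {s : ℕ} {x y z w : G} (hw : w ∈ center G) (hwp : w ^ p = 1)
    (hwz : w ∈ zpowers z) (hx : x ^ p = 1) (hy : y ^ p = 1) (hyz : y * z = z * y)
    (h1 : x⁻¹ * y * x = y * w ^ s) (h2 : x⁻¹ * z * x = y * z) (hs : ¬ p ∣ s)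
    (hsq : IsSquare (s : ZMod p)) (hc : Subgroup.closure ({x, y, z} : Set G) = ⊤) :
    ∃ x' y' : G, Subgroup.closure ({x', y', z} : Set G) = ⊤ ∧ x' ^ p = 1 ∧ y' ^ p = 1 ∧
      y' * z = z * y' ∧ x'⁻¹ * y' * x' = y' * w ∧ x'⁻¹ * z * x' = y' * z := by
  haveI := Fact.mk hp
  obtain ⟨r, hr⟩ := hsq
  have hr0 : r ≠ 0 := by
    rintro rfl
    rw [mul_zero, ZMod.natCast_eq_zero_iff] at hr
    exact hs hr
  obtain ⟨i, hi⟩ : ∃ i : ℕ, (i : ZMod p) = r⁻¹ := ⟨(r⁻¹).val, ZMod.natCast_zmod_val _⟩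
  have hpi : ¬ p ∣ i := by
    rw [← ZMod.natCast_eq_zero_iff, hi]
    exact inv_ne_zero hr0
  have hmod : s * i * i ≡ 1 [MOD p] := by
    rw [← ZMod.natCast_eq_natCast_iff]
    push_cast
    rw [hr, hi]
    field_simp
  have hw1 : w ^ (s * i * i) = w := by
    conv_rhs => rw [← pow_one w]
    exact pow_eq_pow_of_modEq hmod hwp
  have hcy : ∀ k : ℕ, Commute y (w ^ k) := fun k => Subgroup.mem_center_iff.1 (pow_mem hw k) y
  obtain ⟨k, hk⟩ := iter_z hw h1 h2 i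
  refine ⟨x ^ i, y ^ i * w ^ k, ?_, ?_, ?_, ?_, ?_, hk⟩
  · rw [eq_top_iff, ← hc, closure_le]
    have hz : z ∈ Subgroup.closure ({x ^ i, y ^ i * w ^ k, z} : Set G) :=
      subset_closure (by simp)
    rintro g (rfl | rfl | rfl)
    · exact mem_of_pow_mem hp hx hpi (subset_closure (by simp))
    · refine mem_of_pow_mem hp hy hpi ?_
      have h3 : g ^ i * w ^ k ∈ Subgroup.closure ({x ^ i, g ^ i * w ^ k, z} : Set G) :=
        subset_closure (by simp)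
      exact (Subgroup.mul_mem_cancel_right _ (pow_mem (zpowers_le.2 hz hwz) k)).1 h3
    · exact hz
  · rw [← pow_mul, mul_comm, pow_mul, hx, one_pow]
  · rw [((hcy k).pow_left i).mul_pow, ← pow_mul, mul_comm i, pow_mul, hy, one_pow, ← pow_mul,
      mul_comm k, pow_mul, hwp, one_pow, one_mul]
  · exact (((show Commute y z from hyz).pow_left i).mul_left
      (Subgroup.mem_center_iff.1 (pow_mem hw k) z).symm)
  · calc (x ^ i)⁻¹ * (y ^ i * w ^ k) * x ^ i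
        = ((x ^ i)⁻¹ * y ^ i * x ^ i) * ((x ^ i)⁻¹ * w ^ k * x ^ i) := by group
      _ = y ^ i * w ^ k * w := by
        rw [conj_pow', iter_y hw h1, conj_center (pow_mem hw _), (hcy _).mul_pow, ← pow_mul, hw1,
          mul_assoc, mul_assoc, ← pow_succ, ← pow_succ']

/-- The second alternative. -/
def Alt2 (G : Type u) [Group G] (p n : ℕ) : Prop :=
  3 ≤ n ∧ ∃ x y z : G, Subgroup.closure ({x, y, z} : Set G) = ⊤ ∧ x ^ p = 1 ∧ y ^ p = 1 ∧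
    z ^ p ^ (n - 2) = 1 ∧ x * z = z * x ∧ y * z = z * y ∧ x⁻¹ * y * x = y * z ^ p ^ (n - 3)

/-- The third alternative. -/
def Alt3 (G : Type u) [Group G] (p n : ℕ) : Prop :=
  4 ≤ n ∧ ∃ (s : ℕ) (x y z : G), (s = 1 ∨ ¬ IsSquare (s : ZMod p)) ∧
    Subgroup.closure ({x, y, z} : Set G) = ⊤ ∧
    x ^ p = 1 ∧ y ^ p = 1 ∧ z ^ p ^ (n - 2) = 1 ∧ y * z = z * y ∧
    x⁻¹ * y * x = y * z ^ (s * p ^ (n - 3)) ∧ x⁻¹ * z * x = y * z

namespace St

theorem closure_top (h : St p T) {x : G} (hx : x ∉ 𝐂(T)) {y z : G} (hy : y ∈ T)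
    (h1 : y ∉ center G) (hz1 : T ⊓ center G ≤ zpowers z) (hz : T ⊔ zpowers z = 𝐂(T)) :
    Subgroup.closure ({x, y, z} : Set G) = ⊤ := by
  have hzK : zpowers z ≤ Subgroup.closure ({x, y, z} : Set G) :=
    zpowers_le.2 (subset_closure (by simp))
  refine h.eq_top hx (subset_closure (by simp)) ?_
  rw [← hz]
  exact sup_le (h.le_of_mem hx hy h1 (subset_closure (by simp)) (hz1.trans hzK)) hzK

theorem Z_le_pre (h : St p T) {x : G} (hd : ∀ a ∈ 𝐂(T), dl x a ∈ T) (K : Subgroup G) :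
    T ⊓ center G ≤ pre x hd K := by
  intro c hc
  refine mem_pre.2 ⟨h.le (mem_inf.1 hc).1, ?_⟩
  rw [dl_eq_one_iff.2 (Subgroup.mem_center_iff.1 (mem_inf.1 hc).2 x).symm]
  exact one_mem K

theorem sup_pre (h : St p T) {x : G} (hx : x ∉ 𝐂(T)) (hd : ∀ a ∈ 𝐂(T), dl x a ∈ T)
    {K : Subgroup G} (hK : ∀ a ∈ 𝐂(T), ∃ c ∈ T ⊓ center G, dl x a * c ∈ K) :
    T ⊔ pre x hd K = 𝐂(T) := by
  refine le_antisymm (sup_le h.le fun a ha => (mem_pre.1 ha).1) fun a ha => ?_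
  obtain ⟨c, hc, hk⟩ := hK a ha
  obtain ⟨t, ht, rfl⟩ := h.exists_dl hx hc
  have : a * t ∈ pre x hd K := by
    refine mem_pre.2 ⟨mul_mem ha (h.le ht), ?_⟩
    rwa [dl_mul (mem_cent_comm (h.le ht) (hd a ha))]
  have h2 := mul_mem (mem_sup_right (S := T) this) (mem_sup_left (T := pre x hd K) (inv_mem ht))
  rwa [mul_inv_cancel_right] at h2

theorem alt2 (h : St p T) {n : ℕ} (hG : Nat.card G = p ^ n) {x : G} (hx : x ∉ 𝐂(T))
    (hxp : x ^ p = 1) (hd : ∀ a ∈ 𝐂(T), dl x a ∈ T) (hc : ∀ a ∈ 𝐂(T), dl x a ∈ center G) :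
    Alt2 G p n := by
  have h3 : T ⊔ pre x hd ⊥ = 𝐂(T) := h.sup_pre hx hd fun a ha =>
    ⟨(dl x a)⁻¹, inv_mem (mem_inf.2 ⟨hd a ha, hc a ha⟩), by simp⟩
  obtain ⟨z, hz, hn, ho, hw, hw1⟩ := h.gen hG hx (h.Z_le_pre hd ⊥) (fun t ht =>
    h.mem_center hx (mem_inf.1 ht).1 (dl_eq_one_iff.1 (mem_bot.1 (mem_pre.1 (mem_inf.1 ht).2).2)))
    h3
  obtain ⟨y, hy, hyw⟩ := h.exists_dl hx hw
  have hzD : z ∈ pre x hd ⊥ := hz ▸ Subgroup.mem_zpowers z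
  refine ⟨hn, x, y, z, h.closure_top hx hy (fun hyc => hw1 ?_) (hz ▸ h.Z_le_pre hd ⊥) (hz ▸ h3),
    hxp, h.pow hy, by rw [← ho, pow_orderOf_eq_one],
    (dl_eq_one_iff.1 (mem_bot.1 (mem_pre.1 hzD).2)).symm, mem_cent_comm (mem_pre.1 hzD).1 hy,
    by rw [conj_eq, hyw]⟩
  rw [← hyw]
  exact dl_eq_one_iff.2 (Subgroup.mem_center_iff.1 hyc x).symm

theorem alt3 (h : St p T) {n : ℕ} (hG : Nat.card G = p ^ n) {x : G} (hx : x ∉ 𝐂(T))
    (hxp : x ^ p = 1) (hd : ∀ a ∈ 𝐂(T), dl x a ∈ T) {z₀ : G} (hz₀ : z₀ ∈ 𝐂(T))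
    (hc : dl x z₀ ∉ center G) : Alt3 G p n := by
  haveI := Fact.mk h.pp
  haveI := h.nrm
  obtain ⟨y₀, hy₀⟩ : ∃ y₀, y₀ = dl x z₀ := ⟨_, rfl⟩
  have hy₀T : y₀ ∈ T := hy₀ ▸ hd z₀ hz₀
  rw [← hy₀] at hc
  have key : ∀ c ∈ zpowers y₀, c ∈ center G → c = 1 := by
    intro c h1 h2
    by_contra h3
    exact hc (zpowers_le.2 h2 (H3.mem_zpowers_of_pow_prime_eq_one h.pp (h.pow hy₀T) h1 h3))
  have h3 : T ⊔ pre x hd (zpowers y₀) = 𝐂(T) := by
    refine h.sup_pre hx hd fun a ha => ?_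
    have : dl x a ∈ zpowers y₀ ⊔ T ⊓ center G :=
      h.le_of_mem hx hy₀T hc (mem_sup_left (Subgroup.mem_zpowers y₀)) le_sup_right (hd a ha)
    obtain ⟨u, hu, c, hc', he⟩ := mem_sup_of_normal_right.1 this
    exact ⟨c⁻¹, inv_mem hc', by rw [← he, mul_inv_cancel_right]; exact hu⟩
  obtain ⟨z, hz, hn, ho, hw, hw1⟩ := h.gen hG hx (h.Z_le_pre hd _) (fun t ht =>
    h.mem_center hx (mem_inf.1 ht).1 (dl_eq_one_iff.1 (key _ (mem_pre.1 (mem_inf.1 ht).2).2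
      (mem_inf.1 (h.dl_mem hx x (mem_inf.1 ht).1)).2))) h3
  have hzD : z ∈ pre x hd (zpowers y₀) := hz ▸ Subgroup.mem_zpowers z
  have hzA := (mem_pre.1 hzD).1
  have hz₀D : z₀ ∈ zpowers z := by
    rw [hz]; exact mem_pre.2 ⟨hz₀, hy₀ ▸ Subgroup.mem_zpowers y₀⟩
  obtain ⟨y, hy⟩ : ∃ y, y = dl x z := ⟨_, rfl⟩
  have hyT : y ∈ T := hy ▸ hd z hzA
  have hyc : y ∉ center G := by
    intro hyc
    obtain ⟨i, hi⟩ := mem_powers_iff_mem_zpowers.2 hz₀D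
    apply hc
    rw [hy₀, ← hi]
    dsimp only
    rw [dl_pow (mem_cent_comm hzA (hd z hzA)), ← hy]
    exact pow_mem hyc i
  have hn4 : 4 ≤ n := by
    by_contra hn4
    have : n - 3 = 0 := by omega
    rw [this, pow_zero, pow_one] at hw
    apply hyc
    rw [hy, dl_eq_one_iff.2 (Subgroup.mem_center_iff.1 (mem_inf.1 hw).2 x).symm]
    exact one_mem _
  obtain ⟨s, hs⟩ := h.mem_zpowers hx hw hw1 (h.dl_mem hx x hyT)
  have hps : ¬ p ∣ s := by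
    rintro ⟨k, rfl⟩
    rw [pow_mul, h.pow (mem_inf.1 hw).1, one_pow] at hs
    exact hyc (h.mem_center hx hyT (dl_eq_one_iff.1 hs))
  have hcl := h.closure_top hx hyT hyc (hz ▸ h.Z_le_pre hd _) (hz ▸ h3)
  have hyz := mem_cent_comm hzA hyT
  have h1 : x⁻¹ * y * x = y * (z ^ p ^ (n - 3)) ^ s := by rw [conj_eq, hs]
  have h2 : x⁻¹ * z * x = y * z := by rw [conj_eq, ← hy, hyz]
  have hzo : z ^ p ^ (n - 2) = 1 := by rw [← ho, pow_orderOf_eq_one]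
  refine ⟨hn4, ?_⟩
  by_cases hsq : IsSquare (s : ZMod p)
  · obtain ⟨x', y', e1, e2, e3, e4, e5, e6⟩ := norm_s h.pp (mem_inf.1 hw).2
      (h.pow (mem_inf.1 hw).1) (pow_mem (Subgroup.mem_zpowers z) _) hxp (h.pow hyT) hyz h1 h2 hps
      hsq hcl
    exact ⟨1, x', y', z, Or.inl rfl, e1, e2, e3, hzo, e4, by rw [one_mul]; exact e5, e6⟩
  · exact ⟨s, x, y, z, Or.inr hsq, hcl, hxp, h.pow hyT, hzo, hyz,
      by rw [h1, ← pow_mul, mul_comm s], h2⟩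

theorem alt (h : St p T) {n : ℕ} (hG : Nat.card G = p ^ n) {x : G} (hx : x ∉ 𝐂(T))
    (hxp : x ^ p = 1) (hd : ∀ a ∈ 𝐂(T), dl x a ∈ T) : Alt2 G p n ∨ Alt3 G p n := by
  by_cases hc : ∀ a ∈ 𝐂(T), dl x a ∈ center G
  · exact Or.inl (h.alt2 hG hx hxp hd hc)
  · push Not at hc
    obtain ⟨z₀, h1, h2⟩ := hc
    exact Or.inr (h.alt3 hG hx hxp hd h1 h2)

end St

end Cfsg.Agent.H2.Blk
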