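/-
Blackburn's classification of odd p-groups of rank at most two, part 3: cubes in `C(T)`.
-/
import Cfsg.Agent.H2.Blk2

set_option autoImplicit false

namespace Cfsg.Agent.H2.Blk

open Subgroup Cfsg Cfsg.Agent Cfsg.Agent.FT Cfsg.Agent.FT.BG04
open scoped commutatorElement

universe u

variable {G : Type u} [Group G] [Finite G] {T : Subgroup G}

omit [Finite G] in
theorem cube_mul {a b : G} (h1 : Commute (dl b a) a) (h2 : Commute (dl b a) b)
    (h3 : dl b a ^ 3 = 1) : (a * b) ^ 3 = a ^ 3 * b ^ 3 := by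
  obtain ⟨c, hc⟩ : ∃ c, c = dl b a := ⟨_, rfl⟩
  have e : b * a = a * b * c⁻¹ := by rw [hc]; unfold dl; group
  rw [← hc] at h1 h2 h3
  have h1' : c⁻¹ * a = a * c⁻¹ := h1.inv_left.eq
  have h2' : c⁻¹ * b = b * c⁻¹ := h2.inv_left.eq
  have h3' : c⁻¹ * c⁻¹ * c⁻¹ = 1 := by
    rw [← pow_three', inv_pow, h3, inv_one]
  have e1 : ∀ g, b * (a * g) = a * (b * (c⁻¹ * g)) := fun g => by
    rw [← mul_assoc, e]; simp only [mul_assoc]
  have e2 : ∀ g, c⁻¹ * (a * g) = a * (c⁻¹ * g) := fun g => by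
    rw [← mul_assoc, h1', mul_assoc]
  have e3 : ∀ g, c⁻¹ * (b * g) = b * (c⁻¹ * g) := fun g => by
    rw [← mul_assoc, h2', mul_assoc]
  have e4 : c⁻¹ * (c⁻¹ * (c⁻¹ * 1)) = 1 := by rw [mul_one, ← mul_assoc, h3']
  calc (a * b) ^ 3 = a * (b * (a * (b * (a * (b * 1))))) := by rw [pow_three']; group
    _ = a * (a * (a * (b * (b * (b * (c⁻¹ * (c⁻¹ * (c⁻¹ * 1)))))))) := by
      simp only [e1, e2, e3]
    _ = a ^ 3 * b ^ 3 := by rw [e4, pow_three', pow_three']; group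

namespace St

theorem cube_mul' (h : St 3 T) {a b : G} (ha : a ∈ 𝐂(T)) (hb : b ∈ 𝐂(T)) (hd : dl b a ∈ T) :
    (a * b) ^ 3 = a ^ 3 * b ^ 3 :=
  cube_mul (mem_cent_comm ha hd) (mem_cent_comm hb hd) (h.pow hd)

theorem p1_aux (h : St 3 T) (m : ℕ) : ∀ x y : G, x ∈ 𝐂(T) → y ∈ 𝐂(T) →
    𝐨(zpowers x ⊔ zpowers y) = m → x ^ 3 = y ^ 3 → x⁻¹ * y ∈ T := by
  induction m using Nat.strong_induction_on with
  | _ m ih =>
  intro x y hx hy hm he
  have hd : dl y x ∈ T := by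
    by_cases hyx : y ∈ zpowers x
    · obtain ⟨i, rfl⟩ := mem_zpowers_iff.1 hyx
      rw [dl_eq_one_iff.2 (Commute.self_zpow x i).eq]
      exact one_mem T
    · have hlt : zpowers x < zpowers x ⊔ zpowers y :=
        lt_of_le_of_ne le_sup_left fun h0 => hyx (h0 ▸ mem_sup_right (Subgroup.mem_zpowers y))
      obtain ⟨S, h1, h2, h3⟩ := exists_normal_lt h.pp (h.pgs _) hlt
      have hxS : x ∈ S := h1 (Subgroup.mem_zpowers x)
      have hy' : y⁻¹ * x * y ∈ S := by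
        have := (mem_normalizer_iff.1 (h3 (inv_mem (mem_sup_right (Subgroup.mem_zpowers y)))) x).1
          hxS
        rwa [inv_inv] at this
      have hlt2 : 𝐨(zpowers x ⊔ zpowers (y⁻¹ * x * y)) < m := by
        rw [← hm]
        exact lt_of_le_of_lt (card_le_of_le (sup_le h1 (zpowers_le.2 hy'))) (H1.card_lt_of_lt h2)
      have := ih _ hlt2 x (y⁻¹ * x * y) hx (mul_mem (mul_mem (inv_mem hy) hx) hy) rfl
        (by rw [← conj_pow', he]; group)
      refine (congrArg (· ∈ T) ?_).mp this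
      unfold dl; group
  apply h.mem (mul_mem (inv_mem hx) hy)
  rw [h.cube_mul' (inv_mem hx) hy (by
    rw [dl_inv (mem_cent_comm hx hd)]; exact inv_mem hd), inv_pow, he, inv_mul_cancel]

/-- Elements of `C(T)` with the same cube are congruent modulo `T`. -/
theorem p1 (h : St 3 T) {x y : G} (hx : x ∈ 𝐂(T)) (hy : y ∈ 𝐂(T)) (he : x ^ 3 = y ^ 3) :
    x⁻¹ * y ∈ T := h.p1_aux _ x y hx hy rfl he

theorem p2 (h : St 3 T) {d b : G} (hd : d ∈ 𝐂(T)) (hb : b ∈ 𝐂(T)) (h3 : d ^ 3 ∈ T) :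
    dl b d ∈ T := by
  have := h.p1 hd (mul_mem (mul_mem (inv_mem hb) hd) hb)
    (by rw [← conj_pow', mul_assoc, mem_cent_comm hb h3]; group)
  refine (congrArg (· ∈ T) ?_).mp this
  unfold dl; group

theorem p3 (h : St 3 T) {d b : G} (hd : d ∈ 𝐂(T)) (hb : b ∈ 𝐂(T)) (h3 : d ^ 3 ∈ T) :
    d * b ^ 3 = b ^ 3 * d := by
  have h1 := h.p2 hd hb h3
  have h2 : dl d b = (dl b d)⁻¹ := by unfold dl; group
  have h4 : dl d b ∈ T := h2 ▸ inv_mem h1
  exact (dl_eq_one_iff.1 (by rw [dl_pow (mem_cent_comm hb h4), h.pow h4])).symm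

/-- The cubes of the elements of `C(T)`. -/
def cubes (T : Subgroup G) : Set G := {g | ∃ a ∈ 𝐂(T), g = a ^ 3}

theorem card_le_cubes (h : St 3 T) : 𝐨(𝐂(T)) ≤ (cubes T).ncard * 9 := by
  classical
  have hs : ∀ c : cubes T, ∃ a ∈ 𝐂(T), (c : G) = a ^ 3 := fun c => c.2
  choose σ h1 h2 using hs
  let f : 𝐂(T) → cubes T × T := fun a =>
    (⟨a ^ 3, a, a.2, rfl⟩, ⟨(σ ⟨a ^ 3, a, a.2, rfl⟩)⁻¹ * a, h.p1 (h1 _) a.2 (h2 _).symm⟩)
  have hf : Function.Injective f := by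
    intro a b hab
    have e1 := congrArg Prod.fst hab
    have e2 := congrArg (fun q => (q.2 : G)) hab
    dsimp only [f] at e1 e2
    rw [e1] at e2
    exact Subtype.ext (mul_left_cancel e2)
  have := Nat.card_le_card_of_injective f hf
  rwa [Nat.card_prod, h.el.2, Nat.card_coe_set_eq] at this

theorem cubes_eq (h : St 3 T) (hi : 9 < (powerClosure 3 1 (⊤ : Subgroup G)).index) :
    (∃ s, s ∉ 𝐂(T)) ∧ (powerClosure 3 1 (⊤ : Subgroup G) : Set G) = cubes T := by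
  haveI := Fact.mk h.pp
  obtain ⟨U, hU⟩ : ∃ U, U = powerClosure 3 1 (⊤ : Subgroup G) := ⟨_, rfl⟩
  have hsub : cubes T ⊆ U := by
    rintro _ ⟨a, -, rfl⟩
    rw [hU]
    exact subset_closure ⟨a, mem_top a, by simp⟩
  rw [← hU] at hi ⊢
  have h27 : 27 ≤ U.index := by
    obtain ⟨k, hk⟩ := h.pg.index U
    rw [hk] at hi ⊢
    have : 2 < k := (Nat.pow_lt_pow_iff_right (by norm_num)).1 (show 3 ^ 2 < 3 ^ k from hi)
    exact Nat.pow_le_pow_right (n := 3) (i := 3) (by norm_num) this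
  have h1 := U.card_mul_index
  have h2 := (𝐂(T)).card_mul_index
  have h3 := h.index_le
  have h4 := h.card_le_cubes
  have h5 : (cubes T).ncard ≤ 𝐨(U) := by
    rw [← Nat.card_coe_set_eq]
    exact Nat.card_mono (Set.toFinite _) hsub
  have h6 : 0 < 𝐨(U) := Nat.card_pos
  constructor
  · by_contra hn
    push Not at hn
    rw [index_eq_one.2 (eq_top_iff.2 fun s _ => hn s)] at h2
    nlinarith
  · refine (Set.eq_of_subset_of_ncard_le hsub ?_).symm
    have : (U : Set G).ncard = 𝐨(U) := (Nat.card_coe_set_eq _).symm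
    rw [this]
    nlinarith

end St

end Cfsg.Agent.H2.Blk
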