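/-
Blackburn's classification of odd p-groups of rank at most two, part 4: the prime 3 and the
theorem.
-/
import Cfsg.Agent.H2.Blk3

set_option autoImplicit false

namespace Cfsg.Agent.H2.Blk

open Subgroup Cfsg Cfsg.Agent Cfsg.Agent.FT Cfsg.Agent.FT.BG04
open scoped commutatorElement

universe u

variable {G : Type u} [Group G] [Finite G] {T : Subgroup G}

/-- `b^{s²} b^s b`. -/
def nm (s b : G) : G := (s⁻¹ * (s⁻¹ * b * s) * s) * (s⁻¹ * b * s) * b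

omit [Finite G] in
theorem cube_eq (s b : G) : (s * b) ^ 3 = s ^ 3 * nm s b := by
  unfold nm; rw [pow_three', pow_three']; group

theorem mem_zpowers_pow {p : ℕ} (hp : p.Prime) (hG : IsPGroup p G) (g : G) {m : ℕ}
    (hm : ¬ p ∣ m) : ∃ i : ℕ, g = (g ^ m) ^ i := by
  haveI := Fact.mk hp
  obtain ⟨k, hk⟩ := IsPGroup.iff_orderOf.1 hG g
  have hc : (orderOf g).Coprime m := by
    rw [hk]; exact ((Nat.Prime.coprime_iff_not_dvd hp).2 hm).pow_left k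
  obtain ⟨i, hi⟩ := exists_pow_eq_self_of_coprime hc.symm
  exact ⟨i, hi.symm⟩

namespace St

/-- If `a ∈ C(T)` has `a⁻¹ a^s ∈ T` then `N(a) = a³ ζ` with `ζ` central. -/
theorem nm_eq (h : St 3 T) {s : G} (hs : s ∉ 𝐂(T)) {a : G} (ha : a ∈ 𝐂(T)) (hd : dl s a ∈ T) :
    nm s a = a ^ 3 * dl s (dl s a) := by
  obtain ⟨e, he⟩ : ∃ e, e = dl s a := ⟨_, rfl⟩
  have h1 : s⁻¹ * a * s = a * e := by rw [conj_eq, he]
  rw [← he] at hd ⊢
  obtain ⟨ζ, hζ⟩ : ∃ ζ, ζ = dl s e := ⟨_, rfl⟩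
  have h2 : s⁻¹ * e * s = e * ζ := by rw [conj_eq, hζ]
  have hz : ζ ∈ center G := hζ ▸ (mem_inf.1 (h.dl_mem hs s hd)).2
  rw [← hζ]
  have h3 : s⁻¹ * (a * e) * s = a * e * (e * ζ) := by
    calc s⁻¹ * (a * e) * s = (s⁻¹ * a * s) * (s⁻¹ * e * s) := by group
      _ = _ := by rw [h1, h2]
  have e1 : ∀ g, e * (a * g) = a * (e * g) := fun g => by
    rw [← mul_assoc, mem_cent_comm ha hd, mul_assoc]
  have e2 : ∀ g, ζ * (a * g) = a * (ζ * g) := fun g => by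
    rw [← mul_assoc, ← Subgroup.mem_center_iff.1 hz a, mul_assoc]
  have e3 : ∀ g, ζ * (e * g) = e * (ζ * g) := fun g => by
    rw [← mul_assoc, ← Subgroup.mem_center_iff.1 hz e, mul_assoc]
  have e4 := h.pow hd
  calc nm s a = a * (e * (e * (ζ * (a * (e * (a * 1)))))) := by
        unfold nm; rw [h1, h3]; simp only [mul_assoc, mul_one]
    _ = a * (a * (a * (e * (e * (e * (ζ * 1)))))) := by simp only [e1, e2, e3]
    _ = a ^ 3 * (e ^ 3 * ζ) := by rw [pow_three', pow_three']; simp only [mul_assoc, mul_one]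
    _ = a ^ 3 * ζ := by rw [e4, one_mul]

theorem nm_T (h : St 3 T) {s : G} (hs : s ∉ 𝐂(T)) {t : G} (ht : t ∈ T) : nm s t = 1 := by
  have h1 := h.dl_mem hs s ht
  rw [h.nm_eq hs (h.le ht) (mem_inf.1 h1).1, h.pow ht, one_mul]
  exact dl_eq_one_iff.2 (Subgroup.mem_center_iff.1 (mem_inf.1 h1).2 s).symm

theorem conj_mem (h : St 3 T) (s : G) {a : G} (ha : a ∈ 𝐂(T)) : s⁻¹ * a * s ∈ 𝐂(T) := by
  have := h.cnrm.conj_mem a ha s⁻¹
  rwa [inv_inv] at this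

theorem conj_memT (h : St 3 T) (s : G) {a : G} (ha : a ∈ T) : s⁻¹ * a * s ∈ T := by
  have := h.nrm.conj_mem a ha s⁻¹
  rwa [inv_inv] at this

theorem cube_center (h : St 3 T) {s : G} (hs : s ∉ 𝐂(T)) (hs3 : s ^ 3 ∈ cubes T) {c : G}
    (hc : c ∈ 𝐂(T)) (hcs : c * s = s * c) (hc1 : c ^ 3 ≠ 1) (hcT : c ^ 3 ∈ T) {d : G}
    (hd : d ∈ 𝐂(T)) (hdT : d ^ 3 ∈ T) : d ^ 3 ∈ center G := by
  have hcz : c ^ 3 ∈ T ⊓ center G :=
    mem_inf.2 ⟨hcT, h.mem_center hs hcT ((show Commute c s from hcs).pow_left 3)⟩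
  obtain ⟨i, hi⟩ := h.mem_zpowers hs hcz hc1 (h.dl_mem hs s hdT)
  obtain ⟨c', hc'⟩ : ∃ c', c' = c ^ i := ⟨_, rfl⟩
  have hc'A : c' ∈ 𝐂(T) := hc' ▸ pow_mem hc i
  have hc's : s⁻¹ * c' * s = c' := by
    rw [hc', mul_assoc, ((show Commute c s from hcs).pow_left i).eq]; group
  rw [← pow_mul, mul_comm, pow_mul, ← hc'] at hi
  have h1 : (d * c') ^ 3 = (s⁻¹ * d * s) ^ 3 := by
    rw [h.cube_mul' hd hc'A (h.p2 hd hc'A hdT), ← conj_pow', conj_eq, hi]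
  obtain ⟨t, ht⟩ : ∃ t, t = (d * c')⁻¹ * (s⁻¹ * d * s) := ⟨_, rfl⟩
  have htT : t ∈ T := ht ▸ h.p1 (mul_mem hd hc'A) (h.conj_mem s hd) h1
  have h2 : s⁻¹ * d * s = d * c' * t := by rw [ht]; group
  obtain ⟨t₁, ht₁⟩ : ∃ t₁, t₁ = s⁻¹ * t * s := ⟨_, rfl⟩
  obtain ⟨t₂, ht₂⟩ : ∃ t₂, t₂ = s⁻¹ * t₁ * s := ⟨_, rfl⟩
  have ht₁T : t₁ ∈ T := ht₁ ▸ h.conj_memT s htT
  have ht₂T : t₂ ∈ T := ht₂ ▸ h.conj_memT s ht₁T
  have hn : t₂ * t₁ * t = 1 := by rw [ht₂, ht₁]; exact h.nm_T hs htT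
  have hn' : t * (t₁ * t₂) = 1 := by
    rw [← hn, mem_cent_comm (h.le ht₂T) ht₁T, mem_cent_comm (h.le (mul_mem ht₂T ht₁T)) htT]
  have h3 : s⁻¹ * (s⁻¹ * d * s) * s = d * c' * t * c' * t₁ := by
    calc s⁻¹ * (s⁻¹ * d * s) * s = (s⁻¹ * d * s) * (s⁻¹ * c' * s) * (s⁻¹ * t * s) := by
          conv_lhs => rw [h2]
          group
      _ = _ := by rw [h2, hc's, ht₁]
  have h4 : (s ^ 3)⁻¹ * d * s ^ 3 = d * c' * t * c' * t₁ * c' * t₂ := by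
    calc (s ^ 3)⁻¹ * d * s ^ 3 = s⁻¹ * (s⁻¹ * (s⁻¹ * d * s) * s) * s := by
          rw [pow_three']; group
      _ = (s⁻¹ * d * s) * (s⁻¹ * c' * s) * (s⁻¹ * t * s) * (s⁻¹ * c' * s) * (s⁻¹ * t₁ * s) := by
          rw [h3]; group
      _ = _ := by rw [h2, hc's, ← ht₁, ← ht₂]
  have e1 : ∀ g, t * (c' * g) = c' * (t * g) := fun g => by
    rw [← mul_assoc, mem_cent_comm hc'A htT, mul_assoc]
  have e2 : ∀ g, t₁ * (c' * g) = c' * (t₁ * g) := fun g => by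
    rw [← mul_assoc, mem_cent_comm hc'A ht₁T, mul_assoc]
  have h5 : (s ^ 3)⁻¹ * d * s ^ 3 = d * c' ^ 3 := by
    rw [h4, pow_three']
    simp only [mul_assoc, e1, e2, hn', mul_one]
  obtain ⟨a, ha, ha3⟩ := hs3
  rw [ha3, mul_assoc, h.p3 hd ha hdT, inv_mul_cancel_left, left_eq_mul, ← hi] at h5
  exact h.mem_center hs hdT (dl_eq_one_iff.1 h5)

section gen

variable {s a c : G}

theorem comm_of_gen (h : St 3 T) (ha : a ∈ 𝐂(T))
    (hgen : ∀ b ∈ 𝐂(T), ∃ k : ℕ, ∃ t ∈ T, b = a ^ k * t) {b b' : G} (hb : b ∈ 𝐂(T))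
    (hb' : b' ∈ 𝐂(T)) : Commute b b' := by
  obtain ⟨k, t, ht, rfl⟩ := hgen b hb
  refine Commute.mul_left (Commute.pow_left ?_ k) (mem_cent_comm hb' ht)
  obtain ⟨k', t', ht', rfl⟩ := hgen b' hb'
  exact Commute.mul_right (Commute.self_pow a k') (mem_cent_comm ha ht').symm

theorem cube_gen (h : St 3 T) (ha : a ∈ 𝐂(T)) (k : ℕ) {t : G} (ht : t ∈ T) :
    (a ^ k * t) ^ 3 = (a ^ 3) ^ k := by
  rw [(Commute.pow_left (show Commute a t from (mem_cent_comm ha ht).symm) k).mul_pow, h.pow ht,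
    mul_one, ← pow_mul, ← pow_mul, mul_comm]

theorem dl_gen (h : St 3 T) (hs : s ∉ 𝐂(T)) (ha : a ∈ 𝐂(T))
    (hgen : ∀ b ∈ 𝐂(T), ∃ k : ℕ, ∃ t ∈ T, b = a ^ k * t)
    (hc : c ∈ 𝐂(T)) (hcs : c * s = s * c) (hc1 : c ^ 3 ≠ 1) (hcT : c ^ 3 ∈ T) :
    dl s a ∈ T := by
  haveI := Fact.mk h.pp
  obtain ⟨u, t, ht, hu⟩ := hgen _ (h.conj_mem s ha)
  obtain ⟨r, t', ht', hr⟩ := hgen c hc
  have hc3 : c ^ 3 = (a ^ 3) ^ r := by rw [hr, h.cube_gen ha r ht']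
  have h1 : c ^ 3 = (c ^ 3) ^ u := by
    calc c ^ 3 = s⁻¹ * c ^ 3 * s := by
          rw [mul_assoc, ((show Commute c s from hcs).pow_left 3).eq]; group
      _ = (c ^ 3) ^ u := by
          rw [hc3, conj_pow', conj_pow', hu, h.cube_gen ha u ht, ← pow_mul, ← pow_mul, ← pow_mul,
            ← pow_mul]
          congr 1; ring
  have h2 : u ≡ 1 [MOD 3] := by
    have ho : orderOf (c ^ 3) = 3 := orderOf_eq_prime (h.pow hcT) hc1
    rw [← ho, ← pow_eq_pow_iff_modEq, pow_one]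
    exact h1.symm
  obtain ⟨m, rfl⟩ : ∃ m, u = 3 * m + 1 := ⟨u / 3, by unfold Nat.ModEq at h2; omega⟩
  have hT : ∀ t ∈ T, t ^ (3 * m + 1) = t := fun t ht => by
    rw [pow_succ, pow_mul, h.pow ht, one_pow, one_mul]
  have hpw : ∀ (k : ℕ), ∀ t ∈ T, (a ^ k * t) ^ (3 * m + 1) = a ^ (k * (3 * m + 1)) * t :=
    fun k t ht => by
    rw [(Commute.pow_left (show Commute a t from (mem_cent_comm ha ht).symm) k).mul_pow, hT t ht,
      ← pow_mul]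
  obtain ⟨t₁, ht₁⟩ : ∃ t₁, t₁ = s⁻¹ * t * s := ⟨_, rfl⟩
  obtain ⟨t₂, ht₂⟩ : ∃ t₂, t₂ = s⁻¹ * t₁ * s := ⟨_, rfl⟩
  have ht₁T : t₁ ∈ T := ht₁ ▸ h.conj_memT s ht
  have ht₂T : t₂ ∈ T := ht₂ ▸ h.conj_memT s ht₁T
  have hn : t₂ * t₁ * t = 1 := by rw [ht₂, ht₁]; exact h.nm_T hs ht
  have hn' : t * t₁ * t₂ = 1 := by
    rw [← hn, mul_assoc, mem_cent_comm (h.le ht₂T) ht₁T,
      mem_cent_comm (h.le (mul_mem ht₂T ht₁T)) ht]
  have h3 : ∀ k : ℕ, s⁻¹ * a ^ k * s = a ^ ((3 * m + 1) * k) * t ^ k := fun k => by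
    rw [conj_pow', hu,
      (Commute.pow_left (show Commute a t from (mem_cent_comm ha ht).symm) _).mul_pow, ← pow_mul]
  have h4 : s⁻¹ * (s⁻¹ * a * s) * s = a ^ ((3 * m + 1) * (3 * m + 1)) * t * t₁ := by
    calc s⁻¹ * (s⁻¹ * a * s) * s = (s⁻¹ * a ^ (3 * m + 1) * s) * (s⁻¹ * t * s) := by
          conv_lhs => rw [hu]
          group
      _ = _ := by rw [h3, hT t ht, ht₁]
  have h5 : (s ^ 3)⁻¹ * a * s ^ 3 = a ^ ((3 * m + 1) * ((3 * m + 1) * (3 * m + 1))) := by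
    calc (s ^ 3)⁻¹ * a * s ^ 3 = s⁻¹ * (s⁻¹ * (s⁻¹ * a * s) * s) * s := by
          rw [pow_three']; group
      _ = (s⁻¹ * a ^ ((3 * m + 1) * (3 * m + 1)) * s) * (s⁻¹ * t * s) * (s⁻¹ * t₁ * s) := by
          rw [h4]; simp only [mul_assoc, mul_inv_cancel_left]
      _ = _ := by
          rw [h3, pow_mul t, hT t ht, hT t ht, ← ht₁, ← ht₂, mul_assoc, mul_assoc, ← mul_assoc t,
            hn', mul_one]
  haveI := h.cnrm
  have hs3 : s ^ 3 ∈ 𝐂(T) := H3.pow_mem_of_index_eq (h.index_eq hs) s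
  rw [mul_assoc, (h.comm_of_gen ha hgen ha hs3).eq, inv_mul_cancel_left,
    show (3 * m + 1) * ((3 * m + 1) * (3 * m + 1)) = 9 * m * (3 * (m + m * m) + 1) + 1 by ring,
    pow_succ, right_eq_mul, pow_mul] at h5
  obtain ⟨i, hi⟩ := mem_zpowers_pow h.pp h.pg (a ^ (9 * m)) (m := 3 * (m + m * m) + 1) (by omega)
  rw [h5, one_pow] at hi
  have h6 : a ^ (3 * m) ∈ T := h.mem (pow_mem ha _) (by
    rw [← pow_mul, ← hi]; congr 1; ring)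
  have : dl s a = a ^ (3 * m) * t := by
    have h7 := conj_eq s a
    rw [hu, pow_succ', mul_assoc] at h7
    exact (mul_left_cancel h7).symm
  rw [this]
  exact mul_mem h6 ht

theorem nm_pow (h : St 3 T) (ha : a ∈ 𝐂(T))
    (hgen : ∀ b ∈ 𝐂(T), ∃ k : ℕ, ∃ t ∈ T, b = a ^ k * t) (s : G) {b : G} (hb : b ∈ 𝐂(T))
    (i : ℕ) : nm s (b ^ i) = (nm s b) ^ i := by
  have h1 := h.conj_mem s hb
  have h2 := h.conj_mem s h1
  have c1 := h.comm_of_gen ha hgen h2 h1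
  have c2 := h.comm_of_gen ha hgen (mul_mem h2 h1) hb
  unfold nm
  rw [conj_pow', conj_pow', c2.mul_pow, c1.mul_pow]

theorem exists_nm (h : St 3 T) (hs : s ∉ 𝐂(T)) (ha : a ∈ 𝐂(T))
    (hgen : ∀ b ∈ 𝐂(T), ∃ k : ℕ, ∃ t ∈ T, b = a ^ k * t)
    (hc : c ∈ 𝐂(T)) (hcs : c * s = s * c) (hc1 : c ^ 3 ≠ 1) (hcT : c ^ 3 ∈ T) :
    ∃ b ∈ 𝐂(T), ∃ i : ℕ, a ^ 3 = nm s b ^ i := by
  obtain ⟨r, t', ht', hr⟩ := hgen c hc
  have hc3 : c ^ 3 = (a ^ 3) ^ r := by rw [hr, h.cube_gen ha r ht']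
  by_cases h3 : 3 ∣ r
  · obtain ⟨r', rfl⟩ := h3
    have hd := h.dl_gen hs ha hgen hc hcs hc1 hcT
    have hcz : c ^ 3 ∈ T ⊓ center G :=
      mem_inf.2 ⟨hcT, h.mem_center hs hcT ((show Commute c s from hcs).pow_left 3)⟩
    obtain ⟨l, hl⟩ := h.mem_zpowers hs hcz hc1 (h.dl_mem hs s hd)
    obtain ⟨i, hi⟩ := mem_zpowers_pow h.pp h.pg (a ^ 3) (m := 3 * (r' * l) + 1) (by omega)
    refine ⟨a, ha, i, ?_⟩
    rw [h.nm_eq hs ha hd, hl, hc3, ← pow_mul (a ^ 3), ← pow_succ', mul_assoc]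
    exact hi
  · obtain ⟨i, hi⟩ := mem_zpowers_pow h.pp h.pg (a ^ 3) h3
    refine ⟨c, hc, i, ?_⟩
    have h1 : dl s c = 1 := dl_eq_one_iff.2 hcs
    rw [h.nm_eq hs hc (h1 ▸ one_mem T), h1, dl_one, mul_one, hc3]
    exact hi

theorem exists_x (h : St 3 T) (hs : s ∉ 𝐂(T)) (hcube : ∀ g : G, g ^ 3 ∈ cubes T) (ha : a ∈ 𝐂(T))
    (hgen : ∀ b ∈ 𝐂(T), ∃ k : ℕ, ∃ t ∈ T, b = a ^ k * t)
    (hc : c ∈ 𝐂(T)) (hcs : c * s = s * c) (hc1 : c ^ 3 ≠ 1) (hcT : c ^ 3 ∈ T) :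
    ∃ x, x ∉ 𝐂(T) ∧ x ^ 3 = 1 ∧ ∀ b ∈ 𝐂(T), dl x b ∈ T := by
  obtain ⟨b, hb, i, hi⟩ := h.exists_nm hs ha hgen hc hcs hc1 hcT
  obtain ⟨d, hd, hd3⟩ := hcube s⁻¹
  obtain ⟨k, t, ht, rfl⟩ := hgen d hd
  rw [h.cube_gen ha k ht, hi, ← pow_mul, ← h.nm_pow ha hgen s hb] at hd3
  obtain ⟨e, he⟩ : ∃ e, e = b ^ (i * k) := ⟨_, rfl⟩
  have heA : e ∈ 𝐂(T) := he ▸ pow_mem hb _
  rw [← he] at hd3
  refine ⟨s * e, fun h0 => hs ((Subgroup.mul_mem_cancel_right _ heA).1 h0),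
    by rw [cube_eq, ← hd3, inv_pow, mul_inv_cancel], fun g hg => ?_⟩
  have h1 : dl (s * e) g = dl s g := by
    calc dl (s * e) g = g⁻¹ * e⁻¹ * ((s⁻¹ * g * s) * e) := by unfold dl; group
      _ = dl s g := by
        rw [(h.comm_of_gen ha hgen (h.conj_mem s hg) heA).eq]; unfold dl; group
  obtain ⟨k', t', ht', rfl⟩ := hgen g hg
  have hda := h.dl_gen hs ha hgen hc hcs hc1 hcT
  have h2 : dl s (a ^ k') = dl s a ^ k' := dl_pow (mem_cent_comm ha hda) k'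
  rw [h1, dl_mul (by rw [h2]; exact mem_cent_comm (h.le ht') (pow_mem hda _)), h2]
  exact mul_mem (pow_mem hda _) (mem_inf.1 (h.dl_mem hs s ht')).1

end gen

theorem card_cent_le (h : St 3 T) {s : G} (hs : s ∉ 𝐂(T))
    (hc : ∀ c ∈ 𝐂(T), c * s = s * c → c ^ 3 = 1) : 𝐨(𝐂[s]) ≤ 3 ^ 2 := by
  have h1 := H3.card_inf_mul_relIndex 𝐂(T) 𝐂[s]
  have h2 : (𝐂(T)).relIndex 𝐂[s] ≤ 3 := by
    have := relIndex_le_of_le_right (H := 𝐂(T)) (le_top : 𝐂[s] ≤ ⊤)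
      (by rw [relIndex_top_right]; exact index_ne_zero_of_finite)
    rw [relIndex_top_right] at this
    exact this.trans h.index_le
  have h3 : 𝐨(𝐂(T) ⊓ 𝐂[s]) ≤ 3 := by
    rw [← h.card_Z hs]
    refine card_le_of_le fun c hc' => ?_
    have e := mem_centralizer_singleton_iff.1 (mem_inf.1 hc').2
    have := h.mem (mem_inf.1 hc').1 (hc c (mem_inf.1 hc').1 e)
    exact mem_inf.2 ⟨this, h.mem_center hs this e⟩
  rw [← h1]
  nlinarith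

theorem three (h : St 3 T) {n : ℕ} (hG : Nat.card G = 3 ^ n)
    (hi : 9 < (powerClosure 3 1 (⊤ : Subgroup G)).index) :
    Alt2 G 3 n ∨ Alt3 G 3 n ∨ (2 ≤ n ∧ (⊤ : Subgroup G).lowerCentralSeries (n - 2) ≠ ⊥) := by
  haveI := Fact.mk h.pp
  obtain ⟨⟨s, hs⟩, hU⟩ := h.cubes_eq hi
  by_cases hc : ∀ c ∈ 𝐂(T), c * s = s * c → c ^ 3 = 1
  · have hn : 2 ≤ n := by
      have := card_le_card_group T
      rw [h.el.2, hG] at this
      exact (Nat.pow_le_pow_iff_right (by norm_num)).1 this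
    exact Or.inr (Or.inr ⟨hn, H3.lcs_ne_bot_of_card_centralizer_le hG hn (h.card_cent_le hs hc)⟩)
  push Not at hc
  obtain ⟨c₀, hc₀, hcs₀, hc1₀⟩ := hc
  obtain ⟨j, hj⟩ := H3.exists_pow_orderOf_eq_prime h.pg hc1₀
  rw [← pow_mul, mul_comm, pow_mul] at hj
  obtain ⟨c, hc'⟩ : ∃ c, c = c₀ ^ j := ⟨_, rfl⟩
  rw [← hc'] at hj
  have hc : c ∈ 𝐂(T) := hc' ▸ pow_mem hc₀ j
  have hcs : c * s = s * c := hc' ▸ (show Commute c₀ s from hcs₀).pow_left j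
  have hc1 : c ^ 3 ≠ 1 := fun h0 => by rw [h0, orderOf_one] at hj; omega
  have hcT : c ^ 3 ∈ T := h.mem (pow_mem hc 3) (orderOf_dvd_iff_pow_eq_one.1 (by rw [hj]))
  obtain ⟨U, hU'⟩ : ∃ U, U = powerClosure 3 1 (⊤ : Subgroup G) := ⟨_, rfl⟩
  have hcube' : ∀ g : G, g ^ 3 ∈ U := fun g => by
    rw [hU']; exact subset_closure ⟨g, mem_top g, by simp⟩
  rw [← hU'] at hU
  have hmem : ∀ g : G, g ∈ U ↔ g ∈ cubes T := fun g => by rw [← hU]; rfl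
  have hcube : ∀ g : G, g ^ 3 ∈ cubes T := fun g => (hmem _).1 (hcube' g)
  have hcyc : IsCyclic U := by
    refine h.isCyclic hs (fun g hg => ?_) fun g hg => ?_
    · obtain ⟨a, ha, rfl⟩ := (hmem g).1 hg
      exact pow_mem ha 3
    · obtain ⟨d, hd, rfl⟩ := (hmem g).1 (mem_inf.1 hg).2
      exact h.cube_center hs (hcube s) hc hcs hc1 hcT hd (mem_inf.1 hg).1
  obtain ⟨u, hu⟩ := (Subgroup.isCyclic_iff_exists_zpowers_eq_top U).1 hcyc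
  obtain ⟨a, ha, rfl⟩ := (hmem u).1 (hu ▸ Subgroup.mem_zpowers u)
  have hgen : ∀ b ∈ 𝐂(T), ∃ k : ℕ, ∃ t ∈ T, b = a ^ k * t := by
    intro b hb
    have := hcube' b
    rw [← hu, ← mem_powers_iff_mem_zpowers] at this
    obtain ⟨k, hk⟩ := this
    dsimp only at hk
    rw [← pow_mul, mul_comm, pow_mul] at hk
    exact ⟨k, _, h.p1 (pow_mem ha k) hb hk, by group⟩
  obtain ⟨x, h1, h2, h3⟩ := h.exists_x hs hcube ha hgen hc hcs hc1 hcT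
  rcases h.alt hG h1 h2 h3 with h4 | h4
  · exact Or.inl h4
  · exact Or.inr (Or.inl h4)

end St

omit [Finite G] in
theorem isMetacyclic_of {K : Subgroup G} [hK : K.Normal] (hc : IsCyclic K) {x : G}
    (h : zpowers x ⊔ K = ⊤) : IsMetacyclic G := by
  refine ⟨K, hK, hc, isCyclic_iff_exists_zpowers_eq_top.2 ⟨QuotientGroup.mk' K x, ?_⟩⟩
  have := congrArg (Subgroup.map (QuotientGroup.mk' K)) h
  rwa [Subgroup.map_sup, MonoidHom.map_zpowers, (map_eq_bot_iff K).2 (by simp), sup_bot_eq,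
    map_top_of_surjective _ (QuotientGroup.mk'_surjective K)] at this

theorem large {p n : ℕ} (hp : p.Prime) (hp3 : 3 < p) (hG : Nat.card G = p ^ n)
    (hr : pRank p (⊤ : Subgroup G) ≤ 2) : IsMetacyclic G ∨ Alt2 G p n ∨ Alt3 G p n := by
  haveI := Fact.mk hp
  have hpg : IsPGroup p G := IsPGroup.of_card hG
  have hpt : IsPGroup p (⊤ : Subgroup G) := hpg.to_subgroup ⊤
  obtain ⟨S, hS⟩ : ∃ S, S = omegaOne p (⊤ : Subgroup G) := ⟨_, rfl⟩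
  by_cases h2 : 𝐨(S) ≤ p ^ 2
  · obtain ⟨K, hK, hc, x, -, hx⟩ := metacyc_of_omega_le hp hp3 hpt (hS ▸ h2)
    haveI : K.Normal := normalizer_eq_top_iff.1 (eq_top_iff.2 hK.2)
    exact Or.inl (isMetacyclic_of hc (eq_top_iff.2 hx))
  have he : ∀ x ∈ S, x ^ p = 1 := hS ▸ rank2_omega_exponent hp hp3 hpt hr
  have h3 := rank2_exponent_p_card_le hp (hpg.to_subgroup S)
    ((pRank_mono hp le_top).trans hr) he
  have hSn : S ⊲ ⊤ := hS ▸ omegaOne_normal p ⊤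
  have hnc : ¬ IsCyclic S := by
    intro hc
    obtain ⟨u, hu⟩ := (Subgroup.isCyclic_iff_exists_zpowers_eq_top S).1 hc
    apply h2
    rw [← hu, Nat.card_zpowers]
    exact (Nat.le_of_dvd hp.pos (orderOf_dvd_of_pow_eq_one (he u (hu ▸ mem_zpowers u)))).trans
      (Nat.le_self_pow two_ne_zero p)
  obtain ⟨T, hTS, hT, hel⟩ := odd_normal_elem2_exists hp (by omega) hpt hSn hnc
  have h : St p T := ⟨hp, by omega, hpg, hr, normalizer_eq_top_iff.1 (eq_top_iff.2 hT.2), hel⟩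
  have hlt : T < S := lt_of_le_of_ne hTS fun h0 => h2 (by rw [← h0, hel.2])
  haveI := h.nrm
  haveI : S.Normal := normalizer_eq_top_iff.1 (eq_top_iff.2 hSn.2)
  obtain ⟨K, -, -, hKS, hK, hc⟩ := H3.exists_normal_card_eq_mul hpg hlt
  have : K = S := eq_of_le_of_card_ge hKS (by rw [hK, hel.2, ← pow_succ']; exact h3)
  subst this
  obtain ⟨x, hx, hxT⟩ := SetLike.exists_of_lt hlt
  refine Or.inr (h.alt hG (x := x) (fun h0 => hxT (h.mem h0 (he x hx))) (he x hx) fun a _ => ?_)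
  have := inv_mem (hc x⁻¹ (inv_mem hx) a⁻¹)
  refine (congrArg (· ∈ T) ?_).mp this
  unfold dl; group

theorem blackburn {p n : ℕ} (hp : p.Prime) (hp2 : p ≠ 2) (hG : Nat.card G = p ^ n)
    (hrk : PRankLE p 2 G) : IsMetacyclic G ∨ Alt2 G p n ∨ Alt3 G p n ∨
      (p = 3 ∧ 2 ≤ n ∧ (⊤ : Subgroup G).lowerCentralSeries (n - 2) ≠ ⊥) := by
  haveI := Fact.mk hp
  have hr : pRank p (⊤ : Subgroup G) ≤ 2 :=
    (pRank_le_iff hp).2 fun A _ hA => hrk A hA.1 hA.2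
  by_cases hp3 : 3 < p
  · rcases large hp hp3 hG hr with h | h | h
    · exact Or.inl h
    · exact Or.inr (Or.inl h)
    · exact Or.inr (Or.inr (Or.inl h))
  obtain rfl : p = 3 := by have := hp.two_le; omega
  have hpg : IsPGroup 3 G := IsPGroup.of_card hG
  by_cases hi : (powerClosure 3 1 (⊤ : Subgroup G)).index ≤ 3 ^ 2
  · obtain ⟨a, b, ha, hab⟩ := metacyc_of_index_mho_le hp hp2 _ G rfl hpg hi
    exact Or.inl (isMetacyclic_of (K := zpowers a) inferInstance (by rw [sup_comm]; exact hab))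
  by_cases hc : IsCyclic (⊤ : Subgroup G)
  · obtain ⟨u, hu⟩ := (Subgroup.isCyclic_iff_exists_zpowers_eq_top ⊤).1 hc
    exact Or.inl (isMetacyclic_of (K := ⊥) inferInstance (by rw [sup_bot_eq]; exact hu))
  obtain ⟨T, hT, hel⟩ := exists_normal_isElem_two hp hp2 (hpg.to_subgroup ⊤) hc
  have h : St 3 T := ⟨hp, hp2, hpg, hr, normalizer_eq_top_iff.1 (eq_top_iff.2 hT.2), hel⟩
  rcases h.three hG (by omega) with h | h | h
  · exact Or.inr (Or.inl h)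
  · exact Or.inr (Or.inr (Or.inl h))
  · exact Or.inr (Or.inr (Or.inr ⟨rfl, h⟩))

end Cfsg.Agent.H2.Blk
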