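import Cfsg.Agent.H2.Four1

/-! Blocks of a coprime action and regular orbits of groups of symplectic type. -/

set_option autoImplicit false
set_option linter.unusedSectionVars false

namespace Cfsg.Agent.H2.Cov

open Subgroup Cfsg Cfsg.Agent Cfsg.Agent.FT
open scoped commutatorElement

universe u

variable {G : Type u} [Group G] [Finite G]

/-- The sum of the blocks indexed by the cosets in `S`. -/
def Wb (V M H L : Subgroup G) (S : Set (G ⧸ L)) : Subgroup G :=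
  V ⊓ ⨅ g : {g : G // g ∈ M ∧ (g : G ⧸ L) ∉ S}, ⁅V, H ^ᵍ g.1⁆

variable {V M H L : Subgroup G}

theorem mem_Wb {S : Set (G ⧸ L)} {x : G} :
    x ∈ Wb V M H L S ↔ x ∈ V ∧ ∀ g ∈ M, (g : G ⧸ L) ∉ S → x ∈ ⁅V, H ^ᵍ g⁆ := by
  simp [Wb, mem_iInf]

theorem Wb_mono {S T : Set (G ⧸ L)} (h : S ⊆ T) : Wb V M H L S ≤ Wb V M H L T := fun _ hx =>
  mem_Wb.2 ⟨(mem_Wb.1 hx).1, fun g hg hT => (mem_Wb.1 hx).2 g hg fun hS => hT (h hS)⟩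

theorem Wb_conj (hM : M ≤ 𝐍(V)) {S T : Set (G ⧸ L)} {m x : G} (hm : m ∈ M)
    (hx : x ∈ Wb V M H L S) (h : ∀ g ∈ M, (g : G ⧸ L) ∉ T → ((m⁻¹ * g : G) : G ⧸ L) ∉ S) :
    m * x * m⁻¹ ∈ Wb V M H L T := by
  refine mem_Wb.2 ⟨H1.conj_mem_of_le_normalizer hM hm (mem_Wb.1 hx).1, fun g hg hT => ?_⟩
  have := conj_mem_conj ((mem_Wb.1 hx).2 _ (mul_mem (inv_mem hm) hg) (h g hg hT)) m
  rwa [conj_comm, conj_conj, mul_inv_cancel_left, conj_eq_of_mem_norm (hM hm)] at this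

theorem Wb_empty (hM : M ≤ 𝐍(V)) (irr : ∀ W : Subgroup G, W ≤ V → M ≤ 𝐍(W) → W = ⊥ ∨ W = V)
    (ne : ¬ V ≤ ⁅V, H⁆) : Wb V M H L ∅ = ⊥ := by
  refine (irr _ inf_le_left fun m hm => mem_norm_of_conj_le ?_).resolve_right fun e => ne fun x hx => ?_
  · rintro _ ⟨x, hx, rfl⟩
    exact Wb_conj hM hm hx fun _ _ _ h => h
  · have := (mem_Wb.1 (e.ge hx)).2 1 (one_mem M) fun h => h
    rwa [conj_one] at this

theorem ex_prod (hV : IsMulCommutative V) (w : G ⧸ L → G) (T : Finset (G ⧸ L))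
    (hw : ∀ t ∈ T, w t ∈ Wb V M H L {t}) :
    ∃ v ∈ Wb V M H L T, ∀ t ∈ T, v * (w t)⁻¹ ∈ Wb V M H L {t}ᶜ := by
  classical
  induction T using Finset.induction_on with
  | empty => exact ⟨1, one_mem _, by simp⟩
  | insert s T hs ih =>
    obtain ⟨v, hv, h⟩ := ih fun t ht => hw t (Finset.mem_insert_of_mem ht)
    have h0 := hw s (Finset.mem_insert_self s T)
    refine ⟨v * w s, mul_mem (Wb_mono (by simp) hv) (Wb_mono (by simp) h0), fun t ht => ?_⟩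
    rcases Finset.mem_insert.1 ht with rfl | ht'
    · rw [mul_inv_cancel_right]
      exact Wb_mono (by simpa using hs) hv
    · have hc : w s * (w t)⁻¹ = (w t)⁻¹ * w s := mem_cent.1 (isMulComm_iff_le_cent.1 hV
        (inv_mem (hw t ht).1)) _ h0.1
      rw [mul_assoc, hc, ← mul_assoc]
      exact mul_mem (h t ht') (Wb_mono (by simpa using fun e : t = s => hs (e ▸ ht')) h0)

theorem fix_comp (hM : M ≤ 𝐍(V)) (h0 : Wb V M H L ∅ = ⊥) {b v w : G} {t : G ⧸ L} (hb : b ∈ M)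
    (hf : ∀ g ∈ M, ((b⁻¹ * g : G) : G ⧸ L) = g) (hw : w ∈ Wb V M H L {t})
    (hv : v * w⁻¹ ∈ Wb V M H L {t}ᶜ) (hc : Commute b v) : Commute b w := by
  have h1 := Wb_conj hM hb hw fun g hg h => by rwa [hf g hg]
  have h2 := Wb_conj hM hb hv fun g hg h => by rwa [hf g hg]
  have h3 : w * (b * w * b⁻¹)⁻¹ = (v * w⁻¹)⁻¹ * (b * (v * w⁻¹) * b⁻¹) := by
    rw [← mul_assoc b v, hc.eq]; group
  have h4 := mul_mem hw (inv_mem h1)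
  have h5 := h3 ▸ mul_mem (inv_mem hv) h2
  have h6 : w * (b * w * b⁻¹)⁻¹ ∈ Wb V M H L ∅ := mem_Wb.2 ⟨h4.1, fun g hg _ => by
    by_cases h : (g : G ⧸ L) = t
    · exact (mem_Wb.1 h5).2 g hg fun e => e h
    · exact (mem_Wb.1 h4).2 g hg h⟩
  rw [h0, mem_bot, mul_inv_eq_one, eq_mul_inv_iff_mul_eq] at h6
  exact h6.symm

theorem out_mem_Wb (hM : M ≤ 𝐍(V)) {t : G ⧸ L} (ht : t.out ∈ M) {x : G}
    (hx : x ∈ Wb V M H L {((1 : G) : G ⧸ L)}) : t.out * x * t.out⁻¹ ∈ Wb V M H L {t} :=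
  Wb_conj hM ht hx fun g _ h e => h (by
    have := QuotientGroup.eq.1 (Set.mem_singleton_iff.1 e).symm
    rw [inv_one, one_mul] at this
    rw [Set.mem_singleton_iff, ← QuotientGroup.eq.2 this, QuotientGroup.out_eq'])

theorem mem_Wb_one {x : G} (hx : x ∈ V) (h : ∀ g ∈ M, g ∉ L → x ∈ ⁅V, H ^ᵍ g⁆) :
    x ∈ Wb V M H L {((1 : G) : G ⧸ L)} :=
  mem_Wb.2 ⟨hx, fun g hg hn => h g hg fun hL => hn (Set.mem_singleton_iff.2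
    (QuotientGroup.eq.2 (by simpa using hL)))⟩

theorem out_mem (hL : L ≤ M) {g : G} (hg : g ∈ M) : (g : G ⧸ L).out ∈ M := by
  obtain ⟨l, hl⟩ := QuotientGroup.mk_out_eq_mul L g
  exact hl ▸ mul_mem hg (hL l.2)

section
variable {p q : ℕ} (hp : p.Prime) (hq : q.Prime) (pq : p ≠ q) (hV : IsElementaryAbelian q V)
include hp hq pq hV

theorem eq_one_of {K : Subgroup G} (hK : IsPGroup p K) (hKV : K ≤ 𝐍(V)) {x : G} (h1 : x ∈ 𝐂(K))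
    (h2 : x ∈ ⁅V, K⁆) : x = 1 :=
  mem_bot.1 ((H1.centralizer_inf_commutator_eq_bot hV.1 hKV
    (Four.cop hp hq pq hK (elemAb_isPGroup hV))).le (mem_inf.2 ⟨h1, h2⟩))

theorem le_comm_of {K : Subgroup G} (hK : IsPGroup p K) (hKV : K ≤ 𝐍(V)) (hKH : K ≤ 𝐂(H))
    (h : V ⊓ 𝐂(H) ⊓ 𝐂(K) = ⊥) : V ⊓ 𝐂(H) ≤ ⁅V, K⁆ := by
  have := H1.commutator_sup_centralizer (H1.le_normalizer_inf hKV (hKH.trans (le_norm_self _)))
    (Four.cop hp hq pq hK ((elemAb_isPGroup hV).to_le inf_le_left))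
    (Or.inl (isSolvable_of_isNilpotent (isNilpotent_of_isPGroup hp hK)))
  rw [h, sup_bot_eq] at this
  exact this.ge.trans (commutator_mono inf_le_left le_rfl)

theorem regular_irr (hp2 : p ≠ 2) {R Z : Subgroup G} (hR : IsPGroup p R) (hRV : R ≤ 𝐍(V))
    (irr : ∀ W : Subgroup G, W ≤ V → R ≤ 𝐍(W) → W = ⊥ ∨ W = V) (hV1 : V ≠ ⊥)
    (hZ : 𝐨(Z) = p) (hZR : Z ≤ R) (hRZ : R ≤ 𝐂(Z)) (hc : ∀ x ∈ R, ∀ y ∈ R, ⁅x, y⁆ ∈ Z)
    (h0 : V ⊓ 𝐂(Z) = ⊥) (hcen : ∀ b ∈ R, b ∈ 𝐂(R) → b ≠ 1 → Z ≤ zpowers b) :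
    ∃ v ∈ V, ∀ b ∈ R, Commute b v → b = 1 := by
  classical
  obtain ⟨H, -, ⟨hHR, hH⟩, hmax⟩ := Finite.exists_le_maximal
    (p := fun H : Subgroup G => H ≤ R ∧ V ⊓ 𝐂(H) ≠ ⊥) (a := ⊥) ⟨bot_le, by rwa [cent_bot, inf_top_eq]⟩
  have hst : ∀ g ∈ R, ∀ w ∈ V, w ≠ 1 → w ∈ 𝐂(H ^ᵍ g) → ∀ b ∈ R, Commute b w → b ∈ H ^ᵍ g := by
    intro g hg w hw hw1 hwH b hb hbw
    refine mem_conj.2 (hmax (y := H ⊔ zpowers (g⁻¹ * b * g)) ⟨sup_le hHR (zpowers_le.2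
      (mul_mem (mul_mem (inv_mem hg) hb) hg)), fun e => hw1 ?_⟩ le_sup_left
      (mem_sup_right (mem_zpowers _)))
    have h1 : g⁻¹ * w * g ∈ V ⊓ 𝐂(H ⊔ zpowers (g⁻¹ * b * g)) := by
      rw [cent_sup, cent_zpowers]
      refine ⟨H1.conj_mem_of_le_normalizer' hRV hg hw, mem_conj.1 (cent_conj H g ▸ hwH),
        mem_cent1.2 ?_⟩
      calc _ = g⁻¹ * (b * w) * g := by group
        _ = _ := by rw [hbw.eq]; group
    rw [e, mem_bot] at h1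
    simpa [mul_assoc, inv_mul_eq_one] using h1
  have hZH : ∀ x ∈ Z, x ∈ H → x = 1 := fun x hx hx' => mem_bot.1
    (((inf_eq_bot_or_le_of_card_prime (hZ ▸ hp) H).resolve_right fun e => hH (eq_bot_iff.2
      ((inf_le_inf_left _ (cent_anti e)).trans h0.le))).le (mem_inf.2 ⟨hx, hx'⟩))
  have hcm : ∀ g ∈ R, ∀ x ∈ H, g * x * g⁻¹ ∈ H → g * x = x * g := fun g hg x hx h =>
    commutatorElement_eq_one_iff_mul_comm.1 (hZH _ (hc g hg x (hHR hx)) (mul_mem h (inv_mem hx)))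
  have hHH : H ≤ 𝐂(H) := fun g hg => mem_cent.2 fun x hx =>
    (hcm g (hHR hg) x hx (mul_mem (mul_mem hg hx) (inv_mem hg))).symm
  have hZC : Z ≤ 𝐂(H) := cent_comm.1 (hHR.trans hRZ)
  have hgR : ∀ g ∈ R, H ^ᵍ g ≤ R := fun g hg => conj_le_of_mem hHR hg
  obtain ⟨v₁, hv₁, hv1⟩ := (bot_or_exists_ne_one _).resolve_left hH
  have hbZ : ∀ g ∈ R, ∀ b ∈ H ^ᵍ g, b ∈ 𝐂(R) → b = 1 := fun g hg b hb hbc => by
    by_contra h1
    obtain ⟨z, hz, hz1⟩ := (bot_or_exists_ne_one _).resolve_left (ne_bot_of_card_prime (hZ ▸ hp))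
    have h2 := mem_conj.1 (zpowers_le.2 hb (hcen b (hgR g hg hb) hbc h1 hz))
    rw [mul_assoc, mem_cent.1 (hRZ hg) z hz, inv_mul_cancel_left] at h2
    exact hz1 (hZH z hz h2)
  by_cases hRH : R ≤ 𝐂(H)
  · refine ⟨v₁, hv₁.1, fun b hb hbv => ?_⟩
    have h1 := hst 1 (one_mem R) v₁ hv₁.1 hv1 (by rw [conj_one]; exact hv₁.2) b hb hbv
    exact hbZ 1 (one_mem R) b h1 (cent_comm.1 hRH (by rwa [conj_one] at h1))
  have hnL : ∀ b ∈ R ⊓ 𝐂(H), ∀ g ∈ R, g⁻¹ * b * g ∈ R ⊓ 𝐂(H) := fun b hb g hg => by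
    have := mul_mem (le_inf hZR hZC (hc _ (inv_mem hg) b hb.1)) hb
    exact (congrArg (· ∈ R ⊓ 𝐂(H)) (by simp only [commutatorElement_def]; group)).mp this
  have hC : ∀ g ∈ R, g ∉ R ⊓ 𝐂(H) → V ⊓ 𝐂(H) ≤ ⁅V, H ^ᵍ g⁆ := fun g hg hgL => by
    refine le_comm_of hp hq pq hV (hR.to_le (hgR g hg)) ((hgR g hg).trans hRV) ?_ ?_
    · rintro _ ⟨x, hx, rfl⟩
      have := mul_mem (hZC (hc g hg x (hHR hx))) (hHH hx)
      exact (congrArg (· ∈ 𝐂(H)) (by simp [commutatorElement_def])).mp this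
    · by_contra hne
      obtain ⟨w, hw, hw1⟩ := (bot_or_exists_ne_one _).resolve_left hne
      refine hgL ⟨hg, mem_cent.2 fun x hx => (hcm g hg x hx ?_).symm⟩
      have := hst 1 (one_mem R) w hw.1.1 hw1 (by rw [conj_one]; exact hw.1.2) _
        (hgR g hg (conj_mem_conj hx g)) (mem_cent.1 hw.2 _ (conj_mem_conj hx g))
      rwa [conj_one] at this
  have hW0 : Wb V R H (R ⊓ 𝐂(H)) ∅ = ⊥ := Wb_empty hRV irr fun e => hv1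
    (eq_one_of hp hq pq hV (hR.to_le hHR) (hHR.trans hRV) hv₁.2 (e hv₁.1))
  have hv₁W : v₁ ∈ Wb V R H (R ⊓ 𝐂(H)) {((1 : G) : G ⧸ _)} :=
    mem_Wb_one hv₁.1 fun g hg hn => hC g hg hn hv₁
  let T : Finset (G ⧸ (R ⊓ 𝐂(H))) :=
    (Set.toFinite {t : G ⧸ (R ⊓ 𝐂(H)) | t.out ∈ R ∧ t ≠ ((1 : G) : G ⧸ _)}).toFinset
  have hT : ∀ t, t ∈ T ↔ t.out ∈ R ∧ t ≠ ((1 : G) : G ⧸ _) := fun t => Set.Finite.mem_toFinset _
  have hT' : ∀ g ∈ R, g ∉ R ⊓ 𝐂(H) → (g : G ⧸ (R ⊓ 𝐂(H))) ∈ T := fun g hg hn => (hT _).2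
    ⟨out_mem inf_le_left hg, fun e => hn (by simpa using QuotientGroup.eq.1 e.symm)⟩
  obtain ⟨v, hv, hvw⟩ := ex_prod hV.1 (fun t => t.out * v₁ * t.out⁻¹) T
    fun t ht => out_mem_Wb hRV ((hT t).1 ht).1 hv₁W
  have hw1 : ∀ t : G ⧸ (R ⊓ 𝐂(H)), t.out * v₁ * t.out⁻¹ ≠ 1 := fun t => by simpa using hv1
  have hwC : ∀ g : G, (g : G ⧸ (R ⊓ 𝐂(H))).out * v₁ * (g : G ⧸ (R ⊓ 𝐂(H))).out⁻¹ ∈ 𝐂(H ^ᵍ g) :=
    fun g => by
      obtain ⟨l, hl⟩ := QuotientGroup.mk_out_eq_mul (R ⊓ 𝐂(H)) g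
      have := conj_mem_conj (mul_mem (mul_mem l.2.2 hv₁.2) (inv_mem l.2.2)) g
      rw [hl, cent_conj]
      exact (congrArg (· ∈ 𝐂(H) ^ᵍ g) (by group)).mp this
  refine ⟨v, hv.1, fun b hb hbv => ?_⟩
  have hbL : b ∈ R ⊓ 𝐂(H) := by
    by_contra hn
    have h1 := conj_mem_conj ((mem_Wb.1 hv).2 1 (one_mem R) fun e => ((hT _).1 e).2 rfl) b
    rw [conj_comm, conj_conj, mul_one, conj_eq_of_mem_norm (hRV hb), hbv.eq,
      mul_inv_cancel_right] at h1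
    have h2 := (mem_Wb.1 (hvw _ (hT' b hb hn))).2 b hb fun e => e rfl
    have h3 := mul_mem (inv_mem h2) h1
    rw [mul_inv_rev, inv_inv, inv_mul_cancel_right] at h3
    exact hw1 _ (eq_one_of hp hq pq hV (hR.to_le (hgR b hb)) ((hgR b hb).trans hRV) (hwC b) h3)
  have hbH : ∀ g ∈ R, g ∉ R ⊓ 𝐂(H) → g⁻¹ * b * g ∈ H := fun g hg hn => by
    have h1 := out_mem_Wb hRV ((hT _).1 (hT' g hg hn)).1 hv₁W
    exact mem_conj.1 (hst g hg _ h1.1 (hw1 _) (hwC g) b hb (fix_comp hRV hW0 hb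
      (fun g hg => QuotientGroup.eq.2 (by simpa [mul_assoc] using hnL b hbL g hg)) h1
      (hvw _ (hT' g hg hn)) hbv))
  obtain ⟨g, hg, hgH⟩ := SetLike.not_le_iff_exists.1 hRH
  have hg' := hbH g hg fun e => hgH e.2
  refine hbZ g hg b (mem_conj.2 hg') (mem_cent.2 fun x hx => ?_)
  by_cases hxL : x ∈ R ⊓ 𝐂(H)
  · have := mem_cent.1 (hnL x hxL g hg).2 _ hg'
    calc x * b = g * (g⁻¹ * x * g * (g⁻¹ * b * g)) * g⁻¹ := by group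
      _ = _ := by rw [← this]; group
  have h1 := hbH x hx hxL
  have h2 := hbH (x ^ 2) (pow_mem hx 2) fun e => hxL (zpowers_le.2 e (mem_zpowers_pow_iff.2 (by
    obtain ⟨k, hk⟩ := exists_card_eq_pow hp hR
    exact Nat.Coprime.coprime_dvd_right (hk ▸ orderOf_dvd_card_of_mem hx)
      (((Nat.coprime_primes Nat.prime_two hp).2 hp2.symm).pow_right k))))
  have h3 := hcm x⁻¹ (inv_mem hx) _ h1 ((congrArg (· ∈ H) (by rw [sq]; group)).mp h2)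
  calc x * b = x * x * (x⁻¹ * b * x * x⁻¹) := by group
    _ = _ := by rw [← h3]; group

theorem regular (hp2 : p ≠ 2) {R Z : Subgroup G} (hR : IsPGroup p R) (hRV : R ≤ 𝐍(V)) (hV1 : V ≠ ⊥)
    (hZ : 𝐨(Z) = p) (hZR : Z ≤ R) (hRZ : R ≤ 𝐂(Z)) (hc : ∀ x ∈ R, ∀ y ∈ R, ⁅x, y⁆ ∈ Z)
    (h0 : V ⊓ 𝐂(Z) = ⊥) (hcen : ∀ b ∈ R, b ∈ 𝐂(R) → b ≠ 1 → Z ≤ zpowers b) :
    ∃ v ∈ V, ∀ b ∈ R, Commute b v → b = 1 := by
  obtain ⟨U, hU, hU1, hRU, irr⟩ := exists_minimal_invariant hRV hV1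
  obtain ⟨v, hv, h⟩ := regular_irr hp hq pq (elemAb_of_le hU hV) hp2 hR hRU irr hU1 hZ hZR hRZ hc
    (eq_bot_iff.2 ((inf_le_inf_right _ hU).trans h0.le)) hcen
  exact ⟨v, hU hv, h⟩

end

end Cfsg.Agent.H2.Cov
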