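/-
P. Hall's theorem on p-groups of symplectic type.
-/
import Cfsg.Agent.FT.BG04

set_option autoImplicit false

namespace Cfsg.Agent.H2.Sympl

open Subgroup Cfsg Cfsg.Agent Cfsg.Agent.FT Cfsg.Agent.FT.BG04
open scoped commutatorElement

universe u

variable {G : Type u} [Group G] [Finite G] {p : ℕ}

theorem isExtraspecial_of (hp : p.Prime) (hG : IsPGroup p G) (hc : 𝐨(center G) = p)
    (hna : ¬ IsMulCommutative G) (h1 : ∀ x y : G, x * y * x⁻¹ * y⁻¹ ∈ center G)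
    (h2 : ∀ x : G, x ^ p ∈ center G) : IsExtraspecial p G := by
  haveI := Fact.mk hp
  have a := H3.frattini_le_of_forall hp h1 h2
  have b := H3.commutator_le_frattini hG
  have c : _root_.commutator G = center G := by
    have hd := Subgroup.card_dvd_of_le (b.trans a)
    rw [hc] at hd
    rcases (Nat.dvd_prime hp).1 hd with h | h
    · exact absurd ((_root_.commutator_eq_bot_iff G).1 (card_eq_one.1 h)) hna
    · exact eq_of_le_of_card_ge (b.trans a) (by rw [hc, h])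
  exact ⟨⟨hG, le_antisymm a (c ▸ b), c⟩, hc⟩

theorem isExtraspecial_sub (hp : p.Prime) (hG : IsPGroup p G) {E Z : Subgroup G} (hc : 𝐨(Z) = p)
    (hZ : E ⊓ 𝐂(E) = Z) (hne : E ≠ Z) (h1 : ∀ x ∈ E, ∀ y ∈ E, ⁅x, y⁆ ∈ Z)
    (h2 : ∀ x ∈ E, x ^ p ∈ Z) : IsExtraspecial p E := by
  have hm : ∀ x : E, x ∈ center E ↔ (x : G) ∈ Z := by
    intro x
    rw [← hZ, Subgroup.mem_center_iff, mem_inf, mem_centralizer_iff]
    exact ⟨fun h => ⟨x.2, fun y hy => congrArg Subtype.val (h ⟨y, hy⟩)⟩,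
      fun h y => Subtype.ext (h.2 y y.2)⟩
  have hZE : Z ≤ E := hZ ▸ inf_le_left
  refine isExtraspecial_of hp (hG.to_subgroup E) ?_ (fun h => hne ?_)
    (fun x y => (hm _).2 (h1 x x.2 y y.2)) fun x => (hm _).2 (h2 x x.2)
  · have : center E = Z.subgroupOf E := by ext x; rw [hm, mem_subgroupOf]
    rw [this, Nat.card_congr (subgroupOfEquivOfLe hZE).toEquiv, hc]
  · rw [← hZ]
    exact (inf_eq_left.2 (le_centralizer_iff_isMulCommutative.2 h)).symm

/-- The preimage of `Ω₁(Z(G/Z))`. -/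
def W (p : ℕ) (Z : Subgroup G) [Z.Normal] : Subgroup G :=
  (H3.omegaOfComm (center (G ⧸ Z)) inferInstance p).comap (QuotientGroup.mk' Z)

omit [Finite G] in
theorem mem_W {Z : Subgroup G} [Z.Normal] {x : G} :
    x ∈ W p Z ↔ (∀ g : G, ⁅x, g⁆ ∈ Z) ∧ x ^ p ∈ Z := by
  unfold W
  rw [mem_comap, H3.mem_omegaOfComm, ← map_pow, QuotientGroup.mk'_apply, QuotientGroup.mk'_apply,
    QuotientGroup.eq_one_iff, Subgroup.mem_center_iff]
  refine and_congr_left fun _ => ⟨fun h g => ?_, fun h g => ?_⟩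
  · rw [← QuotientGroup.eq_one_iff]
    have := h (g : G ⧸ Z)
    show ⁅(x : G ⧸ Z), (g : G ⧸ Z)⁆ = 1
    exact commutatorElement_eq_one_iff_mul_comm.2 this.symm
  · obtain ⟨g, rfl⟩ := QuotientGroup.mk_surjective g
    have := (QuotientGroup.eq_one_iff _).2 (h g)
    exact (commutatorElement_eq_one_iff_mul_comm.1
      (show ⁅(x : G ⧸ Z), (g : G ⧸ Z)⁆ = 1 from this)).symm

omit [Finite G] in
theorem W_char (Z : Subgroup G) [hZ : Z.Characteristic] : (W p Z).Characteristic := by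
  refine characteristic_iff_le_comap.2 fun φ x hx => ?_
  have hφ := characteristic_iff_le_comap.1 hZ φ
  rw [mem_comap, mem_W]
  obtain ⟨h1, h2⟩ := mem_W.1 hx
  refine ⟨fun g => ?_, ?_⟩
  · have := mem_comap.1 (hφ (h1 (φ.symm g)))
    rw [map_commutatorElement] at this
    simpa using this
  · have := mem_comap.1 (hφ h2)
    rwa [map_pow] at this

theorem hall (hp : p.Prime) (hG : IsPGroup p G)
    (hsymp : ∀ A : Subgroup G, A.Characteristic → IsMulCommutative A → IsCyclic A) :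
    ∃ E R : Subgroup G, (∀ e ∈ E, ∀ r ∈ R, e * r = r * e) ∧ E ⊔ R = ⊤ ∧
      (E = ⊥ ∨ IsExtraspecial p ↥E) ∧ (IsCyclic R ∨ (p = 2 ∧ 16 ≤ Nat.card R ∧
        ((∃ m : ℕ, Nonempty (↥R ≃* DihedralGroup m)) ∨
          (∃ m : ℕ, Nonempty (↥R ≃* QuaternionGroup m)) ∨ IsQuasiDihedral ↥R))) := by
  haveI := Fact.mk hp
  by_cases hG1 : Nat.card G = 1
  · haveI := (Nat.card_eq_one_iff_unique.1 hG1).1
    exact ⟨⊥, ⊤, fun e _ r _ => Subsingleton.elim _ _, bot_sup_eq _, Or.inl rfl,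
      Or.inl isCyclic_of_subsingleton⟩
  have hZc : IsCyclic (center G) := hsymp _ inferInstance inferInstance
  obtain ⟨Z, hZ⟩ : ∃ Z, Z = omegaOne p (center G) := ⟨_, rfl⟩
  haveI : Z.Characteristic := hZ ▸ H3.omegaOne_characteristic p _
  have hZle : Z ≤ center G := hZ ▸ omegaOne_le p _
  have hZmem : ∀ z ∈ center G, z ^ p = 1 → z ∈ Z := fun z h1 h2 => hZ ▸ mem_omegaOne h1 h2
  have hZcard : 𝐨(Z) = p := by
    rw [hZ]
    refine card_omegaOne_of_isCyclic hp hZc ?_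
    haveI := hG.isNilpotent
    obtain ⟨z, -, hz, ho⟩ := H3.exists_central_orderOf_eq_prime hG ⊤ (fun h => hG1 (by
      rw [← card_top, h, card_bot]))
    rw [← ho]
    exact (center G).orderOf_dvd_natCard hz
  have hZp : ∀ z ∈ Z, z ^ p = 1 := fun z hz => by
    rw [← hZcard]; exact orderOf_dvd_iff_pow_eq_one.1 (Z.orderOf_dvd_natCard hz)
  haveI := W_char (p := p) Z
  obtain ⟨V, hV⟩ : ∃ V, V = W p Z := ⟨_, rfl⟩
  have hmem : ∀ x, x ∈ V ↔ (∀ g : G, ⁅x, g⁆ ∈ Z) ∧ x ^ p ∈ Z := fun x => hV ▸ mem_W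
  haveI : V.Characteristic := hV ▸ inferInstance
  have hZV : Z ≤ V := fun z hz => (hmem z).2 ⟨fun g => by
    rw [commutatorElement_eq_one_iff_mul_comm.2 (Subgroup.mem_center_iff.1 (hZle hz) g).symm]
    exact one_mem Z, pow_mem hz p⟩
  have hZcent : ∀ K : Subgroup G, Z ≤ 𝐂(K) := fun K => hZle.trans (center_le_centralizer _)
  have hY : IsCyclic ↥(V ⊓ 𝐂(V)) := hsymp _ inferInstance
    (le_centralizer_iff_isMulCommutative.1 (inf_le_right.trans (centralizer_le inf_le_left)))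
  have hel : IsElementaryAbelian p (V.map (QuotientGroup.mk' Z)) := by
    refine elemAb_of_le (B := H3.omegaOfComm (center (G ⧸ Z)) inferInstance p)
      (by rw [hV]; exact map_comap_le _ _) ⟨?_, fun a ha => (H3.mem_omegaOfComm.1 ha).2⟩
    exact H3.isMulCommutative_of_forall fun a ha b _ =>
      (Subgroup.mem_center_iff.1 (H3.mem_omegaOfComm.1 ha).1 b).symm
  obtain ⟨C, hC⟩ := exists_compl_of_elemAb hp hel (map_mono (inf_le_left : V ⊓ 𝐂(V) ≤ V))
  obtain ⟨E, hE⟩ : ∃ E, E = C.comap (QuotientGroup.mk' Z) := ⟨_, rfl⟩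
  have hker : (QuotientGroup.mk' Z).ker = Z := QuotientGroup.ker_mk' Z
  have hZE : Z ≤ E := by rw [hE]; exact hker.ge.trans (ker_le_comap _ _)
  have hsup : V ⊓ 𝐂(V) ⊔ E = V := by
    have := congrArg (comap (QuotientGroup.mk' Z)) hC.sup
    rw [← comap_sup_eq _ _ _ (QuotientGroup.mk'_surjective Z), comap_map_eq, comap_map_eq, hker,
      ← hE, sup_eq_left.2 hZV, sup_eq_left.2 (le_inf hZV (hZcent V))] at this
    exact this
  have hEV : E ≤ V := hsup ▸ le_sup_right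
  have hinf : V ⊓ 𝐂(V) ⊓ E ≤ Z := by
    intro x hx
    have : QuotientGroup.mk' Z x ∈ (V ⊓ 𝐂(V)).map (QuotientGroup.mk' Z) ⊓ C :=
      mem_inf.2 ⟨mem_map_of_mem _ (mem_inf.1 hx).1, by
        have := (mem_inf.1 hx).2
        rwa [hE] at this⟩
    rw [hC.disj, mem_bot, QuotientGroup.mk'_apply, QuotientGroup.eq_one_iff] at this
    exact this
  have hcE : ∀ x ∈ 𝐂(E), x ∈ V → x ∈ V ⊓ 𝐂(V) := by
    intro x hx hxV
    obtain ⟨y, hy, e, he, rfl⟩ := mem_sup_of_normal_left.1 (hsup.ge hxV)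
    refine mul_mem hy (mem_inf.2 ⟨hEV he, ?_⟩)
    have h1 : e ∈ 𝐂(E) :=
      (Subgroup.mul_mem_cancel_left _ (centralizer_le hEV (mem_inf.1 hy).2)).1 hx
    have h2 : V ≤ 𝐂[e] := by
      rw [← hsup]
      refine sup_le (fun v hv => ?_) fun v hv => ?_
      · exact mem_centralizer_singleton_iff.2
          (mem_centralizer_iff.1 (mem_inf.1 hv).2 e (hEV he)).symm
      · exact mem_centralizer_singleton_iff.2 (mem_centralizer_iff.1 h1 v hv)
    exact mem_centralizer_iff.2 fun v hv => mem_centralizer_singleton_iff.1 (h2 hv)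
  have hZE' : E ⊓ 𝐂(E) = Z := le_antisymm (fun x hx => hinf (mem_inf.2
    ⟨hcE x (mem_inf.1 hx).2 (hEV (mem_inf.1 hx).1), (mem_inf.1 hx).1⟩)) (le_inf hZE (hZcent E))
  have hEG : ⁅E, (⊤ : Subgroup G)⁆ ≤ Z :=
    commutator_le.2 fun x hx g _ => ((hmem x).1 (hEV hx)).1 g
  haveI hEn : E.Normal := commutator_top_right_le_iff.1 (hEG.trans hZE)
  have hcp := cprod_of_card_comm_le hp (hG.to_subgroup ⊤) (le_top : E ≤ ⊤)
    (hZcard ▸ card_le_of_le hEG) (hZE' ▸ hZcent ⊤) (by rw [normalizer_eq_top_iff.2 hEn])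
  rw [top_inf_eq] at hcp
  obtain ⟨R, hR⟩ : ∃ R, R = 𝐂(E) := ⟨_, rfl⟩
  have htop : E ⊔ R = ⊤ := hR ▸ hcp.sup
  have hER : ∀ e ∈ E, ∀ r ∈ R, e * r = r * e := fun e he r hr =>
    mem_centralizer_iff.1 (hR ▸ hr) e he
  have hZR : Z ≤ R := hR ▸ hZcent E
  have hcomm : ∀ x ∈ R, (∀ r ∈ R, ⁅x, r⁆ ∈ Z) → ∀ g, ⁅x, g⁆ ∈ Z := by
    intro x hx h g
    obtain ⟨e, he, r, hr, rfl⟩ := mem_sup_of_normal_left.1 (htop ▸ mem_top g : g ∈ E ⊔ R)
    rw [hER e he r hr, comm_mul_right_of_commute (hER e he x hx)]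
    exact h r hr
  have hRc : ∀ A : Subgroup R, A.Normal → IsMulCommutative A → IsCyclic A := by
    intro A hA hab
    by_contra hnc
    obtain ⟨U, hU, -, hUe, hUc⟩ := H3.exists_normal_elementary_sq_le (hG.to_subgroup R) A hab hnc
    obtain ⟨z, hzU, hzc, hzo⟩ := H3.exists_central_orderOf_eq_prime (hG.to_subgroup R) U
      (fun h => by rw [h, card_bot] at hUc; have := hp.one_lt; nlinarith)
    have hzp : (z : G) ^ p = 1 := by
      rw [← hzo, ← Subgroup.orderOf_coe, pow_orderOf_eq_one]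
    have hzZ : (z : G) ∈ Z := by
      refine hZmem z (Subgroup.mem_center_iff.2 fun g => ?_) hzp
      obtain ⟨e, he, r, hr, rfl⟩ := mem_sup_of_normal_left.1 (htop ▸ mem_top g : g ∈ E ⊔ R)
      have := congrArg Subtype.val (Subgroup.mem_center_iff.1 hzc ⟨r, hr⟩)
      exact Commute.mul_left (hER e he z z.2) this
    haveI := H3.zpowers_normal_of_mem_center hzc
    have hlt : zpowers z < U := lt_of_le_of_ne (zpowers_le.2 hzU) fun h => by
      rw [← h, Nat.card_zpowers, hzo] at hUc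
      have := hp.one_lt; nlinarith
    obtain ⟨K, -, -, hKU, hK, hc⟩ := H3.exists_normal_card_eq_mul (hG.to_subgroup R) hlt
    have : K = U := eq_of_le_of_card_ge hKU (by rw [hK, hUc, Nat.card_zpowers, hzo, sq])
    subst this
    have hle : K.map R.subtype ≤ V ⊓ 𝐂(V) := by
      rintro _ ⟨k, hk, rfl⟩
      have hkp : (k : G) ^ p = 1 := congrArg Subtype.val (hUe.2 k hk)
      refine hcE _ (hR ▸ k.2) ((hmem _).2 ⟨hcomm _ k.2 fun r hr => ?_, ?_⟩)
      · obtain ⟨i, hi⟩ := mem_zpowers_iff.1 (hc k hk ⟨r, hr⟩)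
        have h3 : ⁅(k : G), r⁆ = (z : G) ^ i := (congrArg Subtype.val hi).symm
        exact h3 ▸ zpow_mem hzZ i
      · exact (show (k : G) ^ p ∈ Z from hkp ▸ one_mem Z)
    have h1 : IsCyclic (K.map R.subtype) := isCyclic_of_le hle
    have h2 : IsCyclic K := (K.equivMapOfInjective R.subtype R.subtype_injective).isCyclic.2 h1
    exact H3.not_isCyclic_of_isElementaryAbelian hp hUe
      (by rw [hUc]; have := hp.one_lt; nlinarith) h2
  have hfin : IsCyclic R ∨ (p = 2 ∧ 16 ≤ Nat.card R ∧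
      ((∃ m : ℕ, Nonempty (↥R ≃* DihedralGroup m)) ∨
        (∃ m : ℕ, Nonempty (↥R ≃* QuaternionGroup m)) ∨ IsQuasiDihedral ↥R)) := by
    by_cases hcy : IsCyclic R
    · exact Or.inl hcy
    rcases H3.isCyclic_or_of_normal_abelian_cyclic (hG.to_subgroup R) hRc with h | ⟨h2, n, hn, hc, h⟩
    · exact Or.inl h
    refine Or.inr ⟨h2, ?_, h.imp (fun h => ⟨_, h⟩) (Or.imp_left fun h => ⟨_, h⟩)⟩
    by_contra h16
    have hn2 : n = 2 := by
      by_contra h3
      have : 2 ^ 4 ≤ 2 ^ (n + 1) := Nat.pow_le_pow_right (by norm_num) (by omega)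
      omega
    have hna : ¬ IsMulCommutative R := fun hab => hcy
      (topEquiv.isCyclic.1 (hRc ⊤ inferInstance inferInstance))
    obtain ⟨h4, h5⟩ := center_of_card_cube hp (S := R) (by rw [hc, hn2, h2]) hna
    have h6 : Z = ⁅R, R⁆ :=
      eq_of_le_of_card_ge (h5 ▸ le_inf hZR (hZcent R)) (by rw [h4, hZcard])
    have h7 : ∀ x ∈ R, ∀ r ∈ R, ⁅x, r⁆ ∈ Z := fun x hx r hr =>
      h6 ▸ commutator_mem_commutator hx hr
    have h8 : R ≤ V ⊓ 𝐂(V) := fun x hx => by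
      refine hcE x (hR ▸ hx) ((hmem x).2 ⟨hcomm x hx (h7 x hx), ?_⟩)
      rw [h6, ← h5]
      refine mem_inf.2 ⟨pow_mem hx p, mem_centralizer_iff.2 fun r hr => ?_⟩
      apply commutatorElement_eq_one_iff_mul_comm.1
      rw [comm_pow_right_of_commute (Subgroup.mem_center_iff.1 (hZle (h7 r hr x hx)) x),
        hZp _ (h7 r hr x hx)]
    exact hcy (isCyclic_of_le h8)
  by_cases hEZ : E = Z
  · refine ⟨⊥, R, fun e he r _ => by rw [mem_bot.1 he, one_mul, mul_one], ?_, Or.inl rfl, hfin⟩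
    rw [bot_sup_eq, ← htop, hEZ, sup_eq_right.2 hZR]
  · exact ⟨E, R, hER, htop, Or.inr (isExtraspecial_sub hp hG hZcard hZE' hEZ
      (fun x hx y _ => ((hmem x).1 (hEV hx)).1 y) fun x hx => ((hmem x).1 (hEV hx)).2), hfin⟩

end Cfsg.Agent.H2.Sympl
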