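import Cfsg.Agent.H2.Cov1
import Cfsg.Agent.H2.Four3
import Cfsg.Agent.H2.Sympl
import Cfsg.Agent.FT.B.helper1_Sec

/-! A `q`-group is not covered by the fixed points of the conjugates of a `p`-element, `p` odd. -/

set_option autoImplicit false
set_option linter.unusedSectionVars false

namespace Cfsg.Agent.H2.Cov

open Subgroup Cfsg Cfsg.Agent Cfsg.Agent.FT
open scoped commutatorElement

universe u

variable {G : Type u} [Group G] [Finite G] {p q : ℕ}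

theorem comm_of_sympl (hp : p.Prime) (hp2 : p ≠ 2) (hG : IsPGroup p G)
    (h : ∀ A : Subgroup G, A.Characteristic → IsMulCommutative A → IsCyclic A) (x y : G) :
    ⁅x, y⁆ ∈ center G ∧ ⁅x, y⁆ ^ p = 1 := by
  obtain ⟨E, R, h1, h2, h3, h4⟩ := Sympl.hall hp hG h
  have hR := isMulComm_iff_le_cent.1 (isMulComm_of_isCyclic (h4.resolve_right fun e => hp2 e.1))
  have hRE : R ≤ 𝐂(E) := fun r hr => mem_cent.2 fun e he => h1 e he r hr
  have hRc : ∀ r ∈ R, ∀ g, g * r = r * g := fun r hr g =>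
    mem_cent.1 (show r ∈ 𝐂(E ⊔ R) by rw [cent_sup]; exact ⟨hRE hr, hR hr⟩) g (h2 ▸ mem_top g)
  have hd : ∀ g : G, ∃ e ∈ E, ∃ r ∈ R, e * r = g := fun g =>
    (mem_sup_of_norm (hRE.trans (cent_le_norm E))).1 (h2 ▸ mem_top g)
  obtain ⟨a, ha, r, hr, rfl⟩ := hd x
  obtain ⟨b, hb, s, hs, rfl⟩ := hd y
  have h5 : ⁅a * r, b * s⁆ = ⁅a, b⁆ := by
    simp only [commutatorElement_def, mul_inv_rev]
    calc _ = a * (r * (b * s) * r⁻¹) * a⁻¹ * s⁻¹ * b⁻¹ := by group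
      _ = a * b * (s * a⁻¹) * s⁻¹ * b⁻¹ := by rw [← hRc r hr]; group
      _ = _ := by rw [← hRc s hs]; group
  rw [h5]
  rcases h3 with rfl | h3
  · rw [mem_bot.1 ha]; simp
  have h6 : ⁅(⟨a, ha⟩ : E), (⟨b, hb⟩ : E)⁆ ∈ center E :=
    h3.1.2.2 ▸ commutator_mem_commutator (mem_top _) (mem_top _)
  refine ⟨mem_center_iff.2 fun g => ?_, ?_⟩
  · obtain ⟨c, hc, t, ht, rfl⟩ := hd g
    have h7 : c * ⁅a, b⁆ = ⁅a, b⁆ * c := congrArg Subtype.val (mem_center_iff.1 h6 ⟨c, hc⟩)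
    rw [mul_assoc, ← hRc t ht, ← mul_assoc, h7, mul_assoc]
  · have := orderOf_dvd_card_of_mem h6
    rw [h3.2] at this
    exact congrArg Subtype.val (orderOf_dvd_iff_pow_eq_one.1 this)

/-- Some vector is fixed by no conjugate of `a`. -/
def Good (V M : Subgroup G) (a : G) : Prop := ∃ v ∈ V, ∀ m ∈ M, ¬ Commute (m * a * m⁻¹) v

theorem good_faithful (hp : p.Prime) (hq : q.Prime) (pq : p ≠ q) (hp2 : p ≠ 2) {V M R : Subgroup G}
    {a : G} (hV : IsElementaryAbelian q V) (hM : M ≤ 𝐍(V)) (hRM : R ⊲ M) (hR : IsPGroup p R)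
    (ha : a ∈ R) (haV : a ∉ 𝐂(V)) (hf : R ⊓ 𝐂(V) = ⊥)
    (ih : ∀ (W L S : Subgroup G) (b : G), W < V → L ≤ 𝐍(W) → S ⊲ L → IsPGroup p S → b ∈ S →
      b ∉ 𝐂(W) → Good W L b) : Good V M a := by
  classical
  by_cases h1 : ∃ W : Subgroup G, W < V ∧ M ≤ 𝐍(W) ∧ a ∉ 𝐂(W)
  · obtain ⟨W, hW, hMW, haW⟩ := h1
    obtain ⟨v, hv, h⟩ := ih W M R a hW hMW hRM hR ha haW
    exact ⟨v, hW.le hv, h⟩
  push Not at h1
  have hRV := hRM.1.trans hM
  have hKR : H2.nclIn M (zpowers a) ≤ R := H2.nclIn_le_of_normal (zpowers_le.2 ha) hRM.2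
  have hK := hR.to_le hKR
  have hcop := Four.cop hp hq pq hK (elemAb_isPGroup hV)
  have hKV := hKR.trans hRV
  have hKW : ∀ W : Subgroup G, W < V → M ≤ 𝐍(W) → W ≤ 𝐂(H2.nclIn M (zpowers a)) := fun W h hW =>
    cent_comm.1 (H2.nclIn_le_of_normal (zpowers_le.2 (h1 W h hW)) (H1.le_normalizer_centralizer hW))
  have hVK : V ≤ ⁅V, H2.nclIn M (zpowers a)⁆ := by
    by_contra hn
    refine haV (cent_comm.1 (comm_eq_bot_iff.1 (H1.commutator_eq_bot_of_commutator_commutator_eq_bot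
      hKV hcop (comm_eq_bot_iff.2 (hKW _ ?_ ?_)))) (H2.le_nclIn M _ (mem_zpowers a)))
    · exact lt_of_le_of_ne (H1.commutator_le_of_le_normalizer hKV) fun e => hn e.ge
    · exact H1.le_normalizer_commutator hM (H2.le_normalizer_nclIn M _)
  have hK0 : ∀ x ∈ V, x ∈ 𝐂(H2.nclIn M (zpowers a)) → x = 1 := fun x hx h =>
    eq_one_of hp hq pq hV hK hKV h (hVK hx)
  have irr : ∀ W : Subgroup G, W ≤ V → M ≤ 𝐍(W) → W = ⊥ ∨ W = V := fun W h hW =>
    (eq_or_lt_of_le h).symm.imp_left fun h' => eq_bot_iff.2 fun x hx =>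
      mem_bot.2 (hK0 x (h hx) (hKW W h' hW hx))
  have hfp : ∀ N : Subgroup G, N ≤ R → M ≤ 𝐍(N) → N ≠ ⊥ → V ⊓ 𝐂(N) = ⊥ := fun N h hN h0 =>
    (irr _ inf_le_left (H1.le_normalizer_inf hM (H1.le_normalizer_centralizer hN))).resolve_right
      fun e => h0 (eq_bot_iff.2 ((le_inf h (cent_comm.1 (e.ge.trans inf_le_right))).trans hf.le))
  have hV1 : V ≠ ⊥ := fun e => haV (by rw [e, cent_bot]; exact mem_top a)
  have ha1 : a ≠ 1 := fun e => haV (e ▸ one_mem _)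
  have hconj : ∀ m ∈ M, m * a * m⁻¹ ∈ R := fun m hm => H1.conj_mem_of_le_normalizer hRM.2 hm ha
  by_cases hA : ∃ E : Subgroup G, E ≤ R ∧ M ≤ 𝐍(E) ∧ IsMulCommutative E ∧ ¬ IsCyclic E
  swap
  · push Not at hA
    have hR1 : R ≠ ⊥ := fun e => ha1 (mem_bot.1 (e ▸ ha))
    have hZc : IsCyclic ↥𝐙(R) := hA _ inf_le_left (hRM.2.trans (norm_le_norm_center R))
      (isMulComm_center R)
    have hZp : IsPGroup p ↥𝐙(R) := hR.to_le inf_le_left
    obtain ⟨Z, hZ, hZR, hN, hZu⟩ := Four.ex_unique hp hZp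
      (center_ne_bot (isNilpotent_of_isPGroup hp hR) hR1) fun E hE _ => isCyclic_of_le hE hZc
    have hZ1 := ne_bot_of_card_prime (hZ ▸ hp)
    obtain ⟨v, hv, h⟩ := regular hp hq pq hV hp2 hR hRV hV1 hZ (hZR.trans inf_le_left)
      (cent_comm.1 (hZR.trans inf_le_right)) (fun x hx y hy => by
        obtain ⟨h2, h3⟩ := comm_of_sympl hp hp2 hR (fun A hA1 hA2 => (isCyclic_map_iff
          R.subtype_injective).1 (hA _ (map_subtype_le A) (H1.le_normalizer_map_subtype_of_characteristic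
            hRM.2 A) ((isMulComm_map_iff R.subtype_injective).2 hA2))) ⟨x, hx⟩ ⟨y, hy⟩
        exact hZu _ (map_subtype_center R ▸ mem_map_of_mem R.subtype h2) (congrArg Subtype.val h3))
      (hfp Z (hZR.trans inf_le_left) ((hRM.2.trans (norm_le_norm_center R)).trans hN) hZ1)
      fun b hb hbc hb1 => (inf_eq_bot_or_le_of_card_prime (hZ ▸ hp) _).resolve_left
        (inf_ne_bot_of_isCyclic hp hZc hZp hZR (zpowers_le.2 (mem_inf.2 ⟨hb, hbc⟩)) hZ1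
          (zpowers_ne_bot.2 hb1))
    exact ⟨v, hv, fun m hm hc => ha1 (by simpa using h _ (hconj m hm) hc)⟩
  obtain ⟨E, hER, hME, hE, hnc⟩ := hA
  obtain ⟨e, he, he1, heV⟩ := H1.exists_centralizer_ne_bot hE hnc (hER.trans hRV)
    (Four.cop hp hq pq (hR.to_le hER) (elemAb_isPGroup hV)) hV1
  obtain ⟨H, heH, ⟨hHE, hH⟩, hmax⟩ := Finite.exists_le_maximal
    (p := fun H : Subgroup G => H ≤ E ∧ V ⊓ 𝐂(H) ≠ ⊥) (a := zpowers e)
    ⟨zpowers_le.2 he, by rwa [cent_zpowers]⟩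
  obtain ⟨L, hNL, hLM, hLmax⟩ := H2.exists_covBy_of_lt (A := M ⊓ 𝐍(H)) (H := M)
    (lt_of_le_of_ne inf_le_left fun e => hH (hfp H (hHE.trans hER) (e.ge.trans inf_le_right)
      fun e => he1 (mem_bot.1 (e.le (heH (mem_zpowers _))))))
  have hgE : ∀ g ∈ M, H ^ᵍ g ≤ E := fun g hg => conj_le_of_mem_norm hHE (hME hg)
  have hgp : ∀ g ∈ M, IsPGroup p ↥(H ^ᵍ g) := fun g hg => hR.to_le ((hgE g hg).trans hER)
  have hgV : ∀ g ∈ M, H ^ᵍ g ≤ 𝐍(V) := fun g hg => ((hgE g hg).trans hER).trans hRV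
  have hC : ∀ g ∈ M, g ∉ L → V ⊓ 𝐂(H) ≤ ⁅V, H ^ᵍ g⁆ := fun g hg hgL => by
    refine le_comm_of hp hq pq hV (hgp g hg) (hgV g hg)
      (((hgE g hg).trans (isMulComm_iff_le_cent.1 hE)).trans (cent_anti hHE)) ?_
    by_contra hne
    exact hgL (hNL ⟨hg, mem_norm_of_conj_le (le_sup_right.trans (hmax (y := H ⊔ H ^ᵍ g)
      ⟨sup_le hHE (hgE g hg), by rwa [cent_sup, ← inf_assoc]⟩ le_sup_left))⟩)
  obtain ⟨v₁, hv₁, hv1⟩ := (bot_or_exists_ne_one _).resolve_left hH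
  have hvg : ∀ g ∈ M, g * v₁ * g⁻¹ ∉ ⁅V, H ^ᵍ g⁆ := fun g hg h => hv1 (by
    simpa using eq_one_of hp hq pq hV (hgp g hg) (hgV g hg)
      (cent_conj H g ▸ conj_mem_conj hv₁.2 g) h)
  by_cases hc : ∃ m ∈ M, m * a * m⁻¹ ∈ L
  swap
  · refine ⟨v₁, hv₁.1, fun m hm h => ?_⟩
    have h2 := hRM.1 (hconj m hm)
    refine hvg _ h2 ?_
    rw [h.eq, mul_inv_cancel_right]
    exact hC _ h2 (fun e => hc ⟨m, hm, e⟩) hv₁
  obtain ⟨m₁, hm₁, hc⟩ := hc
  have hL0 : L ≤ 𝐍(R ⊓ L) := H1.le_normalizer_inf (hLM.le.trans hRM.2) (le_norm_self L)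
  have hM0 : M ≤ 𝐍(R ⊓ L) := by
    by_cases h2 : R ≤ L
    · rw [inf_eq_left.2 h2]; exact hRM.2
    have h3 := lt_inf_norm_of_isNilpotent (isNilpotent_of_isPGroup hp hR)
      (lt_of_le_of_ne (inf_le_left (a := R) (b := L)) fun e => h2 (e.ge.trans inf_le_right))
    by_contra hn
    have h4 := hLmax (M ⊓ 𝐍(R ⊓ L)) (le_inf hLM.le hL0)
      (lt_of_le_of_ne inf_le_left fun e => hn (e.ge.trans inf_le_right))
    exact h3.not_ge (le_inf inf_le_left ((inf_le_inf_right _ hRM.1).trans h4.le))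
  have hall : ∀ m ∈ M, m * a * m⁻¹ ∈ R ⊓ L := fun m hm => by
    have := H1.conj_mem_of_le_normalizer hM0 (mul_mem hm (inv_mem hm₁))
      (mem_inf.2 ⟨hconj m₁ hm₁, hc⟩)
    exact (congrArg (· ∈ R ⊓ L) (by group)).mp this
  have hW0 : Wb V M H L ∅ = ⊥ := Wb_empty hM irr fun e => hvg 1 (one_mem M) (by
    rw [conj_one, one_mul, inv_one, mul_one]; exact e hv₁.1)
  have hv₁W : v₁ ∈ Wb V M H L {((1 : G) : G ⧸ _)} :=
    mem_Wb_one hv₁.1 fun g hg hn => hC g hg hn hv₁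
  obtain ⟨m₀, hm₀, hm0⟩ : ∃ m ∈ M, m * a * m⁻¹ ∉ 𝐂(Wb V M H L {((1 : G) : G ⧸ _)}) := by
    by_contra hn
    push Not at hn
    refine hv1 (hK0 _ hv₁.1 (cent_comm.1 (H2.nclIn_le_iff.2 fun m hm => ?_) hv₁W))
    exact (zpowers_conj a m).ge.trans (zpowers_le.2 (hn m hm))
  obtain ⟨g₀, hg₀, hg0⟩ := SetLike.not_le_iff_exists.1 hLM.not_ge
  obtain ⟨w, hw, hgood⟩ := ih (Wb V M H L {((1 : G) : G ⧸ _)}) L (R ⊓ L) _
    (lt_of_le_of_ne inf_le_left fun e => hvg g₀ hg₀ ((mem_Wb.1 (e.ge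
      (H1.conj_mem_of_le_normalizer hM hg₀ hv₁.1))).2 g₀ hg₀
        fun e => hg0 (by simpa using QuotientGroup.eq.1 (Set.mem_singleton_iff.1 e).symm)))
    (fun l hl => mem_norm_of_conj_le (by
      rintro _ ⟨x, hx, rfl⟩
      refine Wb_conj hM (hLM.le hl) hx fun g _ h e => h ?_
      have := mul_mem hl (QuotientGroup.eq.1 (Set.mem_singleton_iff.1 e).symm)
      exact (QuotientGroup.eq.2 (by simpa using this)).symm))
    ⟨inf_le_right, hL0⟩ (hR.to_le inf_le_left) (hall m₀ hm₀) hm0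
  let T : Finset (G ⧸ L) := (Set.toFinite {t : G ⧸ L | t.out ∈ M}).toFinset
  have hT : ∀ t, t ∈ T ↔ t.out ∈ M := fun t => Set.Finite.mem_toFinset _
  obtain ⟨v, hv, hvw⟩ := ex_prod hV.1 (fun t => t.out * w * t.out⁻¹) T
    fun t ht => out_mem_Wb hM ((hT t).1 ht) hw
  refine ⟨v, hv.1, fun m hm h => ?_⟩
  have h2 := out_mem hLM.le (mul_mem hm (inv_mem hm₀))
  have h3 := fix_comp hM hW0 (hRM.1 (hconj m hm)) (fun g hg => QuotientGroup.eq.2 (by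
    simpa [mul_assoc] using (H1.conj_mem_of_le_normalizer' hM0 hg (hall m hm)).2))
    (out_mem_Wb hM h2 hw) (hvw _ ((hT _).2 h2)) h
  obtain ⟨l, hl⟩ := QuotientGroup.mk_out_eq_mul L (m * m₀⁻¹)
  rw [hl] at h3
  refine hgood l⁻¹ (inv_mem l.2) ?_
  have h4 := h3.map (MulAut.conj (m * m₀⁻¹ * l)⁻¹)
  simp only [MulAut.conj_apply] at h4
  convert h4 using 1 <;> group

theorem good (hp : p.Prime) (hq : q.Prime) (pq : p ≠ q) (hp2 : p ≠ 2) (n : ℕ) :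
    ∀ (G : Type u) [Group G] [Finite G] (V M R : Subgroup G) (a : G), 𝐨(V) = n →
      IsElementaryAbelian q V → M ≤ 𝐍(V) → R ⊲ M → IsPGroup p R → a ∈ R → a ∉ 𝐂(V) →
        Good V M a := by
  induction n using Nat.strong_induction_on with
  | _ n ih =>
  intro G _ _ V M R a hn hV hM hRM hR ha haV
  have hY : V ⊔ M ≤ 𝐍(R ⊓ 𝐂(V)) := sup_le ((cent_comm.1 inf_le_right).trans (cent_le_norm _))
    (H1.le_normalizer_inf hRM.2 (H1.le_normalizer_centralizer hM))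
  haveI := H1.normal_subgroupOf_of_le hY
  have hd : R ⊓ 𝐂(V) ⊓ V = ⊥ := H1.inf_eq_bot_of_coprime'
    (Four.cop hp hq pq (hR.to_le inf_le_left) (elemAb_isPGroup hV))
  have hRY : R ≤ V ⊔ M := hRM.1.trans le_sup_right
  have hc : ∀ r : ↥(V ⊔ M), (r : G) ∈ R → H1.qmk _ (R ⊓ 𝐂(V)) r ∈ 𝐂(H1.bar (V ⊔ M) (R ⊓ 𝐂(V)) V) →
      (r : G) ∈ 𝐂(V) := fun r hr h => mem_cent.2 fun k hk =>
    (commutatorElement_eq_one_iff_mul_comm.1 (mem_bot.1 (hd.le (mem_inf.2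
      ⟨(H1.qmk_mem_centralizer_bar_iff le_sup_left).1 h k hk, comm_le_right_iff.2 (hRM.1.trans hM)
        (commutator_mem_commutator hr hk)⟩)))).symm
  have hV' : IsElementaryAbelian q (H1.bar (V ⊔ M) (R ⊓ 𝐂(V)) V) := (elemAb_bar_iff le_sup_left).2
    ⟨(isMulComm_iff_comm_eq_bot.1 hV.1).le.trans bot_le, fun x hx => hV.2 x hx ▸ one_mem _⟩
  obtain ⟨_, ⟨v, hv, rfl⟩, h⟩ := good_faithful hp hq pq hp2 hV' (H1.bar_le_normalizer hM)
    (bar_normal hRM) (H1.isPGroup_bar hR) (H1.qmk_mem_bar (y := ⟨a, hRY ha⟩) ha)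
    (fun e => haV (hc _ ha e))
    (eq_bot_iff.2 (by
      rintro _ ⟨⟨r, hr, rfl⟩, h⟩
      exact mem_bot.2 (H1.qmk_eq_one_iff.2 ⟨hr, hc r hr h⟩)))
    fun W L S b hW hL hS hSp hb hbW => ih _ (by
      rw [← hn, ← card_bar_of_disj (Y := V ⊔ M) le_sup_left hd]; exact H1.card_lt_of_lt hW)
      _ W L S b rfl (elemAb_of_le hW.le hV') hL hS hSp hb hbW
  refine ⟨v, hv, fun m hm hc => h _ (H1.qmk_mem_bar (y := ⟨m, mem_sup_right hm⟩) hm) ?_⟩
  have h1 : Commute ((⟨m, mem_sup_right hm⟩ : ↥(V ⊔ M)) * ⟨a, hRY ha⟩ * ⟨m, mem_sup_right hm⟩⁻¹) v :=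
    Subtype.ext hc
  simpa only [map_mul, map_inv] using h1.map (H1.qmk _ (R ⊓ 𝐂(V)))

theorem mem_pCore (hp : p.Prime) (hp2 : p ≠ 2) (G : Type u) [Group G] [Finite G] :
    Group.IsSolvable G → ∀ a : G, IsPGroup p (zpowers a) →
      (∀ c : G, ∃ g : G, IsConj c g ∧ IsPGroup p ↥(zpowers a ⊔ zpowers (g * a * g⁻¹))) →
        a ∈ pCore p G := by
  refine Agent.L.induction_on_card (P := fun (G : Type u) _ _ => Group.IsSolvable G → ∀ a : G,
    IsPGroup p (zpowers a) →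
      (∀ c : G, ∃ g : G, IsConj c g ∧ IsPGroup p ↥(zpowers a ⊔ zpowers (g * a * g⁻¹))) →
        a ∈ pCore p G) G ?_
  intro G _ _ ih hG a ha h
  rcases subsingleton_or_nontrivial G with hs | hs
  · exact Subsingleton.elim 1 a ▸ one_mem _
  obtain ⟨V, q, hVm, hq, hV⟩ := Agent.L.exists_isMinNormal_isElementaryAbelian (G := G)
  haveI := hVm.1
  have h1 : a ∈ (pCore p (G ⧸ V)).comap (QuotientGroup.mk' V) :=
    ih (G ⧸ V) (Agent.L.card_quotient_lt V hVm.2.1) inferInstance _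
    (by rw [← MonoidHom.map_zpowers]; exact ha.map _) fun c => by
      obtain ⟨c, rfl⟩ := QuotientGroup.mk'_surjective V c
      obtain ⟨g, hg, h2⟩ := h c
      refine ⟨_, (QuotientGroup.mk' V).map_isConj hg, ?_⟩
      have := h2.map (QuotientGroup.mk' V)
      rwa [Subgroup.map_sup, MonoidHom.map_zpowers, MonoidHom.map_zpowers, map_mul, map_mul,
        map_inv] at this
  by_cases pq : p = q
  · subst pq
    rwa [Agent.L.comap_pCore_quotient hp (elemAb_isPGroup hV)] at h1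
  set T := (pCore p (G ⧸ V)).comap (QuotientGroup.mk' V) with hT
  have hTn : T ⊲ ⊤ := ⟨le_top, normal_iff_top_le.1 inferInstance⟩
  obtain ⟨R, hR, haR⟩ := exists_isSyl_ge hp ha (zpowers_le.2 h1)
  have hVn : ⊤ ≤ 𝐍(V) := normal_iff_top_le.1 inferInstance
  have hVT : V ≤ T := fun v hv => by
    rw [hT, mem_comap, QuotientGroup.mk'_apply, (QuotientGroup.eq_one_iff v).2 hv]; exact one_mem _
  have hVR : V ⊔ R = T := by
    obtain ⟨k, hk⟩ := exists_card_eq_pow hq (elemAb_isPGroup hV)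
    obtain ⟨j, hj⟩ := exists_card_eq_pow hp (Agent.L.isPGroup_pCore (G := G ⧸ V) p)
    refine le_antisymm (sup_le hVT hR.le) (le_of_forall_exists_isSyl_le fun t ht hd => ?_)
    rw [hT, Agent.L.card_comap_mk', hj, hk] at hd
    rcases (Nat.Prime.dvd_mul ht).1 hd with e | e
    · obtain rfl := (Nat.prime_dvd_prime_iff_eq ht hp).1 (ht.dvd_of_dvd_pow e)
      exact ⟨R, hR, le_sup_right⟩
    · obtain rfl := (Nat.prime_dvd_prime_iff_eq ht hq).1 (ht.dvd_of_dvd_pow e)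
      refine ⟨V, ⟨hVT, elemAb_isPGroup hV, fun e => pq ?_⟩, le_sup_left⟩
      have h2 := H1.card_mul_relIndex hVT
      rw [hT, Agent.L.card_comap_mk', mul_comm, hj] at h2
      rw [← hT] at h2
      rw [Nat.eq_of_mul_eq_mul_right Nat.card_pos h2] at e
      exact ((Nat.prime_dvd_prime_iff_eq ht hp).1 (ht.dvd_of_dvd_pow e)).symm
  have hVM : V ⊔ 𝐍(R) = ⊤ := by
    rw [eq_top_iff, ← hR.frattini hp hTn, ← hVR]
    exact sup_le (sup_le le_sup_left ((le_norm_self R).trans le_sup_right))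
      (inf_le_right.trans le_sup_right)
  have ha' := haR (mem_zpowers a)
  by_cases haV : a ∈ 𝐂(V)
  · refine Agent.L.le_pCore (N := R ⊓ 𝐂(V)) (normal_iff_top_le.2 ?_) (hR.pgrp.to_le inf_le_left)
      ⟨ha', haV⟩
    rw [← hVM]
    exact sup_le ((cent_comm.1 inf_le_right).trans (cent_le_norm _))
      (H1.le_normalizer_inf le_rfl (H1.le_normalizer_centralizer (le_top.trans hVn)))
  obtain ⟨v, hv, hgood⟩ := good hp hq pq hp2 _ G V 𝐍(R) R a rfl hV (le_top.trans hVn)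
    ⟨le_norm_self R, le_rfl⟩ hR.pgrp ha' haV
  obtain ⟨g, hg, h2⟩ := h v
  obtain ⟨x, rfl⟩ := isConj_iff.1 hg
  obtain ⟨m, hm, u, hu, rfl⟩ := (mem_sup_of_norm' (le_top.trans hVn)).1 (hVM ▸ mem_top x)
  have h3 : m * u * v * (m * u)⁻¹ = m * v * m⁻¹ := by
    rw [mul_assoc m, mem_cent.1 (isMulComm_iff_le_cent.1 hV.1 hv) u hu]; group
  rw [h3] at h2
  have h4 : ⁅a, m * v * m⁻¹⁆ = 1 := mem_bot.1 ((H1.inf_eq_bot_of_coprime'
    (Four.cop hp hq pq h2 (elemAb_isPGroup hV))).le (mem_inf.2 ⟨(congrArg (· ∈ _) (by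
      simp only [commutatorElement_def]; group)).mp (mul_mem (mem_sup_left (mem_zpowers a))
        (inv_mem (mem_sup_right (mem_zpowers _)))), comm_le_right_iff.2 hVn
          (commutator_mem_commutator (mem_top a) (hVm.1.conj_mem v hv m))⟩))
  have h5 := (commutatorElement_eq_one_iff_commute.1 h4).map (MulAut.conj m⁻¹)
  simp only [MulAut.conj_apply] at h5
  exact (hgood m⁻¹ (inv_mem hm) (by convert h5 using 1; group)).elim

end Cfsg.Agent.H2.Cov
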