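/-
A refinement of the Hall-Petrescu formula (the leading terms of the coefficients), the
`(p-1)`-Engel congruence in groups of exponent `p`, and the power structure of `p`-groups of
maximal class.
-/
import Cfsg.Agent.H7.HallPetrescu
import Cfsg.Agent.H7.AssocLie
import Cfsg.Agent.H2.MaxClass3
import Cfsg.Agent.H3.Modular

set_option autoImplicit false

namespace Cfsg.Agent.H2.Engel

open Subgroup Cfsg Cfsg.Agent Cfsg.Agent.H7
open scoped commutatorElement

section Poly

variable {G : Type*} [Group G] {F : ℕ → Subgroup G}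

/-- Polynomial sequences. -/
def PS (h : IsFiltration F) (i : ℕ) : Subgroup (ℕ → G) := ⨅ K, (polySeq h K).1 i

theorem mem_PS {h : IsFiltration F} {i : ℕ} {f : ℕ → G} :
    f ∈ PS h i ↔ ∀ K, f ∈ (polySeq h K).1 i := mem_iInf

theorem PS_filt (h : IsFiltration F) : IsFiltration (PS h) where
  anti := fun _ _ hij _ hf => mem_PS.2 fun K => (polySeq h K).2.anti hij (mem_PS.1 hf K)
  comm := fun _ _ => commutator_le.2 fun _ ha _ hb => mem_PS.2 fun K =>
    (polySeq h K).2.comm_mem (mem_PS.1 ha K) (mem_PS.1 hb K) le_rfl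

/-- The difference operator. -/
def Dl (f : ℕ → G) : ℕ → G := fun n => (f n)⁻¹ * f (n + 1)

theorem Dl_mem {h : IsFiltration F} {i : ℕ} {f : ℕ → G} (hf : f ∈ PS h i) : Dl f ∈ PS h (i + 1) :=
  mem_PS.2 fun K => ((mem_polySeq_succ h K i f).1 (mem_PS.1 hf (K + 1))).2

theorem apply_mem {h : IsFiltration F} {i : ℕ} {f : ℕ → G} (hf : f ∈ PS h i) (n : ℕ) :
    f n ∈ F i := mem_of_mem_polySeq h 0 i f (mem_PS.1 hf 0) n

theorem mem_of_Dl {h : IsFiltration F} {i : ℕ} {f : ℕ → G} (h0 : f 0 ∈ F i)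
    (hf : Dl f ∈ PS h (i + 1)) : f ∈ PS h i := by
  refine mem_PS.2 fun K => ?_
  induction K with
  | zero =>
    refine (mem_polySeq_zero h i f).2 fun n => ?_
    induction n with
    | zero => exact h0
    | succ n ih =>
      have := mul_mem ih (h.anti (Nat.le_succ i) (apply_mem hf n))
      rwa [Dl, mul_inv_cancel_left] at this
  | succ K ih => exact (mem_polySeq_succ h K i f).2 ⟨ih, mem_PS.1 hf K⟩

theorem iter_mem {h : IsFiltration F} {i : ℕ} {f : ℕ → G} (hf : f ∈ PS h i) (k : ℕ) :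
    Dl^[k] f ∈ PS h (i + k) := by
  induction k with
  | zero => exact hf
  | succ k ih => rw [Function.iterate_succ_apply']; exact Dl_mem ih

theorem pow_choose_mem {h : IsFiltration F} {i k : ℕ} {c : G} (hc : c ∈ F (i + k)) :
    (fun n : ℕ => c ^ n.choose k) ∈ PS h i :=
  mem_PS.2 fun K => pow_choose_mem_polySeq h K i k c hc

theorem const_mem {h : IsFiltration F} {i : ℕ} {c : G} (hc : c ∈ F i) :
    (fun _ : ℕ => c) ∈ PS h i := by
  simpa using pow_choose_mem (h := h) (i := i) (k := 0) hc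

theorem pow_mem' {h : IsFiltration F} {i : ℕ} {c : G} (hc : c ∈ F (i + 1)) :
    (fun n : ℕ => c ^ n) ∈ PS h i := by
  simpa using pow_choose_mem (h := h) (i := i) (k := 1) hc

theorem Dl_mul (f g : ℕ → G) : Dl (f * g) = g⁻¹ * Dl f * g * Dl g := by
  funext n
  simp only [Dl, Pi.mul_apply, Pi.inv_apply]
  group

theorem Dl_step {h : IsFiltration F} {j : ℕ} (hj : 1 ≤ j) {a b r : ℕ → G} (ha : a ∈ PS h j)
    (hb : b ∈ PS h j) (hr : r ∈ PS h (j + 1)) :
    (Dl a * Dl b)⁻¹ * Dl (a * b * r) ∈ PS h (j + 2) := by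
  have P := PS_filt h
  have hA := Dl_mem ha
  have hB := Dl_mem hb
  have h1 : ⁅(Dl a)⁻¹, b⁻¹⁆ ∈ PS h (j + 2) := P.comm_mem (inv_mem hA) (inv_mem hb) (by omega)
  have hW : Dl (a * b) ∈ PS h (j + 1) := Dl_mem (mul_mem ha hb)
  have h2 : ⁅(Dl (a * b))⁻¹, r⁻¹⁆ ∈ PS h (j + 2) := P.comm_mem (inv_mem hW) (inv_mem hr) (by omega)
  have := mul_mem (mul_mem (P.conj_mem' h1 hB) h2) (Dl_mem hr)
  refine (congrArg (· ∈ PS h (j + 2)) ?_).mp this
  rw [Dl_mul (a * b) r, Dl_mul a b]
  simp only [commutatorElement_def]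
  group

theorem iter_mul {h : IsFiltration F} {i : ℕ} (hi : 1 ≤ i) {f g : ℕ → G} (hf : f ∈ PS h i)
    (hg : g ∈ PS h i) (k : ℕ) :
    (Dl^[k] f * Dl^[k] g)⁻¹ * Dl^[k] (f * g) ∈ PS h (i + k + 1) := by
  induction k with
  | zero => simp
  | succ k ih =>
    have := Dl_step (by omega) (iter_mem hf k) (iter_mem hg k) ih
    rw [mul_inv_cancel_left] at this
    simp only [Function.iterate_succ_apply']
    exact this

theorem iter_congr (k : ℕ) : ∀ (f g : ℕ → G), (∀ n ≤ k, f n = g n) → Dl^[k] f 0 = Dl^[k] g 0 := by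
  induction k with
  | zero => intro f g h; exact h 0 le_rfl
  | succ k ih =>
    intro f g h
    rw [Function.iterate_succ_apply, Function.iterate_succ_apply]
    exact ih _ _ fun n hn => by rw [Dl, Dl, h n (by omega), h (n + 1) (by omega)]

theorem Dl_choose (c : G) (k : ℕ) :
    Dl (fun n : ℕ => c ^ n.choose (k + 1)) = fun n : ℕ => c ^ n.choose k := by
  funext n
  rw [Dl, Nat.choose_succ_succ', add_comm, pow_add]; group

theorem iter_choose_self (c : G) (k : ℕ) : Dl^[k] (fun n : ℕ => c ^ n.choose k) = fun _ => c := by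
  induction k with
  | zero => simp
  | succ k ih => rw [Function.iterate_succ_apply, Dl_choose, ih]

theorem iter_choose_lt (c : G) {j k : ℕ} (h : j < k) :
    Dl^[k] (fun n : ℕ => c ^ n.choose j) = 1 := by
  obtain ⟨d, rfl⟩ := Nat.exists_eq_add_of_lt h
  rw [show j + d + 1 = d + (1 + j) by ring, Function.iterate_add_apply, Function.iterate_add_apply,
    iter_choose_self]
  have : Dl^[1] (fun _ : ℕ => c) = 1 := by funext n; simp [Dl]
  rw [this]
  exact Function.iterate_fixed (by funext n; simp [Dl]) d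

theorem taylorCoeff_lead {h : IsFiltration F} {i : ℕ} (hi : 1 ≤ i) {f : ℕ → G} (hf : f ∈ PS h i)
    (k : ℕ) : (taylorCoeff f k)⁻¹ * Dl^[k] f 0 ∈ F (i + k + 1) := by
  obtain ⟨c, hc⟩ : ∃ c, c = taylorCoeff f := ⟨_, rfl⟩
  have hm : ∀ j, c j ∈ F (i + j) := fun j => hc ▸ taylorCoeff_mem h i f (mem_PS.1 hf) j
  have hT : ∀ m, (fun n => taylorProd c m n) ∈ PS h i := fun m =>
    mem_PS.2 fun K => taylorProd_mem_polySeq h K i c m fun j _ => hm j
  have hs : ∀ m, (fun n => taylorProd c (m + 1) n) =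
      (fun n => taylorProd c m n) * fun n => c m ^ n.choose m := fun m => by
    funext n; simp [taylorProd_succ]
  have h1 : ∀ m ≤ k, Dl^[k] (fun n => taylorProd c m n) 0 ∈ F (i + k + 1) := by
    intro m hmk
    induction m with
    | zero =>
      have : Dl^[k] (fun n => taylorProd c 0 n) = 1 :=
        Function.iterate_fixed (by funext n; simp [Dl, taylorProd_zero]) k
      rw [this]; exact one_mem _
    | succ m ih =>
      have := apply_mem (iter_mul hi (hT m) (pow_choose_mem (hm m)) k) 0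
      rw [iter_choose_lt _ (show m < k by omega), mul_one, ← hs] at this
      exact (Subgroup.mul_mem_cancel_left _ (inv_mem (ih (by omega)))).1 this
  have h2 := apply_mem (iter_mul hi (hT k) (pow_choose_mem (hm k)) k) 0
  rw [iter_choose_self, ← hs] at h2
  rw [← hc, iter_congr k f (fun n => taylorProd c (k + 1) n) fun n hn => by
    rw [taylorProd_of_lt _ _ _ (Nat.lt_succ_of_le hn), hc, ← taylor_expand]]
  have := mul_mem (h.conj_mem' (h1 k le_rfl) (hm k)) h2
  refine (congrArg (· ∈ F (i + k + 1)) ?_).mp this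
  simp only [Pi.mul_apply, Pi.inv_apply]
  group

/-- `v⁻¹ v^x`. -/
def cm (x v : G) : G := v⁻¹ * x⁻¹ * v * x

theorem cm_eq (x v : G) : cm x v = ⁅v⁻¹, x⁻¹⁆ := by simp [cm, commutatorElement_def]

theorem iter_conj (x : G) (k : ℕ) : ∀ v : G, Dl^[k] (fun n : ℕ => (x ^ n)⁻¹ * v * x ^ n) =
    fun n : ℕ => (x ^ n)⁻¹ * (cm x)^[k] v * x ^ n := by
  induction k with
  | zero => intro v; rfl
  | succ k ih =>
    intro v
    rw [Function.iterate_succ_apply, Function.iterate_succ_apply, ← ih]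
    congr 1
    funext n
    simp only [Dl, cm, pow_succ']
    group

/-- The Hall-Petrescu formula with leading terms. -/
theorem hp_lead (h : IsFiltration F) {i : ℕ} (hi : 1 ≤ i) {x u : G} (hx : x ∈ F 1)
    (hu : u ∈ F (i + 1)) :
    ∃ c : ℕ → G, c 0 = 1 ∧ c 1 = u ∧ (∀ k, c k ∈ F (i + k)) ∧
      (∀ k, (c (k + 1))⁻¹ * (cm x)^[k] u ∈ F (i + k + 2)) ∧
      ∀ n, ((x * u⁻¹) ^ n)⁻¹ * x ^ n = taylorProd c (n + 1) n := by
  obtain ⟨g, hg⟩ : ∃ g : ℕ → G, g = fun n => ((x * u⁻¹) ^ n)⁻¹ * x ^ n := ⟨_, rfl⟩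
  have hD : Dl g = fun n : ℕ => (x ^ n)⁻¹ * u * x ^ n := by
    funext n
    rw [hg]
    simp only [Dl]
    rw [pow_succ (x * u⁻¹), pow_succ' x]
    have := (Commute.self_pow (x * u⁻¹) n).eq
    calc (((x * u⁻¹) ^ n)⁻¹ * x ^ n)⁻¹ * (((x * u⁻¹) ^ n * (x * u⁻¹))⁻¹ * (x * x ^ n))
        = (x ^ n)⁻¹ * ((x * u⁻¹) ^ n * (x * u⁻¹ * (x * u⁻¹) ^ n)⁻¹) * (x * x ^ n) := by
          rw [this]; simp only [mul_inv_rev, inv_inv, mul_assoc]
      _ = _ := by simp only [mul_inv_rev, inv_inv, mul_assoc, mul_inv_cancel_left,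
          inv_mul_cancel_left]
  have hgm : g ∈ PS h i := by
    refine mem_of_Dl (by rw [hg]; simp) ?_
    rw [hD]
    exact (PS_filt h).conj_mem' (const_mem hu) (pow_mem' (i := 0) hx)
  refine ⟨taylorCoeff g, ?_, ?_, taylorCoeff_mem h i g (mem_PS.1 hgm), fun k => ?_, fun n => ?_⟩
  · rw [taylorCoeff_eq, hg]; simp [taylorProd]
  · rw [taylorCoeff_eq, taylorProd_succ, taylorCoeff_eq, hg]; simp [taylorProd]
  · have := taylorCoeff_lead hi hgm (k + 1)
    rw [Function.iterate_succ_apply, hD, iter_conj] at this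
    simp only [pow_zero, inv_one, one_mul, mul_one] at this
    exact this
  · rw [← taylor_expand, hg]

theorem half_filt (h : IsFiltration F) : IsFiltration fun i => F ((i + 1) / 2) where
  anti := fun _ _ hij => h.anti (by omega)
  comm := fun i j => (h.comm _ _).trans (h.anti (by omega))

end Poly

section Exp

variable {G : Type*} [Group G] {p : ℕ}

theorem iter_cm_mem (x y : G) (k : ℕ) : (cm x)^[k] y ∈ lcs G k := by
  induction k with
  | zero => exact mem_top y
  | succ k ih =>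
    rw [Function.iterate_succ_apply', cm_eq]
    exact commutator_mem_lcs_succ (inv_mem ih) _

theorem cls_cm {k : ℕ} (x : G) {v : G} (hv : v ∈ lcs G k) :
    AssocLie.cls (k + 1) (cm x v) = ⁅AssocLie.cls k v, AssocLie.cls 0 x⁆ := by
  rw [cm_eq, ← AssocLie.lie_cls (inv_mem hv) (AssocLie.mem_zero x⁻¹), AssocLie.cls_inv hv,
    AssocLie.cls_inv (AssocLie.mem_zero x), neg_lie, lie_neg, neg_neg]

theorem cls_iter_pow (x y : G) (l k : ℕ) :
    AssocLie.cls k ((cm (x ^ l))^[k] y) = l ^ k • AssocLie.cls k ((cm x)^[k] y) := by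
  induction k with
  | zero => simp
  | succ k ih =>
    rw [Function.iterate_succ_apply', Function.iterate_succ_apply', cls_cm _ (iter_cm_mem _ y k),
      cls_cm _ (iter_cm_mem _ y k), ih, AssocLie.cls_pow (AssocLie.mem_zero x), nsmul_lie, lie_nsmul,
      ← mul_nsmul', pow_succ]

/-- A group of exponent `p` and class at most `p` satisfies the `(p-1)`-Engel identity. -/
theorem engel (hp : p.Prime) (he : ∀ g : G, g ^ p = 1) (hc : lcs G p = ⊥) (x y : G) :
    (cm x)^[p - 1] y = 1 := by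
  have h := half_filt (lcs_isFiltration (⊤ : Subgroup G))
  obtain ⟨q, rfl⟩ : ∃ q, p = q + 1 := ⟨p - 1, by have := hp.pos; omega⟩
  have hq : 1 ≤ q := by have := hp.two_le; omega
  rw [Nat.add_sub_cancel]
  obtain ⟨c, h0, -, -, h3, h4⟩ := hp_lead (PS_filt h) (i := 1) le_rfl
    (x := fun l : ℕ => x ^ l) (u := fun _ => y) (pow_mem' (mem_top x)) (const_mem (mem_top y))
  have he' : ∀ g : ℕ → G, g ^ (q + 1) = 1 := fun g => funext fun n => he (g n)
  have h5 := h4 (q + 1)
  have h6 := taylorProd_eq_mul_mem c h0 (q + 1) ⊥ (q + 1) (by omega) fun k h1 h2 => by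
    obtain ⟨m, hm⟩ := hp.dvd_choose_self (k := k) (by omega) h2
    rw [hm, pow_mul, he', one_pow]; exact one_mem _
  rw [he', inv_one, one_mul, mem_bot] at h6
  rw [he', he', inv_one, one_mul, taylorProd_succ, h6, one_mul, Nat.choose_self, pow_one] at h5
  have h7 := h3 q
  rw [← h5, inv_one, one_mul] at h7
  obtain ⟨f, hf⟩ : ∃ f, f = (cm fun l : ℕ => x ^ l)^[q] fun _ => y := ⟨_, rfl⟩
  have hfa : ∀ l, f l = (cm (x ^ l))^[q] y := by
    intro l
    rw [hf]
    clear hf h7 h3 h4 h5 h6 he' hq he hc hp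
    induction q with
    | zero => rfl
    | succ q ih => rw [Function.iterate_succ_apply', Function.iterate_succ_apply', ← ih]; rfl
  rw [← hf] at h7
  obtain ⟨z, hz⟩ : ∃ z, z = (cm x)^[q] y := ⟨_, rfl⟩
  have hzm : z ∈ lcs G q := hz ▸ iter_cm_mem x y q
  have h8 : (fun _ => z⁻¹) * (f * Dl f) ∈ PS h (1 + q + 2) := by
    refine mul_mem (const_mem (inv_mem (lcs_anti ?_ hzm)))
      (mul_mem h7 ((PS_filt h).anti (Nat.le_succ _) (Dl_mem h7)))
    omega
  have h9 := first_value_mem h q _ _ (mem_PS.1 h8 q) fun n hn => by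
    simp only [Pi.mul_apply, Dl, mul_inv_cancel_left]
    have hm := iter_cm_mem (x ^ (n + 1)) y q
    have e := cls_iter_pow x y (n + 1) q
    rw [← hz, ← AssocLie.cls_pow hzm] at e
    have e2 : z ^ (n + 1) ^ q = z := by
      conv_rhs => rw [← pow_one z]
      refine pow_eq_pow_of_modEq ?_ (he z)
      have := Nat.ModEq.pow_totient (x := n + 1) (n := q + 1)
        ((Nat.coprime_of_lt_prime (by omega) (by omega) hp).symm)
      rwa [Nat.totient_prime hp, Nat.add_sub_cancel] at this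
    rw [e2] at e
    rw [hfa, ← mem_bot, ← hc]
    refine (AssocLie.cls_eq_zero_iff (mul_mem (inv_mem hzm) hm)).1 ?_
    rw [AssocLie.cls_mul (inv_mem hzm) hm, AssocLie.cls_inv hzm, e, neg_add_cancel]
  simp only [Pi.mul_apply, Dl, mul_inv_cancel_left] at h9
  have h10 : f (q + 1) = 1 := by
    rw [hfa, he]
    obtain ⟨r, rfl⟩ : ∃ r, q = r + 1 := ⟨q - 1, by omega⟩
    rw [Function.iterate_succ_apply']
    simp [cm]
  rw [h10, mul_one, show (1 + q + 2 + q + 1) / 2 - 1 = q + 1 by omega] at h9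
  rw [← hz, ← inv_eq_one, ← mem_bot, ← hc]
  exact h9

end Exp

section Max

variable {G : Type*} [Group G] [Finite G] {p n : ℕ} [hp : Fact p.Prime]

theorem iter_cm_not_mem (h : MaxClass p n G) {s : G} (hs : Unif s) (k : ℕ) {i : ℕ} (hi : 1 ≤ i)
    (hin : i + k + 2 ≤ n) {u : G} (hu : u ∈ lcs G i) (hu' : u ∉ lcs G (i + 1)) :
    (cm s⁻¹)^[k] u ∈ lcs G (i + k) ∧ (cm s⁻¹)^[k] u ∉ lcs G (i + k + 1) := by
  induction k with
  | zero => exact ⟨hu, hu'⟩
  | succ k ih =>
    obtain ⟨h1, h2⟩ := ih (by omega)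
    rw [Function.iterate_succ_apply', cm_eq, inv_inv]
    exact ⟨commutator_mem_lcs_succ (inv_mem h1) _, h.commutator_not_mem hs (i := i + k) (by omega)
      (by omega) (inv_mem h1) fun h3 => h2 (inv_mem_iff.1 h3)⟩

theorem pow_step (h : MaxClass p n G) {s : G} (hs : Unif s) {i : ℕ} (hi : 1 ≤ i)
    (ih : ∀ v ∈ lcs G (i + 1), v ^ p ∈ lcs G (i + p)) {u : G} (hu : u ∈ lcs G i) :
    u ^ p ∈ lcs G (i + (p - 1)) ∧ u ^ p * (cm s⁻¹)^[p - 1] u ∈ lcs G (i + p) := by
  have h2 := hp.out.two_le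
  obtain ⟨c, h0, h1, h3, h4, h5⟩ := hp_lead (lcs_isFiltration (⊤ : Subgroup G)) hi (x := s⁻¹)
    (u := u) (mem_top _) hu
  have h6 := taylorProd_eq_mul_mem c h0 p (lcs G (i + p)) p h2 fun k h1 h2 => by
    obtain ⟨m, hm⟩ := hp.out.dvd_choose_self (k := k) (by omega) h2
    rw [hm, pow_mul]
    exact pow_mem (ih _ (lcs_anti (by omega) (h3 k))) m
  have h7 := h5 p
  rw [← mul_inv_rev, inv_pow, inv_inv, h.mul_pow_eq hs (lcs_anti hi hu), inv_pow, mul_inv_cancel,
    taylorProd_succ, Nat.choose_self, pow_one] at h7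
  rw [h1, eq_inv_of_mul_eq_one_left h7.symm, ← mul_inv_rev, inv_mem_iff] at h6
  have h8 : c p ∈ lcs G (i + (p - 1)) := lcs_anti (by omega) (h3 p)
  have h9 := h4 (p - 1)
  rw [show p - 1 + 1 = p by omega, show i + (p - 1) + 2 - 1 = i + p by omega] at h9
  refine ⟨(Subgroup.mul_mem_cancel_left _ h8).1 (lcs_anti (by omega) h6), ?_⟩
  have := mul_mem (Normal.conj_mem inferInstance _ h6 (c p)⁻¹) h9
  refine (congrArg (· ∈ lcs G (i + p)) ?_).mp this
  group

theorem pow_mem_lcs (h : MaxClass p n G) {i : ℕ} (hi : 1 ≤ i) {u : G} (hu : u ∈ lcs G i) :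
    u ^ p ∈ lcs G (i + (p - 1)) := by
  obtain ⟨s, hs⟩ := h.exists_unif
  have h2 := hp.out.two_le
  have key : ∀ d i, 1 ≤ i → n ≤ i + d → ∀ u ∈ lcs G i, u ^ p ∈ lcs G (i + (p - 1)) := by
    intro d
    induction d with
    | zero =>
      intro i _ hn u hu
      rw [h.lcs_eq_bot (by omega), mem_bot] at hu
      rw [hu, one_pow]; exact one_mem _
    | succ d ih =>
      intro i hi hn u hu
      exact (pow_step h hs hi (fun v hv => by
        have := ih (i + 1) (by omega) (by omega) v hv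
        rwa [show i + 1 + (p - 1) = i + p by omega] at this) hu).1
  exact key n i hi (by omega) u hu

theorem pow_not_mem_lcs (h : MaxClass p n G) {i : ℕ} (hi : 1 ≤ i) (hin : i + p + 1 ≤ n) {u : G}
    (hu : u ∈ lcs G i) (hu' : u ∉ lcs G (i + 1)) : u ^ p ∉ lcs G (i + p) := by
  obtain ⟨s, hs⟩ := h.exists_unif
  have h2 := hp.out.two_le
  intro h3
  have h4 := (pow_step h hs hi (fun v hv => by
    have := pow_mem_lcs h (i := i + 1) (by omega) hv
    rwa [show i + 1 + (p - 1) = i + p by omega] at this) hu).2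
  have h5 := (iter_cm_not_mem h hs (p - 1) hi (by omega) hu hu').2
  rw [show i + (p - 1) + 1 = i + p by omega] at h5
  exact h5 ((Subgroup.mul_mem_cancel_left _ h3).1 h4)

theorem exists_pow_ne_one (h : MaxClass p (p + 1) G) : ∃ g : G, g ^ p ≠ 1 := by
  by_contra he
  push Not at he
  have h2 := hp.out.two_le
  obtain ⟨s, hs⟩ := h.exists_unif
  have : ∃ y, cm s⁻¹ y ∉ lcs G 2 := by
    by_contra hn
    push Not at hn
    have h3 := h.quotient (m := 3) le_rfl (by omega)
    apply hs.1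
    rw [← map_mem_lcs_iff (QuotientGroup.mk'_surjective (lcs G 2))
      (by rw [QuotientGroup.ker_mk']; exact lcs_anti (by omega))]
    refine h3.center_le_lcs_one (Subgroup.mem_center_iff.2 fun g => ?_)
    obtain ⟨g, rfl⟩ := QuotientGroup.mk'_surjective _ g
    have := hn g⁻¹
    rw [cm_eq, inv_inv, inv_inv, ← QuotientGroup.eq_one_iff] at this
    exact commutatorElement_eq_one_iff_mul_comm.1 this
  obtain ⟨y, hy⟩ := this
  have h4 := (iter_cm_not_mem h hs (p - 2) le_rfl (by omega) (iter_cm_mem s⁻¹ y 1) hy).2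
  rw [← Function.iterate_add_apply, show p - 2 + 1 = p - 1 by omega,
    engel hp.out he (h.lcs_eq_bot le_rfl)] at h4
  exact h4 (one_mem _)

theorem card_inf_le_mul (h : MaxClass p n G) {i : ℕ} (hi : 1 ≤ i) (H : Subgroup G) :
    Nat.card ↥(lcs G i ⊓ H) ≤ p * Nat.card ↥(lcs G (i + 1) ⊓ H) := by
  have h1 := H3.card_inf_mul_relIndex (lcs G (i + 1)) (lcs G i ⊓ H)
  rw [← inf_assoc, inf_eq_left.2 (lcs_anti (Nat.le_succ i))] at h1
  have h2 := H3.card_mul_relIndex (lcs_anti (Nat.le_succ i) : lcs G (i + 1) ≤ lcs G i)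
  have h3 := h.card_lcs_le_mul hi
  have h4 : (lcs G (i + 1)).relIndex (lcs G i) ≤ p := by
    have : 0 < Nat.card (lcs G (i + 1)) := Nat.card_pos
    nlinarith
  have h5 := (relIndex_le_of_le_right (H := lcs G (i + 1)) (inf_le_left : lcs G i ⊓ H ≤ lcs G i)
    index_ne_zero_of_finite).trans h4
  rw [← h1, mul_comm]
  exact Nat.mul_le_mul_right _ h5

theorem card_inf_le (h : MaxClass p n G) (H U : Subgroup G) (hU : ∀ x ∈ H, x ^ p ∈ U) {i : ℕ}
    (hi : 1 ≤ i) :
    Nat.card ↥(lcs G i ⊓ H) ≤ p ^ (p - 1) * Nat.card ↥(lcs G (i + (p - 1)) ⊓ U) := by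
  have h2 := hp.out.two_le
  have key : ∀ d i, 1 ≤ i → n ≤ i + p + d →
      Nat.card ↥(lcs G i ⊓ H) ≤ p ^ (p - 1) * Nat.card ↥(lcs G (i + (p - 1)) ⊓ U) := by
    intro d
    induction d with
    | zero =>
      intro i hi hn
      refine (card_le_of_le inf_le_left).trans ?_
      rw [h.card_lcs hi]
      exact (Nat.pow_le_pow_right hp.out.pos (by omega)).trans
        (Nat.le_mul_of_pos_right _ Nat.card_pos)
    | succ d ih =>
      intro i hi hn
      by_cases hn' : n ≤ i + p + d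
      · exact ih i hi hn'
      have h3 := ih (i + 1) (by omega) (by omega)
      rw [show i + 1 + (p - 1) = i + p by omega] at h3
      have h4 : lcs G (i + p) ⊓ U ≤ lcs G (i + (p - 1)) ⊓ U :=
        inf_le_inf_right _ (lcs_anti (by omega))
      by_cases h5 : lcs G i ⊓ H ≤ lcs G (i + 1)
      · exact (card_le_of_le (le_inf h5 inf_le_right)).trans
          (h3.trans (Nat.mul_le_mul_left _ (card_le_of_le h4)))
      · obtain ⟨u, hu, hu'⟩ := SetLike.not_le_iff_exists.1 h5
        have h6 := mul_card_le_of_lt (h.isPGroup.to_subgroup _) (lt_of_le_of_ne h4 fun e => by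
          have : u ^ p ∈ lcs G (i + p) ⊓ U := by
            rw [e]; exact mem_inf.2 ⟨pow_mem_lcs h hi (mem_inf.1 hu).1, hU u (mem_inf.1 hu).2⟩
          exact pow_not_mem_lcs h hi (by omega) (mem_inf.1 hu).1 hu' (mem_inf.1 this).1)
        calc _ ≤ p * (p ^ (p - 1) * Nat.card ↥(lcs G (i + p) ⊓ U)) :=
              (card_inf_le_mul h hi H).trans (Nat.mul_le_mul_left _ h3)
          _ = p ^ (p - 1) * (p * Nat.card ↥(lcs G (i + p) ⊓ U)) := by ring
          _ ≤ _ := Nat.mul_le_mul_left _ h6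
  exact key n i hi (by omega)

theorem card_le_mho (h : MaxClass p n G) (hn : p + 1 ≤ n) (H : Subgroup G) :
    Nat.card H ≤ p ^ p * Nat.card (powerClosure p 1 H) := by
  have h2 := hp.out.two_le
  have hU : ∀ x ∈ H, x ^ p ∈ powerClosure p 1 H := fun x hx =>
    subset_closure ⟨x, hx, by rw [pow_one]⟩
  by_cases hH : H = ⊤
  · subst hH
    haveI : (powerClosure p 1 (⊤ : Subgroup G)).Normal := H3.powerClosure_normal p 1 ⊤
    rcases h.lcs_le_or_le (i := p - 1) (by omega) (powerClosure p 1 ⊤) with h3 | h3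
    · have h4 := card_le_of_le h3
      rw [h.card_lcs (by omega)] at h4
      rw [card_top, h.card_eq, show n = p + (n - 1 - (p - 1)) by omega, pow_add]
      exact Nat.mul_le_mul_left _ h4
    · exfalso
      obtain ⟨g, hg⟩ := exists_pow_ne_one (h.quotient (m := p + 1) (by omega) hn)
      obtain ⟨g, rfl⟩ := QuotientGroup.mk_surjective g
      apply hg
      rw [← QuotientGroup.mk_pow, QuotientGroup.eq_one_iff]
      exact lcs_anti (by omega) (h3 (hU g (mem_top g)))
  · have h3 := h.card_le_mul_of_ne_top (h.sup_lcs_one_ne_top hH)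
    have h4 := H3.card_sup_mul_card_inf H (lcs G 1)
    have h5 := card_inf_le h H _ hU le_rfl
    have h6 := card_le_of_le (inf_le_right : lcs G (1 + (p - 1)) ⊓ powerClosure p 1 H ≤ _)
    have h7 : Nat.card H ≤ p * Nat.card ↥(lcs G 1 ⊓ H) := by
      have : 0 < Nat.card (lcs G 1) := Nat.card_pos
      rw [inf_comm] at h4
      nlinarith
    calc _ ≤ p * (p ^ (p - 1) * Nat.card (powerClosure p 1 H)) :=
          h7.trans (Nat.mul_le_mul_left _ (h5.trans (Nat.mul_le_mul_left _ h6)))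
      _ = _ := by rw [← mul_assoc, ← pow_succ', show p - 1 + 1 = p by omega]

end Max

end Cfsg.Agent.H2.Engel
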