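import Cfsg.Agent.H7.FC3
import Cfsg.Agent.L.BaerSuzuki

/-! Characterization of the second Fitting subgroup: general uniqueness lemmas. -/

set_option autoImplicit false
set_option linter.unusedSectionVars false

namespace Cfsg.Agent.H2.F2

open Subgroup Cfsg Cfsg.Agent Cfsg.Agent.FT Cfsg.Agent.H7.FC
open scoped commutatorElement

universe u

variable {G : Type u} [Group G] [Finite G] {p q r : ℕ}

theorem comm_conj_eq {A U : Subgroup G} {g : G} (hA : g ∈ 𝐍(A)) (hU : g ∈ 𝐍(U)) :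
    g ∈ 𝐍(⁅U, A⁆) :=
  H1.le_normalizer_commutator (zpowers_le.2 hU) (zpowers_le.2 hA) (mem_zpowers g)

theorem comm_le_self {A U : Subgroup G} (h : A ≤ 𝐍(U)) : ⁅U, A⁆ ≤ U := comm_le_left_iff.2 h

theorem comm_sup_left {A B K M : Subgroup G} (hA : A ≤ 𝐍(M)) (hB : B ≤ 𝐍(M)) (h1 : ⁅A, K⁆ ≤ M)
    (h2 : ⁅B, K⁆ ≤ M) : ⁅A ⊔ B, K⁆ ≤ M := by
  rw [commutator_comm] at *
  exact comm_sup_le hA hB h1 h2

/-- The components of a nilpotent group `W = [W, A]`. -/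
theorem comm_pCore (hr : r.Prime) {A W : Subgroup G} (hW : Group.IsNilpotent W) (hA : A ≤ 𝐍(W))
    (h : ⁅W, A⁆ = W) : ⁅pCoreOf r W, A⁆ = pCoreOf r W := by
  have hd := dProd_pCoreOf_of_isNilpotent hr hW
  have h1 := hA.trans (H2.normalizer_le_normalizer_pCoreOf r W)
  have h2 := hA.trans (H2.normalizer_le_normalizer_pPrimeCoreOf r W)
  have h3 : H2.pPrimeCoreOf r W ≤ 𝐍(⁅pCoreOf r W, A⁆) :=
    (hd.cent.trans (cent_anti (comm_le_self h1))).trans (cent_le_norm _)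
  have h4 : ⁅pCoreOf r W ⊔ H2.pPrimeCoreOf r W, A⁆ ≤ ⁅pCoreOf r W, A⁆ ⊔ H2.pPrimeCoreOf r W :=
    comm_sup_left (H1.le_normalizer_sup (normalizer_commutator_ge_left _ _)
      (hd.symm.cent.trans (cent_le_norm _))) (le_sup_right.trans (le_norm_self _)) le_sup_left
      ((comm_le_self h2).trans le_sup_right)
  rw [hd.sup, h] at h4
  refine le_antisymm (comm_le_self h1) ?_
  have h5 := sup_inf_of_le_left h3 (comm_le_self h1)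
  rw [hd.symm.disj, sup_bot_eq] at h5
  exact (le_inf (hd.le_left.trans h4) le_rfl).trans h5.le

theorem le_of_pCore_le {W M : Subgroup G} (hW : Group.IsNilpotent W)
    (h : ∀ t : ℕ, t.Prime → pCoreOf t W ≠ ⊥ → pCoreOf t W ≤ M) : W ≤ M := by
  rw [← H2.fittingOf_eq_self hW, H2.fittingOf_eq_iSup_pCoreOf]
  refine iSup_le fun t => ?_
  by_cases h1 : pCoreOf t W = ⊥
  · exact h1.le.trans bot_le
  · exact h t t.2 h1

theorem comm_Bc {P U : Subgroup G} {b : G} (hb : b ∈ U) (hP : P ≤ 𝐍(U)) (hc : 𝐨(P).Coprime 𝐨(U))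
    (hs : Group.IsSolvable P) : ⁅Bc P b, P⁆ = Bc P b := by
  obtain ⟨c, hc, h⟩ := exists_Bc_mul hb hP hc hs
  refine le_antisymm (comm_le_self (norm_Bc P b)) (Bc_le_iff.2 fun y hy => ?_)
  have := commutator_mem_commutator (inv_mem hc) hy
  refine (congrArg (· ∈ _) ?_).mp this
  simp only [commutatorElement_def]
  calc _ = c⁻¹ * (y * (c * b)) * b⁻¹ * y⁻¹ := by group
    _ = _ := by rw [mem_cent.1 h y hy]; group

theorem comm_le_iff_Bc {P U M : Subgroup G} : ⁅U, P⁆ ≤ M ↔ ∀ b ∈ U, Bc P b ≤ M :=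
  commutator_le.trans ⟨fun h b hb => Bc_le_iff.2 (h b hb), fun h b hb => Bc_le_iff.1 (h b hb)⟩

theorem ex_Bc {P U : Subgroup G} (h : ⁅U, P⁆ ≠ ⊥) : ∃ b ∈ U, Bc P b ≠ ⊥ := by
  by_contra hn
  push Not at hn
  exact h (eq_bot_iff.2 (comm_le_iff_Bc.2 fun b hb => (hn b hb).le))

/-- Fixed points of a noncyclic abelian group in the commutator subgroup. -/
theorem cent_comm_le {E M : Subgroup G} (hE : IsMulCommutative E) (hnc : ¬ IsCyclic E)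
    (Q : Subgroup G) : Group.IsNilpotent Q → E ≤ 𝐍(Q) → 𝐨(E).Coprime 𝐨(Q) →
      (∀ e ∈ E, e ≠ 1 → ⁅Q ⊓ 𝐂[e], E⁆ ⊓ 𝐂(E) ≤ M) → ⁅Q, E⁆ ⊓ 𝐂(E) ≤ M := by
  induction Q using H1.subgroup_strong_induction with
  | h Q ih =>
  intro hQ hEQ hc h
  have ih' : ∀ J : Subgroup G, J < Q → E ≤ 𝐍(J) → ⁅J, E⁆ ⊓ 𝐂(E) ≤ M := fun J hJ hEJ =>
    ih J hJ (isNilpotent_of_le hJ.le hQ) hEJ (H1.coprime_of_le hc le_rfl hJ.le) fun e he he1 =>
      (inf_le_inf_right _ (commutator_mono (inf_le_inf_right _ hJ.le) le_rfl)).trans (h e he he1)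
  by_cases h0 : Q = ⊥
  · rw [h0, commutator_bot_left]; exact inf_le_left.trans bot_le
  obtain ⟨N, hQN, ⟨hN, hEN⟩, hmax⟩ := Finite.exists_le_maximal
    (p := fun N : Subgroup G => N < Q ∧ E ≤ 𝐍(N)) (a := ⁅Q, Q⁆)
    ⟨H1.commutator_lt_of_isSolvable (isSolvable_of_isNilpotent hQ) h0,
      H1.le_normalizer_commutator hEQ hEQ⟩
  obtain ⟨B, hBE, hB, a, ha, hBa⟩ := H1.exists_sup_zpowers_eq_of_irreducible_section hE hN.le hQN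
    hEQ hEN fun U h1 h2 h3 => (eq_or_lt_of_le h2).symm.imp_left fun h4 =>
      le_antisymm (hmax ⟨h4, h3⟩ h1) h1
  obtain ⟨e, he, he1⟩ := (bot_or_exists_ne_one B).resolve_left fun e => hnc (by
    rw [← hBa, e, bot_sup_eq]; infer_instance)
  have he' := zpowers_le.2 (hBE he)
  have hEe : E ≤ 𝐂[e] := (isMulComm_iff_le_cent.1 hE).trans (cent_le_cent1 (hBE he))
  have hJ : ⁅Q, zpowers e⁆ < Q := ((commutator_mono le_rfl (zpowers_le.2 he)).trans hB).trans_lt hN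
  have hEJ : E ≤ 𝐍(⁅Q, zpowers e⁆) := H1.le_normalizer_commutator hEQ
    ((cent_zpowers e ▸ hEe).trans (cent_le_norm _))
  have hQJ : Q ≤ 𝐍(⁅Q, zpowers e⁆) := normalizer_commutator_ge_left _ _
  have hce := H1.coprime_of_le hc he' le_rfl
  have h1 := H1.commutator_sup_centralizer (he'.trans hEQ) hce
    (Or.inr (isSolvable_of_isNilpotent hQ))
  rw [cent_zpowers] at h1
  have hEC := H1.le_normalizer_inf hEQ (hEe.trans (le_norm_self _))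
  have h2 : ⁅Q, E⁆ ≤ ⁅Q ⊓ 𝐂[e], E⁆ ⊔ ⁅Q, zpowers e⁆ := by
    conv_lhs => rw [← h1]
    exact comm_sup_left (le_sup_right.trans (le_norm_self _)) (H1.le_normalizer_sup
      (normalizer_commutator_ge_left _ _) (inf_le_left.trans hQJ))
      ((comm_le_self hEJ).trans le_sup_right) le_sup_left
  haveI := H1.normal_subgroupOf_of_le (Y := Q ⊔ E) (sup_le hQJ hEJ)
  have hA : ⁅Q ⊓ 𝐂[e], E⁆ ≤ Q := (comm_le_self hEC).trans inf_le_left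
  intro c hc'
  have hcY : c ∈ Q ⊔ E := mem_sup_left (comm_le_self hEQ hc'.1)
  have h3 := (H1.bar_inf_centralizer_bar (Y := Q ⊔ E) (N := ⁅Q, zpowers e⁆) le_sup_right
    (hA.trans le_sup_left) (normalizer_commutator_ge_right _ _) (H1.coprime_of_le hc le_rfl hA)
    (Or.inl (H1.isSolvable_of_isMulCommutative hE))).le
    (mem_inf.2 ⟨(H1.qmk_mem_bar_iff (hJ.le.trans le_sup_left) (hA.trans le_sup_left)
      (y := ⟨c, hcY⟩)).2 (h2 hc'.1), (H1.qmk_mem_centralizer_bar_iff le_sup_right).2 fun k hk => by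
        rw [commutatorElement_eq_one_iff_mul_comm.2 (mem_cent.1 hc'.2 k hk).symm]; exact one_mem _⟩)
  obtain ⟨x, hx, y, hy, hxy⟩ := (H1.mem_sup_iff_of_le_normalizer ((inf_le_left.trans hA).trans hQJ)).1
    ((H1.qmk_mem_bar_iff (hJ.le.trans le_sup_left) ((inf_le_left.trans hA).trans le_sup_left)).1 h3)
  change x * y = c at hxy
  rw [← hxy]
  refine mul_mem (h e (hBE he) he1 hx) (ih' _ hJ hEJ ⟨commutator_mono le_rfl he'
    ((H1.commutator_commutator_eq (he'.trans hEQ) hce).ge hy), ?_⟩)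
  have h4 : x⁻¹ * c ∈ 𝐂(E) := mul_mem (inv_mem (mem_inf.1 hx).2) (mem_inf.1 hc').2
  rwa [← hxy, inv_mul_cancel_left] at h4

/-- Nontrivial `q`-groups with `U = [U, A]`. -/
structure VQ (q : ℕ) (A U : Subgroup G) : Prop where
  ne : U ≠ ⊥
  pg : IsPGroup q U
  norm : A ≤ 𝐍(U)
  comm : ⁅U, A⁆ = U

theorem vq_comm (hq : q.Prime) {A U : Subgroup G} (hA : 𝐨(A).Coprime q) (hU : IsPGroup q U)
    (hn : A ≤ 𝐍(U)) (h : ⁅U, A⁆ ≠ ⊥) : VQ q A ⁅U, A⁆ :=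
  haveI := Fact.mk hq
  ⟨h, hU.to_le (comm_le_self hn), normalizer_commutator_ge_right _ _,
    H1.commutator_commutator_eq hn (H1.coprime_card_of_isPGroup hU hA)⟩

theorem VQ.conj {A U : Subgroup G} (h : VQ q A U) {g : G} (hg : g ∈ 𝐍(A)) : VQ q A (U ^ᵍ g) :=
  ⟨fun e => h.ne (conj_eq_bot_iff.1 e), h.pg.map _,
    (conj_eq_of_mem_norm hg).ge.trans (conj_le_norm_iff.2 h.norm), by
      conv_lhs => rw [← conj_eq_of_mem_norm hg, ← conj_comm, h.comm]⟩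

theorem u1_key (hq : q.Prime) {A O : Subgroup G} (hAq : 𝐨(A).Coprime q) (hAs : Group.IsSolvable A)
    (hF : ∀ U : Subgroup G, U ≠ ⊥ → IsPGroup q U → 𝐍(U) ≠ ⊤)
    (hK : ∀ K : Subgroup G, K ≠ ⊤ → A ≤ K → ∀ U : Subgroup G, U ≤ K → IsPGroup q U → A ≤ 𝐍(U) →
      ⁅U, A⁆ ≤ pCoreOf q K)
    (hO : IsPGroup q O) (hOA : O ≤ 𝐂(A)) (hC : ∀ Q, VQ q A Q → Q ⊓ 𝐂(A) ≤ O) {D Q L : Subgroup G}
    (hD : VQ q A D) (hQ' : VQ q A Q) (hDQ : D < Q) (hL : L = O ⊓ 𝐍(D) ⊓ 𝐍(Q)) :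
    ∃ T : Subgroup G, D < T ∧ VQ q A T ∧ T ≤ Q ∧ T ≤ ⁅pCoreOf q 𝐍(D ⊔ L), A⁆ := by
  haveI := Fact.mk hq
  have hLO : L ≤ O := hL.le.trans (inf_le_left.trans inf_le_left)
  have hLD : L ≤ 𝐍(D) := hL.le.trans (inf_le_left.trans inf_le_right)
  have hLQ : L ≤ 𝐍(Q) := hL.le.trans inf_le_right
  have hAL : A ≤ 𝐍(L) := (cent_comm.1 (hLO.trans hOA)).trans (cent_le_norm _)
  have hLA : ⁅L, A⁆ = ⊥ := comm_eq_bot_iff.2 (hLO.trans hOA)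
  have hS : IsPGroup q ↥(D ⊔ L) := sup_comm L D ▸ isPGroup_sup (hO.to_le hLO) hD.pg hLD
  have hR : IsPGroup q ↥(Q ⊔ L) := sup_comm L Q ▸ isPGroup_sup (hO.to_le hLO) hQ'.pg hLQ
  have hAS : A ≤ 𝐍(D ⊔ L) := H1.le_normalizer_sup hD.norm hAL
  have hAR : A ≤ 𝐍(Q ⊔ L) := H1.le_normalizer_sup hQ'.norm hAL
  have hSA : ⁅D ⊔ L, A⁆ ≤ D := comm_sup_left (le_norm_self D) hLD hD.comm.le (hLA.le.trans bot_le)
  have hRA : ⁅Q ⊔ L, A⁆ ≤ Q := comm_sup_left (le_norm_self Q) hLQ hQ'.comm.le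
    (hLA.le.trans bot_le)
  have h3 : D ⊔ L < (Q ⊔ L) ⊓ 𝐍(D ⊔ L) := lt_inf_norm_of_isNilpotent
    (isNilpotent_of_isPGroup hq hR) (lt_of_le_of_ne (sup_le_sup_right hDQ.le L) fun e => hDQ.not_ge
      (hQ'.comm.ge.trans ((commutator_mono (le_sup_left.trans e.ge) le_rfl).trans hSA)))
  obtain ⟨T, hT⟩ : ∃ T, T = (Q ⊔ L) ⊓ 𝐍(D ⊔ L) := ⟨_, rfl⟩
  have hAT : A ≤ 𝐍(T) := hT ▸ H1.le_normalizer_inf hAR (H1.le_normalizer_normalizer hAS)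
  rw [← hT] at h3
  have hT1 : T ≤ Q ⊔ L := hT.le.trans inf_le_left
  have hT2 : T ≤ 𝐍(D ⊔ L) := hT.le.trans inf_le_right
  have hTq : IsPGroup q T := hR.to_le hT1
  have h4 : D ≤ ⁅T, A⁆ := hD.comm.ge.trans (commutator_mono (le_sup_left.trans h3.le) le_rfl)
  have h5 : D < ⁅T, A⁆ := lt_of_le_of_ne h4 fun e => h3.not_ge (by
    have e1 := H1.commutator_sup_centralizer hAT (H1.coprime_card_of_isPGroup hTq hAq) (Or.inl hAs)
    rw [← e] at e1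
    refine e1.ge.trans (sup_le_sup_left ?_ D)
    rw [hL]
    refine le_inf (le_inf ?_ (inf_le_left.trans ?_)) (inf_le_left.trans
      (hT1.trans (sup_le (le_norm_self Q) hLQ)))
    · refine (inf_le_inf_right _ hT1).trans ?_
      rw [sup_inf_of_le_right hLQ (hLO.trans hOA)]
      exact sup_le (hC Q hQ') hLO
    · rw [e]; exact normalizer_commutator_ge_left _ _)
  have hT' : VQ q A ⁅T, A⁆ := vq_comm hq hAq hTq hAT (ne_bot_of_gt h5)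
  exact ⟨_, h5, hT', (commutator_mono hT1 le_rfl).trans hRA, hT'.comm.ge.trans (commutator_mono
    (hK _ (hF _ (fun e => hD.ne (eq_bot_iff.2 (le_sup_left.trans e.le))) hS) hAS T hT2
      hTq hAT) le_rfl)⟩

theorem u1 (hq : q.Prime) {A O : Subgroup G} (hAq : 𝐨(A).Coprime q) (hAs : Group.IsSolvable A)
    (hF : ∀ U : Subgroup G, U ≠ ⊥ → IsPGroup q U → 𝐍(U) ≠ ⊤)
    (hK : ∀ K : Subgroup G, K ≠ ⊤ → A ≤ K → ∀ U : Subgroup G, U ≤ K → IsPGroup q U → A ≤ 𝐍(U) →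
      ⁅U, A⁆ ≤ pCoreOf q K)
    (hO : IsPGroup q O) (hOA : O ≤ 𝐂(A)) (hC : ∀ Q, VQ q A Q → Q ⊓ 𝐂(A) ≤ O) (D : Subgroup G) :
    VQ q A D → ∀ Q₁ Q₂, Maximal (VQ q A) Q₁ → Maximal (VQ q A) Q₂ → D ≤ Q₁ → D ≤ Q₂ → Q₁ = Q₂ := by
  haveI := Fact.mk hq
  induction D using WellFoundedGT.induction with
  | ind D ih =>
  intro hD Q₁ Q₂ h1 h2 hD1 hD2
  have hAO : ∀ L : Subgroup G, L ≤ O → A ≤ 𝐍(L) := fun L hL =>
    (cent_comm.1 (hL.trans hOA)).trans (cent_le_norm _)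
  have key : ∀ Q, Maximal (VQ q A) Q → D < Q →
      D < ⁅pCoreOf q 𝐍(D ⊔ O ⊓ 𝐍(D)), A⁆ ∧ ⁅pCoreOf q 𝐍(D ⊔ O ⊓ 𝐍(D)), A⁆ ≤ Q := by
    intro Q hQ hDQ
    have hQ' := hQ.prop
    obtain ⟨L, hL⟩ : ∃ L, L = O ⊓ 𝐍(D) ⊓ 𝐍(Q) := ⟨_, rfl⟩
    obtain ⟨T, h5, hT', hTQ, h6⟩ := u1_key hq hAq hAs hF hK hO hOA hC hD hQ' hDQ hL
    have hLO : L ≤ O ⊓ 𝐍(D) := hL.le.trans inf_le_left
    have hAS : A ≤ 𝐍(D ⊔ L) := H1.le_normalizer_sup hD.norm (hAO L (hLO.trans inf_le_left))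
    have hW : VQ q A ⁅pCoreOf q 𝐍(D ⊔ L), A⁆ := vq_comm hq hAq (H2.isPGroup_pCoreOf q _)
      (hAS.trans (H2.le_normalizer_pCoreOf q _)) (ne_bot_of_gt (h5.trans_le h6))
    have h7 : ∀ Y, VQ q A Y → T ≤ Y → Y ≤ Q := fun Y hY h => by
      obtain ⟨Q', hQ1, hQ2⟩ := Finite.exists_le_maximal hY
      rwa [ih _ h5 hT' Q' Q hQ2 hQ (h.trans hQ1) hTQ] at hQ1
    have h8 : L = O ⊓ 𝐍(D) := by
      by_contra hne
      refine (lt_inf_norm_of_isNilpotent (isNilpotent_of_isPGroup hq (hO.to_le inf_le_left))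
        (lt_of_le_of_ne hLO hne)).not_ge fun l hl => ?_
      obtain ⟨hl1, hl2⟩ := mem_inf.1 hl
      obtain ⟨hl3, hl4⟩ := mem_inf.1 hl1
      rw [hL]
      refine mem_inf.2 ⟨hl1, mem_norm_of_conj_le ?_⟩
      have hlA := cent_le_norm A (hOA hl3)
      have h9 : l ∈ 𝐍(⁅pCoreOf q 𝐍(D ⊔ L), A⁆) := comm_conj_eq hlA (H2.normalizer_le_normalizer_pCoreOf q _
        (H1.le_normalizer_normalizer (H1.le_normalizer_sup (zpowers_le.2 hl4) (zpowers_le.2 hl2))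
          (mem_zpowers l)))
      exact h7 _ (hQ'.conj hlA) (h6.trans ((conj_eq_of_mem_norm h9).ge.trans
        (conj_mono (h7 _ hW h6) l)))
    rw [← h8]
    exact ⟨h5.trans_le h6, h7 _ hW h6⟩
  rcases eq_or_lt_of_le hD1 with rfl | h3
  · exact le_antisymm hD2 (h1.le_of_ge h2.prop hD2)
  rcases eq_or_lt_of_le hD2 with rfl | h4
  · exact le_antisymm (h2.le_of_ge h1.prop hD1) hD1
  obtain ⟨h5, h6⟩ := key Q₁ h1 h3
  exact ih _ h5 (vq_comm hq hAq (H2.isPGroup_pCoreOf q _) ((H1.le_normalizer_sup hD.norm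
    (hAO _ inf_le_left)).trans (H2.le_normalizer_pCoreOf q _)) (ne_bot_of_gt h5)) Q₁ Q₂ h1 h2 h6
    (key Q₂ h2 h4).2

theorem u1' (hq : q.Prime) {A O : Subgroup G} (hAq : 𝐨(A).Coprime q) (hAs : Group.IsSolvable A)
    (hF : ∀ U : Subgroup G, U ≠ ⊥ → IsPGroup q U → 𝐍(U) ≠ ⊤)
    (hK : ∀ K : Subgroup G, K ≠ ⊤ → A ≤ K → ∀ U : Subgroup G, U ≤ K → IsPGroup q U → A ≤ 𝐍(U) →
      ⁅U, A⁆ ≤ pCoreOf q K)
    (hO : IsPGroup q O) (hOA : O ≤ 𝐂(A)) (hC : ∀ Q, VQ q A Q → Q ⊓ 𝐂(A) ≤ O) {D D₁ D₂ : Subgroup G}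
    (hD : VQ q A D) (h1 : VQ q A D₁) (h2 : VQ q A D₂) (hD1 : D ≤ D₁) (hD2 : D ≤ D₂) :
    ∃ Q, VQ q A Q ∧ D₁ ≤ Q ∧ D₂ ≤ Q := by
  obtain ⟨Q₁, h3, h4⟩ := Finite.exists_le_maximal h1
  obtain ⟨Q₂, h5, h6⟩ := Finite.exists_le_maximal h2
  exact ⟨Q₁, h4.prop, h3, u1 hq hAq hAs hF hK hO hOA hC D hD Q₁ Q₂ h4 h6 (hD1.trans h3)
    (hD2.trans h5) ▸ h5⟩

end Cfsg.Agent.H2.F2
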