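import Cfsg.Agent.H2.F2A

/-! Characterization of the second Fitting subgroup: the minimal configuration. -/

set_option autoImplicit false
set_option linter.unusedSectionVars false

namespace Cfsg.Agent.H2.F2

open Subgroup Cfsg Cfsg.Agent Cfsg.Agent.FT Cfsg.Agent.H7.FC
open scoped commutatorElement

universe u

variable {G : Type u} [Group G] [Finite G] {p q r : ℕ} {P K U : Subgroup G}

/-- `O_{p'}(F(K))`. -/
def VV (p : ℕ) (K : Subgroup G) : Subgroup G := H2.pPrimeCoreOf p (fittingOf K)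

theorem VV_le_fit : VV p K ≤ fittingOf K := H2.pPrimeCoreOf_le _ _

theorem VV_le : VV p K ≤ K := VV_le_fit.trans (H2.fittingOf_le K)

theorem norm_VV : 𝐍(K) ≤ 𝐍(VV p K) :=
  (H2.normalizer_le_normalizer_fittingOf K).trans (H2.normalizer_le_normalizer_pPrimeCoreOf _ _)

theorem le_norm_VV : K ≤ 𝐍(VV p K) := (le_norm_self K).trans norm_VV

theorem nil_VV : Group.IsNilpotent (VV p K) := isNilpotent_of_le VV_le_fit inferInstance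

theorem cop_VV : 𝐨(VV p K).Coprime p := H2.coprime_card_pPrimeCoreOf _ _

theorem VV_conj (hp : p.Prime) (K : Subgroup G) (g : G) : VV p (K ^ᵍ g) = VV p K ^ᵍ g := by
  rw [VV, VV, fittingOf_conj, pPrimeCoreOf_conj _ _ hp]

/-- The minimal configuration. -/
structure Ce (p : ℕ) (P : Subgroup G) : Prop where
  hp : p.Prime
  card : 𝐨(P) = p
  fit : ∀ N : Subgroup G, N.Normal → Group.IsNilpotent N → N = ⊥
  big : ∀ N : Subgroup G, N.Normal → N ≠ ⊥ → N ⊔ P = ⊤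
  loc : ∀ K : Subgroup G, K ≠ ⊤ → P ≤ K →
    ∃ S : Subgroup G, IsPGroup p S ∧ P ≤ S ∧ S ≤ K ∧ K ≤ 𝐍(VV p K ⊔ S)
  two : ∀ y : G, P ⊔ zpowers y ≠ ⊤

/-- Nontrivial nilpotent `p'`-subgroups `U = [U, P]`. -/
structure Mem (p : ℕ) (P U : Subgroup G) : Prop where
  ne : U ≠ ⊥
  nil : Group.IsNilpotent U
  cop : 𝐨(U).Coprime p
  norm : P ≤ 𝐍(U)
  comm : ⁅U, P⁆ = U

theorem normal_of_norm_eq (h : 𝐍(U) = ⊤) : U.Normal := normal_iff_top_le.2 h.ge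

theorem mem_zpowers_mul {a b : G} (h : Commute a b) (hc : (orderOf a).Coprime (orderOf b)) :
    a ∈ zpowers (a * b) ∧ b ∈ zpowers (a * b) := by
  have h1 : IsPiElt (piOf (zpowers a)) a := isPi_zpowers.1 (isPi_piOf _)
  have h2 : IsPiElt (piOf (zpowers a))ᶜ b := isPi_zpowers.1 (coprime_iff_isPi_compl.1 (by
    rw [Nat.card_zpowers, Nat.card_zpowers]; exact hc.symm))
  have h3 := piPt_mem_zpowers (piOf (zpowers a)) (a * b)
  rw [piPt_mul_eq h1 h2 h] at h3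
  exact ⟨h3, (mul_mem_cancel_left h3).1 (mem_zpowers _)⟩

namespace Ce

variable (h : Ce p P)
include h

theorem conj (g : G) : Ce p (P ^ᵍ g) := by
  refine ⟨h.hp, (card_conj P g).trans h.card, h.fit, fun N hN hN1 => ?_, fun K hK hPK => ?_,
    fun y e => ?_⟩
  · rw [← conj_eq_of_mem_norm (normal_iff_top_le.1 hN (mem_top g)), ← conj_sup, h.big N hN hN1,
      conj_top]
  · obtain ⟨S, h1, h2, h3, h4⟩ := h.loc (K ^ᵍ g⁻¹) (fun e => hK (conj_eq_top_iff.1 e))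
      (conj_le_iff.1 hPK)
    refine ⟨S ^ᵍ g, h1.map _, conj_mono h2 g, conj_le_iff.2 h3, ?_⟩
    have := conj_le_norm_iff (g := g).2 h4
    rwa [conj_sup, ← VV_conj h.hp, conj_inv_conj] at this
  · refine h.two (g⁻¹ * y * g⁻¹⁻¹) ?_
    rw [zpowers_conj, ← conj_conj_inv P g, ← conj_sup, e, conj_top]

theorem pg : IsPGroup p P := isPGroup_of_card_prime h.card

theorem prime : 𝐨(P).Prime := h.card ▸ h.hp

theorem ne : P ≠ ⊥ := ne_bot_of_card_prime h.prime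

theorem sP : Group.IsSolvable P := solv_prime h.hp h.card

theorem cop (hU : 𝐨(U).Coprime p) : 𝐨(P).Coprime 𝐨(U) := h.card ▸ hU.symm

theorem ne_top : P ≠ ⊤ := fun e => h.two 1 (by rw [e, top_sup_eq])

theorem norm_ne (h1 : U ≠ ⊥) (h2 : Group.IsNilpotent U) : 𝐍(U) ≠ ⊤ :=
  fun e => h1 (h.fit U (normal_of_norm_eq e) h2)

theorem norm_ne' (hq : q.Prime) (U : Subgroup G) (h1 : U ≠ ⊥) (h2 : IsPGroup q U) : 𝐍(U) ≠ ⊤ :=
  h.norm_ne h1 (isNilpotent_of_isPGroup hq h2)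

theorem norm_ne'' (h1 : K ≠ ⊤) (h2 : P ≤ K) : 𝐍(K) ≠ ⊤ := fun e => h1 (by
  rw [← h.big K (normal_of_norm_eq e) fun e' => h.ne (eq_bot_iff.2 (h2.trans e'.le)),
    sup_eq_left.2 h2])

theorem cent_ne {x : G} (hx : x ≠ 1) : 𝐂[x] ≠ ⊤ := fun e =>
  h.norm_ne (U := zpowers x) (by rwa [Ne, zpowers_eq_bot])
    (isNilpotent_of_isMulComm inferInstance)
    (eq_top_iff.2 (e.ge.trans ((cent_zpowers x).ge.trans (cent_le_norm _))))

theorem normP_ne : 𝐍(P) ≠ ⊤ := h.norm_ne' h.hp P h.ne h.pg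

theorem comm_le_VV (hK : K ≠ ⊤) (hP : P ≤ K) (hU : U ≤ K) (hc : 𝐨(U).Coprime p) (hn : P ≤ 𝐍(U)) :
    ⁅U, P⁆ ≤ VV p K := by
  obtain ⟨S, h1, h2, h3, h4⟩ := h.loc K hK hP
  have h5 := (hall_of_sup (π := {p}) (h3.trans le_norm_VV) ((isPi_singleton_iff h.hp).2 h1)
    ((isPi_compl_singleton_iff h.hp).2 cop_VV)).2
  refine le_of_hall_normal h5 (sup_le (le_norm_self _) (h3.trans le_norm_VV))
    ((commutator_mono le_rfl (h2.trans le_sup_right)).trans (comm_le_right_iff.2 (hU.trans h4)))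
    (isPi_of_le (comm_le_self hn) ((isPi_compl_singleton_iff h.hp).2 hc))

theorem comm_comm (hc : 𝐨(U).Coprime p) (hn : P ≤ 𝐍(U)) : ⁅⁅U, P⁆, P⁆ = ⁅U, P⁆ :=
  H1.commutator_commutator_eq hn (h.cop hc)

theorem comm_le_WW (hK : K ≠ ⊤) (hP : P ≤ K) (hU : U ≤ K) (hc : 𝐨(U).Coprime p) (hn : P ≤ 𝐍(U)) :
    ⁅U, P⁆ ≤ ⁅VV p K, P⁆ :=
  (h.comm_comm hc hn).ge.trans (commutator_mono (h.comm_le_VV hK hP hU hc hn) le_rfl)

theorem copq (hq : q.Prime) (hqp : q ≠ p) (hU : IsPGroup q U) : 𝐨(U).Coprime p := by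
  rw [← h.card]; exact FT.coprime_card_of_isPGroup hq h.hp hqp hU h.pg

theorem comm_le_pCore (hq : q.Prime) (hqp : q ≠ p) (hK : K ≠ ⊤) (hP : P ≤ K) (hU : U ≤ K)
    (hc : IsPGroup q U) (hn : P ≤ 𝐍(U)) : ⁅U, P⁆ ≤ pCoreOf q K :=
  H2.le_pCoreOf_of_le_fittingOf (hc.to_le (comm_le_self hn))
    ((h.comm_le_VV hK hP hU (h.copq hq hqp hc) hn).trans VV_le_fit)

theorem mem_comm (h1 : Group.IsNilpotent U) (hc : 𝐨(U).Coprime p) (hn : P ≤ 𝐍(U))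
    (h2 : ⁅U, P⁆ ≠ ⊥) : Mem p P ⁅U, P⁆ :=
  ⟨h2, isNilpotent_of_le (comm_le_self hn) h1,
    hc.coprime_dvd_left (FT.card_dvd_of_le (comm_le_self hn)),
    normalizer_commutator_ge_right _ _, h.comm_comm hc hn⟩

theorem mem_WW (hP : P ≤ K) (h2 : ⁅VV p K, P⁆ ≠ ⊥) : Mem p P ⁅VV p K, P⁆ :=
  h.mem_comm nil_VV cop_VV (hP.trans le_norm_VV) h2

theorem le_WW (hK : K ≠ ⊤) (hP : P ≤ K) (hU : Mem p P U) (h1 : U ≤ K) : U ≤ ⁅VV p K, P⁆ :=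
  hU.comm.ge.trans (h.comm_le_WW hK hP h1 hU.cop hU.norm)

theorem mem_Bc (hU : Mem p P U) {b : G} (hb : b ∈ U) (h1 : Bc P b ≠ ⊥) : Mem p P (Bc P b) :=
  ⟨h1, isNilpotent_of_le (Bc_le hb hU.norm) hU.nil,
    hU.cop.coprime_dvd_left (FT.card_dvd_of_le (Bc_le hb hU.norm)), norm_Bc P b,
    comm_Bc hb hU.norm (h.cop hU.cop) h.sP⟩

theorem f1 (hc : 𝐨(U).Coprime p) (hn : P ≤ 𝐍(U)) {b c : G} (hb : b ∈ U) (hcP : c ∈ 𝐍(P)) :
    Bc P b ⊔ P ⊔ zpowers c ≠ ⊤ := by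
  obtain ⟨d, hd, h1⟩ := exists_Bc_mul hb hn (h.cop hc) h.sP
  have h2 : P ^ᵍ b = P ^ᵍ (d⁻¹ * c) := by
    rw [← conj_conj, conj_eq_of_mem_norm hcP, eq_comm, conj_eq_iff, inv_inv, conj_conj,
      conj_eq_of_mem_norm (cent_le_norm P h1)]
  have h3 : Bc P b ≤ P ⊔ zpowers (d⁻¹ * c) := (Bc_le_sup_conj P b).trans (sup_le le_sup_left
    (h2.le.trans (conj_le_of_mem le_sup_left (mem_sup_right (mem_zpowers _)))))
  refine ne_top_of_le_ne_top (h.two (d⁻¹ * c)) (sup_le (sup_le h3 le_sup_left) (zpowers_le.2 ?_))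
  exact (mul_mem_cancel_left (inv_mem (h3 hd))).1 (mem_sup_right (mem_zpowers _))

theorem le_pCore (hK : K ≠ ⊤) (hP : P ≤ K) (h1 : ⁅VV p K, P⁆ = ⊥) : P ≤ pCoreOf p K := by
  obtain ⟨S, h2, h3, h4, h5⟩ := h.loc K hK hP
  have h6 : S ⊓ 𝐂(VV p K) ⊲ VV p K ⊔ S := ⟨inf_le_left.trans le_sup_right, sup_le
    ((cent_comm.1 inf_le_right).trans (cent_le_norm _)) (H1.le_normalizer_inf (le_norm_self S)
      (H1.le_normalizer_centralizer (h4.trans le_norm_VV)))⟩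
  exact (le_inf h3 (cent_comm.1 (comm_eq_bot_iff.1 h1))).trans
    (((H2.SnIn.of_normal h6.1 h6.2).trans (H2.SnIn.of_normal (sup_le VV_le h4) h5)).le_pCoreOf
      (h2.to_le inf_le_left))

theorem lemY (hq : q.Prime) (hr : r.Prime) (hqp : q ≠ p) (hrp : r ≠ p) (hqr : q ≠ r)
    {Q T : Subgroup G} (hU : VQ r P U) (hQ : IsPGroup q Q) (hK : K ≠ ⊤) (hP : P ≤ K) (hUK : U ≤ K)
    (hTQ : T ≤ Q) (hTK : T ≤ K) (hPQ : P ≤ 𝐍(Q)) (hPT : P ≤ 𝐍(T)) : ⁅T, P⁆ ≤ ⁅Q ⊓ 𝐂(U), P⁆ := by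
  have h1 := h.comm_le_pCore hq hqp hK hP hTK (hQ.to_le hTQ) hPT
  have h2 := hU.comm.ge.trans (h.comm_le_pCore hr hrp hK hP hUK hU.pg hU.norm)
  refine (h.comm_comm (h.copq hq hqp (hQ.to_le hTQ)) hPT).ge.trans (commutator_mono
    (le_inf ((comm_le_self hPT).trans hTQ) (h1.trans (((H2.pCoreOf_le_pPrimeCoreOf hq hr hqr K).trans
      (H2.pPrimeCoreOf_le_centralizer_pCoreOf hr K)).trans (cent_anti h2)))) le_rfl)

theorem lemX (hq : q.Prime) (hr : r.Prime) (hqp : q ≠ p) (hrp : r ≠ p) (hqr : q ≠ r)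
    {Q : Subgroup G} (hU : VQ r P U) (hQ : IsPGroup q Q) (hPQ : P ≤ 𝐍(Q))
    (hW : ⁅Q ⊓ 𝐂(U), P⁆ ≠ ⊥) : ⁅Q, P⁆ ≤ 𝐂(U) := by
  have hPC : P ≤ 𝐍(Q ⊓ 𝐂(U)) := H1.le_normalizer_inf hPQ (H1.le_normalizer_centralizer hU.norm)
  obtain ⟨W, hW'⟩ : ∃ W, W = ⁅Q ⊓ 𝐂(U), P⁆ := ⟨_, rfl⟩
  have hW1 : W ≤ Q ⊓ 𝐂(U) := hW'.le.trans (comm_le_self hPC)
  have hWW : ⁅W, P⁆ = W := by
    rw [hW']; exact h.comm_comm (h.copq hq hqp (hQ.to_le inf_le_left)) hPC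
  have Y := fun {K T : Subgroup G} hK hP hUK hTQ hTK hPT =>
    (h.lemY (K := K) (T := T) hq hr hqp hrp hqr hU hQ hK hP hUK hTQ hTK hPQ hPT).trans hW'.ge
  rw [← hW'] at hW
  have hWq : IsPGroup q W := hQ.to_le (hW1.trans inf_le_left)
  have hH := h.norm_ne' hq W hW hWq
  have hPW : P ≤ 𝐍(W) := hW' ▸ normalizer_commutator_ge_right _ _
  have hUW : U ≤ 𝐍(W) := (cent_comm.1 (hW1.trans inf_le_right)).trans (cent_le_norm _)
  obtain ⟨S, hS⟩ : ∃ S, S = Q ⊓ 𝐍(W) := ⟨_, rfl⟩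
  have hSQ : S ≤ Q := hS.le.trans inf_le_left
  have hSH : S ≤ 𝐍(W) := hS.le.trans inf_le_right
  have hPS : P ≤ 𝐍(S) := hS ▸ H1.le_normalizer_inf hPQ (H1.le_normalizer_normalizer hPW)
  have hSW := Y hH hPW hUW hSQ hSH hPS
  by_cases hSQ' : S = Q
  · rw [← hSQ']; exact hSW.trans (hW1.trans inf_le_right)
  exfalso
  have hWS : W ≤ S := hS ▸ le_inf (hW1.trans inf_le_left) (le_norm_self W)
  have hT := lt_inf_norm_of_isNilpotent (isNilpotent_of_isPGroup hq hQ) (lt_of_le_of_ne hSQ hSQ')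
  have hPT : P ≤ 𝐍(Q ⊓ 𝐍(S)) := H1.le_normalizer_inf hPQ (H1.le_normalizer_normalizer hPS)
  have hWO : W ≤ 𝐂(pCoreOf r 𝐍(W)) := (hWW.ge.trans (h.comm_le_pCore hq hqp hH hPW (le_norm_self W)
    hWq hPW)).trans ((H2.pCoreOf_le_pPrimeCoreOf hq hr hqr _).trans
      (H2.pPrimeCoreOf_le_centralizer_pCoreOf hr _))
  have hUO : U ≤ pCoreOf r 𝐍(W) := hU.comm.ge.trans (h.comm_le_pCore hr hrp hH hPW hUW hU.pg hU.norm)
  obtain ⟨Q₁, hQ₁⟩ : ∃ Q₁, Q₁ = S ⊓ 𝐂(pCoreOf r 𝐍(W)) := ⟨_, rfl⟩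
  have hQS : Q₁ ≤ S := hQ₁.le.trans inf_le_left
  have hQC : Q₁ ≤ 𝐂(pCoreOf r 𝐍(W)) := hQ₁.le.trans inf_le_right
  have hWQ : W ≤ Q₁ := hQ₁ ▸ le_inf hWS hWO
  have hK := h.norm_ne' hq Q₁ (fun e => hW (eq_bot_iff.2 (hWQ.trans e.le)))
    (hQ.to_le (hQS.trans hSQ))
  have key : ∀ t ∈ 𝐍(S), P ^ᵍ t ≤ 𝐍(Q₁) := by
    intro t ht
    have h' := h.conj t
    have hPS' : P ^ᵍ t ≤ 𝐍(S) := conj_le_of_mem hPS ht
    rw [← comm_le_left_iff, commutator_le]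
    intro a ha y hy
    have hay : ⁅a, y⁆ ∈ S := comm_le_self hPS' (commutator_mem_commutator (hQS ha) hy)
    rw [hQ₁]
    refine mem_inf.2 ⟨hay, mem_cent.2 fun b hb => ?_⟩
    obtain ⟨k1, k2⟩ := mem_zpowers_mul (a := a) (b := b) (mem_cent.1 (hQC ha) b hb).symm
      ((FT.coprime_card_of_isPGroup hq hr hqr hQ (H2.isPGroup_pCoreOf r _)).coprime_dvd_left
        (orderOf_dvd_card_of_mem (hSQ (hQS ha))) |>.coprime_dvd_right (orderOf_dvd_card_of_mem hb))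
    have k3 : ⁅a, y⁆ ∈ pCoreOf q (P ^ᵍ t ⊔ zpowers (a * b)) := h'.comm_le_pCore hq hqp (h'.two _)
      le_sup_left (inf_le_right (a := S)) (hQ.to_le (inf_le_left.trans hSQ))
      (H1.le_normalizer_inf hPS' (le_sup_left.trans (le_norm_self _)))
      (commutator_mem_commutator (mem_inf.2 ⟨hQS ha, mem_sup_right k1⟩) hy)
    have k4 : ⁅b, ⁅a, y⁆⁆ ∈ pCoreOf r 𝐍(W) ⊓ pCoreOf q (P ^ᵍ t ⊔ zpowers (a * b)) := mem_inf.2
      ⟨comm_le_left_iff.2 (H2.le_normalizer_pCoreOf r _) (commutator_mem_commutator hb (hSH hay)),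
        comm_le_right_iff.2 (H2.le_normalizer_pCoreOf q _)
          (commutator_mem_commutator (mem_sup_right k2) k3)⟩
    rw [H1.inf_eq_bot_of_coprime' (FT.coprime_card_of_isPGroup hr hq hqr.symm
      (H2.isPGroup_pCoreOf r _) (H2.isPGroup_pCoreOf q _)), mem_bot] at k4
    exact commutatorElement_eq_one_iff_mul_comm.1 k4
  have hPK : P ≤ 𝐍(Q₁) := (conj_one P).ge.trans (key 1 (one_mem _))
  have h1 : ⁅Q ⊓ 𝐍(S), P⁆ ≤ 𝐍(Q₁) := comm_le_iff_Bc.2 fun t ht =>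
    (Bc_le_sup_conj P t).trans (sup_le hPK (key t (mem_inf.1 ht).2))
  have h2 := Y hK hPK (hUO.trans ((cent_comm.1 hQC).trans (cent_le_norm _)))
    ((comm_le_self hPT).trans inf_le_left) h1 (normalizer_commutator_ge_right _ _)
  rw [h.comm_comm (h.copq hq hqp (hQ.to_le inf_le_left)) hPT] at h2
  have h3 : ⁅Q ⊓ 𝐍(S), P⁆ = W := le_antisymm h2 (hWW.ge.trans
    (commutator_mono (hWS.trans hT.le) le_rfl))
  refine hT.not_ge ?_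
  conv_rhs => rw [hS]
  exact le_inf inf_le_left (h3 ▸ normalizer_commutator_ge_left _ _)

end Ce

end Cfsg.Agent.H2.F2
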