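import Cfsg.Agent.H2.F2B
import Cfsg.Agent.P1.ZStar
import Cfsg.Agent.FT.Final

/-! Characterization of the second Fitting subgroup: the uniqueness theorem. -/

set_option autoImplicit false
set_option linter.unusedSectionVars false

namespace Cfsg.Agent.H2.F2

open Subgroup Cfsg Cfsg.Agent Cfsg.Agent.FT Cfsg.Agent.H7.FC
open scoped commutatorElement

universe u

variable {G : Type u} [Group G] [Finite G] {p q r : ℕ} {P K U : Subgroup G}

theorem mem_pCoreOf_of_conj (hq : q.Prime) {z : G} (hz : z ∈ K)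
    (h : ∀ c ∈ K, ∃ R : Subgroup G, IsPGroup q R ∧ z ∈ R ∧ c * z * c⁻¹ ∈ R) : z ∈ pCoreOf q K := by
  haveI := Fact.mk hq
  refine ⟨⟨z, hz⟩, Agent.L.baer_suzuki fun c => ?_, rfl⟩
  obtain ⟨R, h1, h2, h3⟩ := h c c.2
  refine (h1.comap_subtype (K := K)).to_le ((closure_le _).2 ?_)
  rintro _ (rfl | rfl)
  · exact h2
  · exact h3

theorem Mem.vq (hU : Mem p P U) (hp : p.Prime) (hq : q.Prime) (h : pCoreOf q U ≠ ⊥) :
    q ≠ p ∧ VQ q P (pCoreOf q U) :=
  ⟨fun e => (hp.coprime_iff_not_dvd.1 hU.cop.symm) (e ▸ (prime_dvd_card_of_isPGroup hq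
    (H2.isPGroup_pCoreOf q U) h).trans (FT.card_dvd_of_le (H2.pCoreOf_le q U))), h,
    H2.isPGroup_pCoreOf q U, hU.norm.trans (H2.normalizer_le_normalizer_pCoreOf q U),
    comm_pCore hq hU.nil hU.norm hU.comm⟩

theorem ex_pCore (h1 : U ≠ ⊥) (h2 : Group.IsNilpotent U) : ∃ t : ℕ, t.Prime ∧ pCoreOf t U ≠ ⊥ := by
  by_contra hn
  push Not at hn
  exact h1 (eq_bot_iff.2 (le_of_pCore_le h2 fun t ht h3 => absurd (hn t ht) h3))

theorem pCore_mono {W : Subgroup G} (h1 : U ≤ W) (h2 : Group.IsNilpotent W) :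
    pCoreOf q U ≤ pCoreOf q W :=
  H2.le_pCoreOf_of_le_fittingOf (H2.isPGroup_pCoreOf q U)
    ((H2.pCoreOf_le q U).trans (h1.trans (H2.fittingOf_eq_self h2).ge))

theorem mem_four {e f y : G} (he : e * e = 1) (hf : f * f = 1) (h : Commute e f)
    (hy : y ∈ zpowers e ⊔ zpowers f) : y = 1 ∨ y = e ∨ y = f ∨ y = e * f := by
  have k : ∀ {a b : G}, a * a = 1 → b ∈ zpowers a → b = 1 ∨ b = a := fun {a b} ha hb => by
    obtain ⟨n, rfl⟩ := hb
    have h2 : a ^ (2 : ℤ) = 1 := by rw [zpow_two, ha]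
    rcases Int.even_or_odd' n with ⟨m, rfl | rfl⟩
    · left; simp only [zpow_mul, h2, one_zpow]
    · right; simp only [zpow_add, zpow_mul, h2, one_zpow, one_mul, zpow_one]
  obtain ⟨a, ha, b, hb, rfl⟩ := (mem_sup_of_norm ((zpowers_le.2 ((cent_zpowers e).ge
    (mem_cent1.2 h))).trans (cent_le_norm _))).1 hy
  rcases k he ha with rfl | rfl <;> rcases k hf hb with rfl | rfl <;> simp

namespace Ce

variable (h : Ce p P)
include h

theorem uq_odd (hp2 : p ≠ 2) {W₀ W₁ W₂ : Subgroup G} (h0 : Mem p P W₀) (h1 : Mem p P W₁)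
    (h2 : Mem p P W₂) (h3 : W₀ ≤ W₁) (h4 : W₀ ≤ W₂) : W₁ ⊔ W₂ ⊔ P ≠ ⊤ := by
  obtain ⟨r, hr, hD⟩ := ex_pCore h0.ne h0.nil
  obtain ⟨hrp, hD0⟩ := h0.vq h.hp hr hD
  have k1 := pCore_mono (q := r) h3 h1.nil
  have k2 := pCore_mono (q := r) h4 h2.nil
  obtain ⟨Q, hQ, k3, k4⟩ := u1' (O := pCoreOf r 𝐂(P)) hr (h.card ▸ (Nat.coprime_primes h.hp hr).2 hrp.symm)
    h.sP (h.norm_ne' hr) (fun K hK hP U => h.comm_le_pCore hr hrp hK hP) (H2.isPGroup_pCoreOf _ _)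
    (H2.pCoreOf_le _ _) (fun Q hQ => by
      have hc := h.copq hr hrp hQ.pg
      refine ((inf_le_inf_right _ hQ.comm.ge).trans (H7.FC.main h.hp hp2 _ G P Q rfl h.card hQ.norm
        (h.cop hc) (isSolvable_of_isNilpotent (isNilpotent_of_isPGroup hr hQ.pg)))).trans
        (Dc_le fun g hg z hz => mem_pCoreOf_of_conj hr (mem_inf.1 hz).2 fun c hcP => ?_)
      have k := h.comm_le_pCore hr hrp (h.f1 hc hQ.norm hg (cent_le_norm P hcP))
        (le_sup_right.trans le_sup_left) (le_sup_left.trans le_sup_left)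
        (hQ.pg.to_le (Bc_le hg hQ.norm)) (norm_Bc P g)
      rw [comm_Bc hg hQ.norm (h.cop hc) h.sP] at k
      exact ⟨_, H2.isPGroup_pCoreOf _ _, k (mem_inf.1 hz).1, H1.conj_mem_of_le_normalizer
        (H2.le_normalizer_pCoreOf r _) (mem_sup_right (mem_zpowers c)) (k (mem_inf.1 hz).1)⟩)
    hD0 (h1.vq h.hp hr fun e => hD (eq_bot_iff.2 (k1.trans e.le))).2
    (h2.vq h.hp hr fun e => hD (eq_bot_iff.2 (k2.trans e.le))).2 k1 k2
  have key : ∀ W, Mem p P W → W₀ ≤ W → pCoreOf r W ≤ Q → W ≤ 𝐍(Q) := fun W hW k5 k6 =>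
    le_of_pCore_le hW.nil fun t ht k7 => by
      by_cases htr : t = r
      · exact htr ▸ k6.trans (le_norm_self Q)
      obtain ⟨k8, k9⟩ := hW.vq h.hp ht k7
      have k10 := pCore_mono (q := r) k5 hW.nil
      refine (cent_comm.1 (hQ.comm.ge.trans (h.lemX hr ht hrp k8 (Ne.symm htr) k9 hQ.pg hQ.norm
        fun e => hD (eq_bot_iff.2 (hD0.comm.ge.trans ((commutator_mono (le_inf (k10.trans k6)
          (k10.trans ?_)) le_rfl).trans e.le)))))).trans (cent_le_norm _)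
      exact (H2.pCoreOf_le_pPrimeCoreOf hr ht (Ne.symm htr) _).trans
        (H2.pPrimeCoreOf_le_centralizer_pCoreOf ht _)
  exact ne_top_of_le_ne_top (h.norm_ne' hr Q hQ.ne hQ.pg)
    (sup_le (sup_le (key _ h1 h3 k3) (key _ h2 h4 k4)) hQ.norm)

end Ce

theorem pair_aux {e f t t' : G} (h : Ce 2 (zpowers e)) (he : e * e = 1) (hf : f * f = 1)
    (hef : Commute e f) (ht : t ∈ 𝐂[e]) (ht' : t' ∈ 𝐂[f]) (hU : t' ∈ U) (hc : 𝐨(U).Coprime 2)
    (hn : zpowers e ≤ 𝐍(U)) : ∃ K : Subgroup G, K ≠ ⊤ ∧ zpowers e ⊔ zpowers f ≤ K ∧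
      Bc (zpowers e ⊔ zpowers f) t ≤ K ∧ Bc (zpowers e ⊔ zpowers f) t' ≤ K := by
  have hf' : f ∈ 𝐂[e] := mem_cent1.2 hef
  have hcc : ⁅t, f⁆ ∈ 𝐂[e] := mul_mem (mul_mem (mul_mem ht hf') (inv_mem ht)) (inv_mem hf')
  have h1 : Bc (zpowers e ⊔ zpowers f) t ≤ zpowers ⁅t, f⁆ := Bc_le_iff.2 fun y hy => by
    have k1 : ⁅t, e⁆ = 1 := commutatorElement_eq_one_iff_mul_comm.2 (mem_cent1.1 ht).symm
    rcases mem_four he hf hef hy with rfl | rfl | rfl | rfl
    · rw [commutatorElement_one_right]; exact one_mem _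
    · rw [k1]; exact one_mem _
    · exact mem_zpowers _
    · have k2 : ⁅t, e * f⁆ = ⁅t, e⁆ * (e * ⁅t, f⁆) * e⁻¹ := by
        simp only [commutatorElement_def]; group
      rw [k2, k1, one_mul, mem_cent1.1 hcc, mul_inv_cancel_right]; exact mem_zpowers _
  have h2 : Bc (zpowers e ⊔ zpowers f) t' ≤ Bc (zpowers e) t' := Bc_le_iff.2 fun y hy => by
    have k1 : ⁅t', f⁆ = 1 := commutatorElement_eq_one_iff_mul_comm.2 (mem_cent1.1 ht').symm
    rcases mem_four he hf hef hy with rfl | rfl | rfl | rfl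
    · rw [commutatorElement_one_right]; exact one_mem _
    · exact comm_mem_Bc (mem_zpowers _) _
    · rw [k1]; exact one_mem _
    · have k2 : ⁅t', e * f⁆ = ⁅t', e⁆ * (e * ⁅t', f⁆) * e⁻¹ := by
        simp only [commutatorElement_def]; group
      rw [k2, k1, mul_one, mul_inv_cancel_right]; exact comm_mem_Bc (mem_zpowers _) _
  have h3 := ne_top_of_le_ne_top (h.f1 hc hn hU (cent_le_norm _ ((cent_zpowers e).ge hcc)))
    (sup_le_sup (sup_le_sup_right h2 (zpowers e)) h1)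
  have h4 : zpowers e ⊔ zpowers f ≤ 𝐍(Bc (zpowers e ⊔ zpowers f) t' ⊔ zpowers e ⊔
      Bc (zpowers e ⊔ zpowers f) t) := H1.le_normalizer_sup (H1.le_normalizer_sup (norm_Bc _ _)
        (sup_le (le_norm_self _) (zpowers_le.2 (cent_le_norm _ ((cent_zpowers e).ge hf')))))
        (norm_Bc _ _)
  exact ⟨_, h.norm_ne'' h3 (le_sup_right.trans le_sup_left), h4,
    le_sup_right.trans (le_norm_self _), (le_sup_left.trans le_sup_left).trans (le_norm_self _)⟩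

end Cfsg.Agent.H2.F2
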