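import Cfsg.Agent.H2.F2C

/-! Characterization of the second Fitting subgroup: the prime two. -/

set_option autoImplicit false
set_option linter.unusedSectionVars false

namespace Cfsg.Agent.H2.F2

open Subgroup Cfsg Cfsg.Agent Cfsg.Agent.FT Cfsg.Agent.H7.FC
open scoped commutatorElement

universe u

variable {G : Type u} [Group G] [Finite G] {p q r : ℕ} {P K U : Subgroup G}

/-- Two commuting involutions in the minimal configuration. -/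
structure Fo (e f : G) (E : Subgroup G) : Prop where
  he : e * e = 1
  hf : f * f = 1
  hef : Commute e f
  ne : e ≠ f
  ce : Ce 2 (zpowers e)
  cf : Ce 2 (zpowers f)
  hE : zpowers e ⊔ zpowers f = E

namespace Fo

variable {e f : G} {E : Subgroup G} (h : Fo e f E)
include h

theorem e1 : e ≠ 1 := fun k => h.ce.ne (zpowers_eq_bot.2 k)

theorem f1 : f ≠ 1 := fun k => h.cf.ne (zpowers_eq_bot.2 k)

theorem eE : zpowers e ≤ E := h.hE ▸ le_sup_left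

theorem fE : zpowers f ≤ E := h.hE ▸ le_sup_right

theorem mem {y : G} (hy : y ∈ E) : y = 1 ∨ y = e ∨ y = f ∨ y = e * f :=
  mem_four h.he h.hf h.hef (h.hE.ge hy)

theorem fc : zpowers f ≤ 𝐂(zpowers e) := zpowers_le.2 ((cent_zpowers e).ge (mem_cent1.2 h.hef))

theorem comm : IsMulCommutative E := h.hE ▸ isMulComm_sup inferInstance inferInstance h.fc

theorem sq {y : G} (hy : y ∈ E) : y * y = 1 := by
  rcases h.mem hy with rfl | rfl | rfl | rfl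
  · exact mul_one 1
  · exact h.he
  · exact h.hf
  · rw [mul_assoc, ← mul_assoc f, ← h.hef, mul_assoc, h.hf, mul_one, h.he]

theorem ncyc : ¬ IsCyclic E := fun k => by
  obtain ⟨x, hx⟩ := isCyclic_iff_zpowers.1 k
  have h1 : x * x = 1 := h.sq (hx.le (mem_zpowers x))
  have k : ∀ y ∈ E, y ≠ 1 → y = x := fun y hy hy1 => by
    have := mem_four h1 (mul_one 1) (Commute.one_right x) (mem_sup_left (hx.ge hy))
    simpa [hy1] using this
  exact h.ne ((k e (h.eE (mem_zpowers e)) h.e1).trans (k f (h.fE (mem_zpowers f)) h.f1).symm)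

theorem pg : IsPGroup 2 E := fun y => ⟨1, Subtype.ext (by
  rw [pow_one, pow_two]; exact h.sq y.2)⟩

theorem cop (hU : 𝐨(U).Coprime 2) : 𝐨(E).Coprime 𝐨(U) :=
  haveI := Fact.mk Nat.prime_two
  (H1.coprime_card_of_isPGroup h.pg hU).symm

theorem copq (hq : q.Prime) (hq2 : q ≠ 2) : 𝐨(E).Coprime q :=
  haveI := Fact.mk Nat.prime_two
  (H1.coprime_card_of_isPGroup h.pg ((Nat.coprime_primes hq Nat.prime_two).2 hq2)).symm

theorem le_cent {a : G} (ha : a ∈ E) : E ≤ 𝐂[a] :=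
  (isMulComm_iff_le_cent.1 h.comm).trans (cent_le_cent1 ha)

theorem gen {a b : G} (ha : a ∈ E) (hb : b ∈ E) (ha1 : a ≠ 1) (hb1 : b ≠ 1) (hab : a ≠ b) :
    zpowers a ⊔ zpowers b = E := by
  refine le_antisymm (sup_le (zpowers_le.2 ha) (zpowers_le.2 hb)) ?_
  have k1 : a ∈ zpowers a ⊔ zpowers b := mem_sup_left (mem_zpowers a)
  have k2 : b ∈ zpowers a ⊔ zpowers b := mem_sup_right (mem_zpowers b)
  generalize zpowers a ⊔ zpowers b = M at k1 k2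
  rw [← h.hE, sup_le_iff, zpowers_le, zpowers_le]
  rcases h.mem ha with rfl | rfl | rfl | rfl <;> rcases h.mem hb with rfl | rfl | rfl | rfl <;>
    first
    | exact absurd rfl ha1
    | exact absurd rfl hb1
    | exact absurd rfl hab
    | exact ⟨k1, k2⟩
    | exact ⟨k2, k1⟩
    | exact ⟨k1, (mul_mem_cancel_left k1).1 k2⟩
    | exact ⟨k2, (mul_mem_cancel_left k2).1 k1⟩
    | exact ⟨(mul_mem_cancel_right k1).1 k2, k1⟩
    | exact ⟨(mul_mem_cancel_right k2).1 k1, k2⟩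

theorem comm_le_VV (hK : K ≠ ⊤) (hP : E ≤ K) (hU : U ≤ K) (hc : 𝐨(U).Coprime 2) (hn : E ≤ 𝐍(U)) :
    ⁅U, E⁆ ≤ VV 2 K := by
  conv_lhs => rw [← h.hE]
  exact comm_sup_le ((h.eE.trans hP).trans le_norm_VV) ((h.fE.trans hP).trans le_norm_VV)
    (h.ce.comm_le_VV hK (h.eE.trans hP) hU hc (h.eE.trans hn))
    (h.cf.comm_le_VV hK (h.fE.trans hP) hU hc (h.fE.trans hn))

theorem comm_le_pCore (hq : q.Prime) (hq2 : q ≠ 2) (K : Subgroup G) (hK : K ≠ ⊤) (hP : E ≤ K)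
    (U : Subgroup G) (hU : U ≤ K) (hc : IsPGroup q U) (hn : E ≤ 𝐍(U)) : ⁅U, E⁆ ≤ pCoreOf q K :=
  H2.le_pCoreOf_of_le_fittingOf (hc.to_le (comm_le_self hn))
    ((h.comm_le_VV hK hP hU (h.ce.copq hq hq2 hc) hn).trans VV_le_fit)

theorem nO (q : ℕ) {a : G} (ha : a ∈ E) : E ≤ 𝐍(pCoreOf q 𝐂[a]) :=
  (h.le_cent ha).trans (H2.le_normalizer_pCoreOf q _)

theorem pair (hq : q.Prime) (hq2 : q ≠ 2) (hr : r.Prime) (hr2 : r ≠ 2) {a b t t' : G} (ha : a ∈ E)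
    (hb : b ∈ E) (ha1 : a ≠ 1) (hb1 : b ≠ 1) (ht : t ∈ pCoreOf q 𝐂[a]) (ht' : t' ∈ pCoreOf r 𝐂[b]) :
    ∃ K : Subgroup G, E ≤ K ∧ Bc E t ≤ ⁅pCoreOf q K, E⁆ ∧ Bc E t' ≤ ⁅pCoreOf r K, E⁆ := by
  have k1 := H2.pCoreOf_le q _ ht
  have k2 := H2.pCoreOf_le r _ ht'
  have c1 := h.ce.copq hq hq2 (H2.isPGroup_pCoreOf q 𝐂[a])
  have c2 := h.ce.copq hr hr2 (H2.isPGroup_pCoreOf r 𝐂[b])
  obtain ⟨K, h1, h2, h3, h4⟩ : ∃ K : Subgroup G, K ≠ ⊤ ∧ E ≤ K ∧ Bc E t ≤ K ∧ Bc E t' ≤ K := by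
    by_cases hab : a = b
    · subst hab
      exact ⟨𝐂[a], h.ce.cent_ne ha1, h.le_cent ha,
        Bc_le k1 ((h.le_cent ha).trans (le_norm_self _)),
        Bc_le k2 ((h.le_cent ha).trans (le_norm_self _))⟩
    have k3 : ∀ c ∈ E, c ≠ 1 → c ≠ e * f → Ce 2 (zpowers c) := fun c hc hc1 hc2 => by
      rcases h.mem hc with rfl | rfl | rfl | rfl
      exacts [absurd rfl hc1, h.ce, h.cf, absurd rfl hc2]
    by_cases hae : a = e * f
    · obtain ⟨K, k4, k5, k6, k7⟩ := pair_aux (k3 b hb hb1 fun k => hab (hae.trans k.symm))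
        (h.sq hb) (h.sq ha) (mem_cent1.1 (h.le_cent hb ha)) k2 k1 ht c1
        ((zpowers_le.2 hb).trans (h.nO q ha))
      rw [h.gen hb ha hb1 ha1 (Ne.symm hab)] at k5 k6 k7
      exact ⟨K, k4, k5, k7, k6⟩
    · have := pair_aux (k3 a ha ha1 hae) (h.sq ha) (h.sq hb) (mem_cent1.1 (h.le_cent ha hb)) k1 k2
        ht' c2 ((zpowers_le.2 ha).trans (h.nO r hb))
      rwa [h.gen ha hb ha1 hb1 hab] at this
  have key : ∀ {s : ℕ} {c u : G}, s.Prime → s ≠ 2 → c ∈ E → u ∈ pCoreOf s 𝐂[c] → Bc E u ≤ K →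
      Bc E u ≤ ⁅pCoreOf s K, E⁆ := fun {s c u} hs hs2 hc hu k => by
    have k4 := comm_Bc hu (h.nO s hc) (h.cop (h.ce.copq hs hs2 (H2.isPGroup_pCoreOf s _)))
      (H1.isSolvable_of_isMulCommutative h.comm)
    exact k4.ge.trans (commutator_mono (k4.ge.trans (h.comm_le_pCore hs hs2 K h1 h2 _ k
      ((H2.isPGroup_pCoreOf s _).to_le (Bc_le hu (h.nO s hc))) (norm_Bc _ _))) le_rfl)
  exact ⟨K, h2, key hq hq2 ha ht h3, key hr hr2 hb ht' h4⟩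

theorem le_max (hq : q.Prime) (hq2 : q ≠ 2) {a b : G} (ha : a ∈ E) (hb : b ∈ E) (ha1 : a ≠ 1)
    (hb1 : b ≠ 1) (h1 : ⁅pCoreOf q 𝐂[a], E⁆ ≠ ⊥) {Q : Subgroup G} (hQ : Maximal (VQ q E) Q)
    (h2 : ⁅pCoreOf q 𝐂[a], E⁆ ≤ Q) : ⁅pCoreOf q 𝐂[b], E⁆ ≤ Q := by
  have hs := H1.isSolvable_of_isMulCommutative h.comm
  have hc := h.copq hq hq2
  obtain ⟨t, ht, h3⟩ := ex_Bc h1
  refine comm_le_iff_Bc.2 fun t' ht' => ?_
  obtain ⟨K, k1, k2, k3⟩ := h.pair hq hq2 hq hq2 ha hb ha1 hb1 ht ht'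
  obtain ⟨Q', k4, k5⟩ := Finite.exists_le_maximal (vq_comm hq hc (H2.isPGroup_pCoreOf q K)
    (k1.trans (H2.le_normalizer_pCoreOf q K)) fun k => h3 (eq_bot_iff.2 (k2.trans k.le)))
  rw [u1 (O := pCoreOf q 𝐂(E)) hq hc hs (h.ce.norm_ne' hq) (h.comm_le_pCore hq hq2)
    (H2.isPGroup_pCoreOf _ _) (H2.pCoreOf_le _ _) (fun R hR => (inf_le_inf_right _ hR.comm.ge).trans
      (cent_comm_le h.comm h.ncyc R (isNilpotent_of_isPGroup hq hR.pg) hR.norm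
        (h.cop (h.ce.copq hq hq2 hR.pg)) fun c hc hc1 => (inf_le_inf_right _ (h.comm_le_pCore hq hq2 _
          (h.ce.cent_ne hc1) (h.le_cent hc) _ inf_le_right (hR.pg.to_le inf_le_left)
          (H1.le_normalizer_inf hR.norm ((h.le_cent hc).trans (le_norm_self _))))).trans
          (H2.pCoreOf_inf_le q (cent_le_cent1 hc))))
    (Bc E t) ⟨h3, (H2.isPGroup_pCoreOf q _).to_le (Bc_le ht (h.nO q ha)), norm_Bc _ _,
      comm_Bc ht (h.nO q ha) (h.cop (h.ce.copq hq hq2 (H2.isPGroup_pCoreOf q _))) hs⟩ Q Q' hQ k5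
      ((Bc_le_comm ht).trans h2) (k2.trans k4)]
  exact k3.trans k4

theorem le_cent' (hq : q.Prime) (hq2 : q ≠ 2) (hr : r.Prime) (hr2 : r ≠ 2) (hqr : q ≠ r) {a b : G}
    (ha : a ∈ E) (hb : b ∈ E) (ha1 : a ≠ 1) (hb1 : b ≠ 1) :
    ⁅pCoreOf q 𝐂[a], E⁆ ≤ 𝐂(⁅pCoreOf r 𝐂[b], E⁆) :=
  comm_le_iff_Bc.2 fun t ht => cent_comm.1 (comm_le_iff_Bc.2 fun t' ht' => by
    obtain ⟨K, k1, k2, k3⟩ := h.pair hq hq2 hr hr2 ha hb ha1 hb1 ht ht'
    exact ((k3.trans (comm_le_self (k1.trans (H2.le_normalizer_pCoreOf r K)))).trans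
      ((H2.pCoreOf_le_pPrimeCoreOf hr hq hqr.symm K).trans
        (H2.pPrimeCoreOf_le_centralizer_pCoreOf hq K))).trans
      (cent_anti (k2.trans (comm_le_self (k1.trans (H2.le_normalizer_pCoreOf q K))))))

theorem mem_le {W M : Subgroup G} (hW : Mem 2 (zpowers e) W)
    (hM : ∀ a ∈ E, a ≠ 1 → ∀ q : ℕ, q.Prime → q ≠ 2 → ⁅pCoreOf q 𝐂[a], E⁆ ≤ M) : W ≤ M := by
  refine hW.comm.ge.trans (comm_le_iff_Bc.2 fun b hb => ?_)
  by_cases h0 : Bc (zpowers e) b = ⊥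
  · exact h0.le.trans bot_le
  have hK := h.ce.f1 hW.cop hW.norm hb (cent_le_norm _ (h.fc (mem_zpowers f)))
  have hEK : E ≤ Bc (zpowers e) b ⊔ zpowers e ⊔ zpowers f := by
    rw [← h.hE, sup_assoc]; exact le_sup_right
  refine (h.ce.le_WW hK (h.eE.trans hEK) (h.ce.mem_Bc hW hb h0)
    (le_sup_left.trans le_sup_left)).trans ((commutator_mono le_rfl h.eE).trans ?_)
  generalize Bc (zpowers e) b ⊔ zpowers e ⊔ zpowers f = K at hK hEK
  refine H1.commutator_le_of_forall_centralizer h.comm h.ncyc (hEK.trans le_norm_VV) (h.cop cop_VV)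
    fun a ha ha1 => ?_
  have hn : E ≤ 𝐍(VV 2 K ⊓ 𝐂[a]) :=
    H1.le_normalizer_inf (hEK.trans le_norm_VV) ((h.le_cent ha).trans (le_norm_self _))
  have hc : 𝐨(VV 2 K ⊓ 𝐂[a]).Coprime 2 := cop_VV.coprime_dvd_left (FT.card_dvd_of_le inf_le_left)
  have h1 := h.comm_le_VV (h.ce.cent_ne ha1) (h.le_cent ha) inf_le_right hc hn
  have hnil := isNilpotent_of_le h1 nil_VV
  refine le_of_pCore_le hnil fun t ht h2 => ?_
  refine (comm_pCore ht hnil (normalizer_commutator_ge_right _ _)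
    (H1.commutator_commutator_eq hn (h.cop hc))).ge.trans ((commutator_mono
      (H2.le_pCoreOf_of_le_fittingOf (H2.isPGroup_pCoreOf _ _) ((H2.pCoreOf_le _ _).trans
        (h1.trans VV_le_fit))) le_rfl).trans (hM a ha ha1 t ht fun k => ?_))
  subst k
  exact (Nat.prime_two.coprime_iff_not_dvd.1 cop_VV.symm) ((prime_dvd_card_of_isPGroup ht
    (H2.isPGroup_pCoreOf _ _) h2).trans (FT.card_dvd_of_le ((H2.pCoreOf_le _ _).trans h1)))

theorem all_le : ∃ K : Subgroup G, K ≠ ⊤ ∧ zpowers e ≤ K ∧ ∀ W, Mem 2 (zpowers e) W → W ≤ K := by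
  by_cases h0 : ∀ a ∈ E, a ≠ 1 → ∀ q : ℕ, q.Prime → q ≠ 2 → ⁅pCoreOf q 𝐂[a], E⁆ = ⊥
  · exact ⟨_, h.ce.ne_top, le_rfl, fun W hW => h.mem_le hW fun a ha ha1 q hq hq2 =>
      (h0 a ha ha1 q hq hq2).le.trans bot_le⟩
  push Not at h0
  obtain ⟨a, ha, ha1, q, hq, hq2, h1⟩ := h0
  have hc := h.copq hq hq2
  obtain ⟨Q, k1, k2⟩ := Finite.exists_le_maximal (vq_comm hq hc (H2.isPGroup_pCoreOf q _)
    (h.nO q ha) h1)
  have he := h.eE (mem_zpowers e)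
  have hf := h.fE (mem_zpowers f)
  have hef : e * f ≠ 1 := fun k => h.ne (mul_left_cancel (h.he.trans k.symm))
  have k3 : ∀ b ∈ E, b ≠ 1 → ⁅pCoreOf q 𝐂[b], E⁆ ≤
      ⁅pCoreOf q 𝐂[e], E⁆ ⊔ ⁅pCoreOf q 𝐂[f], E⁆ ⊔ ⁅pCoreOf q 𝐂[e * f], E⁆ := fun b hb hb1 => by
    rcases h.mem hb with rfl | rfl | rfl | rfl
    exacts [absurd rfl hb1, le_sup_left.trans le_sup_left, le_sup_right.trans le_sup_left,
      le_sup_right]
  refine ⟨_, h.ce.norm_ne' hq _ (fun k => h1 (eq_bot_iff.2 ((k3 a ha ha1).trans k.le)))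
    (k2.prop.pg.to_le (sup_le (sup_le (h.le_max hq hq2 ha he ha1 h.e1 h1 k2 k1)
      (h.le_max hq hq2 ha hf ha1 h.f1 h1 k2 k1))
      (h.le_max hq hq2 ha (mul_mem he hf) ha1 hef h1 k2 k1))),
    h.eE.trans (H1.le_normalizer_sup (H1.le_normalizer_sup (normalizer_commutator_ge_right _ _)
      (normalizer_commutator_ge_right _ _)) (normalizer_commutator_ge_right _ _)),
    fun W hW => h.mem_le hW fun b hb hb1 r hr hr2 => ?_⟩
  by_cases hrq : r = q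
  · subst hrq; exact (k3 b hb hb1).trans (le_norm_self _)
  refine le_trans ?_ (cent_le_norm _)
  rw [cent_sup, cent_sup]
  exact le_inf (le_inf (h.le_cent' hr hr2 hq hq2 hrq hb he hb1 h.e1)
    (h.le_cent' hr hr2 hq hq2 hrq hb hf hb1 h.f1))
    (h.le_cent' hr hr2 hq hq2 hrq hb (mul_mem he hf) hb1 hef)

end Fo

theorem Ce.uq (h : Ce p P) {W₀ W₁ W₂ : Subgroup G} (h0 : Mem p P W₀) (h1 : Mem p P W₁)
    (h2 : Mem p P W₂) (h3 : W₀ ≤ W₁) (h4 : W₀ ≤ W₂) : W₁ ⊔ W₂ ⊔ P ≠ ⊤ := by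
  by_cases hp2 : p ≠ 2
  · exact h.uq_odd hp2 h0 h1 h2 h3 h4
  push Not at hp2
  subst hp2
  obtain ⟨x, hx, hx1⟩ := (bot_or_exists_ne_one P).resolve_left h.ne
  obtain rfl := zpowers_eq_of_card_prime h.prime hx hx1
  have ho : orderOf x = 2 := (Nat.card_zpowers x).symm.trans h.card
  have hxx : x * x = 1 := by rw [← pow_two, ← ho, pow_orderOf_eq_one]
  obtain ⟨g, k1, k2⟩ : ∃ g : G, Commute x (g * x * g⁻¹) ∧ g * x * g⁻¹ ≠ x := by
    by_contra hn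
    push Not at hn
    have k3 : pPrimeCore 2 G = ⊥ := by
      by_contra k
      haveI := feit_thompson (pPrimeCore 2 G)
        (Nat.coprime_two_right.1 (Agent.L.coprime_card_pPrimeCore (G := G) 2))
      exact H2.fittingOf_ne_bot k (h.fit _ (normal_iff_top_le.2 ((normal_iff_top_le.1
        inferInstance).trans (H2.normalizer_le_normalizer_fittingOf _))) inferInstance)
    refine h.cent_ne hx1 (eq_top_iff.2 fun g _ => mem_cent1.2 ?_)
    have := P1.zstar ho hn g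
    rwa [k3, mem_bot, commutatorElement_eq_one_iff_mul_comm] at this
  obtain ⟨K, k3, k4, k5⟩ := Fo.all_le (e := x) (f := g * x * g⁻¹) ⟨hxx, by
    rw [show g * x * g⁻¹ * (g * x * g⁻¹) = g * (x * x) * g⁻¹ by group, hxx]; group, k1, k2.symm, h,
    zpowers_conj x g ▸ h.conj g, rfl⟩
  exact ne_top_of_le_ne_top k3 (sup_le (sup_le (k5 _ h1) (k5 _ h2)) k4)

end Cfsg.Agent.H2.F2
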