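import Cfsg.Agent.H2.F2D
import Cfsg.Agent.H2.Extraspecial

/-! Characterization of the second Fitting subgroup: the blocks. -/

set_option autoImplicit false
set_option linter.unusedSectionVars false

namespace Cfsg.Agent.H2.F2

open Subgroup Cfsg Cfsg.Agent Cfsg.Agent.FT Cfsg.Agent.H7.FC
open scoped commutatorElement

universe u

variable {G : Type u} [Group G] [Finite G] {p q r : ℕ} {P P' K U L L' : Subgroup G}

/-- The blocks through `P`. -/
structure Lc (p : ℕ) (P L : Subgroup G) : Prop where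
  co : IsCoatom L
  le : P ≤ L
  max : Maximal (Mem p P) ⁅VV p L, P⁆

theorem Mem.conj (hU : Mem p P U) (g : G) : Mem p (P ^ᵍ g) (U ^ᵍ g) :=
  ⟨fun e => hU.ne (conj_eq_bot_iff.1 e), by
    haveI := hU.nil
    exact Group.nilpotent_of_mulEquiv (U.equivMapOfInjective _ (conj_injective g)),
    (card_conj U g).symm ▸ hU.cop, conj_le_norm_iff.2 hU.norm, by rw [← conj_comm, hU.comm]⟩

theorem Lc.conj (hp : p.Prime) (hL : Lc p P L) (g : G) : Lc p (P ^ᵍ g) (L ^ᵍ g) := by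
  refine ⟨isCoatom_conj hL.co g, conj_mono hL.le g, ?_⟩
  rw [VV_conj hp, ← conj_comm]
  refine ⟨hL.max.prop.conj g, fun Y hY h => ?_⟩
  have := hY.conj g⁻¹
  rw [conj_conj_inv] at this
  exact le_conj_iff.2 (hL.max.le_of_ge this (conj_le_iff.1 h))

theorem snIn_sup {V S A : Subgroup G} (hS : S ≤ 𝐍(V)) (h : H2.SnIn S A) :
    H2.SnIn (V ⊔ S) (V ⊔ A) := by
  induction h with
  | refl => exact .refl
  | step A B hAB hn hB ih =>
    refine .step _ _ (sup_le_sup_left hAB V) (sup_le (le_sup_left.trans (le_norm_self _))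
      (H1.le_normalizer_sup (hB.le.trans hS) hn)) ih

theorem Lc.WW_le (hL : Lc p P L) : ⁅VV p L, P⁆ ≤ L :=
  (comm_le_self (hL.le.trans le_norm_VV)).trans VV_le

namespace Ce

variable (h : Ce p P)
include h

theorem snIn (hK : K ≠ ⊤) (hP : P ≤ K) : H2.SnIn K (⁅VV p K, P⁆ ⊔ P) := by
  obtain ⟨S, h1, h2, h3, h4⟩ := h.loc K hK hP
  haveI := isNilpotent_of_isPGroup h.hp h1
  refine (H2.SnIn.of_normal (sup_le_sup_right (comm_le_self (hP.trans le_norm_VV)) P)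
    (sup_le ?_ (le_sup_right.trans (le_norm_self _)))).trans ((snIn_sup (h3.trans le_norm_VV)
      (H2.snIn_of_isNilpotent h2)).trans (H2.SnIn.of_normal (sup_le VV_le h3) h4))
  refine comm_le_left_iff.1 (comm_sup_left (le_sup_left.trans (le_norm_self _))
    (le_sup_right.trans (le_norm_self _)) ((comm_le_self (normalizer_commutator_ge_left _ _)).trans
      le_sup_left) ?_)
  rw [commutator_comm]; exact le_sup_left

theorem zip (hL : Lc p P L) (hK : K ≠ ⊤) (h1 : ⁅VV p L, P⁆ ≤ K) (hP : P ≤ K) : K ≤ L := by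
  have hW := hL.max.prop
  obtain ⟨M, k1, -, k2⟩ := H2.zipper_top (A := ⁅VV p L, P⁆ ⊔ P) (fun K' k hK' => by
    have k1 := h.le_WW hK' (le_sup_right.trans k) hW (le_sup_left.trans k)
    rw [le_antisymm k1 (hL.max.le_of_ge (h.mem_WW (le_sup_right.trans k)
      fun e => hW.ne (eq_bot_iff.2 (k1.trans e.le))) k1)]
    exact h.snIn hK' (le_sup_right.trans k)) fun k => hW.ne (eq_bot_iff.2
      ((H2.le_fittingSubgroup_of_isSubnormal ((H2.SnIn.of_normal le_sup_left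
        (sup_le (le_norm_self _) hW.norm)).isSubnormal k) hW.nil).trans
        (h.fit _ inferInstance inferInstance).le))
  rw [← (hL.co.le_iff_eq k1.1).1 (k2 L (sup_le hL.WW_le hL.le) hL.co.1)]
  exact k2 K (sup_le h1 hP) hK

theorem ex_Lc (hU : Mem p P U) : ∃ L, Lc p P L ∧ U ≤ L := by
  obtain ⟨W, h1, h2⟩ := Finite.exists_le_maximal hU
  obtain ⟨L, h3, h4⟩ := H2.exists_coatom_ge (h.norm_ne h2.prop.ne h2.prop.nil)
  have h5 := h2.prop.norm.trans h4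
  have h6 := h.le_WW h3.1 h5 h2.prop ((le_norm_self W).trans h4)
  exact ⟨L, ⟨h3, h5, le_antisymm h6 (h2.le_of_ge (h.mem_WW h5 fun e => h2.prop.ne
    (eq_bot_iff.2 (h6.trans e.le))) h6) ▸ h2⟩, h1.trans ((le_norm_self W).trans h4)⟩

theorem uniq (hU : Mem p P U) (hL : Lc p P L) (hL' : Lc p P L') (h1 : U ≤ L) (h2 : U ≤ L') :
    L = L' := by
  have h3 := h.uq hU hL.max.prop hL'.max.prop (h.le_WW hL.co.1 hL.le hU h1)
    (h.le_WW hL'.co.1 hL'.le hU h2)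
  have h4 := h.le_WW h3 le_sup_right hL.max.prop (le_sup_left.trans le_sup_left)
  have h5 := h.le_WW h3 le_sup_right hL'.max.prop (le_sup_right.trans le_sup_left)
  have h6 := hL.max.le_of_ge (h.mem_WW le_sup_right fun e => hL.max.prop.ne
    (eq_bot_iff.2 (h4.trans e.le))) h4
  exact (hL'.co.le_iff_eq hL.co.1).1 (h.zip hL hL'.co.1
    ((hL'.max.le_of_ge hL.max.prop (h5.trans h6)).trans hL'.WW_le) hL'.le)

theorem mem_of_conj (hL : Lc p P L) {g : G} (hg : L = L ^ᵍ g) : g ∈ L :=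
  ((hL.co.le_iff_eq (h.norm_ne'' hL.co.1 hL.le)).1 (le_norm_self L)).le (conj_eq_self_iff.1 hg.symm)

theorem norm_le (hL : Lc p P L) : 𝐍(P) ≤ L := fun c hc => by
  have hW := hL.max.prop
  obtain ⟨b, hb, h1⟩ := ex_Bc (hW.comm.symm ▸ hW.ne : ⁅⁅VV p L, P⁆, P⁆ ≠ ⊥)
  have hK := h.f1 hW.cop hW.norm hb hc
  have hU := h.mem_Bc hW hb h1
  have hP : P ≤ Bc P b ⊔ P ⊔ zpowers c := le_sup_right.trans le_sup_left
  have h2 := h.le_WW hK hP hU (le_sup_left.trans le_sup_left)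
  have h3 := h.mem_WW hP fun e => h1 (eq_bot_iff.2 (h2.trans e.le))
  obtain ⟨L', h4, h5⟩ := h.ex_Lc h3
  obtain rfl := h.uniq hU hL h4 ((Bc_le hb hW.norm).trans hL.WW_le) (h2.trans h5)
  have h6 := hL.conj h.hp c
  rw [conj_eq_of_mem_norm hc] at h6
  exact h.mem_of_conj hL (h.uniq h3 hL h6 h5 ((conj_eq_of_mem_norm (comm_conj_eq hc
    (le_norm_VV (mem_sup_right (mem_zpowers c))))).ge.trans (conj_mono h5 c)))

theorem VV_le_of (hL : Lc p P L) (hP : P ≤ K) (h1 : ⁅VV p K, P⁆ ≤ L) : VV p K ≤ L :=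
  (H1.commutator_sup_centralizer (hP.trans le_norm_VV) (h.cop cop_VV) (Or.inl h.sP)).ge.trans
    (sup_le h1 (inf_le_right.trans ((cent_le_norm P).trans (h.norm_le hL))))

theorem pg_of (g : G) (h1 : ⁅VV p (P ⊔ zpowers g), P⁆ = ⊥) : IsPGroup p ↥(P ⊔ P ^ᵍ g) :=
  have h2 := h.le_pCore (h.two g) le_sup_left h1
  (H2.isPGroup_pCoreOf p _).to_le (sup_le h2 (conj_le_of_mem_norm h2
    (H2.le_normalizer_pCoreOf p _ (mem_sup_right (mem_zpowers g)))))

theorem ex : ∃ L, Lc p P L := by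
  haveI := Fact.mk h.hp
  by_contra hn
  refine h.ne (eq_bot_iff.2 ((Agent.L.le_pCore_of_isPGroup_sup_conj fun g => h.pg_of g ?_).trans
    (h.fit _ (pCore_normal p G)
      (isNilpotent_of_isPGroup h.hp (Agent.L.isPGroup_pCore p))).le))
  by_contra k
  obtain ⟨L, hL, -⟩ := h.ex_Lc (h.mem_WW le_sup_left k)
  exact hn ⟨L, hL⟩

theorem u3 (h' : Ce p P') (hL : Lc p P L) (h1 : P' ≤ L) (h2 : ∀ L', Lc p P' L' → P ≤ L') :
    Lc p P' L := by
  obtain ⟨L', h3, h4⟩ : ∃ L', Lc p P' L' ∧ ⁅VV p L, P'⁆ ≤ L' := by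
    by_cases k : ⁅VV p L, P'⁆ = ⊥
    · exact h'.ex.imp fun L' hL' => ⟨hL', k.le.trans bot_le⟩
    · exact h'.ex_Lc (h'.mem_WW h1 k)
  rwa [← (h3.co.le_iff_eq hL.co.1).1 (h.zip hL h3.co.1 ((comm_le_self (hL.le.trans le_norm_VV)).trans
    (h'.VV_le_of h3 h1 h4)) (h2 L' h3))] at h3

theorem ph {z : G} (hz : z ∈ 𝐂(P)) (hz1 : z ∉ P) (hzp : orderOf z = p) (hL : Lc p P L) :
    ∃ y ∈ P, P ≤ 𝐂[z * y] ∧ ⁅VV p 𝐂[z * y], P⁆ ≠ ⊥ ∧ ⁅VV p 𝐂[z * y], P⁆ ≤ L := by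
  haveI := Fact.mk h.hp
  have hW := hL.max.prop
  have hPa := isMulComm_of_isCyclic (isCyclic_of_card_prime h.prime)
  have hzc : 𝐨(zpowers z) = p := (Nat.card_zpowers z).trans hzp
  have hE := isMulComm_sup hPa inferInstance (zpowers_le.2 hz)
  have hEP : P ⊔ zpowers z ≤ 𝐂(P) := (isMulComm_iff_le_cent.1 hE).trans (cent_anti le_sup_left)
  have hEW : P ⊔ zpowers z ≤ 𝐍(⁅VV p L, P⁆) := H1.le_normalizer_commutator
    (hEP.trans ((cent_le_norm P).trans ((h.norm_le hL).trans le_norm_VV)))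
    (hEP.trans (cent_le_norm P))
  obtain ⟨e, he, he1, h1⟩ : ∃ e ∈ P ⊔ zpowers z, e ≠ 1 ∧ ¬ ⁅VV p L, P⁆ ⊓ 𝐂[e] ≤ 𝐂(P) := by
    by_contra hn
    push Not at hn
    refine hW.ne (hW.comm.symm.trans (comm_eq_bot_iff.2 (H1.le_of_forall_centralizer_le hE
      (fun k => hz1 ?_) hEW (H1.coprime_card_of_isPGroup (sup_comm (zpowers z) P ▸ isPGroup_sup
        (isPGroup_of_card_prime hzc) h.pg (zpowers_le.2 (cent_le_norm P hz))) hW.cop).symm hn)))
    exact (eq_of_card_prime_of_isCyclic h.hp k le_sup_right le_sup_left hzc h.card).le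
      (mem_zpowers z)
  obtain ⟨y, hy, w, hw, rfl⟩ := (mem_sup_of_norm (zpowers_le.2 (cent_le_norm P hz))).1 he
  have hw1 : w ≠ 1 := by
    rintro rfl
    rw [mul_one] at h1 he1
    exact h1 (cent1_eq_of_card_prime h.prime hy he1 ▸ inf_le_right)
  obtain ⟨k, hk⟩ := (zpowers_eq_of_card_prime (hzc ▸ h.hp) hw hw1).ge (mem_zpowers z)
  have h2 : (y * w) ^ k = z * y ^ k := by
    rw [Commute.mul_zpow (mem_cent.1 (zpowers_le.2 hz hw) y hy), ← mem_cent.1 hz _ (zpow_mem hy k)]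
    exact congrArg _ hk
  have h3 : 𝐂[y * w] ≤ 𝐂[z * y ^ k] := h2 ▸ cent1_le_cent1_zpow _ k
  have h4 : P ≤ 𝐂[y * w] := (cent_comm.1 hEP).trans (cent_le_cent1 he)
  have h5 := h.mem_comm (isNilpotent_of_le inf_le_left hW.nil)
    (hW.cop.coprime_dvd_left (FT.card_dvd_of_le inf_le_left))
    (H1.le_normalizer_inf hW.norm (h4.trans (le_norm_self _))) fun k => h1 (comm_eq_bot_iff.1 k)
  have h6 := comm_le_self (H1.le_normalizer_inf hW.norm (h4.trans (le_norm_self _)))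
  have h7 := h.le_WW (h.cent_ne fun k => hz1 (by
    rw [eq_inv_of_mul_eq_one_left k]; exact inv_mem (zpow_mem hy _))) (h4.trans h3) h5
    (h6.trans (inf_le_right.trans h3))
  have h8 := fun e => h5.ne (eq_bot_iff.2 (h7.trans (le_of_eq e)))
  obtain ⟨L', h9, h10⟩ := h.ex_Lc (h.mem_WW (h4.trans h3) h8)
  exact ⟨_, zpow_mem hy k, h4.trans h3, h8, h.uniq h5 hL h9 (h6.trans (inf_le_left.trans hL.WW_le))
    (h7.trans h10) ▸ h10⟩

theorem ex_z {S : Subgroup G} (hS : IsPGroup p S) (h1 : S ≠ ⊥) :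
    ∃ z ∈ S, S ≤ 𝐂[z] ∧ orderOf z = p := by
  obtain ⟨z, hz, h2⟩ := exists_mem_orderOf_eq_prime h.hp (prime_dvd_card_of_isPGroup h.hp
    (hS.to_le (inf_le_left : 𝐙(S) ≤ S)) (center_ne_bot (isNilpotent_of_isPGroup h.hp hS) h1))
  exact ⟨z, (mem_inf.1 hz).1, mem_cent_iff_cent1.1 (mem_inf.1 hz).2, h2⟩

theorem ne_one {z : G} (hz : orderOf z = p) : z ≠ 1 := fun e =>
  h.hp.one_lt.ne (by rw [← hz, e, orderOf_one])

end Ce

theorem u4 (S : Subgroup G) : IsPGroup p S → ∀ P, Ce p P → P ≤ S → ∀ L, Lc p P L → S ≤ L := by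
  induction S using H1.subgroup_strong_induction with
  | h S ih =>
  intro hS P h hPS L hL
  haveI := Fact.mk h.hp
  rcases eq_or_lt_of_le hPS with rfl | hlt
  · exact hL.le
  obtain ⟨T, hPT, hTS, hmax⟩ := H2.exists_covBy_of_lt hlt
  have hST : S ≤ 𝐍(T) := by
    have k := lt_inf_norm_of_isNilpotent (isNilpotent_of_isPGroup h.hp hS) hTS
    by_contra hn
    exact k.ne' (hmax _ k.le (lt_of_le_of_ne inf_le_left fun e => hn (e.ge.trans inf_le_right)))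
  have a0 : ∀ s ∈ S, ∀ L', Lc p (P ^ᵍ s) L' → T ≤ L' := fun s hs =>
    ih T hTS (hS.to_le hTS.le) _ (h.conj s) (conj_le_of_mem_norm hPT (hST hs))
  have a0' := ih T hTS (hS.to_le hTS.le) P h hPT
  have a1 : ∀ s ∈ S, ∀ L', Lc p P L' → Lc p (P ^ᵍ s) L' := fun s hs L' hL' =>
    h.u3 (h.conj s) hL' ((conj_le_of_mem_norm hPT (hST hs)).trans (a0' L' hL'))
      fun L'' k => hPT.trans (a0 s hs L'' k)
  have a2 : ∀ s ∈ S, Lc p P (L ^ᵍ s) := fun s hs =>
    (h.conj s).u3 h (hL.conj h.hp s) (hPT.trans (a0 s hs _ (hL.conj h.hp s)))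
      fun L'' k => (conj_le_of_mem_norm hPT (hST hs)).trans (a0' L'' k)
  obtain ⟨z, hzS, hz, hzp⟩ := h.ex_z hS (ne_bot_of_gt hlt)
  by_cases hzP : z ∈ P
  · exact (hz.trans (cent1_eq_of_card_prime h.prime hzP (h.ne_one hzp)).le).trans
      ((cent_le_norm P).trans (h.norm_le hL))
  have b : ∀ L', Lc p P L' → ⁅VV p 𝐂[z], P⁆ ≠ ⊥ → ⁅VV p 𝐂[z], P⁆ ≤ L' → S ≤ L' := by
    intro L' k1 k2 k3 s hs
    have k4 := (h.mem_WW (hPS.trans hz) k2).conj s
    refine h.mem_of_conj k1 ((h.conj s).uniq k4 (a1 s hs L' k1) (k1.conj h.hp s) ?_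
      (conj_mono k3 s))
    exact (conj_le_of_mem_norm (comm_le_self ((hPS.trans hz).trans le_norm_VV))
      (le_norm_VV (hz hs))).trans (h.VV_le_of k1 (hPS.trans hz) k3)
  by_contra hn
  choose j j1 j2 j3 j4 using fun c : S ⧸ L.subgroupOf S =>
    h.ph (mem_cent_iff_cent1.2 (hPS.trans hz)) hzP hzp (a2 c.out c.out.2)
  haveI := Fintype.ofFinite (S ⧸ L.subgroupOf S)
  haveI := Fintype.ofFinite P
  have k := Fintype.card_lt_of_injective_of_notMem (fun c => (⟨j c, j1 c⟩ : P)) (fun c c' e => by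
    have e' : j c = j c' := congrArg Subtype.val e
    have k1 := h.uniq (h.mem_WW (j2 c) (j3 c)) (a2 _ c.out.2) (a2 _ c'.out.2) (j4 c) (e' ▸ j4 c')
    rw [← c.out_eq', ← c'.out_eq', QuotientGroup.eq, mem_subgroupOf]
    refine h.mem_of_conj hL ?_
    rw [coe_mul, ← conj_conj, ← k1, coe_inv, conj_conj_inv]) (b := 1) (by
      rintro ⟨c, e⟩
      have e' : j c = 1 := congrArg Subtype.val e
      have k1 := j3 c
      have k2 := j4 c
      rw [e', mul_one] at k1 k2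
      exact hn ((conj_eq_of_mem (inv_mem c.out.2)).ge.trans (le_conj_iff.1 (b _ (a2 _ c.out.2) k1 k2))))
  rw [← Nat.card_eq_fintype_card, ← Nat.card_eq_fintype_card, h.card] at k
  have k1 := H2.prime_le_relIndex_of_lt hS (lt_of_le_of_ne (inf_le_right (a := L))
    fun e => hn (e.ge.trans inf_le_left))
  rw [inf_relIndex_right] at k1
  exact k.not_ge k1

namespace Ce

variable (h : Ce p P)
include h

theorem u45 (h' : Ce p P') (h1 : IsPGroup p ↥(P ⊔ P')) (hL : Lc p P L) : Lc p P' L :=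
  h.u3 h' hL (le_sup_right.trans (u4 _ h1 P h le_sup_left L hL))
    fun L' k => le_sup_left.trans (u4 _ h1 P' h' le_sup_right L' k)

theorem u2 (hL : Lc p P L) (hK : K ≠ ⊤) (hP : P ≤ K) (h1 : ⁅VV p K, P⁆ ≠ ⊥) (h2 : ⁅VV p K, P⁆ ≤ L) :
    K ≤ L := by
  obtain ⟨S, k1, k2, k3, k4⟩ := h.loc K hK hP
  have k5 := (isSyl_iff_hall h.hp).2 (hall_of_sup (π := {p}) (k3.trans le_norm_VV)
    ((isPi_singleton_iff h.hp).2 k1) ((isPi_compl_singleton_iff h.hp).2 cop_VV)).1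
  have k6 := h.VV_le_of hL hP h2
  rw [← k5.frattini h.hp ⟨sup_le VV_le k3, k4⟩]
  refine sup_le (sup_le k6 (u4 S k1 P h k2 L hL)) fun n hn => h.mem_of_conj hL (h.uniq
    (h.mem_WW hP h1) hL ((h.conj n).u45 h (k1.to_le (sup_le (conj_le_of_mem_norm k2
      (mem_inf.1 hn).2) k2)) (hL.conj h.hp n)) h2 ?_)
  exact (comm_le_self (hP.trans le_norm_VV)).trans
    ((conj_eq_of_mem_norm (le_norm_VV (mem_inf.1 hn).1)).ge.trans (conj_mono k6 n))

theorem u5 (h' : Ce p P') (hL : Lc p P L) (h1 : P' ≤ L) : Lc p P' L := by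
  obtain ⟨S, k1, k2⟩ := exists_isSyl_ge h.hp h.pg hL.le
  obtain ⟨l, k3, k4⟩ := k1.exists_conj_le h.hp h'.pg h1
  have := (h.u45 (h'.conj l) (k1.pgrp.to_le (sup_le k2 k4)) hL).conj h.hp l⁻¹
  rwa [conj_conj_inv, conj_eq_of_mem (inv_mem k3)] at this

theorem bl (hc : Conj P P') (h1 : ¬ IsPGroup p ↥(P ⊔ P')) : ∃ L, Lc p P L ∧ Lc p P' L := by
  obtain ⟨g, rfl⟩ := hc
  have h2 := mt (h.pg_of g) h1
  obtain ⟨L, k1, k2⟩ := h.ex_Lc (h.mem_WW le_sup_left h2)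
  exact ⟨L, k1, h.u5 (h.conj g) k1 ((conj_le_of_mem le_sup_left
    (mem_sup_right (mem_zpowers g))).trans (h.u2 k1 (h.two g) le_sup_left h2 k2))⟩

theorem tw (hL : Lc p P L) (hL' : Lc p P L') (hne : L ≠ L') (h1 : P' ≤ L) (h2 : P' ≤ L')
    (h3 : IsPGroup p P') : IsPGroup p ↥(P ⊔ P') := by
  have k1 : P ≤ L ⊓ L' := le_inf hL.le hL'.le
  have k2 := (comm_le_self (k1.trans (le_norm_VV (p := p)))).trans VV_le
  have k3 := h.le_pCore (ne_top_of_le_ne_top hL.co.1 inf_le_left) k1 (by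
    by_contra k
    exact hne (h.uniq (h.mem_WW k1 k) hL hL' (k2.trans inf_le_left) (k2.trans inf_le_right)))
  exact (isPGroup_sup h3 (H2.isPGroup_pCoreOf p _) ((le_inf h1 h2).trans
    (H2.le_normalizer_pCoreOf p _))).to_le (sup_le (k3.trans le_sup_right) le_sup_left)

theorem gen (hK : K ≠ ⊤) : ∃ g : G, ¬ P ^ᵍ g ≤ K := by
  by_contra hn
  push Not at hn
  have k : P ≤ K.normalCore := fun x hx b => hn b (conj_mem_conj hx b)
  exact hK (eq_top_iff.2 ((h.big _ inferInstance fun e => h.ne (eq_bot_iff.2 (k.trans e.le))).ge.trans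
    (sup_le K.normalCore_le (k.trans K.normalCore_le))))

end Ce

end Cfsg.Agent.H2.F2
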