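import Cfsg.Agent.H2.F2E
import Cfsg.Agent.H6.Induction

/-! Characterization of the second Fitting subgroup: the final contradiction. -/

set_option autoImplicit false
set_option linter.unusedSectionVars false

namespace Cfsg.Agent.H2.F2

open Subgroup Cfsg Cfsg.Agent Cfsg.Agent.FT Cfsg.Agent.H7.FC
open scoped commutatorElement

universe u

variable {G : Type u} [Group G] [Finite G] {p q r : ℕ} {P P' K U L L' : Subgroup G}

namespace Ce

variable (h : Ce p P)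
include h

theorem of_conj (hc : Conj P P') : Ce p P' := by
  obtain ⟨g, rfl⟩ := hc
  exact h.conj g

theorem alpha {z : G} (hz : z ∈ 𝐂(P)) (hzp : orderOf z = p) : z ∈ P := by
  haveI := Fact.mk h.hp
  by_contra hz1
  obtain ⟨L, hL⟩ := h.ex
  obtain ⟨g, hg⟩ := h.gen hL.co.1
  have h' := h.conj g
  have hPV : P ≤ 𝐍(VV p L) := hL.le.trans le_norm_VV
  have hHL : VV p L ⊔ P ≤ L := sup_le VV_le hL.le
  have k5 := (isSyl_iff_hall h.hp).2 (hall_of_sup (π := {p}) hPV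
    ((isPi_singleton_iff h.hp).2 h.pg) ((isPi_compl_singleton_iff h.hp).2 cop_VV)).1
  generalize hH : VV p L ⊔ P = H at hHL k5
  have a1 : ∀ Q : Sylow p H, Conj P ((Q : Subgroup H).map H.subtype) := fun Q => by
    obtain ⟨v, -, hv⟩ := (isSyl_map_subtype h.hp Q).exists_conj_eq h.hp k5
    exact ⟨v, hv.symm⟩
  have a2 : ∀ Q : Sylow p H, Lc p ((Q : Subgroup H).map H.subtype) L := fun Q =>
    h.u5 (h.of_conj (a1 Q)) hL ((map_subtype_le _).trans hHL)
  choose B B1 B2 using fun Q : Sylow p H => h'.bl ((Conj.conj P g).symm.trans (a1 Q)) fun k =>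
    hg (le_sup_left.trans (u4 _ k _ (h.of_conj (a1 Q)) le_sup_right L (a2 Q)))
  choose j j1 j2 j3 j4 using fun Q : Sylow p H => h'.ph (z := g * z * g⁻¹)
    (by rw [cent_conj]; exact conj_mem_conj hz g) (fun k => hz1 (conj_mem_conj_iff.1 k))
    (by rw [← hzp]; exact (MulAut.conj g).orderOf_eq z) (B1 Q)
  have k1 := Nat.card_le_card_of_injective (fun Q => (⟨j Q, j1 Q⟩ : ↥(P ^ᵍ g))) fun Q Q' e => by
    have e' : j Q = j Q' := congrArg Subtype.val e
    have k2 := h'.uniq (h'.mem_WW (j2 Q) (j3 Q)) (B1 Q) (B1 Q') (j4 Q) (e' ▸ j4 Q')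
    have k3 := (h.of_conj (a1 Q)).tw (a2 Q) (B2 Q) (fun e => hg (e ▸ (B1 Q).le)) (a2 Q').le
      (k2 ▸ (B2 Q').le) (h.of_conj (a1 Q')).pg
    have k4 := sup_le (map_subtype_le (Q : Subgroup H)) (map_subtype_le (Q' : Subgroup H))
    exact Sylow.ext (map_injective H.subtype_injective
      (((isSyl_map_subtype h.hp Q).eq_of_le h.hp le_sup_left k4 k3).symm.trans
        ((isSyl_map_subtype h.hp Q').eq_of_le h.hp le_sup_right k4 k3)))
  rw [h'.card] at k1
  have k2 := card_sylow_modEq_one p H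
  have k3 : Nat.card (Sylow p H) = 1 := by
    rcases eq_or_lt_of_le k1 with e | e
    · rw [e] at k2
      exact absurd (Nat.dvd_one.1 ((Nat.modEq_zero_iff_dvd.1
        (k2.symm.trans (Nat.modEq_zero_iff_dvd.2 dvd_rfl))))) h.hp.one_lt.ne'
    · exact Nat.ModEq.eq_of_lt_of_lt k2 e h.hp.one_lt
  haveI := (Nat.card_eq_one_iff_unique.1 k3).1
  have k4 : H ≤ 𝐍(P) := fun v hv => by
    obtain ⟨S, hS⟩ := k5.exists_sylow h.hp
    obtain ⟨S', hS'⟩ := (k5.conj_of_mem_norm (le_norm_self H hv)).exists_sylow h.hp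
    rw [← conj_eq_self_iff, ← map_subgroupOf_eq_of_le (conj_le_of_mem k5.le hv), ← hS',
      Subsingleton.elim S' S, hS, map_subgroupOf_eq_of_le k5.le]
  refine hL.max.prop.ne (eq_bot_iff.2 ((le_inf (comm_le_right_iff.2 ((le_sup_left.trans hH.le).trans
    k4)) (comm_le_self hPV)).trans (H1.inf_eq_bot_of_coprime' (h.cop cop_VV)).le))

theorem eq_of_pg (h' : Ce p P') (h1 : IsPGroup p ↥(P ⊔ P')) : P = P' := by
  obtain ⟨z, -, hz, hzp⟩ := h.ex_z h1 fun e => h.ne (eq_bot_iff.2 (le_sup_left.trans e.le))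
  exact (zpowers_eq_of_card_prime h.prime (h.alpha (mem_cent_iff_cent1.2 (le_sup_left.trans hz)) hzp)
    (h.ne_one hzp)).symm.trans (zpowers_eq_of_card_prime h'.prime
      (h'.alpha (mem_cent_iff_cent1.2 (le_sup_right.trans hz)) hzp) (h.ne_one hzp))

theorem bl' (hc : Conj P P') (h1 : P ≠ P') : ∃ L, Lc p P L ∧ Lc p P' L :=
  h.bl hc (mt (h.eq_of_pg (h.of_conj hc)) h1)

theorem tw' (h' : Ce p P') (hL : Lc p P L) (hL' : Lc p P L') (hne : L ≠ L') (h1 : P' ≤ L)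
    (h2 : P' ≤ L') : P = P' :=
  h.eq_of_pg h' (h.tw hL hL' hne h1 h2 h'.pg)

theorem mem_norm (hL : Lc p P L) (hL' : Lc p P L') (hne : L ≠ L') {n : G} (h1 : n ∈ L)
    (h2 : n ∈ L') : n ∈ 𝐍(P) :=
  conj_eq_self_iff.1 (h.tw' (h.conj n) hL hL' hne (conj_le_of_mem hL.le h1)
    (conj_le_of_mem hL'.le h2)).symm

theorem false : False := by
  have key : ∀ g : G, g ∉ 𝐍(P) → 𝐍(P) ⊓ 𝐍(P) ^ᵍ g = ⊥ := fun g hg => by
    have hne : P ≠ P ^ᵍ g := fun e => hg (conj_eq_self_iff.1 e.symm)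
    obtain ⟨L, hL, hL'⟩ := h.bl' (Conj.conj P g) hne
    rw [← norm_conj]
    have k0 : (𝐍(P)).normalCore = ⊥ := by
      by_contra k
      exact h.normP_ne (eq_top_iff.2 ((h.big _ inferInstance k).ge.trans
        (sup_le (normalCore_le _) (le_norm_self P))))
    refine eq_bot_iff.2 (le_trans (fun n hn => ?_) k0.le)
    obtain ⟨n1, n2⟩ := mem_inf.1 hn
    have a1 : ∀ a : G, ¬ P ^ᵍ a ≤ L → n ∈ 𝐍(P ^ᵍ a) := fun a ha => by
      obtain ⟨L₁, k1, k2⟩ := h.bl' (Conj.conj P a) fun e => ha (e ▸ hL.le)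
      obtain ⟨L₂, k3, k4⟩ := (h.conj g).bl' ((Conj.conj P g).symm.trans (Conj.conj P a))
        fun e => ha (e ▸ hL'.le)
      exact (h.conj a).mem_norm k2 k4 (fun e => hne (h.tw' (h.conj g) hL k1
        (fun e' => ha (e' ▸ k2.le)) hL'.le (e ▸ k3.le))) (h.norm_le k1 n1)
        ((h.conj g).norm_le k3 n2)
    have a2 : ∀ a : G, n ∈ 𝐍(P ^ᵍ a) := fun a => by
      by_cases ha : P ^ᵍ a ≤ L
      · obtain ⟨c, hc⟩ := h.gen hL.co.1
        obtain ⟨L₁, k1, k2⟩ := (h.conj a).bl' ((Conj.conj P a).symm.trans (Conj.conj P c))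
          fun e => hc (e ▸ ha)
        exact (h.conj a).mem_norm k1 (h.u5 (h.conj a) hL ha) (fun e => hc (e ▸ k2.le))
          ((h.conj c).norm_le k2 (a1 c hc)) (h.norm_le hL n1)
      · exact a1 a ha
    intro b
    have := a2 b⁻¹
    rwa [norm_conj, mem_conj, inv_inv] at this
  obtain ⟨N, hN, -, h1⟩ := H6.exists_frobeniusKernel (H := 𝐍(P))
    ⟨fun e => h.ne (eq_bot_iff.2 ((le_norm_self P).trans e.le)), h.normP_ne, key⟩
  have h2 := h.fit N hN (nilpotent_of_prime_reg (le_top.trans (normal_iff_top_le.1 hN)) h.prime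
    (eq_bot_iff.2 ((inf_le_inf_left N (cent_le_norm P)).trans h1.disjoint.le_bot)))
  have h3 := h1.sup_eq_top
  rw [h2, bot_sup_eq] at h3
  exact h.normP_ne h3

end Ce

end Cfsg.Agent.H2.F2
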