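import Cfsg.Agent.H2.F2F
import Cfsg.Agent.L.FittingHeight

/-! Characterization of the second Fitting subgroup: reduction. -/

set_option autoImplicit false
set_option linter.unusedSectionVars false

namespace Cfsg.Agent.H2.F2

open Subgroup Cfsg Cfsg.Agent Cfsg.Agent.FT Cfsg.Agent.H7.FC
open scoped commutatorElement

universe u

variable {G : Type u} [Group G] [Finite G] {p q r : ℕ} {A N K S : Subgroup G} {x : G}

/-- `x ∈ F₂(K)`. -/
def In2 (x : G) (K : Subgroup G) : Prop :=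
  ∃ A N : Subgroup G, A ⊲ K ∧ N ⊲ K ∧ Group.IsNilpotent A ∧ NilMod N A ∧ x ∈ N

theorem nilMod_comap {H : Type u} [Group H] (f : H →* G) (h : NilMod N A) :
    NilMod (N.comap f) (A.comap f) :=
  h.imp fun n hn => (Agent.L.lcs_comap_le f N n).trans (comap_mono hn)

theorem nilMod_inf {B : Subgroup G} (h1 : NilMod N A) (h2 : NilMod N B) : NilMod N (A ⊓ B) := by
  obtain ⟨m, hm⟩ := h1
  obtain ⟨n, hn⟩ := h2
  exact ⟨max m n, le_inf ((N.lowerCentralSeries_antitone (le_max_left m n)).trans hm)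
    ((N.lowerCentralSeries_antitone (le_max_right m n)).trans hn)⟩

theorem normal_comap {H : Type u} [Group H] (f : H →* G) (h : N ⊲ K) : N.comap f ⊲ K.comap f :=
  ⟨comap_mono h.1, (comap_mono h.2).trans (le_normalizer_comap f)⟩

theorem normal_map {H : Type u} [Group H] (f : G →* H) (h : N ⊲ K) : N.map f ⊲ K.map f :=
  ⟨map_mono h.1, (map_mono h.2).trans (le_normalizer_map f)⟩

theorem In2.restrict {y : G} {K' : Subgroup G} (h : In2 x K) (hy : y ∈ zpowers x) (h1 : y ∈ K')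
    (h2 : K' ≤ K) : In2 y K' := by
  obtain ⟨A, N, k1, k2, k3, k4, k5⟩ := h
  exact ⟨_, _, inf_normal k1 h2, inf_normal k2 h2, isNilpotent_of_le inf_le_left k3,
    nilMod_inf (k4.mono inf_le_left le_rfl) (nilMod_of_le inf_le_right),
    mem_inf.2 ⟨zpowers_le.2 k5 hy, h1⟩⟩

theorem In2.map {H : Type u} [Group H] (f : G →* H) (h : In2 x K) : In2 (f x) (K.map f) := by
  obtain ⟨A, N, k1, k2, k3, k4, k5⟩ := h
  exact ⟨_, _, normal_map f k1, normal_map f k2, Agent.L.isNilpotent_map A f, k4.map f,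
    mem_map_of_mem f k5⟩

theorem In2.comap {H : Type u} [Group H] {f : H →* G} (hf : Function.Injective f) {y : H}
    (h : In2 (f y) K) : In2 y (K.comap f) := by
  obtain ⟨A, N, k1, k2, k3, k4, k5⟩ := h
  refine ⟨_, _, normal_comap f k1, normal_comap f k2, nilMod_bot_iff.1 ?_, nilMod_comap f k4, k5⟩
  have := nilMod_comap f (nilMod_bot_iff.2 k3)
  rwa [MonoidHom.comap_bot, (MonoidHom.ker_eq_bot_iff f).2 hf] at this

theorem normal_top [h : N.Normal] : N ⊲ ⊤ := ⟨le_top, normal_iff_top_le.1 h⟩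

theorem in2_top_iff : In2 x ⊤ ↔ x ∈ Agent.L.fitTerm G 2 := by
  constructor
  · rintro ⟨A, N, k1, k2, k3, k4, k5⟩
    exact Agent.L.le_fitTerm_succ_of_lcs (normal_iff_top_le.2 k2.2) (k4.mono le_rfl (by
      rw [Agent.L.fitTerm_one]
      exact Agent.L.le_fittingSubgroup (normal_iff_top_le.2 k1.2) k3)) k5
  · exact fun h => ⟨Agent.L.fitTerm G 1, _, normal_top, normal_top, by
      rw [Agent.L.fitTerm_one]; infer_instance, Agent.L.lcs_fitTerm_succ_le 1, h⟩

theorem in2_top_iff' [(fittingSubgroup G).Normal] : In2 x ⊤ ↔ x ∈ (fittingSubgroup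
    (G ⧸ fittingSubgroup G)).comap (QuotientGroup.mk' (fittingSubgroup G)) := by
  constructor
  · rintro ⟨A, N, k1, k2, k3, k4, k5⟩
    exact Agent.L.le_fittingSubgroup ((normal_iff_top_le.2 k2.2).map _
      (QuotientGroup.mk'_surjective _)) ((Agent.L.lcs_le_iff_isNilpotent_map _ _).1
      (k4.mono le_rfl (Agent.L.le_fittingSubgroup (normal_iff_top_le.2 k1.2) k3)))
      (mem_map_of_mem _ k5)
  · refine fun h => ⟨fittingSubgroup G, _, normal_top, normal_top, inferInstance,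
      (Agent.L.lcs_le_iff_isNilpotent_map _ _).2 ?_, h⟩
    rw [map_comap_eq_self_of_surjective (QuotientGroup.mk'_surjective _)]
    infer_instance

theorem in2_sub_iff (hx : x ∈ K) : In2 (⟨x, hx⟩ : K) ⊤ ↔ In2 x K := by
  constructor
  · intro h
    have := h.map K.subtype
    rwa [← MonoidHom.range_eq_map, range_subtype] at this
  · intro h
    have := In2.comap (y := ⟨x, hx⟩) K.subtype_injective h
    rwa [comap_subtype, subgroupOf_self] at this

theorem In2.top_of_normal [N.Normal] (hx : x ∈ N) (h : In2 x N) : In2 x ⊤ :=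
  in2_top_iff.2 (mem_inf.1 ((Agent.L.map_subtype_fitTerm 2 N).le
    (mem_map_of_mem N.subtype (in2_top_iff.1 ((in2_sub_iff hx).2 h))))).1

theorem norm_sup_syl (hp : p.Prime) (hN : N ⊲ K) (hA : K ≤ 𝐍(A)) (h : NilMod N A)
    (hS : IsSyl p S N) : K ≤ 𝐍(A ⊔ S) := by
  rw [← hS.frattini hp hN]
  refine sup_le (le_of_forall_exists_isSyl_le fun t ht _ => ?_)
    (H1.le_normalizer_sup (inf_le_left.trans hA) inf_le_right)
  by_cases htp : t = p
  · exact ⟨S, htp ▸ hS, le_sup_right.trans (le_norm_self _)⟩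
  obtain ⟨T, hT⟩ := exists_isSyl ht N
  have h1 := hT.le.trans (hN.1.trans hA)
  exact ⟨T, hT, comm_le_left_iff.1 (comm_sup_left (le_sup_left.trans (le_norm_self _))
    (le_sup_right.trans (le_norm_self _)) ((comm_le_self h1).trans le_sup_left)
    ((BG12a.nilMod_comm_le h (hN.1.trans hA) hS.le hT.le (FT.coprime_card_of_isPGroup hp ht (Ne.symm htp)
      hS.pgrp hT.pgrp)).trans le_sup_left))⟩

theorem In2.loc (hp : p.Prime) (hx : IsPGroup p (zpowers x)) (h : In2 x K) :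
    ∃ S : Subgroup G, IsPGroup p S ∧ zpowers x ≤ S ∧ S ≤ K ∧ K ≤ 𝐍(VV p K ⊔ S) := by
  obtain ⟨A, N, k1, k2, k3, k4, k5⟩ := h
  obtain ⟨S, h1, h2⟩ := exists_isSyl_ge hp hx (zpowers_le.2 k5)
  have h3 := h1.le.trans k2.1
  refine ⟨S ⊔ pCoreOf p K, isPGroup_sup h1.pgrp (H2.isPGroup_pCoreOf p K)
    (h3.trans (H2.le_normalizer_pCoreOf p K)), h2.trans le_sup_left,
    sup_le h3 (H2.pCoreOf_le p K), ?_⟩
  have h4 := (dProd_pCoreOf_of_isNilpotent hp (H2.isNilpotent_fittingOf K)).sup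
  rw [pCoreOf_fittingOf hp] at h4
  rw [sup_comm S, ← sup_assoc, sup_comm (VV p K), VV, h4]
  exact norm_sup_syl hp k2 (H2.le_normalizer_fittingOf K) (k4.mono le_rfl (le_fittingOf k1 k3)) h1

/-- The minimal counterexample. -/
structure MC (p : ℕ) (x : G) : Prop where
  hp : p.Prime
  pg : IsPGroup p (zpowers x)
  bad : ¬ In2 x ⊤
  sub : ∀ K : Subgroup G, K ≠ ⊤ → x ∈ K → In2 x K
  quo : ∀ N : Subgroup G, N.Normal → N ≠ ⊥ →
    ∃ A B : Subgroup G, A.Normal ∧ B.Normal ∧ N ≤ A ∧ NilMod A N ∧ NilMod B A ∧ x ∈ B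
  two : ∀ y : G, zpowers x ⊔ zpowers y ≠ ⊤

namespace MC

variable (h : MC p x)
include h

theorem uniq {M : Subgroup G} (h1 : N.Normal) (h2 : M.Normal) (h3 : N ≠ ⊥) (h4 : N ⊓ M = ⊥) :
    M = ⊥ := by
  by_contra h5
  obtain ⟨A, B, k1, k2, -, k3, k4, k5⟩ := h.quo N h1 h3
  obtain ⟨A', B', k1', k2', -, k3', k4', k5'⟩ := h.quo M h2 h5
  exact h.bad ⟨A ⊓ A', B ⊓ B', normal_top, normal_top, nilMod_bot_iff.1 (h4 ▸ nilMod_inf
    (k3.mono inf_le_left le_rfl) (k3'.mono inf_le_right le_rfl)),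
    nilMod_inf (k4.mono inf_le_left le_rfl) (k4'.mono inf_le_right le_rfl), mem_inf.2 ⟨k5, k5'⟩⟩

theorem eq_top (h1 : N.Normal) (hx : x ∈ N) : N = ⊤ := by
  by_contra h2
  exact h.bad ((h.sub N h2 hx).top_of_normal hx)

theorem fit_ne (h1 : In2 (x ^ p) ⊤) : fittingSubgroup G ≠ ⊥ := fun hF => by
  haveI := Fact.mk h.hp
  have fit : ∀ N : Subgroup G, N.Normal → Group.IsNilpotent N → N = ⊥ := fun N k1 k2 =>
    eq_bot_iff.2 ((Agent.L.le_fittingSubgroup k1 k2).trans hF.le)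
  have h2 : x ^ p = 1 := by
    obtain ⟨A, N, k1, k2, k3, k4, k5⟩ := h1
    rw [fit A (normal_iff_top_le.2 k1.2) k3] at k4
    rwa [fit N (normal_iff_top_le.2 k2.2) (nilMod_bot_iff.1 k4)] at k5
  have h3 : x ≠ 1 := fun e => h.bad ⟨⊥, ⊥, normal_top, normal_top, inferInstance,
    nilMod_of_le le_rfl, e⟩
  refine Ce.false (p := p) (P := zpowers x) ⟨h.hp, (Nat.card_zpowers x).trans
    (orderOf_eq_prime h2 h3), fit, fun N hN hN1 => ?_,
    fun K hK hP => (h.sub K hK (zpowers_le.1 hP)).loc h.hp h.pg, h.two⟩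
  by_contra hne
  obtain ⟨A, B, k1, k2, k3, k4, k5⟩ := h.sub _ hne (mem_sup_right (mem_zpowers x))
  have fit' : ∀ M : Subgroup G, M ⊲ N → Group.IsNilpotent M → M = ⊥ := fun M k1 k2 =>
    eq_bot_iff.2 ((le_fittingOf k1 k2).trans (fit _ (normal_iff_top_le.2 ((normal_iff_top_le.1
      hN).trans (H2.normalizer_le_normalizer_fittingOf _))) inferInstance).le)
  have k6 := fit' _ (inf_normal k1 le_sup_left) (isNilpotent_of_le inf_le_left k3)
  have k7 := fit' _ (inf_normal k2 le_sup_left) (nilMod_bot_iff.1 (k6 ▸ nilMod_inf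
    (k4.mono inf_le_left le_rfl) (nilMod_of_le inf_le_right)))
  have k8 := cent_comm.1 (le_cent_of_norm_of_disj (le_sup_left.trans k2.2)
    (le_top.trans (normal_iff_top_le.1 hN)) k7) k5
  rw [h.uniq hN inferInstance hN1 (fit _ inferInstance
    (isNilpotent_of_isMulComm (isMulComm_center N)))] at k8
  exact h3 k8

theorem compl {V Q : Subgroup G} (hV : Agent.L.IsMinNormal V) (hVa : IsMulCommutative V)
    (hq : q.Prime) (hVq : 𝐨(V).Coprime q) (hQ : IsPGroup q Q) (hQ1 : Q ≠ ⊥) (hR : (V ⊔ Q).Normal) :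
    SdProd V 𝐍(Q) ⊤ := by
  haveI := hV.1
  have hn : ∀ H : Subgroup G, H ≤ 𝐍(V) := fun H => le_top.trans (normal_iff_top_le.1 hV.1)
  have h1 := ((isSyl_iff_hall hq).2 (hall_of_sup (π := {q}) (hn Q) ((isPi_singleton_iff hq).2 hQ)
    ((isPi_compl_singleton_iff hq).2 hVq)).1).frattini hq normal_top
  rw [top_inf_eq, sup_assoc, sup_eq_right.2 (le_norm_self Q)] at h1
  refine ⟨h1, hn _, (hV.2.2 _ (normal_iff_top_le.2 (h1.ge.trans (sup_le
    (((isMulComm_iff_le_cent.1 hVa).trans (cent_anti inf_le_left)).trans (cent_le_norm _))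
    (H1.le_normalizer_inf (hn _) (le_norm_self _))))) inf_le_left).resolve_right fun e => hQ1 ?_⟩
  haveI := Fact.mk hq
  exact h.uniq hV.1 (normal_iff_top_le.2 (h1.ge.trans (sup_le (e.ge.trans inf_le_right) le_rfl)))
    hV.2.1 (H1.inf_eq_bot_of_coprime' (H1.coprime_card_of_isPGroup hQ hVq))

theorem cent_le {V H : Subgroup G} (hV : Agent.L.IsMinNormal V) (hVa : IsMulCommutative V)
    (hH : SdProd V H ⊤) : 𝐂(V) ≤ V := by
  haveI := hV.1
  have h1 := sup_inf_of_le_left hH.norm (isMulComm_iff_le_cent.1 hVa)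
  rwa [hH.sup, top_inf_eq, h.uniq (M := H ⊓ 𝐂(V)) hV.1 (normal_iff_top_le.2 (hH.sup.ge.trans (sup_le
    ((cent_comm.1 inf_le_right).trans (cent_le_norm _)) (H1.le_normalizer_inf (le_norm_self _)
      (le_top.trans (normal_iff_top_le.1 inferInstance)))))) hV.2.1
    (by rw [← inf_assoc, hH.disj, bot_inf_eq]), sup_bot_eq, le_antisymm_iff, and_iff_left
      (isMulComm_iff_le_cent.1 hVa)] at h1

theorem ex_q {V : Subgroup G} (hV : V.Normal) (hA : A.Normal) (hVn : Group.IsNilpotent V)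
    (h1 : NilMod A V) (h2 : NilMod ⊤ A) :
    ∃ (q : ℕ) (Q : Subgroup G), q.Prime ∧ q ≠ p ∧ IsSyl q Q A ∧ ¬ ⁅Q, zpowers x⁆ ≤ V := by
  by_contra hn
  push Not at hn
  have nV := normal_iff_top_le.1 hV
  obtain ⟨S, k1, k2⟩ := exists_isSyl_ge h.hp h.pg le_top
  have k3 := h.eq_top (normal_iff_top_le.2 (norm_sup_syl h.hp normal_top
    (normal_iff_top_le.1 hA) h2 k1)) (mem_sup_right (k2 (mem_zpowers x)))
  have k4 : A ≤ 𝐍(V ⊔ S) := le_of_forall_exists_isSyl_le fun t ht _ => by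
    by_cases htp : t = p
    · exact ⟨_, htp ▸ k1.inf_normal h.hp normal_top,
        (inf_le_left.trans le_sup_right).trans (le_norm_self _)⟩
    obtain ⟨T, hT⟩ := exists_isSyl ht A
    have k5 := norm_sup_syl ht normal_top nV h1 hT
    have k6 := h.eq_top (normal_iff_top_le.2 (norm_le_norm_centMod k5 nV)) (x := x) (zpowers_le.1
      (le_centMod_iff.2 ⟨le_top.trans nV, comm_sup_left (le_top.trans nV) (le_top.trans nV)
        (comm_le_self (le_top.trans nV)) (hn t T ht htp hT)⟩))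
    refine ⟨T, hT, comm_le_left_iff.1 (comm_sup_left (le_sup_left.trans (le_norm_self _))
      (le_sup_right.trans (le_norm_self _)) ((comm_le_self (le_top.trans nV)).trans le_sup_left) ?_)⟩
    rw [commutator_comm]
    exact ((commutator_mono le_sup_right le_top).trans (le_centMod_iff.1 k6.ge).2).trans le_sup_left
  have k5 := h.eq_top (normal_iff_top_le.2 (k3.ge.trans (sup_le k4
    (le_sup_right.trans (le_norm_self _))))) (mem_sup_right (k2 (mem_zpowers x)))
  refine h.bad ⟨V, ⊤, normal_top, normal_top, hVn,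
    (Agent.L.lcs_le_iff_isNilpotent_map V ⊤).2 ?_, mem_top x⟩
  rw [← k5, Subgroup.map_sup, (Subgroup.map_eq_bot_iff _).2 (QuotientGroup.ker_mk' V).ge,
    bot_sup_eq]
  haveI := isNilpotent_of_isPGroup h.hp k1.pgrp
  exact Agent.L.isNilpotent_map _ _

theorem fit_eq : fittingSubgroup G = ⊥ := by
  by_contra hF
  obtain ⟨V, r, hV, hVF, hr, hVe⟩ := Agent.L.exists_isMinNormal_isElementaryAbelian_le _ hF
  haveI := hV.1
  have nV : ∀ H : Subgroup G, H ≤ 𝐍(V) := fun H => le_top.trans (normal_iff_top_le.1 hV.1)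
  have hVr := Agent.L.IsElementaryAbelian.isPGroup hVe
  obtain ⟨A, B, hA, hB, hVA, h1, h2, h3⟩ := h.quo V hV.1 hV.2.1
  rw [h.eq_top hB h3] at h2
  have cop : ∀ t : ℕ, t.Prime → t ≠ r → 𝐨(V).Coprime t := fun t ht htr =>
    haveI := Fact.mk hr
    (H1.coprime_card_of_isPGroup hVr ((Nat.coprime_primes ht hr).2 htr)).symm
  have nR : ∀ {t : ℕ} {T : Subgroup G}, t.Prime → IsSyl t T A → (V ⊔ T).Normal := fun ht hT =>
    normal_iff_top_le.2 (norm_sup_syl ht normal_top (nV ⊤) h1 hT)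
  have hC : 𝐂(V) ≤ V := by
    by_contra hn
    refine h.bad ⟨A, ⊤, normal_top, normal_top, isNilpotent_of_forall_isSyl_normal fun t ht k => ?_,
      h2, mem_top x⟩
    obtain ⟨T, hT⟩ := exists_isSyl ht A
    by_cases htr : t = r
    · subst htr
      refine ⟨T, hT, ?_⟩
      have := nR ht hT
      rw [sup_eq_right.2 (hT.le_of_le_norm ht hVr hVA (nV T))] at this
      exact le_top.trans (normal_iff_top_le.1 this)
    · exact absurd (h.cent_le hV hVe.1 (h.compl hV hVe.1 ht (cop t ht htr) hT.pgrp (hT.ne_bot ht k)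
        (nR ht hT))) hn
  obtain ⟨q, Q, hq, hqp, hQ, h4⟩ := h.ex_q hV.1 hA (isNilpotent_of_isPGroup hr hVr) h1 h2
  have hR := nR hq hQ
  have hqr : q ≠ r := by
    rintro rfl
    refine h4 ((commutator_mono (le_sup_right.trans ((Agent.L.le_fittingSubgroup hR
      (isNilpotent_of_isPGroup hq (sup_comm Q V ▸ isPGroup_sup hQ.pgrp hVr (nV Q)))).trans
      (hV.fittingSubgroup_le_centralizer.trans hC))) le_rfl).trans (comm_le_self (nV _)))
  obtain ⟨y, hy, h5⟩ : ∃ y ∈ Q, ⁅y, x⁆ ∉ V := by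
    by_contra hn
    push Not at hn
    exact h4 (H1.commutator_zpowers_le (nV ⊤ (mem_top x)) hn)
  have hall := hall_of_sup (π := {q}) (nV Q) ((isPi_singleton_iff hq).2 hQ.pgrp)
    ((isPi_compl_singleton_iff hq).2 (cop q hq hqr))
  have h6 : V ⊔ (zpowers x ⊔ zpowers y) = ⊤ := by
    by_contra hK
    have hx : x ∈ V ⊔ (zpowers x ⊔ zpowers y) := mem_sup_right (mem_sup_left (mem_zpowers x))
    have hy' : y ∈ V ⊔ (zpowers x ⊔ zpowers y) := mem_sup_right (mem_sup_right (mem_zpowers y))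
    have hVK : V ≤ V ⊔ (zpowers x ⊔ zpowers y) := le_sup_left
    generalize V ⊔ (zpowers x ⊔ zpowers y) = K at hK hx hy' hVK
    obtain ⟨A', N', k1, k2, k3, k4, k5⟩ := h.sub K hK hx
    have k6 : A' ≤ pCoreOf r K := le_of_pCore_le k3 fun t ht k => by
      have k7 := (H2.pCoreOf_le t A').trans (le_fittingOf k1 k3)
      by_cases htr : t = r
      · exact H2.le_pCoreOf_of_le_fittingOf (htr ▸ H2.isPGroup_pCoreOf t A') k7
      have k8 := FT.le_pCoreOf ⟨hVK, nV K⟩ hVr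
      exact (((H2.le_pCoreOf_of_le_fittingOf (H2.isPGroup_pCoreOf t A') k7).trans
        ((H2.pCoreOf_le_pPrimeCoreOf ht hr htr K).trans
          (H2.pPrimeCoreOf_le_centralizer_pCoreOf hr K))).trans ((cent_anti k8).trans hC)).trans k8
    obtain ⟨S, k7, k8⟩ := exists_isSyl_ge h.hp h.pg (zpowers_le.2 k5)
    have k9 := norm_sup_syl h.hp k2 (H2.le_normalizer_pCoreOf r K) (k4.mono le_rfl k6) k7
    have k10 : IsPiSubgroup {q}ᶜ (S ⊔ pCoreOf r K) := isPi_sup
      (isPi_of_isPGroup h.hp k7.pgrp hqp.symm)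
      (isPi_of_isPGroup hr (H2.isPGroup_pCoreOf r K) hqr.symm)
      ((k7.le.trans k2.1).trans (H2.le_normalizer_pCoreOf r K))
    rw [sup_comm] at k10
    exact h5 (le_of_hall_normal hall.2 (nV _) inf_le_left (isPi_of_le inf_le_right k10) (mem_inf.2
      ⟨comm_le_left_iff.2 (normal_iff_top_le.1 hR) (commutator_mem_commutator (mem_sup_right hy)
        (mem_top x)), comm_le_right_iff.2 k9 (commutator_mem_commutator hy'
          (mem_sup_right (k8 (mem_zpowers x))))⟩))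
  have h7 : ∀ v ∈ V, IsSyl q ((zpowers x ⊔ zpowers (y * v)) ⊓ (V ⊔ Q)) (V ⊔ Q) := fun v hv => by
    have k1 : V ⊔ (zpowers x ⊔ zpowers (y * v)) = ⊤ := eq_top_iff.2 (h6.ge.trans (sup_le le_sup_left
      (sup_le (le_sup_left.trans le_sup_right) (zpowers_le.2 ((mul_mem_cancel_right
        (mem_sup_left hv)).1 (mem_sup_right (mem_sup_right (mem_zpowers _))))))))
    have k2 := (SdProd.mk k1 (nV _) ((hV.2.2 _ (normal_iff_top_le.2 (k1.ge.trans (sup_le
      (((isMulComm_iff_le_cent.1 hVe.1).trans (cent_anti inf_le_left)).trans (cent_le_norm _))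
      (H1.le_normalizer_inf (nV _) (le_norm_self _))))) inf_le_left).resolve_right fun e =>
        h.two (y * v) (by rw [← k1, sup_eq_right.2 (e.ge.trans inf_le_right)]))).inf_of_le_left
      (L := V ⊔ Q) le_sup_left
    refine ((isSyl_iff_hall hq).2 hall.1).of_card_eq hq inf_le_right ?_
    have k3 := k2.card
    rw [top_inf_eq, (sdProd_of_hall hall.2 (by rw [compl_compl]; exact hall.1) (nV _)).card] at k3
    exact (Nat.eq_of_mul_eq_mul_left Nat.card_pos k3).symm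
  have h8 : ∀ v : V, ∃ u : ↥(V ⊓ 𝐂[x]), y⁻¹ * u * y * (u : G)⁻¹ = v := fun ⟨v, hv⟩ => by
    have k1 := h7 v hv
    have k2 := h7 1 (one_mem V)
    have nH : ∀ H : Subgroup G, H ≤ 𝐍(H ⊓ (V ⊔ Q)) := fun H =>
      H1.le_normalizer_inf (le_norm_self H) (le_top.trans (normal_iff_top_le.1 hR))
    have k3 := nH (zpowers x ⊔ zpowers (y * v))
    have k4 := nH (zpowers x ⊔ zpowers (y * 1))
    generalize (zpowers x ⊔ zpowers (y * v)) ⊓ (V ⊔ Q) = Q₁ at k1 k3
    generalize (zpowers x ⊔ zpowers (y * 1)) ⊓ (V ⊔ Q) = Q₂ at k2 k4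
    have eq : ∀ {T : Subgroup G}, IsSyl q T (V ⊔ Q) → V ⊔ T = V ⊔ Q := fun hT => by
      rw [sup_comm]; exact hall_sup_hall_compl ((isSyl_iff_hall hq).1 hT) hall.2
    obtain ⟨g, hg, k5⟩ := k1.exists_conj_eq hq k2
    obtain ⟨u, hu, w, hw, rfl⟩ := (mem_sup_of_norm (nV Q₂)).1 ((eq k2).ge hg)
    rw [← conj_conj, conj_eq_of_mem hw] at k5
    have k6 := (h.compl hV hVe.1 hq (cop q hq hqr) k1.pgrp (fun e => h5 (by
      have := eq k1
      rw [e, sup_bot_eq] at this
      exact comm_le_self (nV ⊤) (commutator_mem_commutator (this.ge (mem_sup_right hy))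
        (mem_top x)))) (eq k1 ▸ hR)).disj
    have k7 : ∀ a ∈ zpowers x ⊔ zpowers (y * 1), u * a * u⁻¹ ∈ 𝐍(Q₁) := fun a ha => by
      rw [← k5, norm_conj]; exact conj_mem_conj (k4 ha) u
    have k8 : u * x * u⁻¹ * x⁻¹ = 1 := k6.le (mem_inf.2 ⟨comm_le_self (nV ⊤)
      (commutator_mem_commutator hu (mem_top x)), mul_mem (k7 x (mem_sup_left (mem_zpowers x)))
        (inv_mem (k3 (mem_sup_left (mem_zpowers x))))⟩)
    have k9 : (y * v)⁻¹ * (u * (y * 1) * u⁻¹) = 1 := k6.le (mem_inf.2 ⟨(congrArg (· ∈ V)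
      (by group)).mp (mul_mem (mul_mem (inv_mem hv) (hV.1.conj_mem' u hu y)) (inv_mem hu)),
      mul_mem (inv_mem (k3 (mem_sup_right (mem_zpowers _))))
        (k7 _ (mem_sup_right (mem_zpowers _)))⟩)
    refine ⟨⟨u, mem_inf.2 ⟨hu, mem_cent1_iff_conj.2 (mul_inv_eq_one.1 k8)⟩⟩, ?_⟩
    change y⁻¹ * u * y * u⁻¹ = v
    calc _ = v * ((y * v)⁻¹ * (u * (y * 1) * u⁻¹)) := by group
      _ = v := by rw [k9, mul_one]
  have h9 := H1.eq_of_le_of_card_le (inf_le_left : V ⊓ 𝐂[x] ≤ V) (Nat.card_le_card_of_surjective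
    (fun u : ↥(V ⊓ 𝐂[x]) => (⟨y⁻¹ * u * y * (u : G)⁻¹, mul_mem (hV.1.conj_mem' _ (mem_inf.1 u.2).1 y)
      (inv_mem (mem_inf.1 u.2).1)⟩ : V)) fun v => (h8 v).imp fun u hu => Subtype.ext hu)
  exact h5 (comm_le_right_iff.2 (nV ⊤) (commutator_mem_commutator (mem_top y)
    (hC (mem_cent_iff_cent1.2 (h9.ge.trans inf_le_right)))))

end MC

theorem main (G : Type u) [Group G] [Finite G] :
    ∀ x : G, (∀ y, In2 x (zpowers x ⊔ zpowers y)) → In2 x ⊤ := by
  refine Agent.L.induction_on_card (P := fun (G : Type u) _ _ =>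
    ∀ x : G, (∀ y, In2 x (zpowers x ⊔ zpowers y)) → In2 x ⊤) G ?_
  intro G _ _ ih
  have pw : ∀ x : G, (∀ y, In2 x (zpowers x ⊔ zpowers y)) → ∀ z ∈ zpowers x,
      ∀ y, In2 z (zpowers z ⊔ zpowers y) := fun x h z hz y =>
    (h y).restrict hz (mem_sup_left (mem_zpowers z)) (sup_le_sup_right (zpowers_le.2 hz) _)
  have key : ∀ p : ℕ, p.Prime → ∀ (k : ℕ) (x : G), x ^ p ^ k = 1 →
      (∀ y, In2 x (zpowers x ⊔ zpowers y)) → In2 x ⊤ := by
    intro p hp k
    induction k with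
    | zero =>
      intro x hx _
      rw [pow_zero, pow_one] at hx
      exact in2_top_iff.2 (hx ▸ one_mem _)
    | succ k ihk =>
      intro x hx h
      by_contra bad
      have hM : MC p x := ⟨hp, fun ⟨z, hz⟩ => ⟨k + 1, Subtype.ext (by
          obtain ⟨n, rfl⟩ := hz
          simp only [SubmonoidClass.coe_pow, OneMemClass.coe_one]
          rw [← zpow_natCast, ← zpow_mul, mul_comm, zpow_mul, zpow_natCast, hx, one_zpow])⟩, bad,
        fun K hK hxK => (in2_sub_iff hxK).1 (ih K (Agent.L.card_lt_of_ne_top hK) _ fun y => by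
          have := In2.comap (y := ⟨x, hxK⟩) K.subtype_injective (h y)
          rwa [← comap_map_eq_self_of_injective K.subtype_injective (zpowers _ ⊔ _),
            Subgroup.map_sup, MonoidHom.map_zpowers, MonoidHom.map_zpowers]),
        fun N hN hN1 => by
          obtain ⟨A, B, k1, k2, k3, k4, k5⟩ := ih _ (Agent.L.card_quotient_lt N hN1)
            (QuotientGroup.mk' N x) fun y => by
              obtain ⟨y, rfl⟩ := QuotientGroup.mk'_surjective N y
              have := (h y).map (QuotientGroup.mk' N)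
              rwa [Subgroup.map_sup, MonoidHom.map_zpowers, MonoidHom.map_zpowers] at this
          have k6 := nilMod_comap (QuotientGroup.mk' N) (nilMod_bot_iff.2 k3)
          rw [MonoidHom.comap_bot, QuotientGroup.ker_mk'] at k6
          exact ⟨_, _, (normal_iff_top_le.2 k1.2).comap _, (normal_iff_top_le.2 k2.2).comap _,
            (QuotientGroup.ker_mk' N).ge.trans (ker_le_comap _ _), k6, nilMod_comap _ k4, k5⟩,
        fun y e => bad (e ▸ h y)⟩
      exact hM.fit_ne (ihk _ (by rw [← pow_mul, ← pow_succ', hx])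
        (pw x h _ (npow_mem_zpowers x p))) hM.fit_eq
  intro x h
  exact in2_top_iff.2 (Agent.L.mem_of_forall_pPart_mem (isOfFinOrder_of_finite x)
    fun p hp y hy ⟨k, hk⟩ => in2_top_iff.1 (key p hp k y hk (pw x h y hy)))

end Cfsg.Agent.H2.F2
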