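import Cfsg.Agent.H2.Four1

/-! Case I: two commuting invariant subgroups. -/

set_option autoImplicit false
set_option linter.unusedSectionVars false

namespace Cfsg.Agent.H2.Four

open Subgroup Cfsg Cfsg.Agent Cfsg.Agent.FT
open scoped commutatorElement

universe u

variable {G : Type u} [Group G] [Finite G] {p q r s : ℕ}

structure C1 (p q r s : ℕ) (V N L : Subgroup G) : Prop where
  n3 : N3 G
  d : D4 p q r s
  hV : IsPGroup p V
  V1 : V ≠ ⊥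
  hN : IsPGroup s N
  N1 : N ≠ ⊥
  VN : V ≤ 𝐂(N)
  LV : L ≤ 𝐍(V)
  LN : L ≤ 𝐍(N)
  sol : Group.IsSolvable L
  pi : IsPiSubgroup {q, r} L
  exE : ∃ E : Subgroup G, E ≤ L ∧ IsElem q 2 E
  exD : ∃ D : Subgroup G, D ≤ L ∧ IsElem r 2 D

namespace C1

variable {V N L : Subgroup G} (h : C1 p q r s V N L)
include h

theorem symm : C1 s q r p N V L := by
  obtain ⟨hp, hq, hr, hs, pq, pr, ps, qr, qs, rs⟩ := h.d
  exact ⟨h.n3, d4!, h.hN, h.N1, h.hV, h.V1, cent_comm.1 h.VN, h.LN, h.LV, h.sol, h.pi, h.exE, h.exD⟩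

theorem swap : C1 p r q s V N L := by
  obtain ⟨hp, hq, hr, hs, pq, pr, ps, qr, qs, rs⟩ := h.d
  exact ⟨h.n3, d4!, h.hV, h.V1, h.hN, h.N1, h.VN, h.LV, h.LN, h.sol, Set.pair_comm q r ▸ h.pi,
    h.exD, h.exE⟩

theorem two {x : G} (hx : orderOf x = q) (h1 : V ⊓ 𝐂[x] ≠ ⊥) : N ⊓ 𝐂[x] = ⊥ := by
  obtain ⟨hp, hq, hr, hs, pq, pr, ps, qr, qs, rs⟩ := h.d
  exact h.n3.two d3! h.hV h.hN h.VN hx h1

theorem fix {E : Subgroup G} (hE : IsElementaryAbelian q E) (hnc : ¬ IsCyclic E) (hEL : E ≤ L) :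
    ∃ e ∈ E, orderOf e = q ∧ V ⊓ 𝐂[e] ≠ ⊥ :=
  ex_fix h.d.1 h.d.2.1 h.d.2.2.2.2.1 h.hV h.V1 hE hnc (hEL.trans h.LV)

theorem cyc {U : Subgroup G} (hUL : U ≤ L) (hLU : L ≤ 𝐍(U)) (hU : IsElementaryAbelian q U) :
    IsCyclic U := by
  obtain ⟨hp, hq, hr, hs, pq, pr, ps, qr, qs, rs⟩ := h.d
  by_contra hnc
  obtain ⟨D, hDL, hD⟩ := h.exD
  obtain ⟨d, hd, hdo, hdV⟩ := h.swap.fix hD.1 (hD.not_isCyclic hr le_rfl) hDL
  obtain ⟨d', hd', hdo', hdN⟩ := h.swap.symm.fix hD.1 (hD.not_isCyclic hr le_rfl) hDL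
  have hA := comm_cent d3! h.hN hU hdo (hLU (hDL hd)) (hUL.trans h.LN) (h.LN (hDL hd))
    (h.swap.two hdo hdV)
  have hA' := comm_cent d3! h.hV hU hdo' (hLU (hDL hd')) (hUL.trans h.LV) (h.LV (hDL hd'))
    (h.swap.symm.two hdo' hdN)
  have hAU : ⁅U, zpowers d'⁆ ≤ U := H1.commutator_le_of_le_normalizer (zpowers_le.2 (hLU (hDL hd')))
  have h1 : ⁅U, zpowers d'⁆ ≠ ⊥ := fun e => hdN (h.n3.star d3! h.hN hU hnc (hUL.trans h.LN) hdo'
    (cent_zpowers d' ▸ comm_eq_bot_iff.1 e))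
  have h2 : ⁅⁅U, zpowers d'⁆, zpowers d⁆ ≤ ⁅U, zpowers d'⁆ := H1.commutator_le_of_le_normalizer
    (H1.le_normalizer_commutator (zpowers_le.2 (hLU (hDL hd))) (zpowers_le.2 (cent_le_norm _
      (cent_anti (zpowers_le.2 hd') (hD.le_cent hd)))))
  have h3 : ⁅⁅U, zpowers d'⁆, zpowers d⁆ = ⊥ := by
    by_contra hne
    obtain ⟨b, hb, hbo⟩ := ex_ord hq ((elemAb_isPGroup hU).to_le (h2.trans hAU)) hne
    have := h.two hbo (by
      rw [inf_eq_left.2 (mem_cent_iff_cent1.1 (hA' (h2 hb)))]; exact h.V1)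
    rw [inf_eq_left.2 (mem_cent_iff_cent1.1 (hA (commutator_mono hAU le_rfl hb)))] at this
    exact h.N1 this
  obtain ⟨a, ha, hao⟩ := ex_ord hq ((elemAb_isPGroup hU).to_le hAU) h1
  have h4 := h.n3.inf_eq_bot d3! h.hV hdo hao
    (mem_cent1_iff_commute.1 (cent_zpowers d ▸ comm_eq_bot_iff.1 h3 ha))
  rw [inf_eq_left.2 (inf_le_left.trans (mem_cent_iff_cent1.1 (hA' ha)))] at h4
  exact hdV h4

theorem exX (h1 : pCoreOf q L ≠ ⊥) : ∃ X : Subgroup G, 𝐨(X) = q ∧ X ≤ L ∧ L ≤ 𝐍(X) := by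
  obtain ⟨X, h2, -, h3, h4, h5⟩ := ex_omZ h.d.2.1 (H2.isPGroup_pCoreOf q L) h1
  have h6 := h2.trans (H2.pCoreOf_le q L)
  have h7 := (H2.le_normalizer_pCoreOf q L).trans h5
  exact ⟨X, card_of_cyc h.d.2.1 h4 h3 (h.cyc h6 h7 h4), h6, h7⟩

theorem rank_le : pRank q L ≤ 2 := by
  obtain ⟨hp, hq, hr, hs, pq, pr, ps, qr, qs, rs⟩ := h.d
  refine (pRank_le_iff hq).2 fun A hAL hA => ?_
  by_contra hlt
  have hA1 : A ≠ ⊥ := by
    rintro rfl
    exact hlt (by rw [card_bot]; exact Nat.one_le_pow _ _ hq.pos)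
  refine h.V1 (eq_bot_iff.2 (H1.le_of_forall_hyperplane hq hA hA1 (hAL.trans h.LV)
    (cop hq hp pq.symm (elemAb_isPGroup hA) h.hV) fun B hBA hB => ?_))
  by_contra hne
  have hB' := elemAb_of_le hBA hA
  have hc := H1.card_mul_relIndex hBA
  rw [hB] at hc
  obtain ⟨b, hb, hbo, h1⟩ := h.symm.fix hB' (fun hcy => by
    by_cases hB1 : B = ⊥
    · rw [hB1, card_bot] at hc
      exact hlt (by rw [← hc]; nlinarith [hq.two_le])
    · rw [card_of_cyc hq hB' hB1 hcy] at hc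
      exact hlt (by rw [← hc, sq])) (hBA.trans hAL)
  exact hne ((inf_le_inf_left _ (cent_le_cent1 hb)).trans (h.symm.two hbo h1).le)

section
variable {X : Subgroup G} (hX : 𝐨(X) = q) (hXL : X ≤ L) (hLX : L ≤ 𝐍(X))
include hX hXL hLX

theorem fpf : V ⊓ 𝐂(X) = ⊥ := by
  obtain ⟨hp, hq, hr, hs, pq, pr, ps, qr, qs, rs⟩ := h.d
  by_contra hne
  obtain ⟨D, hDL, hD⟩ := h.exD
  obtain ⟨d, hd, hdo, hdV⟩ := ex_fix hp hr pr (h.hV.to_le inf_le_left) hne hD.1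
    (hD.not_isCyclic hr le_rfl)
    (H1.le_normalizer_inf (hDL.trans h.LV) (H1.le_normalizer_centralizer (hDL.trans hLX)))
  obtain ⟨u, hu, huo⟩ := exists_mem_orderOf_eq_prime hq hX.symm.dvd
  have h1 : V ⊓ 𝐂(X) ≤ V ⊓ 𝐂[u] := inf_le_inf_left _ (cent_le_cent1 hu)
  rcases le_cent_or (hX ▸ hq) d with h2 | h2
  · have h3 := frob_prime d3! h.hN (isPGroup_of_card_prime hX) hdo (hLX (hDL hd)) h2
      (hXL.trans h.LN) (h.LN (hDL hd)) ((h.swap.two hdo fun e => hdV (eq_bot_iff.2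
        ((inf_le_inf_right _ inf_le_left).trans e.le))).le.trans bot_le)
    have := h.two huo fun e => hne (eq_bot_iff.2 (h1.trans e.le))
    rw [inf_eq_left.2 (mem_cent_iff_cent1.1 (h3 hu))] at this
    exact h.N1 this
  · exact hdV (eq_bot_iff.2 ((inf_le_inf_right _ h1).trans (h.n3.inf_eq_bot d3! h.hV huo hdo
      (mem_cent1_iff_commute.1 (h2 hu)).symm).le))

theorem frob_aux {y : G} (hy : y ∈ L) (hyo : orderOf y = r) (h1 : X ⊓ 𝐂[y] = ⊥) :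
    V ⊓ 𝐂[y] ≠ ⊥ := fun h2 => by
  obtain ⟨hp, hq, hr, hs, pq, pr, ps, qr, qs, rs⟩ := h.d
  have h3 := frob_prime d3! h.hV (isPGroup_of_card_prime hX) hyo (hLX hy) h1
      (hXL.trans h.LV) (h.LV hy) (h2.le.trans bot_le)
  have := h.fpf hX hXL hLX
  rw [inf_eq_left.2 (cent_comm.1 h3)] at this
  exact h.V1 this

theorem centX {y : G} (hy : y ∈ L) (hyo : orderOf y = r) : X ≤ 𝐂[y] :=
  (le_cent_or (hX ▸ h.d.2.1) y).resolve_left fun h1 => h.symm.frob_aux hX hXL hLX hy hyo h1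
    (h.swap.two hyo (h.frob_aux hX hXL hLX hy hyo h1))

theorem norm_cent {E P : Subgroup G} (hE : IsElem q 2 E) (hP : IsPGroup q P) (hEP : E ≤ P)
    (hPL : P ≤ L) (hPE : P ≤ 𝐍(E)) : P ≤ 𝐂(E) := by
  obtain ⟨hp, hq, hr, hs, pq, pr, ps, qr, qs, rs⟩ := h.d
  have hEL := hEP.trans hPL
  have hnd := not_dvd_sub_one hq le_rfl hq
  have hPX : P ≤ 𝐂(X) := le_cent_of_not_dvd hq hq hX hP (hPL.trans hLX) hnd
  have hXE : X ≤ E := (isMaxElem_of_pRank_le hq hEL hE h.rank_le).le_of_cent hXL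
    (cent_comm.1 (hEP.trans hPX)) (elemAb_of_card_prime hq hX).2
  haveI := isNilpotent_of_isPGroup hq hP
  have hlt : ⁅E, P⁆ < E := Agent.L.commutator_lt_of_isNilpotent hEP hPE (hE.ne_bot hq two_ne_zero)
  have hsup : ∀ Y : Subgroup G, Y ≤ E → 𝐨(Y) = q → X ≠ Y → ∀ x ∈ P, x ∈ 𝐂(Y) → x ∈ 𝐂(E) :=
    fun Y hY hYq hne x hx hxY => by
      rw [← (hE.sup_eq_of_two hq hXE hY hX hYq hne).sup, cent_sup]
      exact ⟨hPX hx, hxY⟩
  by_cases h0 : ⁅E, P⁆ = ⊥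
  · exact cent_comm.1 (comm_eq_bot_iff.1 h0)
  have h1 := hE.card_eq_of_two hq hlt.le h0 hlt.ne
  by_cases h2 : X = ⁅E, P⁆
  swap
  · exact fun x hx => hsup _ hlt.le h1 h2 x hx (le_cent_of_not_dvd hq hq h1 hP
      (H1.le_normalizer_commutator hPE (le_norm_self P)) hnd hx)
  obtain ⟨e, he, heo, heV⟩ := h.fix hE.1 (hE.not_isCyclic hq le_rfl) hEL
  obtain ⟨e', he', heo', heN⟩ := h.symm.fix hE.1 (hE.not_isCyclic hq le_rfl) hEL
  have heX : e ∉ X := fun hh => heV (by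
    rw [cent1_eq_of_card_prime (hX ▸ hq) hh (ne_one_of_ord hq heo)]; exact h.fpf hX hXL hLX)
  have heX' : e' ∉ X := fun hh => heN (by
    rw [cent1_eq_of_card_prime (hX ▸ hq) hh (ne_one_of_ord hq heo')]; exact h.symm.fpf hX hXL hLX)
  intro x hx
  have hc : ⁅x, e⁆ ∈ X := by
    rw [h2, commutator_comm]; exact commutator_mem_commutator hx he
  by_cases hc1 : ⁅x, e⁆ = 1
  · refine hsup _ (zpowers_le.2 he) (card_zp heo) (fun hh => heX (hh ▸ mem_zpowers e)) x hx ?_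
    rw [cent_zpowers]
    exact mem_cent1.2 (commutatorElement_eq_one_iff_mul_comm.1 hc1).symm
  exfalso
  obtain ⟨a, ha, b, hb, hab⟩ := (hE.sup_eq_of_two hq hXE (zpowers_le.2 he') hX (card_zp heo')
    fun hh => heX' (hh ▸ mem_zpowers e')).mem_iff.1 he
  have hb1 : b ≠ 1 := by
    rintro rfl
    exact heX (by rw [← hab, mul_one]; exact ha)
  obtain ⟨k, hk⟩ := (mem_powers_iff_mem_zpowers (x := ⁅x, e⁆) (y := a⁻¹)).2
    (by rw [zpowers_eq_of_card_prime (hX ▸ hq) hc hc1]; exact inv_mem ha)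
  have h3 := H1.commutatorElement_pow_left_of_central
    (show Commute x ⁅x, e⁆ from (mem_cent.1 (hPX hx) _ hc).symm) k
  have h4 : x ^ k * e * (x ^ k)⁻¹ = b := by
    rw [show ⁅x, e⁆ ^ k = a⁻¹ from hk, commutatorElement_def, mul_inv_eq_iff_eq_mul] at h3
    rw [h3, ← hab, inv_mul_cancel_left]
  have h5 : V ⊓ 𝐂[b] ≠ ⊥ := by
    rw [← h4, cent1_conj, ← conj_eq_of_mem_norm (h.LV (hPL (pow_mem hx k))), ← conj_inf,
      Ne, conj_eq_bot_iff]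
    exact heV
  exact heN (eq_bot_iff.2 ((inf_le_inf_left _ (cent1_le_cent1_of_mem_zpowers hb)).trans
    (h.two (elemAb_orderOf hq hE.1 (zpowers_le.2 he' hb) hb1) h5).le))

theorem le_cent {E P : Subgroup G} (hE : IsElem q 2 E) (hP : IsPGroup q P) (hEP : E ≤ P)
    (hPL : P ≤ L) : P ≤ 𝐂(E) := by
  have hq := h.d.2.1
  by_contra hn
  have h1 : P ⊓ 𝐂(E) < P := lt_of_le_of_ne inf_le_left fun e => hn (e.ge.trans inf_le_right)
  have h2 := lt_inf_norm_of_isNilpotent (isNilpotent_of_isPGroup hq hP) h1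
  have h3 := ((isMaxElem_of_pRank_le hq (hEP.trans hPL) hE h.rank_le).of_le hEP hPL).omegaOne_cent
  have h4 : 𝐍(P ⊓ 𝐂(E)) ≤ 𝐍(E) := by
    have := norm_le_norm_omegaOne (P ⊓ 𝐂(E)) q
    rwa [h3] at this
  exact h2.not_ge (le_inf inf_le_left (h.norm_cent hX hXL hLX hE (hP.to_le inf_le_left)
    ((le_inf hEP hE.le_cent).trans h2.le) (inf_le_left.trans hPL) (inf_le_right.trans h4)))

theorem pCore_le_cent {E : Subgroup G} (hE : IsElem q 2 E) (hEL : E ≤ L) : pCoreOf q L ≤ 𝐂(E) :=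
  le_sup_right.trans (h.le_cent hX hXL hLX hE (isPGroup_sup hE.pgrp (H2.isPGroup_pCoreOf q L)
    (hEL.trans (H2.le_normalizer_pCoreOf q L))) le_sup_left (sup_le hEL (H2.pCoreOf_le q L)))

end

theorem omega_cyc (h1 : pCoreOf q L ≠ ⊥) : 𝐨(omegaOne q (pCoreOf q L)) = q := by
  have hq := h.d.2.1
  obtain ⟨X, hX, hXL, hLX⟩ := h.exX h1
  obtain ⟨E, hEL, hE⟩ := h.exE
  have h2 := (omegaOne_le q _).trans (H2.pCoreOf_le q L)
  have h3 : omegaOne q (pCoreOf q L) ≤ E := omegaOne_le_iff.2 fun x hx hxq =>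
    (isMaxElem_iff.1 (isMaxElem_of_pRank_le hq hEL hE h.rank_le)).2.2 x (H2.pCoreOf_le q L hx)
      (h.pCore_le_cent hX hXL hLX hE hEL hx) hxq
  have h4 := elemAb_of_le h3 hE.1
  exact card_of_cyc hq h4 (omegaOne_ne_bot hq (prime_dvd_card_of_isPGroup hq
    (H2.isPGroup_pCoreOf q L) h1)) (h.cyc h2 ((H2.le_normalizer_pCoreOf q L).trans
      (norm_le_norm_omegaOne _ q)) h4)

theorem odd_cent (h1 : pCoreOf q L ≠ ⊥) (h2 : q ≠ 2) {D : Subgroup G} (hD : IsElem r 2 D)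
    (hDL : D ≤ L) : D ≤ 𝐂(pCoreOf q L) := by
  obtain ⟨hp, hq, hr, hs, pq, pr, ps, qr, qs, rs⟩ := h.d
  haveI := Fact.mk hq
  refine H1.le_centralizer_of_centralizes_omega h2 (H2.isPGroup_pCoreOf q L)
    (hDL.trans (H2.le_normalizer_pCoreOf q L))
    (by rw [hD.card]; exact ((Nat.coprime_primes hr hq).2 qr.symm).pow_left 2)
    fun x hx hxq => mem_cent.2 fun d hd => ?_
  by_cases hd1 : d = 1
  · rw [hd1, one_mul, mul_one]
  exact mem_cent1.1 (h.centX (h.omega_cyc h1) ((omegaOne_le q _).trans (H2.pCoreOf_le q L))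
    ((H2.le_normalizer_pCoreOf q L).trans (norm_le_norm_omegaOne _ q)) (hDL hd)
    (elemAb_orderOf hr hD.1 hd hd1) (mem_omegaOne hx hxq))

theorem final (h1 : pCoreOf q L ≠ ⊥) (h2 : pCoreOf r L = ⊥ ∨ r ≠ 2) : False := by
  have hq := h.d.2.1
  obtain ⟨X, hX, hXL, hLX⟩ := h.exX h1
  obtain ⟨E, hEL, hE⟩ := h.exE
  have h3 := le_pCore_of_cent hq h.sol hEL hE.pgrp fun t ht h4 => by
    rcases mem_of_pCore_ne_bot h.pi ht h4 with rfl | rfl
    · exact cent_comm.1 (h.pCore_le_cent hX hXL hLX hE hEL)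
    · exact h.swap.odd_cent h4 (h2.resolve_left h4) hE hEL
  have h4 := card_le_of_le (le_omegaOne_of_elemAb h3 hE.1)
  rw [h.omega_cyc h1, hE.card] at h4
  nlinarith [hq.two_le]

theorem false : False := by
  obtain ⟨hp, hq, hr, hs, pq, pr, ps, qr, qs, rs⟩ := h.d
  obtain ⟨E, hEL, hE⟩ := h.exE
  obtain ⟨t, ht, h1⟩ := ex_pCore h.sol fun e => hE.ne_bot hq two_ne_zero
    (eq_bot_iff.2 (hEL.trans e.le))
  have key : ∀ {q r : ℕ}, C1 p q r s V N L → pCoreOf q L ≠ ⊥ → False := fun {q r} h h1 => by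
    by_cases h2 : pCoreOf r L = ⊥
    · exact h.final h1 (Or.inl h2)
    by_cases h3 : r = 2
    · exact h.swap.final h2 (Or.inr fun e => h.d.2.2.2.2.2.2.2.1 (e.trans h3.symm))
    · exact h.final h1 (Or.inr h3)
  rcases mem_of_pCore_ne_bot h.pi ht h1 with rfl | rfl
  · exact key h h1
  · exact key h.swap h1

end C1

end Cfsg.Agent.H2.Four
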