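import Cfsg.Agent.H2.Four2
import Cfsg.Agent.H2.Four3

/-! Case III (all invariant elementary abelian subgroups cyclic) and the conclusion. -/

set_option autoImplicit false
set_option linter.unusedSectionVars false

namespace Cfsg.Agent.H2.Four

open Subgroup Cfsg Cfsg.Agent Cfsg.Agent.FT
open scoped commutatorElement

universe u

variable {G : Type u} [Group G] [Finite G] {p q r s : ℕ}

structure C3 (p q r s : ℕ) (V H : Subgroup G) : Prop where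
  n3 : N3 G
  sol : Group.IsSolvable G
  d : D4 p q r s
  hV : IsPGroup p V
  V1 : V ≠ ⊥
  HV : H ≤ 𝐍(V)
  faith : H ⊓ 𝐂(V) = ⊥
  pi : IsPiSubgroup {q, r, s} H
  rank : ∀ t ∈ ({q, r, s} : Set ℕ), 2 ≤ pRank t H
  mix : ∀ t ∈ ({q, r, s} : Set ℕ), ∀ t' ∈ ({q, r, s} : Set ℕ), t ≠ t' →
    ∃ a ∈ H, ∃ c ∈ H, orderOf a = t ∧ orderOf c = t' ∧ Commute a c

theorem set12 : ({q, r, s} : Set ℕ) = {r, q, s} := Set.insert_comm _ _ _

theorem set13 : ({q, r, s} : Set ℕ) = {s, r, q} := by ext; simp; tauto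

namespace C3

variable {V H : Subgroup G} (h : C3 p q r s V H)
include h

theorem swap12 : C3 p r q s V H := by
  obtain ⟨hp, hq, hr, hs, pq, pr, ps, qr, qs, rs⟩ := h.d
  exact ⟨h.n3, h.sol, d4!, h.hV, h.V1, h.HV, h.faith, set12 ▸ h.pi, set12 ▸ h.rank, set12 ▸ h.mix⟩

theorem swap13 : C3 p s r q V H := by
  obtain ⟨hp, hq, hr, hs, pq, pr, ps, qr, qs, rs⟩ := h.d
  exact ⟨h.n3, h.sol, d4!, h.hV, h.V1, h.HV, h.faith, set13 ▸ h.pi, set13 ▸ h.rank, set13 ▸ h.mix⟩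

theorem solH (K : Subgroup G) : Group.IsSolvable K := haveI := h.sol; inferInstance

theorem exE {L : Subgroup G} (hL : IsPiHallOf {q, r} L H) : ∃ E : Subgroup G, E ≤ L ∧ IsElem q 2 E :=
  (le_pRank_iff h.d.2.1).1 ((hall_pRank_eq h.d.2.1 hL (by simp)).symm ▸ h.rank q (by simp))

theorem exD {L : Subgroup G} (hL : IsPiHallOf {q, r} L H) : ∃ E : Subgroup G, E ≤ L ∧ IsElem r 2 E :=
  h.swap12.exE (Set.pair_comm q r ▸ hL)

section
variable {X L : Subgroup G} (hX : 𝐨(X) = s) (hXH : X ≤ H) (hHX : H ≤ 𝐍(X))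
  (hL : IsPiHallOf {q, r} L H) (hU : pCoreOf q (L ⊓ 𝐂(X)) ≠ ⊥)
include hX hXH hHX hL hU

omit hXH hHX hL hU in
theorem fpfU {d : G} (hd : d ∈ 𝐂(X)) (ho : orderOf d = r) : pCoreOf q (L ⊓ 𝐂(X)) ⊓ 𝐂[d] = ⊥ := by
  obtain ⟨hp, hq, hr, hs, pq, pr, ps, qr, qs, rs⟩ := h.d
  obtain ⟨z, hz, hzo⟩ := exists_mem_orderOf_eq_prime hs hX.symm.dvd
  have := h.n3.inf_eq_bot d3! (H2.isPGroup_pCoreOf q (L ⊓ 𝐂(X))) hzo ho (mem_cent.1 hd z hz)
  rwa [inf_eq_left.2 (((H2.pCoreOf_le q _).trans inf_le_right).trans (cent_le_cent1 hz))] at this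

theorem fixV {d : G} (hd : d ∈ L ⊓ 𝐂(X)) (ho : orderOf d = r) : V ⊓ 𝐂[d] ≠ ⊥ := fun e => by
  obtain ⟨hp, hq, hr, hs, pq, pr, ps, qr, qs, rs⟩ := h.d
  have h1 := ((H2.pCoreOf_le q (L ⊓ 𝐂(X))).trans inf_le_left).trans (hall_le hL)
  exact hU (eq_bot_iff.2 ((le_inf h1 (frob_prime d3! h.hV (H2.isPGroup_pCoreOf q _) ho
    (H2.le_normalizer_pCoreOf q _ hd) (h.fpfU hX hd.2 ho) (h1.trans h.HV)
    (h.HV (hall_le hL hd.1)) (e.le.trans bot_le))).trans h.faith.le))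

theorem not_dvd {d : G} (hd : d ∈ L ⊓ 𝐂(X)) (ho : orderOf d = r) : ¬ q ∣ 𝐨(𝐂[d]) := fun e => by
  obtain ⟨hp, hq, hr, hs, pq, pr, ps, qr, qs, rs⟩ := h.d
  exact h.n3.cent h.sol (d4! : D4 r p q s) ho (dvd_cent1 hp h.hV (h.fixV hX hXH hHX hL hU hd ho)) e
    (hX ▸ FT.card_dvd_of_le (mem_cent_iff_cent1.1 hd.2))

theorem normU : L ≤ 𝐍(pCoreOf q (L ⊓ 𝐂(X))) :=
  (H1.le_normalizer_inf (le_norm_self L) (H1.le_normalizer_centralizer ((hall_le hL).trans hHX))).trans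
    (H2.normalizer_le_normalizer_pCoreOf q _)

theorem dvd_pred : r ∣ s - 1 := by
  obtain ⟨hp, hq, hr, hs, pq, pr, ps, qr, qs, rs⟩ := h.d
  by_contra hn
  obtain ⟨D, hDL, hD⟩ := h.exD hL
  obtain ⟨d, hd, ho, h1⟩ := ex_fix hq hr qr (H2.isPGroup_pCoreOf q _) hU hD.1
    (hD.not_isCyclic hr le_rfl) (hDL.trans (h.normU hX hXH hHX hL hU))
  exact h1 (h.fpfU hX (le_cent_of_not_dvd hs hr hX hD.pgrp ((hDL.trans (hall_le hL)).trans hHX)
    hn hd) ho)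

theorem ex_d : ∃ d ∈ L ⊓ 𝐂(X), orderOf d = r := by
  obtain ⟨hp, hq, hr, hs, pq, pr, ps, qr, qs, rs⟩ := h.d
  obtain ⟨D, hDL, hD⟩ := h.exD hL
  obtain ⟨d, hd, ho, h1⟩ := ex_fix hs hr rs.symm (isPGroup_of_card_prime hX)
    (ne_bot_of_card_prime (hX ▸ hs)) hD.1 (hD.not_isCyclic hr le_rfl)
    ((hDL.trans (hall_le hL)).trans hHX)
  exact ⟨d, ⟨hDL hd, mem_cent_iff_cent1.2 ((le_cent_or (hX ▸ hs) d).resolve_left h1)⟩, ho⟩

theorem centO : pCoreOf q (L ⊓ 𝐂(X)) ≤ 𝐂(pCoreOf s H) := by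
  obtain ⟨hp, hq, hr, hs, pq, pr, ps, qr, qs, rs⟩ := h.d
  have hs2 : s ≠ 2 := by
    rintro rfl
    exact hr.one_lt.ne' (Nat.dvd_one.1 (h.dvd_pred hX hXH hHX hL hU))
  have hXO : X ≤ pCoreOf s H := FT.le_pCoreOf ⟨hXH, hHX⟩ (isPGroup_of_card_prime hX)
  have hO := H2.isPGroup_pCoreOf s H
  obtain ⟨T, hTO, hN, -, -, hTe, hT⟩ := critical_odd hs hs2 hO
    fun e => ne_bot_of_card_prime (hX ▸ hs) (eq_bot_iff.2 (hXO.trans e.le))
  obtain ⟨d, hd, ho⟩ := h.ex_d hX hXH hHX hL hU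
  have h1 := ((H2.pCoreOf_le q (L ⊓ 𝐂(X))).trans inf_le_left).trans (hall_le hL)
  have h2 := H2.le_normalizer_pCoreOf s H
  refine hT _ (h1.trans h2) (by
    obtain ⟨n, hn⟩ := exists_card_eq_pow hq (H2.isPGroup_pCoreOf q (L ⊓ 𝐂(X)))
    rw [hn]; exact ((Nat.coprime_primes hq hs).2 qs).pow_left n)
    (frob_prime d3! (hO.to_le hTO) (H2.isPGroup_pCoreOf q _) ho (H2.le_normalizer_pCoreOf q _ hd)
      (h.fpfU hX hd.2 ho) ((h1.trans h2).trans hN) (hN (h2 (hall_le hL hd.1))) fun t ht => ?_)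
  refine cent_comm.1 ((H2.pCoreOf_le q _).trans inf_le_right)
    (mem_of_rank hs (C := pCoreOf s H ⊓ 𝐂[d]) hX (le_inf hXO (mem_cent_iff_cent1.1 hd.2))
      (fun E hE hEe => ?_) (mem_inf.2 ⟨hTO ht.1, ht.2⟩) (hTe t ht.1)
      (le_cent_of_not_dvd hs hs hX hO ((H2.pCoreOf_le s H).trans hHX) (not_dvd_sub_one hs le_rfl hs)
        (hTO ht.1)))
  by_contra hnc
  exact h.fixV hX hXH hHX hL hU hd ho (h.n3.star d3! h.hV hEe hnc
    (((hE.trans inf_le_left).trans (H2.pCoreOf_le s H)).trans h.HV) ho (hE.trans inf_le_right))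

theorem leU (hqr : ¬ q ∣ r - 1) {E : Subgroup G} (hE : IsPGroup q E) (hEL : E ≤ L) :
    E ≤ pCoreOf q (L ⊓ 𝐂(X)) := by
  obtain ⟨hp, hq, hr, hs, pq, pr, ps, qr, qs, rs⟩ := h.d
  set U := pCoreOf q (L ⊓ 𝐂(X)) with hUd
  have hUq : IsPGroup q U := H2.isPGroup_pCoreOf q _
  have hLU : L ≤ 𝐍(U) := h.normU hX hXH hHX hL hU
  have hU0 : U ≤ L ⊓ 𝐂(X) := H2.pCoreOf_le q _
  obtain ⟨d₀, hd₀, ho₀⟩ := h.ex_d hX hXH hHX hL hU
  have hlt : U < L ⊓ 𝐂(X) := lt_of_le_of_ne hU0 fun e => qr (eq_of_prime_dvd_card_of_isPGroup hq hr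
    hUq (ho₀ ▸ orderOf_dvd_card_of_mem (e.ge hd₀))).symm
  obtain ⟨M, hM0, hM⟩ := exists_chief_above hLU ⟨inf_le_left, H1.le_normalizer_inf (le_norm_self L)
    (H1.le_normalizer_centralizer ((hall_le hL).trans hHX))⟩ hlt
  obtain ⟨t, ht, h1, h2, n, hn, h3⟩ := chief_elem (h.solH L) hM
  have h4 := H1.card_mul_relIndex hM.lt.le
  obtain ⟨k, hk⟩ := exists_card_eq_pow hq hUq
  have htd : t ∣ 𝐨(M) := by
    rw [← h4, h3]; exact (dvd_pow_self t hn.ne').mul_left _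
  have htr : t = r := (hall_isPi hL t ht (htd.trans (FT.card_dvd_of_le hM.le))).resolve_left
    fun e => hM.lt.not_ge (FT.le_pCoreOf ⟨hM0, inf_le_left.trans hM.normU⟩
      (isPGroup_of_card_eq (n := k + n) (by rw [← h4, h3, hk, e, pow_add])))
  subst htr
  obtain ⟨R, hR⟩ := exists_isSyl hr M
  have hRU : R ⊓ U = ⊥ := H1.inf_eq_bot_of_coprime' (cop hr hq qr.symm hR.pgrp hUq)
  have hRe : IsElementaryAbelian t R := ⟨isMulComm_iff_comm_eq_bot.2 (eq_bot_iff.2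
    ((le_inf (der_le R) ((commutator_mono hR.le hR.le).trans h1)).trans hRU.le)),
    fun x hx => mem_bot.1 (hRU.le (mem_inf.2 ⟨pow_mem hx _, h2 x (hR.le hx)⟩))⟩
  have hR0 := hR.le.trans hM0
  have hRc : 𝐨(R) = t := card_of_cyc hr hRe (hR.ne_bot hr htd) (by
    by_contra hnc
    obtain ⟨d, hd, ho, h5⟩ := ex_fix hq hr qr hUq hU hRe hnc ((hR0.trans inf_le_left).trans hLU)
    exact h5 (h.fpfU hX (hR0 hd).2 ho))
  obtain ⟨d, hd, ho⟩ := exists_mem_orderOf_eq_prime hr hRc.symm.dvd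
  have h5 : ¬ q ∣ 𝐨(L ⊓ 𝐍(R)) := fun e => by
    obtain ⟨Y, hY, hYq⟩ := exists_le_card_eq_prime hq e
    exact h.not_dvd hX hXH hHX hL hU (hR0 hd) ho (hYq ▸ FT.card_dvd_of_le
      ((le_cent_of_not_dvd hr hq hRc (isPGroup_of_card_prime hYq) (hY.trans inf_le_right) hqr).trans
        (cent_le_cent1 hd)))
  have h6 := relIndex_sup_of_norm (A := M) (B := L ⊓ 𝐍(R)) (inf_le_left.trans hM.normU)
  rw [hR.frattini hr ⟨hM.le, hM.normU⟩] at h6
  refine IsSyl.le_of_normal hq ⟨hU0.trans inf_le_left, hUq, fun e => ?_⟩ hLU hE hEL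
  rw [← relIndex_mul_relIndex U M L hM.lt.le hM.le, h3, h6] at e
  rcases (Nat.Prime.dvd_mul hq).1 e with e | e
  · exact qr ((Nat.prime_dvd_prime_iff_eq hq hr).1 (hq.dvd_of_dvd_pow e))
  · exact h5 (e.trans (relIndex_dvd_card' _ _))

theorem pCore_r : pCoreOf r H = ⊥ := by
  obtain ⟨hp, hq, hr, hs, pq, pr, ps, qr, qs, rs⟩ := h.d
  by_contra hne
  have hO := H2.isPGroup_pCoreOf r H
  have h1 : pCoreOf r H ≤ L ⊓ 𝐂(X) := le_inf (le_hall_of_normal hL (H2.pCoreOf_le r H)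
    (isPi_of_isPGroup hr hO (by simp)) ((hall_le hL).trans (H2.le_normalizer_pCoreOf r H)))
    (le_cent_of_norm_of_coprime ((H2.pCoreOf_le r H).trans hHX)
      (hXH.trans (H2.le_normalizer_pCoreOf r H)) (cop hs hr rs.symm (isPGroup_of_card_prime hX) hO))
  obtain ⟨d, hd, ho⟩ := ex_ord hr hO hne
  have h2 := h.fpfU (L := L) hX (h1 hd).2 ho
  rw [inf_eq_left.2 ((le_cent_of_norm_of_coprime ((((H2.pCoreOf_le q _).trans inf_le_left).trans
    (hall_le hL)).trans (H2.le_normalizer_pCoreOf r H)) (h1.trans (H2.le_normalizer_pCoreOf q _))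
    (cop hr hq qr.symm hO (H2.isPGroup_pCoreOf q _))).trans (cent_le_cent1 hd))] at h2
  exact hU h2

theorem pCore_q : pCoreOf q H ≠ ⊥ := fun e => by
  refine hU (eq_bot_iff.2 ((le_pCore_of_cent h.d.2.1 (h.solH H) (((H2.pCoreOf_le q _).trans
    inf_le_left).trans (hall_le hL)) (H2.isPGroup_pCoreOf q _) fun t ht h1 => ?_).trans e.le))
  rcases mem_of_pCore_ne_bot h.pi ht h1 with rfl | rfl | rfl
  · exact (h1 e).elim
  · exact (h1 (h.pCore_r hX hXH hHX hL hU)).elim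
  · exact h.centO hX hXH hHX hL hU

end

variable (hc : ∀ t : ℕ, t.Prime → ∀ U : Subgroup G, U ≤ H → H ≤ 𝐍(U) →
  IsElementaryAbelian t U → IsCyclic U)
include hc

omit h in
theorem exX {t : ℕ} (ht : t.Prime) (h1 : pCoreOf t H ≠ ⊥) :
    ∃ X : Subgroup G, 𝐨(X) = t ∧ X ≤ H ∧ H ≤ 𝐍(X) := by
  obtain ⟨X, h2, -, h3, h4, h5⟩ := ex_omZ ht (H2.isPGroup_pCoreOf t H) h1
  have h6 := h2.trans (H2.pCoreOf_le t H)
  have h7 := (H2.le_normalizer_pCoreOf t H).trans h5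
  exact ⟨X, card_of_cyc ht h4 h3 (hc t ht X h6 h7 h4), h6, h7⟩

theorem final {X L : Subgroup G} (hX : 𝐨(X) = s) (hXH : X ≤ H) (hHX : H ≤ 𝐍(X))
    (hL : IsPiHallOf {q, r} L H) (hU : pCoreOf q (L ⊓ 𝐂(X)) ≠ ⊥) : False := by
  obtain ⟨hp, hq, hr, hs, pq, pr, ps, qr, qs, rs⟩ := h.d
  obtain ⟨Y, hY, hYH, hHY⟩ := exX hc hq (h.pCore_q hX hXH hHX hL hU)
  obtain ⟨K, hK⟩ := exists_hall (h.solH H) {s, r}
  have hXs := isPGroup_of_card_prime hX
  have hU' : pCoreOf s (K ⊓ 𝐂(Y)) ≠ ⊥ := fun e => ne_bot_of_card_prime (hX ▸ hs) (eq_bot_iff.2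
    ((FT.le_pCoreOf ⟨le_inf (le_hall_of_normal hK hXH (isPi_of_isPGroup hs hXs (by simp))
      ((hall_le hK).trans hHX)) (le_cent_of_norm_of_coprime (hXH.trans hHY) (hYH.trans hHX)
      (cop hq hs qs (isPGroup_of_card_prime hY) hXs)), (inf_le_left.trans (hall_le hK)).trans hHX⟩
      hXs).trans e.le))
  obtain ⟨E, hEL, hE⟩ := h.exE hL
  obtain ⟨S, hSK, hS⟩ := h.swap13.exE hK
  have h1 : E ≤ 𝐂(pCoreOf s H) := (h.leU hX hXH hHX hL hU (not_dvd_sub_one hr (le_of_dvd_sub_one hq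
    (h.swap13.dvd_pred hY hYH hHY hK hU')) hq) hE.pgrp hEL).trans (h.centO hX hXH hHX hL hU)
  have h2 : S ≤ 𝐂(pCoreOf q H) := (h.swap13.leU hY hYH hHY hK hU' (not_dvd_sub_one hr
    (le_of_dvd_sub_one hs (h.dvd_pred hX hXH hHX hL hU)) hs) hS.pgrp hSK).trans
    (h.swap13.centO hY hYH hHY hK hU')
  have hEH := hEL.trans (hall_le hL)
  have hSH := hSK.trans (hall_le hK)
  have hq' := H2.le_normalizer_pCoreOf q H
  have hs' := H2.le_normalizer_pCoreOf s H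
  have hF : fittingOf H ≤ pCoreOf q H ⊔ pCoreOf s H := by
    rw [H2.fittingOf_eq_iSup_pCoreOf]
    refine iSup_le fun t => ?_
    by_cases h1 : pCoreOf t H = ⊥
    · exact h1.le.trans bot_le
    rcases mem_of_pCore_ne_bot h.pi t.2 h1 with e | e | e
    · rw [e]; exact le_sup_left
    · exact (h1 (e ▸ h.pCore_r hX hXH hHX hL hU)).elim
    · rw [show t.1 = s from e]; exact le_sup_right
  have h3 : ⁅E, S⁆ ≤ pCoreOf q H ⊔ pCoreOf s H := by
    refine (le_inf ((commutator_mono hEH hSH).trans (der_le H)) ((le_inf ?_ ?_).trans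
      ((cent_sup _ _).ge.trans (cent_anti hF)))).trans ((cent_fittingOf_le (h.solH H)).trans hF)
    · exact (commutator_mono le_rfl h2).trans (comm_le_right_iff.2
        (H1.le_normalizer_centralizer (hEH.trans hq')))
    · exact (commutator_mono h1 le_rfl).trans (comm_le_left_iff.2
        (H1.le_normalizer_centralizer (hSH.trans hs')))
  obtain ⟨e, he, heo, heV⟩ := ex_fix hp hq pq h.hV h.V1 hE.1 (hE.not_isCyclic hq le_rfl)
    (hEH.trans h.HV)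
  refine heV (h.n3.star d3! h.hV hS.1 (hS.not_isCyclic hs le_rfl) (hSH.trans h.HV) heo
    fun y hy => ?_)
  obtain ⟨a, ha, b, hb, hab⟩ := (mem_sup_of_norm ((H2.pCoreOf_le s H).trans hq')).1
    (h3 (commutator_comm S E ▸ commutator_mem_commutator hy he))
  have hy1 : y * e * y⁻¹ = (a * e) * b := by
    rw [mul_assoc a, ← mem_cent.1 (h1 he) b hb, ← mul_assoc a, hab, commutatorElement_def]; group
  have hT := isPGroup_sup hE.pgrp (H2.isPGroup_pCoreOf q H) (hEH.trans hq')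
  have hae : a * e ∈ E ⊔ pCoreOf q H := mul_mem (le_sup_right (a := E) ha) (mem_sup_left he)
  have hcb : Commute (a * e) b := mem_cent.1 (cent_comm.1 (sup_le h1 (le_cent_of_norm_of_coprime
    ((H2.pCoreOf_le q H).trans hs') ((H2.pCoreOf_le s H).trans hq')
    (cop hs hq qs.symm (H2.isPGroup_pCoreOf s H) (H2.isPGroup_pCoreOf q H)))) hb) _ hae
  have hb1 : b = 1 := by
    have h4 : IsPiElt {q} (y * e * y⁻¹) := isPiElt_conj.2 (isPiElt_of_mem
      ((isPi_singleton_iff hq).2 hE.pgrp) he)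
    have h5 := (isPiElt_of_mem ((isPi_singleton_iff hq).2 hT) hae).inv.mul (hy1 ▸ h4)
      ((Commute.refl _).mul_right hcb).inv_left
    rw [inv_mul_cancel_left] at h5
    exact h5.eq_one (isPiElt_of_mem (isPi_of_isPGroup hs (H2.isPGroup_pCoreOf s H) qs.symm) hb)
  rw [hb1, mul_one] at hab
  have h6 := H1.commutatorElement_pow_left_of_central (x := y) (y := e)
    (hab ▸ (mem_cent.1 (h2 hy) a ha).symm) s
  rw [hS.1.2 y hy, commutatorElement_one_left, ← hab] at h6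
  have h7 : a = 1 := (isPiElt_of_mem ((isPi_singleton_iff hq).2 (H2.isPGroup_pCoreOf q H)) ha).eq_one
    fun t ht hd e => qs (e ▸ (Nat.prime_dvd_prime_iff_eq ht hs).1
      (hd.trans (orderOf_dvd_of_pow_eq_one h6.symm)))
  exact mem_cent1.2 (commutatorElement_eq_one_iff_mul_comm.1 (hab.symm.trans h7)).symm

theorem false_aux (h1 : pCoreOf s H ≠ ⊥) : False := by
  obtain ⟨hp, hq, hr, hs, pq, pr, ps, qr, qs, rs⟩ := h.d
  obtain ⟨X, hX, hXH, hHX⟩ := exX hc hs h1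
  obtain ⟨L, hL⟩ := exists_hall (h.solH H) {q, r}
  obtain ⟨D, hDL, hD⟩ := h.exD hL
  obtain ⟨d, hd, ho, h2⟩ := ex_fix hs hr rs.symm (isPGroup_of_card_prime hX)
    (ne_bot_of_card_prime (hX ▸ hs)) hD.1 (hD.not_isCyclic hr le_rfl)
    ((hDL.trans (hall_le hL)).trans hHX)
  obtain ⟨t, ht, h3⟩ := ex_pCore (h.solH (L ⊓ 𝐂(X))) fun e => ne_one_of_ord hr ho (mem_bot.1 (e.le
    (mem_inf.2 ⟨hDL hd, mem_cent_iff_cent1.2 ((le_cent_or (hX ▸ hs) d).resolve_left h2)⟩)))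
  rcases mem_of_pCore_ne_bot (isPi_of_le inf_le_left (hall_isPi hL)) ht h3 with rfl | rfl
  · exact h.final hc hX hXH hHX hL h3
  · exact h.swap12.final hc hX hXH hHX (Set.pair_comm q t ▸ hL) h3

omit hc in
theorem false_nc {N : Subgroup G} (hNH : N ≤ H) (hHN : H ≤ 𝐍(N)) (hN : IsElementaryAbelian s N)
    (hnc : ¬ IsCyclic N) : False := by
  obtain ⟨hp, hq, hr, hs, pq, pr, ps, qr, qs, rs⟩ := h.d
  obtain ⟨a, ha, c, hc, hao, hco, hac⟩ := h.mix q (by simp) r (by simp) qr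
  obtain ⟨L, hL, hle⟩ := exists_hall_ge (π := {q, r}) (K := zpowers a ⊔ zpowers c) (h.solH H)
    (sup_le (zpowers_le.2 ha) (zpowers_le.2 hc)) (isPi_sup
      (isPi_of_isPGroup hq (pgrp_zp hao) (by simp)) (isPi_of_isPGroup hr (pgrp_zp hco) (by simp))
      (zpowers_le.2 (cent_le_norm _ (by rw [cent_zpowers]; exact mem_cent1_iff_commute.2 hac.symm))))
  exact C2.false ⟨h.n3, h.sol, h.d, h.hV, h.V1, hN, hnc, hNH.trans h.HV,
    eq_bot_iff.2 ((inf_le_inf_right _ hNH).trans h.faith.le), (hall_le hL).trans h.HV,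
    (hall_le hL).trans hHN, hall_isPi hL, h.exE hL, h.exD hL, a, hle (mem_sup_left (mem_zpowers a)),
    c, hle (mem_sup_right (mem_zpowers c)), hao, hco, hac⟩

omit hc in
theorem false : False := by
  obtain ⟨hp, hq, hr, hs, pq, pr, ps, qr, qs, rs⟩ := h.d
  have hc : ∀ t : ℕ, t.Prime → ∀ U : Subgroup G, U ≤ H → H ≤ 𝐍(U) →
      IsElementaryAbelian t U → IsCyclic U := fun t ht U hU hHU hUe => by
    by_contra hnc
    rcases mem_of_isPi_of_isPGroup ht (elemAb_isPGroup hUe) (fun e => hnc (e ▸ inferInstance))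
      (isPi_of_le hU h.pi) with rfl | rfl | rfl
    · exact h.swap13.false_nc hU hHU hUe hnc
    · exact h.swap12.swap13.false_nc hU hHU hUe hnc
    · exact h.false_nc hU hHU hUe hnc
  obtain ⟨E, hEL, hE⟩ := (le_pRank_iff hq).1 (h.rank q (by simp))
  obtain ⟨t, ht, h1⟩ := ex_pCore (h.solH H) fun e => hE.ne_bot hq two_ne_zero
    (eq_bot_iff.2 (hEL.trans e.le))
  rcases mem_of_pCore_ne_bot h.pi ht h1 with rfl | rfl | rfl
  · exact h.swap13.false_aux hc h1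
  · exact h.swap12.swap13.false_aux hc h1
  · exact h.false_aux hc h1

end C3

/-- The global hypotheses. -/
structure C4 (G : Type u) [Group G] (p q r s : ℕ) : Prop where
  n3 : N3 G
  sol : Group.IsSolvable G
  d : D4 p q r s
  pi : IsPiSubgroup {p, q, r, s} (⊤ : Subgroup G)
  mix : ∀ t ∈ ({p, q, r, s} : Set ℕ), ∀ t' ∈ ({p, q, r, s} : Set ℕ), t ≠ t' →
    ∃ a c : G, orderOf a = t ∧ orderOf c = t' ∧ Commute a c

theorem set4 : ({p, q, r, s} : Set ℕ) = {q, r, s, p} := by ext; simp; tauto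

namespace C4

variable (h : C4 G p q r s)
include h

theorem rot : C4 G q r s p := by
  obtain ⟨hp, hq, hr, hs, pq, pr, ps, qr, qs, rs⟩ := h.d
  exact ⟨h.n3, h.sol, d4!, set4 ▸ h.pi, set4 ▸ h.mix⟩

theorem rank : 2 ≤ pRank p (⊤ : Subgroup G) := by
  obtain ⟨hp, hq, hr, hs, pq, pr, ps, qr, qs, rs⟩ := h.d
  by_contra hlt
  obtain ⟨P, hP⟩ := exists_isSyl hp (⊤ : Subgroup G)
  obtain ⟨a, -, ha, -⟩ := h.mix p (by simp) q (by simp) pq
  obtain ⟨X, hX, hXP, -, hXu⟩ := ex_unique hp hP.pgrp (hP.ne_bot hp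
    (ha ▸ orderOf_dvd_card_of_mem (mem_top a))) fun E _ hE => isCyclic_of_comm_of_pRank_le_one hp
      (elemAb_isPGroup hE) hE.1 ((pRank_mono hp le_top).trans (by omega))
  obtain ⟨z, hz, hzo⟩ := exists_mem_orderOf_eq_prime hp hX.symm.dvd
  have key : ∀ t ∈ ({p, q, r, s} : Set ℕ), p ≠ t → t ∣ 𝐨(𝐂[z]) := fun t ht hne => by
    obtain ⟨a, c, ha, hc, hac⟩ := h.mix p (by simp) t ht hne
    obtain ⟨g, -, hg⟩ := hP.exists_conj_le hp (pgrp_zp ha) le_top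
    have h1 : g * a * g⁻¹ ∈ X := hXu _ (hg (conj_mem_conj (mem_zpowers a) g))
      (by rw [conj_pow, pow_ord ha, mul_one, mul_inv_cancel])
    rw [cent1_eq_of_card_prime (hX ▸ hp) hz (ne_one_of_ord hp hzo), ← cent1_eq_of_card_prime
      (hX ▸ hp) h1 (by simpa using ne_one_of_ord hp ha), cent1_conj, card_conj, ← hc]
    exact orderOf_dvd_card_of_mem (mem_cent1_iff_commute.2 hac)
  exact h.n3.cent h.sol h.d hzo (key q (by simp) pq) (key r (by simp) pr) (key s (by simp) ps)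

theorem false_aux (h1 : pCoreOf p (⊤ : Subgroup G) ≠ ⊥) : False := by
  obtain ⟨hp, hq, hr, hs, pq, pr, ps, qr, qs, rs⟩ := h.d
  haveI := h.sol
  obtain ⟨H, hH⟩ := exists_hall (M := (⊤ : Subgroup G)) inferInstance {q, r, s}
  have hV := H2.isPGroup_pCoreOf p (⊤ : Subgroup G)
  have hHV : H ≤ 𝐍(pCoreOf p (⊤ : Subgroup G)) := le_top.trans (H2.le_normalizer_pCoreOf p ⊤)
  have hrk : ∀ t ∈ ({q, r, s} : Set ℕ), 2 ≤ pRank t H := by
    rintro t (rfl | rfl | rfl)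
    · exact (hall_pRank_eq hq hH (by simp)).symm ▸ h.rot.rank
    · exact (hall_pRank_eq hr hH (by simp)).symm ▸ h.rot.rot.rank
    · exact (hall_pRank_eq hs hH (by simp)).symm ▸ h.rot.rot.rot.rank
  by_cases h2 : H ⊓ 𝐂(pCoreOf p (⊤ : Subgroup G)) = ⊥
  · refine C3.false ⟨h.n3, h.sol, h.d, hV, h1, hHV, h2, hall_isPi hH, hrk, fun t ht t' ht' hne => ?_⟩
    obtain ⟨a, c, ha, hc, hac⟩ := h.mix t (Set.mem_insert_of_mem _ ht) t'
      (Set.mem_insert_of_mem _ ht') hne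
    have hpr : ∀ t ∈ ({q, r, s} : Set ℕ), t.Prime := by rintro t (rfl | rfl | rfl) <;> assumption
    obtain ⟨g, -, hg⟩ := exists_conj_le_hall (K := zpowers a ⊔ zpowers c) inferInstance hH le_top
      (isPi_sup (isPi_of_isPGroup (hpr t ht) (pgrp_zp ha) ht)
      (isPi_of_isPGroup (hpr t' ht') (pgrp_zp hc) ht')
      (zpowers_le.2 (cent_le_norm _ (by rw [cent_zpowers]; exact mem_cent1_iff_commute.2 hac.symm))))
    exact ⟨_, hg (conj_mem_conj (mem_sup_left (mem_zpowers a)) g), _,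
      hg (conj_mem_conj (mem_sup_right (mem_zpowers c)) g),
      ((MulAut.conj g).orderOf_eq a).trans ha, ((MulAut.conj g).orderOf_eq c).trans hc,
      hac.map (MulAut.conj g)⟩
  obtain ⟨t, ht, h3⟩ := ex_pCore (L := H ⊓ 𝐂(pCoreOf p (⊤ : Subgroup G))) inferInstance h2
  have key : ∀ {q r s : ℕ}, D4 p q r s → (∀ t ∈ ({q, r, s} : Set ℕ), 2 ≤ pRank t H) →
      pCoreOf s (H ⊓ 𝐂(pCoreOf p (⊤ : Subgroup G))) ≠ ⊥ → False := fun {q r s} d hrk h3 => by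
    obtain ⟨L, hL⟩ := exists_hall (M := H) inferInstance {q, r}
    exact C1.false ⟨h.n3, d, hV, h1, H2.isPGroup_pCoreOf s _, h3,
      cent_comm.1 ((H2.pCoreOf_le s _).trans inf_le_right), (hall_le hL).trans hHV,
      (hall_le hL).trans ((H1.le_normalizer_inf (le_norm_self H)
        (H1.le_normalizer_centralizer hHV)).trans (H2.normalizer_le_normalizer_pCoreOf s _)),
      inferInstance, hall_isPi hL,
      (le_pRank_iff d.2.1).1 ((hall_pRank_eq d.2.1 hL (by simp)).symm ▸ hrk q (by simp)),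
      (le_pRank_iff d.2.2.1).1 ((hall_pRank_eq d.2.2.1 hL (by simp)).symm ▸ hrk r (by simp))⟩
  rcases mem_of_pCore_ne_bot (isPi_of_le inf_le_left (hall_isPi hH)) ht h3 with rfl | rfl | rfl
  · exact key (d4! : D4 p s r t) (set13 ▸ hrk) h3
  · exact key (d4! : D4 p s q t) (set13 ▸ set12 ▸ hrk) h3
  · exact key h.d hrk h3

theorem false : False := by
  haveI := h.sol
  obtain ⟨E, hEL, hE⟩ := (le_pRank_iff h.d.1).1 h.rank
  obtain ⟨t, ht, h1⟩ := ex_pCore (L := (⊤ : Subgroup G)) inferInstance fun e =>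
    hE.ne_bot h.d.1 two_ne_zero (eq_bot_iff.2 (hEL.trans e.le))
  rcases mem_of_pCore_ne_bot h.pi ht h1 with rfl | rfl | rfl | rfl
  · exact h.false_aux h1
  · exact h.rot.false_aux h1
  · exact h.rot.rot.false_aux h1
  · exact h.rot.rot.rot.false_aux h1

end C4

end Cfsg.Agent.H2.Four
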