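/-
Hk (S4266), chapter K4: lower bounds for the commuting probability.
-/
import Cfsg.Agent.H7.ClassNum
import Cfsg.Agent.H3.ClassCount2

set_option autoImplicit false

namespace Cfsg.Agent.H2.Hk

open Subgroup
open scoped commutatorElement

theorem cp_congr {G K : Type*} [Group G] [Group K] (e : G ≃* K) : commProb G = commProb K := by
  rw [commProb_def, commProb_def, Nat.card_congr e.toEquiv]
  congr 2
  refine Nat.card_congr (Equiv.subtypeEquiv (e.toEquiv.prodCongr e.toEquiv) fun x => ?_)
  exact ⟨fun h => h.map e, fun h => e.injective (by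
    rw [map_mul, map_mul]; exact h)⟩

theorem cp_mono {G : Type*} [Group G] [Finite G] (H : Subgroup G) : commProb G ≤ commProb H := by
  have h1 := H7.classNum_le_index_mul H
  have h2 := H.card_mul_index
  have h3 : (0 : ℚ) < Nat.card H := Nat.cast_pos.2 Nat.card_pos
  have h4 : (0 : ℚ) < Nat.card G := Nat.cast_pos.2 Nat.card_pos
  rw [commProb_def', commProb_def', div_le_div_iff₀ h4 h3, ← h2]
  have h5 : (Nat.card (ConjClasses G) : ℚ) ≤ H.index * Nat.card (ConjClasses H) := by
    exact_mod_cast h1
  push_cast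
  nlinarith

theorem cp_inj {G K : Type*} [Group G] [Group K] [Finite G] (f : K →* G)
    (hf : Function.Injective f) : commProb G ≤ commProb K := by
  rw [cp_congr (MonoidHom.ofInjective hf)]
  exact cp_mono _

/-- The core of `N` embeds in a power of `N / J` if `J` has trivial core. -/
theorem cp_core {H : Type*} [Group H] [Finite H] {N J : Subgroup H} [(J.subgroupOf N).Normal]
    (hJ : J.normalCore = ⊥) :
    commProb (N ⧸ J.subgroupOf N) ^ N.index ≤ commProb N.normalCore := by
  classical
  let _ := Fintype.ofFinite (H ⧸ N)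
  have hm : ∀ (k : N.normalCore) (g : H), g⁻¹ * k * g ∈ N := fun k g => by
    simpa using k.2 g⁻¹
  let φ : N.normalCore →* (H ⧸ N → N ⧸ J.subgroupOf N) :=
    { toFun := fun k c => ((⟨c.out⁻¹ * k * c.out, hm k _⟩ : N) : N ⧸ J.subgroupOf N)
      map_one' := by
        funext c
        rw [Pi.one_apply, QuotientGroup.eq_one_iff]
        simp [mem_subgroupOf]
      map_mul' := fun a b => by
        funext c
        rw [Pi.mul_apply, ← QuotientGroup.mk_mul]
        congr 1
        apply Subtype.ext
        simp only [Subgroup.coe_mul]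
        group }
  have hφ : Function.Injective φ := by
    rw [injective_iff_map_eq_one]
    intro k hk
    apply Subtype.ext
    rw [OneMemClass.coe_one, ← mem_bot, ← hJ]
    intro g
    obtain ⟨n, hn⟩ := QuotientGroup.mk_out_eq_mul N g⁻¹
    have h1 := congrFun hk (g⁻¹ : H)
    rw [Pi.one_apply] at h1
    have h2 := (QuotientGroup.eq_one_iff _).1 h1
    have h3 := ‹(J.subgroupOf N).Normal›.conj_mem _ h2 n
    rw [mem_subgroupOf] at h3
    simp only [Subgroup.coe_mul, Subgroup.coe_inv, hn] at h3
    convert h3 using 1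
    group
  have := cp_inj φ hφ
  rwa [commProb_function, ← Nat.card_eq_fintype_card] at this

theorem card_mul_le_of_mem {G : Type*} [Group G] [Finite G] {D C : Subgroup G} (h : D ≤ C) {a : G}
    (ha : a ∈ C) (ha' : a ∉ D) : 2 * Nat.card D ≤ Nat.card C := by
  obtain ⟨j, hj⟩ := card_dvd_of_le h
  have h1 : j ≠ 1 := by
    rintro rfl
    exact ha' ((eq_of_le_of_card_ge h (by omega)).ge ha)
  have h2 : j ≠ 0 := by
    rintro rfl
    exact (Nat.card_pos (α := C)).ne' (by omega)
  rw [hj, mul_comm]
  exact Nat.mul_le_mul_left _ (by omega)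

theorem classNum_cent {E : Type*} [Group E] [Finite E] {D : Subgroup E} (hD : D ≤ center E) :
    Nat.card D * (3 * D.index - 2) ≤ Nat.card (ConjClasses E) * D.index := by
  classical
  let _ := Fintype.ofFinite E
  have h1 := H7.classNum_mul_card (X := E)
  have h2 := D.card_mul_index
  have hz : 0 < Nat.card D := Nat.card_pos
  have hc : 0 < D.index := Nat.pos_of_ne_zero index_ne_zero_of_finite
  have h3 : ∑ a : E, (if a ∈ D then Nat.card E else 2 * Nat.card D) ≤
      ∑ a : E, Nat.card (centralizer {a} : Subgroup E) := by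
    refine Finset.sum_le_sum fun a _ => ?_
    split_ifs with ha
    · rw [centralizer_eq_top_iff_subset.2 (by simpa using hD ha), card_top]
    · exact card_mul_le_of_mem (hD.trans (center_le_centralizer _))
        (mem_centralizer_singleton_iff.2 rfl) ha
  rw [Finset.sum_ite, Finset.sum_const, Finset.sum_const, smul_eq_mul, smul_eq_mul] at h3
  have h4 : (Finset.univ.filter (· ∈ D)).card = Nat.card D := by
    rw [Nat.card_eq_fintype_card, Fintype.card_subtype]
  have h5 := Finset.card_filter_add_card_filter_not (s := (Finset.univ : Finset E)) (· ∈ D)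
  rw [h4, Finset.card_univ, ← Nat.card_eq_fintype_card] at h5
  rw [h4, ← h1] at h3
  generalize (Finset.univ.filter (fun a => ¬ a ∈ D)).card = w at h3 h5
  rw [← h2] at h3 h5
  generalize Nat.card D = z at *
  generalize D.index = c at *
  generalize Nat.card (ConjClasses E) = k at *
  obtain ⟨c, rfl⟩ := Nat.exists_eq_add_of_le' hc
  have h6 : w = z * c := by nlinarith
  subst h6
  have h7 : 3 * (c + 1) - 2 = 3 * c + 1 := by omega
  rw [h7]
  refine Nat.le_of_mul_le_mul_left (c := z) ?_ hz
  nlinarith

theorem cp_cent {E : Type*} [Group E] [Finite E] {D : Subgroup E} (hD : D ≤ center E) :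
    3 ≤ ((D.index : ℚ) + 2) * commProb E := by
  have h1 := classNum_cent hD
  have hz : (0 : ℚ) < Nat.card D := Nat.cast_pos.2 Nat.card_pos
  have hc : 0 < D.index := Nat.pos_of_ne_zero index_ne_zero_of_finite
  rw [commProb_def', ← D.card_mul_index]
  have h2 : (Nat.card D : ℚ) * (3 * D.index - 2) ≤ Nat.card (ConjClasses E) * D.index := by
    have : ((3 * D.index - 2 : ℕ) : ℚ) = 3 * D.index - 2 := by
      rw [Nat.cast_sub (by omega)]; push_cast; ring
    rw [← this]; exact_mod_cast h1
  have hc' : (1 : ℚ) ≤ D.index := by exact_mod_cast hc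
  push_cast
  generalize (Nat.card D : ℚ) = z at *
  generalize (D.index : ℚ) = c at *
  generalize (Nat.card (ConjClasses E) : ℚ) = k at *
  rw [← mul_div_assoc, le_div_iff₀ (by positivity)]
  refine le_of_mul_le_mul_right ?_ (show (0 : ℚ) < c by positivity)
  have h3 : (c + 2) * (z * (3 * c - 2)) ≤ (c + 2) * (k * c) :=
    mul_le_mul_of_nonneg_left h2 (by positivity)
  nlinarith

/-- Bound for a group `L` with subgroups `D ≤ C`, `D` central in `C`. -/
theorem cp_prim {L : Type*} [Group L] [Finite L] {D C : Subgroup L}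
    (hC : C ≤ centralizer (D : Set L)) :
    3 ≤ ((D.relIndex C : ℚ) + 2) * (commProb L * (C.index : ℚ) ^ 2) := by
  have h1 : D.subgroupOf C ≤ center C := fun d hd => mem_center_iff.2 fun c =>
    Subtype.ext (mem_centralizer_iff.1 (hC c.2) d hd).symm
  exact (cp_cent h1).trans (mul_le_mul_of_nonneg_left C.commProb_subgroup_le (by positivity))

/-- Recognition of the symmetric group of degree four. -/
theorem exists_s4 {Q : Type*} [Group Q] [Finite Q] {V : Subgroup Q} [hn : V.Normal]
    (h4 : Nat.card V = 4) (hC : centralizer (V : Set Q) ≤ V) (h6 : V.index = 6) :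
    Nonempty (Q ≃* Equiv.Perm (Fin 4)) := by
  have hG : Nat.card Q = 24 := by rw [← V.card_mul_index, h4, h6]
  haveI := Fact.mk Nat.prime_three
  haveI := Fact.mk Nat.prime_two
  obtain ⟨t, ht⟩ := exists_prime_orderOf_dvd_card' (G := Q) 3 (by rw [hG]; norm_num)
  have hT : Nat.card (zpowers t) = 3 := by rw [Nat.card_zpowers, ht]
  have hTV : zpowers t ⊓ V = ⊥ :=
    (disjoint_of_coprime_natCard (by rw [hT, h4]; norm_num)).eq_bot
  have ht1 : t ≠ 1 := fun e => by rw [e, orderOf_one] at ht; omega
  have htC : t ∉ centralizer (V : Set Q) := fun h =>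
    ht1 (mem_bot.1 (hTV ▸ mem_inf.2 ⟨mem_zpowers t, hC h⟩))
  have hV2 : IsPGroup 2 V := IsPGroup.of_card (n := 2) (by rw [h4]; norm_num)
  have a1 := H3.four_mul_card_inf_centralizer_le hV2 (le_normalizer_of_normal (mem_top t))
    (by rw [ht]; decide) htC
  have a2 : V ⊓ centralizer ({t} : Set Q) = ⊥ := by
    rw [h4] at a1
    exact eq_bot_of_card_le _ (by omega)
  have key : ∀ v ∈ V, v ∈ normalizer (zpowers t : Set Q) → v = 1 := fun v hv hv' => by
    rw [← mem_bot, ← a2]
    refine ⟨hv, mem_centralizer_singleton_iff.2 ?_⟩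
    have b0 : v * t * v⁻¹ * t⁻¹ ∈ zpowers t := mul_mem
      ((mem_normalizer_iff.1 hv' t).1 (mem_zpowers t)) (inv_mem (mem_zpowers t))
    have b2 : v * t * v⁻¹ * t⁻¹ ∈ V := by
      have := V.mul_mem hv (hn.conj_mem _ (V.inv_mem hv) t)
      simpa only [mul_assoc] using this
    have b1 : v * t * v⁻¹ * t⁻¹ ∈ zpowers t ⊓ V := ⟨b0, b2⟩
    rw [hTV, mem_bot] at b1
    calc v * t = v * t * v⁻¹ * t⁻¹ * (t * v) := by group
      _ = t * v := by rw [b1, one_mul]
  have hTi : (zpowers t).index = 8 := by
    have := (zpowers t).card_mul_index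
    rw [hT, hG] at this
    omega
  let T : Sylow 3 Q := (IsPGroup.of_card (G := zpowers t) (n := 1) (by rw [hT, pow_one])).toSylow (by
    rw [hTi]; norm_num)
  have hN : (normalizer (zpowers t : Set Q)).index = 4 := by
    have a1 : Nat.card (Sylow 3 Q) = (normalizer (zpowers t : Set Q)).index :=
      T.card_eq_index_normalizer
    have a2 := card_sylow_modEq_one 3 Q
    have a3 : (normalizer (zpowers t : Set Q)).index ∣ 8 := hTi ▸ index_dvd_of_le le_normalizer
    have a4 : (normalizer (zpowers t : Set Q)).index ≠ 1 := fun e => by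
      have : V = ⊥ := eq_bot_iff.2 fun v hv => key v hv (by rw [index_eq_one.1 e]; trivial)
      rw [this, card_bot] at h4
      omega
    rw [a1] at a2
    have := Nat.le_of_dvd (by norm_num) a3
    interval_cases (normalizer (zpowers t : Set Q)).index <;> simp_all [Nat.ModEq]
  generalize normalizer (zpowers t : Set Q) = N at hN key
  let e : Q ⧸ N ≃ Fin 4 := Finite.equivFinOfCardEq hN
  let f : Q →* Equiv.Perm (Fin 4) :=
    (e.permCongrHom : _ →* _).comp (MulAction.toPermHom Q (Q ⧸ N))
  have hf : Function.Injective f := by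
    refine e.permCongrHom.injective.comp ((MonoidHom.ker_eq_bot_iff _).1 ?_)
    rw [← normalCore_eq_ker]
    have a3 : N.normalCore ⊓ V = ⊥ :=
      eq_bot_iff.2 fun v hv => key v hv.2 (N.normalCore_le hv.1)
    have a4 : N.normalCore ≤ V := by
      refine le_trans ?_ hC
      rw [← commutator_eq_bot_iff_le_centralizer, eq_bot_iff, ← a3]
      exact commutator_le_inf _ _
    rwa [inf_eq_left.2 a4] at a3
  exact ⟨MulEquiv.ofBijective f ((Nat.bijective_iff_injective_and_card f).2 ⟨hf, by
    rw [hG, Nat.card_perm, Nat.card_fin]; rfl⟩)⟩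

/-- weights on the symmetric group of degree four -/
def wt (σ : Equiv.Perm (Fin 4)) : ℕ :=
  if σ = 1 then 24 else if σ ^ 3 = 1 then 3 else
    if σ ^ 2 = 1 ∧ Equiv.Perm.sign σ = -1 then 2 else 4

theorem sum_wt : ∑ σ, wt σ = 96 := by decide +kernel

theorem wt_spec : ∀ σ : Equiv.Perm (Fin 4), σ ≠ 1 → ∃ τ : Equiv.Perm (Fin 4),
    (τ = σ ∨ τ ^ 2 = σ) ∧ ∀ i : Fin 4, 0 < (i : ℕ) → (i : ℕ) < wt σ → τ ^ (i : ℕ) ≠ 1 := by
  decide +kernel

theorem wt_le (σ : Equiv.Perm (Fin 4)) (h : σ ≠ 1) : wt σ ≤ 4 := by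
  rw [wt, if_neg h]
  split_ifs <;> omega

theorem classNum_s4 {H : Type*} [Group H] [Finite H] (f : H →* Equiv.Perm (Fin 4))
    (hf : Function.Surjective f) (hZ : f.ker ≤ center H) :
    4 * Nat.card f.ker ≤ Nat.card (ConjClasses H) := by
  classical
  let _ := Fintype.ofFinite H
  have h1 := H7.classNum_mul_card (X := H)
  have h2 : Nat.card H = Nat.card f.ker * 24 := by
    rw [← f.ker.card_mul_index, index_ker, f.range_eq_top.2 hf, card_top, Nat.card_perm,
      Nat.card_fin]
    rfl
  have h3 : ∀ g : H, Nat.card f.ker * wt (f g) ≤ Nat.card (centralizer {g} : Subgroup H) := by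
    intro g
    by_cases hg : f g = 1
    · rw [centralizer_eq_top_iff_subset.2 (by simpa using hZ hg), card_top, h2, hg]
      rfl
    obtain ⟨τ, hτ, hi⟩ := wt_spec _ hg
    obtain ⟨h, rfl⟩ := hf τ
    have hh : h ∈ centralizer ({g} : Set H) := by
      have : ∀ j : ℕ, f h ^ j = f g → h ∈ centralizer ({g} : Set H) := fun j hj => by
        have h4 : (h ^ j)⁻¹ * g ∈ f.ker := by
          rw [MonoidHom.mem_ker, map_mul, map_inv, map_pow, hj, inv_mul_cancel]
        have h5 := mem_center_iff.1 (hZ h4) h
        rw [mem_centralizer_singleton_iff]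
        have h6 : Commute h (h ^ j) := Commute.self_pow h j
        calc h * g = h ^ j * (h * ((h ^ j)⁻¹ * g)) := by rw [← mul_assoc, ← h6.eq]; group
          _ = g * h := by rw [h5]; group
      rcases hτ with e | e
      · exact this 1 (by rw [pow_one, e])
      · exact this 2 e
    have h4 : wt (f g) ≤ orderOf (f h) := by
      by_contra! hlt
      have h5 := wt_le _ hg
      exact hi ⟨orderOf (f h), by omega⟩ (orderOf_pos _) hlt (pow_orderOf_eq_one _)
    have h5 : f.ker ≤ centralizer ({g} : Set H) := hZ.trans (center_le_centralizer _)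
    have h6 : orderOf (f h) ≤ Nat.card ((centralizer ({g} : Set H)).map f) :=
      Nat.le_of_dvd Nat.card_pos (Subgroup.orderOf_dvd_natCard _ ⟨h, hh, rfl⟩)
    rw [← relIndex_ker] at h6
    have h7 := (f.ker.subgroupOf (centralizer ({g} : Set H))).card_mul_index
    rw [Nat.card_congr (subgroupOfEquivOfLe h5).toEquiv] at h7
    rw [← h7]
    exact Nat.mul_le_mul_left _ (h4.trans h6)
  have h4 : ∑ g : H, wt (f g) = Nat.card f.ker * 96 := by
    rw [← sum_wt, ← Finset.sum_fiberwise Finset.univ f, Finset.mul_sum]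
    refine Finset.sum_congr rfl fun σ _ => ?_
    rw [Finset.sum_congr rfl (g := fun _ => wt σ) (fun g hg => by
      rw [(Finset.mem_filter.1 hg).2]), Finset.sum_const, smul_eq_mul,
      MonoidHom.card_fiber_eq_of_mem_range f (hf σ) (hf 1), Nat.card_eq_fintype_card,
      Fintype.card_subtype]
    congr 2
    ext g
    simp [MonoidHom.mem_ker]
  have h5 := Finset.sum_le_sum fun g (_ : g ∈ Finset.univ) => h3 g
  rw [← Finset.mul_sum, h4, ← h1, h2] at h5
  have hz : 0 < Nat.card f.ker := Nat.card_pos
  refine Nat.le_of_mul_le_mul_left (c := Nat.card f.ker * 24) ?_ (by omega)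
  nlinarith

end Cfsg.Agent.H2.Hk
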