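/-
Hk (S4266), chapter K4: class numbers of solvable linear groups from the block structure.
-/
import Cfsg.Agent.H2.Hk1
import Cfsg.Agent.H2.Hk2
import Cfsg.Agent.H5.Dixon

set_option autoImplicit false

namespace Cfsg.Agent.H2.Hk

open Subgroup
open scoped commutatorElement

/-- `N` is the stabilizer of a block of dimension `m`, `J` the kernel of `N` on the block, `D / J` a
cyclic normal subgroup of `N / J` and `C / J` its centralizer. -/
structure Cf {H : Type*} [Group H] (p n : ℕ) (N J D C : Subgroup H) (m e E : ℕ) : Prop where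
  JD : J ≤ D
  DC : D ≤ C
  CN : C ≤ N
  nJ : N ≤ normalizer (J : Set H)
  core : J.normalCore = ⊥
  cen : ∀ x ∈ C, ∀ d ∈ D, ⁅x, d⁆ ∈ J
  cyc : ∃ d, D = zpowers d ⊔ J
  dimN : N.index * m ≤ n
  dim : C.relIndex N * e ≤ m
  E1 : 1 ≤ E
  Ee : E ≤ e
  sc : e = m → ¬ p ∣ e → ∀ d ∈ D, d ^ (p - 1) ∈ J
  le : D.relIndex C ≤ el E
  two : E = 2 → ∃ X : Subgroup H, D ≤ X ∧ X ≤ C ∧ C ≤ normalizer (X : Set H) ∧
    D.relIndex X = 4 ∧ (∀ c ∈ C, (∀ x ∈ X, ⁅c, x⁆ ∈ D) → c ∈ X) ∧ X.relIndex C ∣ 6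

variable {H : Type*} [Group H] [Finite H] {p n : ℕ} {N J D C : Subgroup H} {m e E : ℕ}

theorem Cf.cp (h : Cf p n N J D C m e E) :
    3 ^ N.index ≤ (((D.relIndex C + 2) * C.relIndex N ^ 2 : ℕ) : ℚ) ^ N.index *
      (commProb H * (N.normalCore.index : ℚ) ^ 2) := by
  haveI : (J.subgroupOf N).Normal :=
    (normal_subgroupOf_iff_le_normalizer ((h.JD.trans h.DC).trans h.CN)).2 h.nJ
  let π := QuotientGroup.mk' (J.subgroupOf N)
  have hk : π.ker = J.subgroupOf N := QuotientGroup.ker_mk' _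
  have hD : π.ker ≤ D.subgroupOf N := by rw [hk]; exact comap_mono h.JD
  have hC : π.ker ≤ C.subgroupOf N := by rw [hk]; exact comap_mono (h.JD.trans h.DC)
  have h1 := cp_prim (D := (D.subgroupOf N).map π) (C := (C.subgroupOf N).map π) (by
    rintro _ ⟨x, hx, rfl⟩ _ ⟨d, hd, rfl⟩
    symm
    rw [← commutatorElement_eq_one_iff_mul_comm, ← map_commutatorElement, ← MonoidHom.mem_ker, hk]
    exact h.cen x hx d hd)
  rw [relIndex_map_map, sup_eq_left.2 hD, sup_eq_left.2 hC, relIndex_subgroupOf h.CN,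
    index_map_eq _ (QuotientGroup.mk'_surjective _) hC] at h1
  have h2 := (cp_core (N := N) h.core).trans N.normalCore.commProb_subgroup_le
  refine le_trans (pow_le_pow_left₀ (by norm_num) h1 _) ?_
  refine le_trans (le_of_eq ?_) (mul_le_mul_of_nonneg_left h2 (by positivity))
  rw [← mul_pow, ← relIndex]
  congr 1
  push_cast
  ring

theorem Cf.card_le (h : Cf p n N J D C m e E) {b : ℕ}
    (hb : N.normalCore.index ^ 2 * ((D.relIndex C + 2) * C.relIndex N ^ 2) ^ N.index ≤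
      b * 3 ^ N.index) : Nat.card H ≤ b * Nat.card (ConjClasses H) := by
  have h1 := h.cp
  have h2 : (N.normalCore.index : ℚ) ^ 2 *
      (((D.relIndex C + 2) * C.relIndex N ^ 2 : ℕ) : ℚ) ^ N.index ≤ b * 3 ^ N.index := by
    exact_mod_cast hb
  have h3 : 0 < commProb H := commProb_pos H
  have h4 : (1 : ℚ) ≤ b * commProb H := by
    refine le_of_mul_le_mul_right ?_ (show (0 : ℚ) < 3 ^ N.index by positivity)
    nlinarith [mul_le_mul_of_nonneg_left h2 h3.le]
  rw [commProb_def', ← mul_div_assoc, one_le_div (Nat.cast_pos.2 Nat.card_pos)] at h4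
  exact_mod_cast h4

theorem Cf.nums (h : Cf p n N J D C m e E) : 1 ≤ N.index ∧ 1 ≤ C.relIndex N ∧
    C.relIndex N * E ≤ m ∧ 1 ≤ m := by
  have h1 : 1 ≤ C.relIndex N := Nat.pos_of_ne_zero index_ne_zero_of_finite
  have h2 := (Nat.mul_le_mul_left (C.relIndex N) h.Ee).trans h.dim
  exact ⟨Nat.pos_of_ne_zero index_ne_zero_of_finite, h1, h2,
    le_trans (Nat.mul_le_mul h1 h.E1) h2⟩

theorem Cf.three [Group.IsSolvable H] (h : Cf p n N J D C m e E) (hn : 3 ≤ n) :
    Nat.card H ≤ 7 * 11 ^ (n - 2) * Nat.card (ConjClasses H) := by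
  obtain ⟨h1, h2, h3, h4⟩ := h.nums
  obtain ⟨y1, y2, y3⟩ := num_prim h2 h.E1 h3 h.le
  exact h.card_le (num_blocks (H5.dixon N) h1 h4 h.dimN hn y1 y2 y3)

theorem Cf.two' [Group.IsSolvable H] (h : Cf p 2 N J D C m e E) (hp : 3 ≤ p) :
    Nat.card H ≤ 5 * Nat.card (ConjClasses H) ∨
      ∃ z, z ∣ p - 1 ∧ Nat.card H = 24 * z ∧ 4 * z ≤ Nat.card (ConjClasses H) := by
  obtain ⟨h1, h2, h3, h4⟩ := h.nums
  obtain ⟨y1, -, -⟩ := num_prim h2 h.E1 h3 h.le
  have h5 := h.dimN
  have hd := H5.dixon N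
  have h6 : N.index ≤ 2 := by nlinarith
  rcases eq_or_lt_of_le h6 with h7 | h7
  · refine Or.inl (h.card_le ?_)
    rw [h7] at hd h5 ⊢
    have h8 : N.normalCore.index ≤ 2 := by
      by_contra! h8
      have := Nat.pow_le_pow_left (show 3 ≤ N.normalCore.index from h8) 3
      omega
    have h9 := Nat.pow_le_pow_left (y1 (by omega)) 2
    have h10 := Nat.pow_le_pow_left h8 2
    nlinarith
  have h8 : N.index = 1 := by omega
  obtain rfl := index_eq_one.1 h8
  have hc : (⊤ : Subgroup H).normalCore.index = 1 := by rw [normalCore_eq_self, index_top]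
  by_cases hy : (D.relIndex C + 2) * C.relIndex ⊤ ^ 2 ≤ 15
  · refine Or.inl (h.card_le ?_)
    rw [hc, h8, pow_one]
    omega
  right
  rw [h8, one_mul] at h5
  have hle := h.le
  have hE : E = 2 ∧ C.relIndex ⊤ = 1 := by
    have a1 : C.relIndex ⊤ ≤ 2 := by nlinarith [h.E1]
    have a2 : E ≤ 2 := by nlinarith
    have a3 := h.E1
    generalize C.relIndex ⊤ = t at *
    interval_cases t <;> interval_cases E <;> simp [el] at hle ⊢ <;> omega
  obtain ⟨rfl, hC⟩ := hE
  rw [hC] at hy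
  obtain rfl : C = ⊤ := index_eq_one.1 (by rwa [relIndex_top_right] at hC)
  haveI hJn : J.Normal := normalizer_eq_top_iff.1 (top_le_iff.1 h.nJ)
  obtain rfl : J = ⊥ := by rw [← h.core, normalCore_eq_self]
  obtain ⟨X, hDX, -, hXn, h4', hXC, h6'⟩ := h.two rfl
  have hZ : D ≤ center H := fun d hd => mem_center_iff.2 fun g =>
    commutatorElement_eq_one_iff_mul_comm.1 (h.cen g trivial d hd)
  haveI hDn : D.Normal := ⟨fun d hd g => by rw [mem_center_iff.1 (hZ hd) g, mul_inv_cancel_right]; exact hd⟩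
  haveI : X.Normal := normalizer_eq_top_iff.1 (top_le_iff.1 hXn)
  have hi := relIndex_mul_relIndex D X ⊤ hDX le_top
  rw [h4'] at hi
  have hX6 : X.index = 6 := by
    have := Nat.le_of_dvd (by norm_num) h6'
    rw [← relIndex_top_right]
    rw [← hi] at hy
    generalize X.relIndex ⊤ = a at *
    interval_cases a <;> omega
  let π := QuotientGroup.mk' D
  have hπ : Function.Surjective π := QuotientGroup.mk'_surjective D
  have hk : π.ker = D := QuotientGroup.ker_mk' _
  haveI : (X.map π).Normal := ‹X.Normal›.map π hπ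
  obtain ⟨φ⟩ := exists_s4 (V := X.map π) (by rw [← relIndex_ker, hk, h4']) (by
    intro c hc
    obtain ⟨c, rfl⟩ := hπ c
    refine ⟨c, hXC c trivial fun x hx => ?_, rfl⟩
    rw [← hk, MonoidHom.mem_ker, map_commutatorElement, commutatorElement_eq_one_iff_mul_comm]
    exact (hc _ ⟨x, hx, rfl⟩).symm) (by rw [index_map_eq _ hπ (hk.le.trans hDX), hX6])
  have hf : (φ.toMonoidHom.comp π).ker = D := by
    refine Eq.trans ?_ hk
    ext g
    simp [MonoidHom.mem_ker]
  have h9 := classNum_s4 (φ.toMonoidHom.comp π) (φ.surjective.comp hπ) (hf.le.trans hZ)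
  rw [hf] at h9
  refine ⟨Nat.card D, ?_, ?_, h9⟩
  · obtain ⟨d, hd⟩ := h.cyc
    rw [sup_bot_eq] at hd
    have he : e = 2 := by
      have := h.dim
      have := h.Ee
      rw [hC] at *
      omega
    have := h.sc (by have := h.dim; rw [hC] at this; omega)
      (fun hp2 => by have := Nat.le_of_dvd (by omega) hp2; omega) d (hd ▸ mem_zpowers d)
    rw [hd, Nat.card_zpowers]
    exact orderOf_dvd_of_pow_eq_one this
  · rw [← D.card_mul_index, ← relIndex_top_right, ← hi, relIndex_top_right, hX6]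
    ring

end Cfsg.Agent.H2.Hk
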