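/-
Hk (S4266), chapter K0: reduction to linear groups, small primes, assembly.
-/
import Cfsg.Agent.H2.Hk3
import Cfsg.Agent.H5.KNum1
import Cfsg.Agent.H6.ZAction
import Cfsg.Agent.H1.EAMod
import Cfsg.Agent.L.PiSep

set_option autoImplicit false

namespace Cfsg.Agent.H2.Hk

open Subgroup Module
open scoped commutatorElement

universe u

theorem sum_unit {ι : Type*} (s : Finset ι) (f : ι → ℕ) (hf : ∀ i, 0 < f i)
    (h : ∑ i ∈ s, (1 : ℚ) / f i < 1) :
    (s.card ≤ 2 → ∑ i ∈ s, (1 : ℚ) / f i ≤ 5 / 6) ∧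
      (s.card ≤ 3 → ∑ i ∈ s, (1 : ℚ) / f i ≤ 41 / 42) := by
  classical
  have h2 : s.card ≤ 2 → ∑ i ∈ s, (1 : ℚ) / f i ≤ 5 / 6 := fun hs => by
    rcases (show s.card = 0 ∨ s.card = 1 ∨ s.card = 2 by omega) with e | e | e
    · rw [Finset.card_eq_zero.1 e]; norm_num
    · obtain ⟨a, rfl⟩ := Finset.card_eq_one.1 e
      rw [Finset.sum_singleton] at h ⊢
      have h1 : f a ≠ 1 := fun e => by rw [e] at h; norm_num at h
      have h3 : (2 : ℚ) ≤ f a := by have := hf a; exact_mod_cast (show 2 ≤ f a by omega)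
      have := one_div_le_one_div_of_le (by norm_num) h3
      linarith
    · obtain ⟨a, b, hab, rfl⟩ := Finset.card_eq_two.1 e
      rw [Finset.sum_pair hab] at h ⊢
      exact unit2 (hf a) (hf b) h
  refine ⟨h2, fun hs => ?_⟩
  rcases eq_or_lt_of_le hs with e | e
  · obtain ⟨a, b, c, hab, hac, hbc, rfl⟩ := Finset.card_eq_three.1 e
    rw [Finset.sum_insert (by simp [hab, hac]), Finset.sum_pair hbc, ← add_assoc] at h ⊢
    exact unit3 (hf a) (hf b) (hf c) h
  · exact (h2 (by omega)).trans (by norm_num)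

/-- Landau's bound for at most four classes. -/
theorem landau (H : Type*) [Group H] [Finite H] :
    (Nat.card (ConjClasses H) ≤ 3 → Nat.card H ≤ 6) ∧
      (Nat.card (ConjClasses H) ≤ 4 → Nat.card H ≤ 42) := by
  classical
  let _ := Fintype.ofFinite H
  let _ := Fintype.ofFinite (ConjClasses H)
  have h0 : 0 < Nat.card H := Nat.card_pos
  have h1 : ∀ c : ConjClasses H, ∃ f, c.carrier.ncard * f = Nat.card H := fun c => by
    obtain ⟨g, rfl⟩ := c.exists_rep
    rw [← ConjAct.orbit_eq_carrier_conjClasses, ← MulAction.index_stabilizer]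
    exact ⟨_, index_mul_card _⟩
  choose f hf using h1
  have hf0 : ∀ c, 0 < f c := fun c => Nat.pos_of_ne_zero fun e => by
    have := hf c
    rw [e] at this
    omega
  have h2 : ∑ c : ConjClasses H, c.carrier.ncard = Nat.card H := by
    rw [Nat.card_eq_fintype_card, ← sum_conjClasses_card_eq_card H]
    exact Finset.sum_congr rfl fun c _ => Set.ncard_eq_toFinset_card' _
  have h0' : (0 : ℚ) < Nat.card H := by exact_mod_cast h0
  have h3 : ∑ c : ConjClasses H, (1 : ℚ) / f c = 1 := by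
    have : ∀ c : ConjClasses H, (1 : ℚ) / f c = c.carrier.ncard / Nat.card H := fun c => by
      rw [div_eq_div_iff (by exact_mod_cast (hf0 c).ne') h0'.ne', one_mul]
      exact_mod_cast (hf c).symm
    simp only [this]
    rw [← Finset.sum_div, div_eq_one_iff_eq h0'.ne']
    exact_mod_cast h2
  have h4 : f (ConjClasses.mk 1) = Nat.card H := by
    have := hf (ConjClasses.mk 1)
    have e : (ConjClasses.mk (1 : H)).carrier = {1} := by
      ext x
      rw [ConjClasses.mem_carrier_iff_mk_eq, ConjClasses.mk_eq_mk_iff_isConj, isConj_one_left]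
      rfl
    rwa [e, Set.ncard_singleton, one_mul] at this
  rw [← Finset.add_sum_erase _ _ (Finset.mem_univ (ConjClasses.mk 1)), h4] at h3
  have h5 : (0 : ℚ) < 1 / Nat.card H := by positivity
  obtain ⟨a, b⟩ := sum_unit (Finset.univ.erase (ConjClasses.mk 1)) f hf0 (by linarith)
  rw [Finset.card_erase_of_mem (Finset.mem_univ _), Finset.card_univ,
    ← Nat.card_eq_fintype_card] at a b
  constructor
  · intro h
    have h6 : (1 : ℚ) / 6 ≤ 1 / Nat.card H := by have := a (by omega); linarith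
    exact_mod_cast (one_div_le_one_div (by norm_num) h0').1 h6
  · intro h
    have h6 : (1 : ℚ) / 42 ≤ 1 / Nat.card H := by have := b (by omega); linarith
    exact_mod_cast (one_div_le_one_div (by norm_num) h0').1 h6

/-- Classes of a factor group and classes inside a normal subgroup. -/
theorem cls {G : Type*} [Group G] [Finite G] {A C : Subgroup G} [hA : A.Normal] [C.Normal]
    (hAC : A ≤ C) (hC : C ≤ centralizer (A : Set G)) :
    ∃ r, Nat.card (ConjClasses (G ⧸ C)) + r ≤ Nat.card (ConjClasses G) ∧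
      Nat.card A ≤ r * Nat.card (G ⧸ C) + 1 := by
  classical
  let s : Set G := (A : Set G) \ {1}
  let R : Set (ConjClasses G) := ConjClasses.mk '' s
  refine ⟨R.ncard, ?_, ?_⟩
  · rw [← Set.ncard_add_ncard_compl R, add_comm]
    refine Nat.add_le_add_left ?_ _
    rw [← Set.ncard_univ]
    refine le_trans (Set.ncard_le_ncard (t := ConjClasses.map (QuotientGroup.mk' C) '' Rᶜ) ?_)
      Set.ncard_image_le
    intro c _
    obtain ⟨c, rfl⟩ := ConjClasses.map_surjective (QuotientGroup.mk'_surjective C) c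
    by_cases hc : c ∈ R
    · obtain ⟨a, ha, rfl⟩ := hc
      refine ⟨ConjClasses.mk 1, ?_, ?_⟩
      · rintro ⟨b, hb, e⟩
        exact hb.2 (isConj_one_left.1 (ConjClasses.mk_eq_mk_iff_isConj.1 e))
      · change ConjClasses.mk (QuotientGroup.mk' C 1) = ConjClasses.mk (QuotientGroup.mk' C a)
        rw [map_one, QuotientGroup.mk'_apply, (QuotientGroup.eq_one_iff _).2 (hAC ha.1)]
    · exact ⟨c, hc, rfl⟩
  · have h1 := H5.KN.card_le_of_cover s
      (fun (c : R) (q : G ⧸ C) => q.out * c.2.choose * q.out⁻¹) fun a ha => by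
        have hc : ConjClasses.mk a ∈ R := ⟨a, ha, rfl⟩
        obtain ⟨h2, h3⟩ := hc.choose_spec
        obtain ⟨x, hx⟩ := isConj_iff.1 (ConjClasses.mk_eq_mk_iff_isConj.1 h3)
        refine ⟨⟨_, hc⟩, (x : G ⧸ C), ?_⟩
        obtain ⟨c, hc'⟩ := QuotientGroup.mk_out_eq_mul C x
        simp only [hc']
        refine Eq.trans ?_ hx
        have := mem_centralizer_iff.1 (hC c.2) _ h2.1
        calc x * c * hc.choose * (x * c)⁻¹ = x * (c * hc.choose) * (x * c)⁻¹ := by group
          _ = _ := by rw [← this]; group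
    have h2 := Set.ncard_sdiff_singleton_add_one (s := (A : Set G)) A.one_mem
    change Nat.card s + 1 = Nat.card A at h2
    change _ ≤ Nat.card R * _ + 1
    omega

theorem fin {p n r : ℕ} (hp : p.Prime) (hn : 2 ≤ n) (H : Type*) [Group H] [Finite H]
    (h1 : p ^ n ≤ r * Nat.card H + 1)
    (h2 : 11 ≤ p → n = 2 → Nat.card H ≤ 5 * Nat.card (ConjClasses H) ∨
      ∃ z, z ∣ p - 1 ∧ Nat.card H = 24 * z ∧ 4 * z ≤ Nat.card (ConjClasses H))
    (h3 : 3 ≤ n → Nat.card H ≤ 7 * 11 ^ (n - 2) * Nat.card (ConjClasses H)) :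
    49 * p ≤ 60 * (Nat.card (ConjClasses H) + r) := by
  rcases lt_or_ge p 11 with h | h
  · obtain ⟨a, b⟩ := landau H
    have h4 : p ^ 2 ≤ r * Nat.card H + 1 := (Nat.pow_le_pow_right hp.pos hn).trans h1
    have h5 : 0 < Nat.card (ConjClasses H) := Nat.card_pos
    generalize Nat.card (ConjClasses H) = k at *
    generalize Nat.card H = c at *
    have h6 : k ≤ 3 → p ^ 2 ≤ r * 6 + 1 := fun e =>
      h4.trans (Nat.add_le_add_right (Nat.mul_le_mul_left _ (a e)) _)
    have h7 : k ≤ 4 → p ^ 2 ≤ r * 42 + 1 := fun e =>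
      h4.trans (Nat.add_le_add_right (Nat.mul_le_mul_left _ (b e)) _)
    have h8 : 0 < r := Nat.pos_of_ne_zero fun e => by
      have := hp.two_le
      rw [e] at h4
      nlinarith
    clear h1 h2 h3 h4 a b
    interval_cases p <;> first | omega | exact absurd hp (by norm_num)
  rcases eq_or_lt_of_le hn with e | e
  · subst e
    rcases h2 h rfl with h4 | ⟨z, hz, h4, h5⟩
    · exact fin2 h h1 h4
    · exact fin_s4 h (h4 ▸ h1) hz h5
  · refine fin3 ?_ e h1 (h3 e)
    have : p ≠ 12 := fun e => absurd hp (by rw [e]; norm_num)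
    omega

/-- The structure of irreducible solvable linear groups. -/
def KS : Prop := ∀ (p : ℕ) [Fact p.Prime] (H V : Type u) [Group H] [Finite H]
  [Group.IsSolvable H] [AddCommGroup V] [Module (ZMod p) V] [Finite V] [Nontrivial V]
  (ρ : H →* End (ZMod p) V), Function.Injective ρ →
  (∀ W : Submodule (ZMod p) V, (∀ h, ∀ w ∈ W, ρ h w ∈ W) → W = ⊥ ∨ W = ⊤) →
  ∃ (N J D C : Subgroup H) (m e E : ℕ), Cf p (finrank (ZMod p) V) N J D C m e E

open scoped IsMulCommutative in
theorem big (hK : KS.{u}) {p : ℕ} (hp : p.Prime) {G : Type u} [Group G] [Finite G]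
    [Group.IsSolvable G] {M : Subgroup G} (hM : L.IsMinNormal M) (hMp : IsElementaryAbelian p M)
    {n : ℕ} (hn : 2 ≤ n) (hc : Nat.card M = p ^ n) : 49 * p ≤ 60 * Nat.card (ConjClasses G) := by
  haveI := hM.1
  haveI := hMp.1
  haveI := Fact.mk hp
  have he := H1.pow_eq_one_of_isElementaryAbelian hMp
  let ρ0 := H1.autRep he (MulAut.conjNormal (H := M))
  have hker : ∀ g, g ∈ ρ0.ker ↔ g ∈ centralizer (M : Set G) := fun g => by
    rw [MonoidHom.mem_ker, H1.autRep_eq_one_iff, mem_centralizer_iff]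
    refine ⟨fun h v hv => ?_, fun h => MulEquiv.ext fun v => Subtype.ext ?_⟩
    · have := congrArg Subtype.val (DFunLike.congr_fun h ⟨v, hv⟩)
      rw [MulAut.conjNormal_apply] at this
      exact (mul_inv_eq_iff_eq_mul.1 this).symm
    · rw [MulAut.conjNormal_apply, ← h v v.2, mul_inv_cancel_right]
      rfl
  obtain ⟨r, h1, h2⟩ := cls (A := M) (C := ρ0.ker) (fun g hg => (hker g).2 (M.le_centralizer hg))
    fun g hg => (hker g).1 hg
  let ρ : G ⧸ ρ0.ker →* End (ZMod p) (H1.EA M he) := QuotientGroup.lift _ ρ0 le_rfl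
  haveI : Nontrivial M := (Subgroup.nontrivial_iff_ne_bot M).2 hM.2.1
  haveI : Nontrivial (H1.EA M he) := (H1.eaOf he).symm.nontrivial
  obtain ⟨N, J, D, C, m, e, E, h⟩ := hK p (G ⧸ ρ0.ker) (H1.EA M he) ρ (by
    rw [injective_iff_map_eq_one]
    intro g hg
    obtain ⟨g, rfl⟩ := QuotientGroup.mk_surjective g
    exact (QuotientGroup.eq_one_iff _).2 hg) (by
    intro W hW
    have hn : ((H1.eaSubgroup he W).map M.subtype).Normal := ⟨by
      rintro _ ⟨v, hv, rfl⟩ g
      exact ⟨MulAut.conjNormal g v, hW (g : G ⧸ ρ0.ker) _ hv, rfl⟩⟩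
    refine (hM.2.2 _ hn (map_subtype_le _)).imp (fun h => eq_bot_iff.2 fun w hw => ?_)
      fun h => eq_top_iff.2 fun w _ => ?_
    · obtain ⟨v, rfl⟩ := (H1.eaOf he).surjective w
      rw [Submodule.mem_bot, H1.eaOf_eq_zero]
      exact Subtype.ext (mem_bot.1 (h.le ⟨v, hw, rfl⟩))
    · obtain ⟨v, rfl⟩ := (H1.eaOf he).surjective w
      obtain ⟨v', hv', e⟩ := h.ge v.2
      obtain rfl : v' = v := Subtype.ext e
      exact hv')
  have hr : finrank (ZMod p) (H1.EA M he) = n := by
    have := Module.natCard_eq_pow_finrank (K := ZMod p) (V := H1.EA M he)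
    rw [H1.card_EA, hc, Nat.card_zmod] at this
    exact (Nat.pow_right_injective hp.two_le this).symm
  rw [hr] at h
  refine (fin hp hn (G ⧸ ρ0.ker) (hc ▸ h2) (fun h11 e => ?_) h.three).trans
    (Nat.mul_le_mul_left _ h1)
  subst e
  exact h.two' (by omega)

theorem small {p : ℕ} (hp : p.Prime) {G : Type*} [Group G] [Finite G] [Group.IsSolvable G]
    (hG : p ^ 2 ∣ Nat.card G) (hO : pPrimeCore p G = ⊥) {M : Subgroup G} [M.Normal]
    (hc : Nat.card M = p) (hi : ¬ p ^ 2 ∣ M.index) : 49 * p ≤ 60 * Nat.card (ConjClasses G) := by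
  haveI := Fact.mk hp
  have hC := L.centralizer_pCore_le hp (L.isPSolvable_of_isSolvable hp) hO
  have hMP : M ≤ pCore p G := L.le_pCore inferInstance (IsPGroup.of_card (n := 1) (by simpa))
  have hP := L.isPGroup_pCore (G := G) p
  haveI : (pCore p G).Normal := inferInstance
  generalize pCore p G = P at *
  have h1 := M.card_mul_index
  have h2 := P.card_mul_index
  haveI hMc : IsCyclic M := isCyclic_of_prime_card hc
  have hPM : P ≠ M := by
    rintro rfl
    have a1 : (centralizer (P : Set G)).index ∣ p - 1 := by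
      have : (MulAut.conjNormal (H := P)).ker = centralizer (P : Set G) := by
        ext g
        rw [MonoidHom.mem_ker, mem_centralizer_iff]
        refine ⟨fun h v hv => ?_, fun h => MulEquiv.ext fun v => Subtype.ext ?_⟩
        · have := congrArg Subtype.val (DFunLike.congr_fun h ⟨v, hv⟩)
          rw [MulAut.conjNormal_apply] at this
          exact (mul_inv_eq_iff_eq_mul.1 this).symm
        · rw [MulAut.conjNormal_apply, ← h v v.2, mul_inv_cancel_right]
          rfl
      rw [← this, index_ker, ← Nat.totient_prime hp, ← hc, ← IsCyclic.card_mulAut]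
      exact card_subgroup_dvd_card _
    rw [← h1, hc, sq] at hG
    have := Nat.le_of_dvd (by have := hp.two_le; omega)
      (((Nat.dvd_of_mul_dvd_mul_left hp.pos hG).trans (index_dvd_of_le hC)).trans a1)
    have := hp.two_le
    omega
  obtain ⟨j, hj⟩ := hP.exists_card_eq
  have h3 := relIndex_mul_index hMP
  have h4 : Nat.card M * M.relIndex P = Nat.card P := H1.card_mul_relIndex hMP
  have h5 : M.relIndex P = p ∧ ¬ p ∣ P.index := by
    obtain ⟨i, -, hi'⟩ := (Nat.dvd_prime_pow hp).1 (show M.relIndex P ∣ p ^ j from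
      hj ▸ Dvd.intro_left _ h4)
    have a1 : i ≠ 0 := fun e => hPM (le_antisymm (relIndex_eq_one.1 (by rw [hi', e, pow_zero])) hMP)
    have a2 : i ≤ 1 := by
      by_contra! a2
      exact hi ((pow_dvd_pow p a2).trans (hi' ▸ Dvd.intro _ h3))
    obtain rfl : i = 1 := by omega
    rw [pow_one] at hi'
    refine ⟨hi', fun a3 => hi ?_⟩
    rw [← h3, hi', sq]
    exact Nat.mul_dvd_mul_left _ a3
  have h6 : Nat.card P = p ^ 2 := by rw [← h4, hc, h5.1, sq]
  haveI := IsPGroup.isMulCommutative_of_card_eq_prime_sq h6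
  obtain ⟨r, b1, b2⟩ := cls (A := P) (C := P) le_rfl P.le_centralizer
  let π := QuotientGroup.mk' M
  haveI : IsCyclic (P.map π) := isCyclic_of_prime_card (p := p) (by
    rw [← relIndex_ker, QuotientGroup.ker_mk', h5.1])
  haveI : (P.map π).Normal := ‹P.Normal›.map π (QuotientGroup.mk'_surjective M)
  have hcm : IsMulCommutative (G ⧸ P) := ⟨⟨fun x y => by
    obtain ⟨x, rfl⟩ := QuotientGroup.mk'_surjective P x
    obtain ⟨y, rfl⟩ := QuotientGroup.mk'_surjective P y
    rw [← commutatorElement_eq_one_iff_mul_comm, ← map_commutatorElement]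
    have a1 := H6.commutatorElement_mem_centralizer_of_isCyclic (D := M)
      (le_normalizer_of_normal (mem_top x)) (le_normalizer_of_normal (mem_top y))
    have a2 := H6.commutatorElement_mem_centralizer_of_isCyclic (D := P.map π)
      (le_normalizer_of_normal (mem_top (π x))) (le_normalizer_of_normal (mem_top (π y)))
    rw [← map_commutatorElement] at a2
    generalize ⁅x, y⁆ = g at a1 a2
    have a3 : g ^ p ∈ P := hC fun v hv => by
      have c1 : g * v * g⁻¹ * v⁻¹ ∈ M := by
        rw [← QuotientGroup.ker_mk' M, MonoidHom.mem_ker]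
        simp only [map_mul, map_inv]
        have := a2 _ ⟨v, hv, rfl⟩
        change π g * π v * (π g)⁻¹ * (π v)⁻¹ = 1
        rw [← this]; group
      have c2 : ∀ i : ℕ, g ^ i * v = (g * v * g⁻¹ * v⁻¹) ^ i * v * g ^ i := fun i => by
        induction i with
        | zero => simp
        | succ i ih =>
          have c3 : Commute g ((g * v * g⁻¹ * v⁻¹) ^ i) := (a1 _ (M.pow_mem c1 i)).symm
          calc g ^ (i + 1) * v = g * (g ^ i * v) := by group
            _ = g * (g * v * g⁻¹ * v⁻¹) ^ i * v * g ^ i := by rw [ih]; simp only [mul_assoc]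
            _ = (g * v * g⁻¹ * v⁻¹) ^ i * (g * v * g⁻¹ * v⁻¹) * v * g ^ (i + 1) := by
              rw [c3.eq]; generalize (g * v * g⁻¹ * v⁻¹) ^ i = w; group
            _ = _ := by rw [pow_succ (g * v * g⁻¹ * v⁻¹)]
      have c4 : (g * v * g⁻¹ * v⁻¹) ^ p = 1 := by
        have := congrArg Subtype.val (pow_card_eq_one' (G := M) (x := ⟨_, c1⟩))
        rwa [hc] at this
      rw [c2 p, c4, one_mul]
    have a4 : orderOf (QuotientGroup.mk' P g) ∣ p :=
      orderOf_dvd_of_pow_eq_one (by rw [← map_pow]; exact (QuotientGroup.eq_one_iff _).2 a3)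
    rcases (Nat.dvd_prime hp).1 a4 with e | e
    · exact orderOf_eq_one_iff.1 e
    · exact absurd (e ▸ orderOf_dvd_natCard _) h5.2⟩⟩
  have b3 : Nat.card (G ⧸ P) ≤ 5 * Nat.card (ConjClasses (G ⧸ P)) := by
    have := (commProb_eq_one_iff (M := G ⧸ P)).2 hcm
    rw [commProb_def', div_eq_one_iff_eq (Nat.cast_pos.2 Nat.card_pos).ne', Nat.cast_inj] at this
    omega
  exact (fin hp le_rfl (G ⧸ P) (h6 ▸ b2) (fun _ _ => Or.inl b3) (by omega)).trans
    (Nat.mul_le_mul_left _ b1)

theorem main (hK : KS.{u}) {p : ℕ} (hp : p.Prime) (G : Type u) [Group G] [Finite G] :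
    Group.IsSolvable G → p ^ 2 ∣ Nat.card G → 49 * p ≤ 60 * Nat.card (ConjClasses G) := by
  refine L.induction_on_card (P := fun G _ _ => Group.IsSolvable G → p ^ 2 ∣ Nat.card G →
    49 * p ≤ 60 * Nat.card (ConjClasses G)) G ?_
  intro G _ _ ih hs hG
  haveI := Fact.mk hp
  by_cases hq : ∃ N : Subgroup G, N.Normal ∧ N ≠ ⊥ ∧ p ^ 2 ∣ N.index
  · obtain ⟨N, hN, h1, h2⟩ := hq
    refine (ih (G ⧸ N) (L.card_quotient_lt N h1) inferInstance h2).trans
      (Nat.mul_le_mul_left _ ?_)
    exact Nat.card_le_card_of_surjective _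
      (ConjClasses.map_surjective (QuotientGroup.mk'_surjective N))
  push Not at hq
  have key : ∀ N : Subgroup G, N.Normal → N ≠ ⊥ → p ∣ Nat.card N := fun N hN h1 => by
    by_contra h2
    rw [← N.card_mul_index] at hG
    exact hq N hN h1 (Nat.Coprime.dvd_of_dvd_mul_left
      (((Nat.Prime.coprime_iff_not_dvd hp).2 h2).pow_left 2) hG)
  haveI : Nontrivial G := by
    rw [← Finite.one_lt_card_iff_nontrivial]
    exact lt_of_lt_of_le (Nat.one_lt_pow (by norm_num) hp.one_lt) (Nat.le_of_dvd Nat.card_pos hG)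
  obtain ⟨M, q, hM, hq', hMq⟩ := L.exists_isMinNormal_isElementaryAbelian (G := G)
  haveI := hM.1
  haveI := Fact.mk hq'
  obtain ⟨n, hn⟩ := (L.IsElementaryAbelian.isPGroup hMq).exists_card_eq
  have h1 := key M hM.1 hM.2.1
  rw [hn] at h1
  obtain rfl := (Nat.prime_dvd_prime_iff_eq hp hq').1 (hp.dvd_of_dvd_pow h1)
  rcases le_or_gt 2 n with h2 | h2
  · exact big hK hp hM hMq h2 hn
  have h3 : n = 1 := by
    have : n ≠ 0 := fun e => hp.one_lt.ne' (Nat.dvd_one.1 (by rwa [e, pow_zero] at h1))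
    omega
  refine small hp hG ?_ (by rw [hn, h3, pow_one]) (hq M hM.1 hM.2.1)
  by_contra h4
  exact L.not_dvd_card_pPrimeCore hp (key _ inferInstance h4)

end Cfsg.Agent.H2.Hk
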